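/-
Point stabilizers of primitive groups with linear or unitary socle: definitions (notes/SB.md).
-/
import Cfsg.Prelude.Def_LieClassical
import Cfsg.Prelude.Def_Local

set_option autoImplicit false
set_option linter.unusedSectionVars false

namespace H22.SB
open Matrix
open scoped Nat

universe u

/-- the bound -/
def W (d : ℕ) : ℕ := d ! * (d - 1)! ^ d

/-- field data: `u` is the unitary flag, `c x = x ^ q` (the identity in the linear case) -/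
structure Fm (F : Type) [Field F] [Fintype F] where
  u : Prop
  p : ℕ
  f : ℕ
  q : ℕ
  c : F ≃+* F
  pp : p.Prime
  ch : CharP F p
  hq : q = p ^ f
  f1 : 1 ≤ f
  cL : ¬ u → Fintype.card F = q
  cU : u → Fintype.card F = q ^ 2
  cq : ∀ x, c x = x ^ q

variable {F : Type} [Field F] [Fintype F] {ι : Type} [Fintype ι] [DecidableEq ι] {n k : ℕ}

/-- square matrices -/
abbrev Mat (n : ℕ) (F : Type) := Matrix (Fin n) (Fin n) F

/-- scalar matrices -/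
def Sc (x : Matrix ι ι F) : Prop := ∃ a : F, x = a • (1 : Matrix ι ι F)

namespace Fm
variable (Φ : Fm F)

open Classical in
/-- the number of scalars of `Γ` -/
noncomputable def z : ℕ := if Φ.u then Φ.q + 1 else Φ.q - 1
/-- the scalars of `Γ` -/
def Mu (a : F) : Prop := a ^ Φ.z = 1
/-- conjugate transpose -/
def adj {α β : Type} (x : Matrix α β F) : Matrix β α F := (x.map Φ.c)ᵀ
/-- the form (only used when `Φ.u`) -/
def B (v w : ι → F) : F := ∑ i, v i * Φ.c (w i)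

theorem adj_mul {α β γ : Type} [Fintype β] (x : Matrix α β F) (y : Matrix β γ F) :
    Φ.adj (x * y) = Φ.adj y * Φ.adj x := by
  ext i j; simp [adj, mul_apply, map_sum, mul_comm]

theorem adj_one : Φ.adj (1 : Matrix ι ι F) = 1 := by
  ext i j; by_cases h : i = j <;> simp [adj, one_apply, h, eq_comm]

/-- `GL` or `GU` -/
def Γ (ι : Type) [Fintype ι] [DecidableEq ι] : Subgroup (GL ι F) where
  carrier := {g | Φ.u → Φ.adj (g : Matrix ι ι F) * g = 1}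
  one_mem' := fun _ => by simp [adj_one]
  mul_mem' := fun {a b} ha hb hu => by
    rw [Units.val_mul, adj_mul, Matrix.mul_assoc, ← Matrix.mul_assoc (Φ.adj (a : Matrix ι ι F)),
      ha hu, Matrix.one_mul, hb hu]
  inv_mem' := fun {a} ha hu => by
    have h1 : Φ.adj (a : Matrix ι ι F) = (a⁻¹ : GL ι F) := by
      have := congrArg (· * ((a⁻¹ : GL ι F) : Matrix ι ι F)) (ha hu)
      simpa [Matrix.mul_assoc] using this
    have h2 := Φ.adj_mul (a : Matrix ι ι F) ((a⁻¹ : GL ι F) : Matrix ι ι F)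
    rw [Units.mul_inv, adj_one, h1] at h2
    exact h2.symm

/-- `SL` or `SU` -/
def S (ι : Type) [Fintype ι] [DecidableEq ι] : Subgroup (GL ι F) :=
  Φ.Γ ι ⊓ (GeneralLinearGroup.det : GL ι F →* Fˣ).ker

/-- orthogonal complement -/
def perp (A : Submodule F (ι → F)) : Submodule F (ι → F) where
  carrier := {v | ∀ w ∈ A, Φ.B v w = 0}
  add_mem' := fun {a b} ha hb w hw => by
    have := ha w hw; have := hb w hw; simp_all [B, add_mul, Finset.sum_add_distrib]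
  zero_mem' := fun w _ => by simp [B]
  smul_mem' := fun t a ha w hw => by
    have := ha w hw; simp only [B, Pi.smul_apply, smul_eq_mul, mul_assoc] at this ⊢
    rw [← Finset.mul_sum, this, mul_zero]

/-- orbits on nonzero vectors have length `≥ o`, norm classes have size `≤ c` -/
def Oc (ι : Type) [Fintype ι] [DecidableEq ι] (o c : ℕ) : Prop :=
  (∀ v : ι → F, v ≠ 0 → o ≤ Nat.card {w : ι → F | ∃ g ∈ Φ.Γ ι, (g : Matrix ι ι F) *ᵥ v = w}) ∧
  ∀ a : F, Nat.card {w : ι → F | w ≠ 0 ∧ (Φ.u → Φ.B w w = a)} ≤ c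

/-- vector stabilizers have all determinants -/
def Hs (ι : Type) [Fintype ι] [DecidableEq ι] : Prop :=
  ∀ v : ι → F, v ≠ 0 → ∀ a, Φ.Mu a →
    ∃ g ∈ Φ.Γ ι, (g : Matrix ι ι F) *ᵥ v = v ∧ (g : Matrix ι ι F).det = a

end Fm

/-- the matrix of an element of `S` -/
abbrev mt {Φ : Fm F} (s : Φ.S ι) : Matrix ι ι F := ((s : GL ι F) : Matrix ι ι F)

/-- twisted conjugation: a semilinear automorphism (`e = 1`) or antiautomorphism -/
def tw (g : GL ι F) (σ : RingAut F) (e : ℤˣ) (x : Matrix ι ι F) : Matrix ι ι F :=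
  (g : Matrix ι ι F) * (if e = 1 then x.map σ else (x.map σ)ᵀ) * ((g⁻¹ : GL ι F) : Matrix ι ι F)

/-- the stabilizer of a set of matrices under conjugation -/
def St (𝒳 : Set (Matrix ι ι F)) : Subgroup (GL ι F) where
  carrier := {g | ∀ x, x ∈ 𝒳 ↔ (g : Matrix ι ι F) * x * ((g⁻¹ : GL ι F) : Matrix ι ι F) ∈ 𝒳}
  one_mem' := fun x => by simp
  mul_mem' := fun {a b} ha hb x => by
    rw [hb x, ha, _root_.mul_inv_rev, Units.val_mul, Units.val_mul]; simp only [Matrix.mul_assoc]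
  inv_mem' := fun {a} ha x => by
    rw [ha (_ * x * _), inv_inv]; simp only [← Matrix.mul_assoc, Units.mul_inv, Matrix.one_mul]
    rw [Matrix.mul_assoc, Units.mul_inv, Matrix.mul_one]

/-- an almost simple group `G` with socle `π S`, acting on matrices -/
structure Tx (Φ : Fm F) (G : Type u) [Group G] (n : ℕ) where
  n2 : 2 ≤ n
  nL : n = 2 → ¬ Φ.u ∧ 4 ≤ Φ.q
  nU : Φ.u → n = 3 → Φ.q ≠ 2
  π : Φ.S (Fin n) →* G
  ker : ∀ s, π s = 1 ↔ Sc (mt s)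
  g : G → GL (Fin n) F
  gΓ : ∀ h, g h ∈ Φ.Γ (Fin n)
  σ : G →* RingAut F
  ε : G →* ℤˣ
  εU : Φ.u → ∀ h, ε h = 1
  tmul : ∀ h h' x, tw (g (h * h')) (σ (h * h')) (ε (h * h')) x =
    tw (g h) (σ h) (ε h) (tw (g h') (σ h') (ε h') x)
  tπ : ∀ s x, tw (g (π s)) (σ (π s)) (ε (π s)) x = mt s * x * mt s⁻¹
  σπ : ∀ s, σ (π s) = 1
  επ : ∀ s, ε (π s) = 1
  cjl : ∀ h s s', ε h = 1 → mt s' = tw (g h) (σ h) (ε h) (mt s) → π s' = h * π s * h⁻¹
  cja : ∀ h s s', ε h ≠ 1 → mt s' = tw (g h) (σ h) (ε h) (mt s) → π s' = (h * π s * h⁻¹)⁻¹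
  faith : ∀ h, (∀ s, h * π s = π s * h) → h = 1

variable {Φ : Fm F} {G : Type u} [Group G]

/-- the action on matrices -/
def Tx.th (X : Tx Φ G n) (h : G) (x : Mat n F) : Mat n F := tw (X.g h) (X.σ h) (X.ε h) x
/-- `K`-invariant sets of matrices -/
def Tx.Iv (X : Tx Φ G n) (K : Subgroup G) (𝒳 : Set (Mat n F)) : Prop :=
  ∀ h ∈ K, ∀ x ∈ 𝒳, X.th h x ∈ 𝒳
/-- the inner-diagonal part of `K` -/
def Tx.Hs (X : Tx Φ G n) (K : Subgroup G) : Subgroup G := K ⊓ X.σ.ker ⊓ X.ε.ker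
/-- `S` does not stabilize `𝒳` -/
def Pr (Φ : Fm F) (𝒳 : Set (Mat n F)) : Prop := ∃ s : Φ.S (Fin n), (s : GL (Fin n) F) ∉ St 𝒳

/-- a maximal subgroup `H` with `F*(H) = O_r(H)`, a suborbit of length `d ≥ 4`, and the
preimage `R` of `O_r(H) ∩ π S` -/
structure Cx (Φ : Fm F) (G : Type u) [Group G] (n : ℕ) extends Tx Φ G n where
  H : Subgroup G
  mx : IsCoatom H
  s : Φ.S (Fin n)
  sH : π s ∉ H
  d : ℕ
  hd : (H.map (MulAut.conj (π s)).toMonoidHom).relIndex H = d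
  d4 : 4 ≤ d
  r : ℕ
  rp : r.Prime
  R : Subgroup (Φ.S (Fin n))
  RH : ∀ x ∈ R, π x ∈ H
  Rsc : ∀ x, Sc (mt x) → x ∈ R
  Rinv : ∀ h ∈ H, ∀ x ∈ R, ∀ y, π y = h * π x * h⁻¹ → y ∈ R
  Rr : IsPGroup r (R.map π)
  Rne : ∃ x ∈ R, ¬ Sc (mt x)
  SC : ∀ x, (∀ y ∈ R, π x * π y = π y * π x) → x ∈ R
  NM : ∀ x, (∀ y ∈ R, x * y * x⁻¹ ∈ R) → π x ∈ H
  pr : ∀ l, l.Prime → l ∣ Nat.card H → l ≤ d
  dd : d = 4 → r = 3 ∨ IsPGroup 2 H

namespace Cx
variable (X : Cx Φ G n)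
instance : Fact X.r.Prime := ⟨X.rp⟩
/-- order of `H` -/
noncomputable abbrev h : ℕ := Nat.card X.H
/-- `H`-invariant sets of matrices -/
abbrev Inv (𝒳 : Set (Mat n F)) : Prop := X.Iv X.H 𝒳
/-- preimage of `H` -/
def M : Subgroup (Φ.S (Fin n)) := X.H.comap X.π
/-- `M ∩ s M s⁻¹` -/
def D : Subgroup (Φ.S (Fin n)) := X.M ⊓ X.M.map (MulAut.conj X.s).toMonoidHom
/-- index of `D` in `M` -/
noncomputable def d0 : ℕ := X.D.relIndex X.M
/-- number of field and graph parts -/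
noncomputable def A : ℕ := (X.Hs X.H).relIndex X.H
/-- invariant abelian subgroups of `R` are scalar -/
def NoA : Prop := ∀ A : Subgroup (Φ.S (Fin n)), A ≤ X.R →
  (∀ h ∈ X.H, ∀ a ∈ A, ∃ a' ∈ A, mt a' = X.th h (mt a)) → (∀ a ∈ A, ∀ b ∈ A, a * b = b * a) →
  ∀ a ∈ A, Sc (mt a)
/-- invariant field -/
structure Fl (𝔄 : Subalgebra F (Mat n F)) : Prop where
  fld : IsField 𝔄
  ne : 𝔄 ≠ ⊥
  inv : X.Inv 𝔄
  adj : Φ.u → ∀ x ∈ 𝔄, Φ.adj x ∈ 𝔄
end Cx

/-- `Hom(V / W₂, W₁)` -/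
def Nil (W₁ W₂ : Submodule F (Fin n → F)) : Set (Mat n F) :=
  {x | (∀ v, x *ᵥ v ∈ W₁) ∧ ∀ v ∈ W₂, x *ᵥ v = 0}

/-- a system of orthogonal idempotents -/
structure Sys (𝒟 : Finset (Mat n F)) : Prop where
  idem : ∀ e ∈ 𝒟, e * e = e
  ne : ∀ e ∈ 𝒟, e ≠ 0
  orth : ∀ e ∈ 𝒟, ∀ e' ∈ 𝒟, e ≠ e' → e * e' = 0
  sum : ∑ e ∈ 𝒟, e = 1
  two : 2 ≤ 𝒟.card

/-- coordinate block projections -/
def eb (F : Type) [Field F] (β : Fin n → Fin k) (i : Fin k) : Mat n F :=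
  diagonal fun j => if β j = i then 1 else 0
/-- the block `i` -/
abbrev Fb (β : Fin n → Fin k) (i : Fin k) : Type := {j // β j = i}
/-- size of the block `i` -/
abbrev fib (β : Fin n → Fin k) (i : Fin k) : ℕ := Fintype.card (Fb β i)
/-- the blocks meeting the support of `v` -/
noncomputable def sup (β : Fin n → Fin k) (v : Fin n → F) : ℕ :=
  Nat.card {i : Fin k | ∃ j, β j = i ∧ v j ≠ 0}
/-- scalar multiples of the orbit of `v` under the stabilizer of the blocks in `S` -/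
def Ob (Φ : Fm F) (β : Fin n → Fin k) (v : Fin n → F) : Set (Fin n → F) :=
  {w | ∃ a, Φ.Mu a ∧ ∃ m : Φ.S (Fin n), (m : GL (Fin n) F) ∈ St (Set.range (eb F β)) ∧
    w = a • (mt m *ᵥ v)}
/-- an invariant block system -/
structure Cx.Bl (X : Cx Φ G n) (β : Fin n → Fin k) : Prop where
  inv : X.Inv (Set.range (eb F β))
  sj : Function.Surjective β
  two : 2 ≤ k

/-- `R` is of symplectic type -/
structure Ex (X : Cx Φ G n) where
  k : ℕ
  ν : Φ.S (Fin n) → Fin k → ZMod X.r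
  νm : ∀ x ∈ X.R, ∀ y ∈ X.R, ν (x * y) = ν x + ν y
  νs : ∀ v, ∃ x ∈ X.R, ν x = v
  νk : ∀ x ∈ X.R, ν x = 0 ↔ Sc (mt x)
  ζ : F
  hζ : IsPrimitiveRoot ζ X.r
  ζm : Φ.Mu ζ
  β : LinearMap.BilinForm (ZMod X.r) (Fin k → ZMod X.r)
  alt : ∀ v, β v v = 0
  nd : ∀ v, (∀ w, β v w = 0) → v = 0
  cm : ∀ x ∈ X.R, ∀ y ∈ X.R, mt x * mt y = ζ ^ (β (ν x) (ν y)).val • (mt y * mt x)

/-- exponent of the normalized group -/
def rr (r : ℕ) : ℕ := if r = 2 then 4 else r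

/-- symplectic transvection -/
def tv {K V : Type} [CommRing K] [AddCommGroup V] [Module K V] (β : LinearMap.BilinForm K V)
    (c : K) (x w : V) : V := w + (c * β w x) • x

/-- all nonzero vectors are good, or the good vectors are the nonsingular ones -/
def Dch {r k : ℕ} (β : LinearMap.BilinForm (ZMod r) (Fin k → ZMod r))
    (Gd : (Fin k → ZMod r) → Prop) : Prop :=
  (∀ v, Gd v ↔ v ≠ 0) ∨ (r = 2 ∧ ∃ Q : (Fin k → ZMod r) → ZMod r,
    (∀ v w, Q (v + w) = Q v + Q w + β v w) ∧ ∀ v, Gd v ↔ Q v = 1)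

namespace Ex
variable {X : Cx Φ G n} (E : Ex X)
/-- good classes -/
def Gd (v : Fin E.k → ZMod X.r) : Prop := v ≠ 0 ∧ ∃ x ∈ X.R, E.ν x = v ∧ ∃ a, Φ.Mu a ∧
  (a • mt x) ^ X.r = if X.r = 2 then -1 else 1
/-- products of two transvections are induced by `M` -/
def Tr (c : ZMod X.r) : Prop := ∀ v v₀, E.Gd v → E.Gd v₀ → ∃ m, X.π m ∈ X.H ∧
  ∀ y ∈ X.R, E.ν (m * y * m⁻¹) = tv E.β c v (tv E.β (-c) v₀ (E.ν y))
end Ex

namespace Cx
variable (X : Cx Φ G n)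
/-- `R` is absolutely irreducible -/
def Ab : Prop := ∀ x : Mat n F, (∀ y ∈ X.R, x * mt y = mt y * x) → Sc x
/-- every class has a normalized representative -/
def Nz : Prop := ∀ x ∈ X.R, ∃ a, Φ.Mu a ∧ (a • mt x) ^ rr X.r = 1
/-- the normalized group -/
def E1 : Set (Mat n F) := {y | (∃ x ∈ X.R, ∃ a, Φ.Mu a ∧ y = a • mt x) ∧ y ^ rr X.r = 1}
/-- its span over a subfield -/
def Sp (K : Subfield F) : AddSubgroup (Mat n F) :=
  AddSubgroup.closure {y | ∃ b ∈ K, ∃ x ∈ X.E1, y = b • x}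
end Cx

/-- the subfield contains the normalized scalars -/
def Ok (Φ : Fm F) (r : ℕ) (K : Subfield F) : Prop := ∀ a, Φ.Mu a → a ^ rr r = 1 → a ∈ K

end H22.SB
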