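/-
Point stabilizers of primitive groups with linear or unitary socle: the steps (notes/SB.md).
-/
import Cfsg.Agent.H22.SB0

set_option autoImplicit false
set_option linter.unusedSectionVars false

namespace H22.SB
open Matrix Cfsg
open scoped Nat

universe u

/-- quantification over contexts -/
def All (P : ∀ {F : Type} [Field F] [Fintype F] {Φ : Fm F} {G : Type u} [Group G] [Finite G]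
    {n : ℕ}, Cx Φ G n → Prop) : Prop :=
  ∀ (F : Type) [Field F] [Fintype F] (Φ : Fm F) (G : Type u) [Group G] [Finite G] (n : ℕ)
    (X : Cx Φ G n), P X

/-- quantification over contexts with a symplectic type structure -/
def AllE (P : ∀ {F : Type} [Field F] [Fintype F] {Φ : Fm F} {G : Type u} [Group G] [Finite G]
    {n : ℕ} {X : Cx Φ G n}, Ex X → Prop) : Prop :=
  ∀ (F : Type) [Field F] [Fintype F] (Φ : Fm F) (G : Type u) [Group G] [Finite G] (n : ℕ)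
    (X : Cx Φ G n) (E : Ex X), P E

/-! ### group theory -/

def PR : Prop := ∀ (G : Type u) [Group G] [Finite G] (H : Subgroup G) (t : G), IsCoatom H →
  H.normalCore = ⊥ → t ∉ H → ∀ l, l.Prime → l ∣ Nat.card H →
  l ≤ (H.map (MulAut.conj t).toMonoidHom).relIndex H

def D4 : Prop := ∀ (G : Type u) [Group G] [Finite G] (H : Subgroup G) (t : G), IsCoatom H →
  H.normalCore = ⊥ → (H.map (MulAut.conj t).toMonoidHom).relIndex H = 4 → 3 ∣ Nat.card H →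
  ∀ P : Subgroup G, P ≤ H ⊓ H.map (MulAut.conj t).toMonoidHom → IsPGroup 2 P →
  (∀ h ∈ H, ∀ x ∈ P, h * x * h⁻¹ ∈ P) → P = ⊥

def WG : Prop := ∀ (G : Type u) [Group G] [Finite G] (N H : Subgroup G) (r : ℕ), N.Normal →
  IsSimpleGroup N → ¬ IsMulCommutative N → Subgroup.centralizer (N : Set G) = ⊥ → IsCoatom H →
  ¬ N ≤ H → H ≠ ⊥ → r.Prime → generalizedFittingSubgroup H = pCore r H →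
  ∃ R : Subgroup G, R ≤ H ⊓ N ∧ IsPGroup r R ∧ R ≠ ⊥ ∧ (∀ h ∈ H, ∀ x ∈ R, h * x * h⁻¹ ∈ R) ∧
    (∀ x ∈ N, (∀ y ∈ R, x * y = y * x) → x ∈ R) ∧ ∀ x, (∀ y ∈ R, x * y * x⁻¹ ∈ R) → x ∈ H

/-! ### classical groups -/

def TG : Prop := ∀ (F : Type) [Field F] [Fintype F] (Φ : Fm F) (ι : Type) [Fintype ι]
  [DecidableEq ι] (v w : ι → F), v ≠ 0 → w ≠ 0 → (Φ.u → Φ.B v v = Φ.B w w) →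
  (∃ g ∈ Φ.Γ ι, (g : Matrix ι ι F) *ᵥ v = w) ∧
  (2 ≤ Fintype.card ι → (Φ.u → 3 ≤ Fintype.card ι) → ∃ s : Φ.S ι, mt s *ᵥ v = w)

def IR : Prop := ∀ (F : Type) [Field F] [Fintype F] (Φ : Fm F) (n : ℕ), 2 ≤ n → (Φ.u → 3 ≤ n) →
  ∀ A : Submodule F (Fin n → F), (∀ s : Φ.S (Fin n), ∀ v ∈ A, mt s *ᵥ v ∈ A) → A = ⊥ ∨ A = ⊤

def GC : Prop := ∀ (F : Type) [Field F] [Fintype F] (Φ : Fm F) (ι : Type) [Fintype ι]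
  [DecidableEq ι], (1 ≤ Fintype.card ι →
    Nat.card (Φ.Γ ι) ≤ Φ.z * Φ.q ^ (Fintype.card ι ^ 2 - 1)) ∧
  (Fintype.card ι = 2 → ¬ Φ.u → Nat.card (Φ.Γ ι) ≤ (Φ.q ^ 2 - 1) * (Φ.q ^ 2 - Φ.q)) ∧
  (Fintype.card ι = 2 → Φ.u → Nat.card (Φ.Γ ι) ≤ Φ.q * (Φ.q + 1) * (Φ.q ^ 2 - 1)) ∧
  (Fintype.card ι = 3 → Φ.u → Φ.q = 2 → Nat.card (Φ.Γ ι) ≤ 648)

def OC : Prop := ∀ (F : Type) [Field F] [Fintype F] (Φ : Fm F) (ι : Type) [Fintype ι]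
  [DecidableEq ι], (Fintype.card ι = 1 → Φ.Oc ι Φ.z Φ.z) ∧
  (Fintype.card ι = 2 → ¬ Φ.u → Φ.Oc ι (Φ.q ^ 2 - 1) (Φ.q ^ 2 - 1) ∧ Φ.Hs ι) ∧
  (Fintype.card ι = 2 → Φ.u →
    Φ.Oc ι (Φ.q * (Φ.q ^ 2 - 1)) ((Φ.q + 1) * (Φ.q ^ 2 - 1))) ∧
  (Fintype.card ι = 3 → Φ.u → Φ.q = 2 → Φ.Oc ι 27 36 ∧ Φ.Hs ι)

/-! ### orders -/

def SZ : Prop := ∀ (F : Type) [Field F] [Fintype F] (Φ : Fm F) (G : Type u) [Group G] [Finite G]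
  (n : ℕ) (X : Tx Φ G n) (K : Subgroup G), (X.Hs K).relIndex K ∣ 2 * Φ.f ∧
  ∀ 𝒳, X.Iv K 𝒳 → Nat.card (X.Hs K) * Φ.z ≤ Nat.card (St 𝒳 ⊓ Φ.Γ (Fin n) : Subgroup _) ∧
    Nat.card K * Φ.z ≤ 2 * Φ.f * Nat.card (St 𝒳 ⊓ Φ.Γ (Fin n) : Subgroup _)

def TB : Prop := All.{u} fun {_ _ _ Φ _ _ _ n} X => X.h * (X.d + 1) ≤ 2 * Φ.f * Φ.q ^ (n ^ 2 - 1)

/-! ### defining characteristic -/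

def PA : Prop := All.{u} fun {F _ _ Φ _ _ _ n} X => X.r = Φ.p →
  ∃ W₁ W₂ : Submodule F (Fin n → F), W₁ ≠ ⊥ ∧ W₁ ≤ W₂ ∧ W₂ ≠ ⊤ ∧ X.Inv (Nil W₁ W₂) ∧
    (Φ.u → W₂ = Φ.perp W₁) ∧ (¬ Φ.u → W₁ = W₂ ∨ ∃ h ∈ X.H, X.ε h ≠ 1)

def NS : Prop := All.{u} fun {F _ _ _ _ _ _ n} X => ∀ W₁ W₂ : Submodule F (Fin n → F), W₁ ≠ ⊥ →
  W₁ ≤ W₂ → W₂ ≠ ⊤ → X.Inv (Nil W₁ W₂) →
  ∀ s, X.π s ∈ X.H ↔ (∀ v ∈ W₁, mt s *ᵥ v ∈ W₁) ∧ ∀ v ∈ W₂, mt s *ᵥ v ∈ W₂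

def PL1 : Prop := All.{u} fun {F _ _ Φ _ _ _ n} X => ¬ Φ.u → ∀ W₁ : Submodule F (Fin n → F),
  W₁ ≠ ⊥ → W₁ ≠ ⊤ → X.Inv (Nil W₁ W₁) → ∃ e, Φ.q ^ e ≤ X.d ∧ n ≤ 2 * e

def PL2 : Prop := All.{u} fun {F _ _ Φ _ _ _ n} X => ¬ Φ.u → ∀ W₁ W₂ : Submodule F (Fin n → F),
  W₁ ≠ ⊥ → W₁ ≤ W₂ → W₂ ≠ ⊤ → X.Inv (Nil W₁ W₂) → (∃ h ∈ X.H, X.ε h ≠ 1) →
  ∃ e, (Φ.q ^ e ≤ X.d ∧ n ≤ 2 * e) ∨ (2 * Φ.q ^ e ≤ X.d ∧ n ≤ 3 * e)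

def PU : Prop := All.{u} fun {F _ _ Φ _ _ _ n} X => Φ.u → ∀ W₁ : Submodule F (Fin n → F),
  W₁ ≠ ⊥ → W₁ ≤ Φ.perp W₁ → X.Inv (Nil W₁ (Φ.perp W₁)) → ∃ e, Φ.q ^ e ≤ X.d ∧ n ≤ 2 * e

def NP : Prop := ∀ p f n d h e : ℕ, 2 ≤ p → 1 ≤ f → 2 ≤ n → 4 ≤ d →
  h * (d + 1) ≤ 2 * f * (p ^ f) ^ (n ^ 2 - 1) →
  ((p ^ f) ^ e ≤ d ∧ n ≤ 2 * e) ∨ (2 * (p ^ f) ^ e ≤ d ∧ n ≤ 3 * e) → h ≤ W d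

/-! ### cross characteristic: invariant decompositions and fields -/

def DI1 : Prop := All.{u} fun {F _ _ Φ _ _ _ n} X => X.r ≠ Φ.p → ¬ X.NoA →
  (∃ 𝒟 : Finset (Mat n F), Sys 𝒟 ∧ X.Inv 𝒟 ∧ (Φ.u → ∀ e ∈ 𝒟, Φ.adj e ∈ 𝒟)) ∨ ∃ 𝔄, X.Fl 𝔄

def DI2 : Prop := All.{u} fun {F _ _ Φ _ _ _ n} X => ∀ 𝒟 : Finset (Mat n F), Sys 𝒟 → X.Inv 𝒟 →
  (Φ.u → ∀ e ∈ 𝒟, Φ.adj e ∈ 𝒟) →
  (∃ 𝒟' : Finset (Mat n F), Sys 𝒟' ∧ X.Inv 𝒟' ∧ (Φ.u → ∀ e ∈ 𝒟', Φ.adj e = e) ∧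
    (𝒟'.card = 2 ∨ ∃ m, ∀ e ∈ 𝒟', e.rank = m)) ∨
  (Φ.u ∧ ∃ e : Mat n F, e * e = e ∧ Φ.adj e = 1 - e ∧ X.Inv {e, 1 - e})

def NF : Prop := ∀ (F : Type) [Field F] [Fintype F] (Φ : Fm F) (n : ℕ) (𝒟 : Finset (Mat n F)),
  Sys 𝒟 → (Φ.u → ∀ e ∈ 𝒟, Φ.adj e = e) → ∃ g ∈ Φ.Γ (Fin n), ∃ β : Fin n → Fin 𝒟.card,
    Function.Surjective β ∧ (𝒟 : Set (Mat n F)) = Set.range (fun i => (g : Mat n F) * eb F β i *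
      ((g⁻¹ : GL (Fin n) F) : Mat n F)) ∧ ∀ m, (∀ e ∈ 𝒟, e.rank = m) → ∀ i, fib β i = m

def CJ : Prop := All.{u} fun {F _ _ Φ G _ _ n} X => ∀ g ∈ Φ.Γ (Fin n), ∃ X' : Cx Φ G n,
  X'.H = X.H ∧ X'.d = X.d ∧ X'.r = X.r ∧ ∀ h x, (g : Mat n F) * X'.th h x *
    ((g⁻¹ : GL (Fin n) F) : Mat n F) = X.th h (g * x * ((g⁻¹ : GL (Fin n) F) : Mat n F))

def PS : Prop := ∀ (F : Type) [Field F] [Fintype F] (Φ : Fm F) (n k : ℕ) (β : Fin n → Fin k),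
  (Φ.u → 3 ≤ n) → Function.Surjective β → 2 ≤ k → Pr Φ (Set.range (eb F β))

def KP : Prop := All.{u} fun {_ _ _ Φ _ _ _ _} X => X.r ≠ Φ.p → ∀ 𝒳, X.Inv 𝒳 → Pr Φ 𝒳 →
  ∀ t : Φ.S _, (∀ x ∈ 𝒳, mt t * x = x * mt t) → t ^ Φ.p = 1 →
  (∀ y ∈ X.R, (∀ x ∈ 𝒳, mt y * x = x * mt y) → y * t = t * y) → t = 1

def KQ : Prop := All.{u} fun {_ _ _ Φ _ _ _ _} X => X.r ≠ Φ.p → ∀ 𝒳, X.Inv 𝒳 → Pr Φ 𝒳 →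
  ∀ U T : Subgroup (Φ.S _), (∀ t ∈ U, ∀ x ∈ 𝒳, mt t * x = x * mt t) → (∀ t ∈ U, t ^ Φ.p = 1) →
  (∀ t ∈ U, ∀ t' ∈ U, t * t' = t' * t) → Φ.p < Nat.card U →
  (∀ t ∈ U, t ≠ 1 → ∀ y ∈ X.R, (∀ x ∈ 𝒳, mt y * x = x * mt y) → y * t = t * y → y ∈ T) →
  ∀ y ∈ X.R, (∀ x ∈ 𝒳, mt y * x = x * mt y) → y ∈ T

def KL : Prop := All.{u} fun {_ _ _ Φ _ _ _ n} X => X.r ≠ Φ.p → ¬ Φ.u →
  ∀ k (β : Fin n → Fin k), X.Bl β → ∀ i, fib β i = 1 ∨ (fib β i = 2 ∧ Φ.f = 1)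

def KU1 : Prop := All.{u} fun {_ _ _ Φ _ _ _ n} X => X.r ≠ Φ.p → Φ.u →
  ∀ k (β : Fin n → Fin k), X.Bl β → ∀ i, 2 ≤ fib β i → Φ.f = 1

def KU2 : Prop := All.{u} fun {_ _ _ Φ _ _ _ n} X => X.r ≠ Φ.p → Φ.u →
  ∀ k (β : Fin n → Fin k), X.Bl β → ∀ i, fib β i ≤ 3

def KU3 : Prop := All.{u} fun {_ _ _ Φ _ _ _ n} X => X.r ≠ Φ.p → Φ.u →
  ∀ k (β : Fin n → Fin k), X.Bl β → ∀ i, 3 ≤ fib β i → Φ.p = 2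

def KC : Prop := All.{u} fun {F _ _ Φ _ _ _ n} X => X.r ≠ Φ.p → Φ.u →
  ∀ e : Mat n F, e * e = e → Φ.adj e = 1 - e → ¬ X.Inv {e, 1 - e}

def UB : Prop := ∀ (F : Type) [Field F] [Fintype F] (Φ : Fm F) (n k : ℕ) (β : Fin n → Fin k),
  Function.Surjective β → Nat.card (St (Set.range (eb F β)) ⊓ Φ.Γ (Fin n) : Subgroup _) ≤
    k ! * ∏ i, Nat.card (Φ.Γ (Fb β i))

def CL1 : Prop := All.{u} fun {F _ _ Φ _ _ _ n} X => ∀ k (β : Fin n → Fin k) (o c : ℕ), X.Bl β →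
  (∀ i, Φ.Oc (Fb β i) o c) → ∃ v : Fin n → F, 2 ≤ sup β v ∧ Nat.card (Ob Φ β v) ≤ X.d * k * c

def CL2 : Prop := ∀ (F : Type) [Field F] [Fintype F] (Φ : Fm F) (n k : ℕ) (β : Fin n → Fin k)
  (m o c : ℕ), 1 ≤ m → (∀ i, fib β i = m) → (∀ i, Φ.Oc (Fb β i) o c) → ∀ v : Fin n → F,
  sup β v < k → o ^ sup β v * k.choose (sup β v) ≤ Nat.card (Ob Φ β v)

def CL3 : Prop := ∀ (F : Type) [Field F] [Fintype F] (Φ : Fm F) (n k : ℕ) (β : Fin n → Fin k)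
  (o c : ℕ), 1 ≤ k → (∀ i, Φ.Oc (Fb β i) o c) → ∀ v : Fin n → F, sup β v = k →
  o ^ k ≤ n.gcd Φ.z * Nat.card (Ob Φ β v) ∧ ((∀ i, Φ.Hs (Fb β i)) → o ^ k ≤ Nat.card (Ob Φ β v))

def PB : Prop := All.{u} fun {_ _ _ Φ _ _ _ n} X => ∀ k (β : Fin n → Fin k), X.Bl β →
  (∀ i, 2 ≤ fib β i → Φ.p ≤ X.d) ∧
  ∀ m, (∀ i, fib β i = m) → ∀ l, l.Prime → l ≠ 2 → l ≤ k → l ≤ X.d

/-- the outcome of the vector count -/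
def Cn (o c g d k : ℕ) : Prop :=
  (∃ j, 2 ≤ j ∧ j < k ∧ o ^ j * k.choose j ≤ d * k * c) ∨ o ^ k ≤ g * (d * k * c)

def N1 : Prop := ∀ z f d h k : ℕ, 1 ≤ z → 2 ^ f ≤ z + 1 → 2 ≤ k → 4 ≤ d →
  (∀ l, l.Prime → l ≠ 2 → l ≤ k → l ≤ d) → h * z ≤ 2 * f * (k ! * z ^ k) →
  Cn z z (k.gcd z) d k → h ≤ W d

def N2L : Prop := ∀ p d h k : ℕ, p.Prime → p ≤ d → 2 ≤ k → 4 ≤ d →
  (∀ l, l.Prime → l ≠ 2 → l ≤ k → l ≤ d) →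
  h * (p - 1) ≤ 2 * (k ! * ((p ^ 2 - 1) * (p ^ 2 - p)) ^ k) →
  Cn (p ^ 2 - 1) (p ^ 2 - 1) 1 d k → h ≤ W d

def N2U : Prop := ∀ p d h k : ℕ, p.Prime → p ≤ d → 2 ≤ k → 4 ≤ d →
  (∀ l, l.Prime → l ≠ 2 → l ≤ k → l ≤ d) →
  h * (p + 1) ≤ 2 * (k ! * (p * (p + 1) * (p ^ 2 - 1)) ^ k) →
  Cn (p * (p ^ 2 - 1)) ((p + 1) * (p ^ 2 - 1)) (p + 1) d k → h ≤ W d

def N2T : Prop := ∀ d h k : ℕ, 2 ≤ k → 4 ≤ d → (∀ l, l.Prime → l ≠ 2 → l ≤ k → l ≤ d) →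
  h * 3 ≤ 2 * (k ! * 648 ^ k) → Cn 27 36 1 d k → h ≤ W d

def PF : Prop := ∀ (F : Type) [Field F] [Fintype F] (Φ : Fm F) (n : ℕ), 2 ≤ n →
  (n = 2 → ¬ Φ.u ∧ 4 ≤ Φ.q) → ∀ 𝔄 : Subalgebra F (Mat n F), IsField 𝔄 → 𝔄 ≠ ⊥ →
  Pr Φ (𝔄 : Set (Mat n F))

def KF0 : Prop := ∀ (F : Type) [Field F] [Fintype F] (Φ : Fm F) (n : ℕ)
  (𝔄 : Subalgebra F (Mat n F)), IsField 𝔄 → (Φ.u → ∀ x ∈ 𝔄, Φ.adj x ∈ 𝔄) →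
  (∃ x : Mat n F, (∀ a ∈ 𝔄, x * a = a * x) ∧ x ∉ 𝔄) →
  ∃ N : Mat n F, N ≠ 0 ∧ N * N = 0 ∧ (∀ a ∈ 𝔄, N * a = a * N) ∧ (Φ.u → Φ.adj N = -N)

def KF : Prop := All.{u} fun {F _ _ Φ _ _ _ n} X => X.r ≠ Φ.p → ∀ 𝔄, X.Fl 𝔄 →
  ∀ x : Mat n F, (∀ a ∈ 𝔄, x * a = a * x) → x ∈ 𝔄

def FT : Prop := All.{u} fun {_ _ _ Φ _ _ _ n} X => X.r ≠ Φ.p → ∀ 𝔄, X.Fl 𝔄 →
  X.h ≤ 2 * Φ.f * n ^ 3 * X.d ∧ Φ.q ^ n ≤ (Φ.q + 1) * X.d * n * min n (Φ.q + 1) + 1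

def N3 : Prop := ∀ q f n d h : ℕ, 2 ^ f ≤ q → 2 ≤ q → 2 ≤ n → 4 ≤ d → h ≤ 2 * f * n ^ 3 * d →
  q ^ n ≤ (q + 1) * d * n * min n (q + 1) + 1 → h ≤ W d

/-! ### cross characteristic: symplectic type -/

def E0 : Prop := All.{u} fun {F _ _ _ _ _ _ _} X => X.NoA →
  (∀ x ∈ X.R, Sc (mt x ^ X.r)) ∧ (∀ x ∈ X.R, (∀ y ∈ X.R, x * y = y * x) → Sc (mt x)) ∧
  ∀ x ∈ X.R, ∀ y ∈ X.R, ∃ a : F, mt x * mt y = a • (mt y * mt x)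

def EA : Prop := All.{u} fun {_ _ _ _ _ _ _ _} X => X.NoA → Nonempty (Ex X)

def EB : Prop := AllE.{u} fun {_ _ _ _ _ _ _ _ X} _ => X.Ab

def EC : Prop := AllE.{u} fun {F _ _ Φ _ _ _ n X} E => X.Ab → n ^ 2 = X.r ^ E.k ∧
  (∀ ρ : (Fin E.k → ZMod X.r) → Φ.S (Fin n), (∀ v, ρ v ∈ X.R ∧ E.ν (ρ v) = v) →
    LinearIndependent F fun v => mt (ρ v)) ∧
  ∀ h ∈ X.Hs X.H, (∀ x ∈ X.R, h * X.π x = X.π x * h) → ∃ y ∈ X.R, h = X.π y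

def E2 : Prop := AllE.{u} fun {_ _ _ _ _ _ _ _ X} E => X.NoA → X.Nz ∧ Dch E.β E.Gd

def E3o : Prop := AllE.{u} fun {_ _ _ _ _ _ _ _ X} E => X.r ≠ 2 → ∃ c, c ≠ 0 ∧ E.Tr c

def E3t : Prop := AllE.{u} fun {_ _ _ _ _ _ _ _ X} E => X.r = 2 → E.Tr 1

def LB : Prop := ∀ (r k n : ℕ) [Fact r.Prime]
  (β : LinearMap.BilinForm (ZMod r) (Fin k → ZMod r)) (Gd : (Fin k → ZMod r) → Prop)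
  (c : ZMod r), (∀ v, β v v = 0) → (∀ v, (∀ w, β v w = 0) → v = 0) → c ≠ 0 → Dch β Gd →
  (r = 2 → 6 ≤ k) → n ^ 2 = r ^ k → ∀ Y : Submodule (ZMod r) (Fin k → ZMod r), Y ≠ ⊥ →
  (∀ v ∈ Y, ∀ w ∈ Y, β v w = 0) → ∃ v₀, Gd v₀ ∧ n ≤ Nat.card {Z : Set (Fin k → ZMod r) |
    ∃ v, Gd v ∧ Z = (fun w => tv β c v (tv β (-c) v₀ w)) '' Y} + 2

def IA : Prop := ∀ (r k : ℕ) [Fact r.Prime]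
  (β : LinearMap.BilinForm (ZMod r) (Fin k → ZMod r)) (Gd : (Fin k → ZMod r) → Prop)
  (c : ZMod r), (∀ v, β v v = 0) → (∀ v, (∀ w, β v w = 0) → v = 0) → c ≠ 0 → Dch β Gd →
  (r = 2 → 6 ≤ k) → ∀ Y : Submodule (ZMod r) (Fin k → ZMod r), Y ≠ ⊥ → Y ≠ ⊤ →
  (∀ v ∈ Y, (∀ w ∈ Y, β v w = 0) → v = 0) →
  ∃ v v₀, Gd v ∧ Gd v₀ ∧ ∃ w ∈ Y, tv β c v (tv β (-c) v₀ w) ∉ Y

def EN : Prop := AllE.{u} fun {F _ _ Φ _ _ _ n X} E => n ^ 2 = X.r ^ E.k → X.Nz →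
  Dch E.β E.Gd → ∀ K : Subfield F, Ok Φ X.r K →
  ∃ N ∈ X.Sp K, N ≠ 0 ∧ N * N = 0 ∧ (Φ.u → Φ.adj N = -N)

def EQ : Prop := AllE.{u} fun {F _ _ Φ _ _ _ _ X} E => X.Ab → X.Nz → Dch E.β E.Gd →
  ∀ K : Subfield F, Ok Φ X.r K → (∃ a, Φ.c a = a ∧ a ∉ K) → Nat.card {a | a ∈ K ∧ Φ.c a = a} ≤ 3

def EF : Prop := ∀ (F : Type) [Field F] [Fintype F] (Φ : Fm F) (r d : ℕ), r.Prime → r ≤ d →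
  4 ≤ d → (∀ K : Subfield F, Ok Φ r K → (∃ a, Φ.c a = a ∧ a ∉ K) →
    Nat.card {a | a ∈ K ∧ Φ.c a = a} ≤ 3) → Φ.f ≤ d ∨ Φ.f.Prime

def E5 : Prop := AllE.{u} fun {_ _ _ _ _ _ _ _ X} E => X.Ab → ∃ a b, X.h = X.r ^ E.k * a * b ∧
  a ≤ X.A ∧ b ∣ ∏ i ∈ Finset.range E.k, (X.r ^ E.k - X.r ^ i)

def E6 : Prop := AllE.{u} fun {_ _ _ _ _ _ _ n X} E => X.NoA → X.Ab → Dch E.β E.Gd →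
  (X.r = 2 → 6 ≤ E.k) → ∀ c, c ≠ 0 → E.Tr c → X.h ≤ X.d ! * X.A ∨ n ≤ X.d + 2

def N4 : Prop := ∀ r k n d h a b : ℕ, r.Prime → r ≤ d → 4 ≤ d → n ^ 2 = r ^ k →
  h = r ^ k * a * b → a ≤ 2 * d → b ∣ ∏ i ∈ Finset.range k, (r ^ k - r ^ i) →
  (d = 4 → r = 3 ∨ ∃ j, h = 2 ^ j) → (r = 2 ∧ k ≤ 4) ∨ n ≤ d + 2 → h ≤ W d

end H22.SB
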