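/-
Point stabilizers of primitive groups with linear or unitary socle: basic kit.
-/
import Cfsg.Agent.H22.SB1

set_option autoImplicit false
set_option linter.unusedSectionVars false

namespace H22.SB
open Matrix

universe u
variable {F : Type} [Field F] [Fintype F] {ι : Type} [Fintype ι] [DecidableEq ι] {n k : ℕ}

theorem Sc.comm {x : Matrix ι ι F} (h : Sc x) (y : Matrix ι ι F) : x * y = y * x := by
  obtain ⟨a, rfl⟩ := h; simp

theorem sc_one : Sc (1 : Matrix ι ι F) := ⟨1, by simp⟩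

namespace Fm
variable (Φ : Fm F)

theorem q2 : 2 ≤ Φ.q := by
  rw [Φ.hq]; exact Φ.pp.two_le.trans (Nat.le_self_pow (by have := Φ.f1; omega) _)
theorem p_le_q : Φ.p ≤ Φ.q := by rw [Φ.hq]; exact Nat.le_self_pow (by have := Φ.f1; omega) _
theorem two_pow_le : 2 ^ Φ.f ≤ Φ.q := by rw [Φ.hq]; exact Nat.pow_le_pow_left Φ.pp.two_le _
theorem zU (h : Φ.u) : Φ.z = Φ.q + 1 := if_pos h
theorem zL (h : ¬ Φ.u) : Φ.z = Φ.q - 1 := if_neg h
theorem z_pos : 1 ≤ Φ.z := by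
  have := Φ.q2; by_cases h : Φ.u
  · rw [Φ.zU h]; omega
  · rw [Φ.zL h]; omega
theorem z_le : Φ.z ≤ Φ.q + 1 := by
  by_cases h : Φ.u
  · rw [Φ.zU h]
  · rw [Φ.zL h]; omega
theorem z_dvd : Φ.z ∣ Fintype.card F - 1 := by
  by_cases h : Φ.u
  · rw [Φ.zU h, Φ.cU h]; exact ⟨Φ.q - 1, by simpa using Nat.sq_sub_sq Φ.q 1⟩
  · rw [Φ.zL h, Φ.cL h]
theorem c_L (h : ¬ Φ.u) (x : F) : Φ.c x = x := by rw [Φ.cq, ← Φ.cL h, FiniteField.pow_card]
theorem c_c (x : F) : Φ.c (Φ.c x) = x := by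
  by_cases h : Φ.u
  · rw [Φ.cq, Φ.cq, ← pow_mul, ← sq, ← Φ.cU h, FiniteField.pow_card]
  · rw [Φ.c_L h, Φ.c_L h]
theorem σ_c (σ : RingAut F) (x : F) : σ (Φ.c x) = Φ.c (σ x) := by rw [Φ.cq, Φ.cq, map_pow]

theorem mu_one : Φ.Mu 1 := one_pow _
variable {Φ} in
theorem Mu.mul {a b : F} (ha : Φ.Mu a) (hb : Φ.Mu b) : Φ.Mu (a * b) := by
  unfold Mu at *; rw [mul_pow, ha, hb, one_mul]
variable {Φ} in
theorem Mu.inv {a : F} (ha : Φ.Mu a) : Φ.Mu a⁻¹ := by unfold Mu at *; rw [inv_pow, ha, inv_one]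
variable {Φ} in
theorem Mu.pow {a : F} (ha : Φ.Mu a) (m : ℕ) : Φ.Mu (a ^ m) := by
  unfold Mu at *; rw [← pow_mul, mul_comm, pow_mul, ha, one_pow]
variable {Φ} in
theorem Mu.ne {a : F} (ha : Φ.Mu a) : a ≠ 0 := by
  rintro rfl; have := Φ.z_pos
  rw [Mu, zero_pow (by omega)] at ha; exact zero_ne_one ha
variable {Φ} in
theorem Mu.map {a : F} (ha : Φ.Mu a) (σ : RingAut F) : Φ.Mu (σ a) := by
  unfold Mu at *; rw [← map_pow, ha, map_one]
theorem mu_U (h : Φ.u) {a : F} : Φ.Mu a ↔ a * Φ.c a = 1 := by rw [Mu, Φ.zU h, Φ.cq, pow_succ']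
theorem mu_L (h : ¬ Φ.u) {a : F} : Φ.Mu a ↔ a ≠ 0 :=
  ⟨Mu.ne, fun h0 => by rw [Mu, Φ.zL h, ← Φ.cL h]; exact FiniteField.pow_card_sub_one_eq_one a h0⟩

theorem exists_gen : ∃ a : F, IsPrimitiveRoot a Φ.z := by
  obtain ⟨g, hg⟩ := IsCyclic.exists_generator (α := Fˣ)
  have ho : orderOf g = Fintype.card F - 1 := by
    rw [orderOf_eq_card_of_forall_mem_zpowers hg, Nat.card_units, Nat.card_eq_fintype_card]
  obtain ⟨m, hm⟩ := Φ.z_dvd
  have h1 : IsPrimitiveRoot (g : F) (Fintype.card F - 1) := by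
    rw [IsPrimitiveRoot.coe_units_iff, ← ho]; exact IsPrimitiveRoot.orderOf g
  exact ⟨_, h1.pow (Nat.sub_pos_of_lt Fintype.one_lt_card) (hm.trans (mul_comm _ _))⟩

theorem card_Mu : Nat.card {a : F | Φ.Mu a} = Φ.z := by
  classical
  obtain ⟨a, ha⟩ := Φ.exists_gen
  have hz := Φ.z_pos
  have : {a : F | Φ.Mu a} = ↑(Polynomial.nthRootsFinset Φ.z (1 : F)) := by
    ext x; simp [Mu, Polynomial.mem_nthRootsFinset hz]
  rw [this, Nat.card_coe_set_eq, Set.ncard_coe_finset, ha.card_nthRootsFinset]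

section adj
variable {α β : Type}
theorem adj_apply (x : Matrix α β F) (i : β) (j : α) : Φ.adj x i j = Φ.c (x j i) := rfl
theorem adj_add (x y : Matrix α β F) : Φ.adj (x + y) = Φ.adj x + Φ.adj y := by
  ext; simp [adj_apply]
theorem adj_sub (x y : Matrix α β F) : Φ.adj (x - y) = Φ.adj x - Φ.adj y := by
  ext; simp [adj_apply]
theorem adj_neg (x : Matrix α β F) : Φ.adj (-x) = -Φ.adj x := by ext; simp [adj_apply]
theorem adj_zero : Φ.adj (0 : Matrix α β F) = 0 := by ext; simp [adj_apply]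
theorem adj_smul (a : F) (x : Matrix α β F) : Φ.adj (a • x) = Φ.c a • Φ.adj x := by
  ext; simp [adj_apply]
theorem adj_adj (x : Matrix α β F) : Φ.adj (Φ.adj x) = x := by ext; simp [adj_apply, c_c]
theorem adj_map (σ : RingAut F) (x : Matrix α β F) : Φ.adj (x.map σ) = (Φ.adj x).map σ := by
  ext; simp [adj_apply, σ_c]
theorem adj_sum {γ : Type} (s : Finset γ) (x : γ → Matrix α β F) :
    Φ.adj (∑ i ∈ s, x i) = ∑ i ∈ s, Φ.adj (x i) := by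
  ext; simp [adj_apply, Matrix.sum_apply]
theorem adj_vecMulVec (v : α → F) (w : β → F) :
    Φ.adj (vecMulVec v w) = vecMulVec (Φ.c ∘ w) (Φ.c ∘ v) := by
  ext; simp [adj_apply, vecMulVec_apply, mul_comm]
end adj

theorem adj_pow (x : Matrix ι ι F) (m : ℕ) : Φ.adj (x ^ m) = Φ.adj x ^ m := by
  induction m with
  | zero => simp [adj_one]
  | succ m ih => rw [pow_succ, adj_mul, ih, pow_succ']
theorem det_adj (x : Matrix ι ι F) : (Φ.adj x).det = Φ.c x.det := by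
  rw [adj, det_transpose]; exact (RingEquiv.map_det Φ.c x).symm

theorem B_dot (v w : ι → F) : Φ.B v w = v ⬝ᵥ (Φ.c ∘ w) := rfl
theorem B_add_left (u v w : ι → F) : Φ.B (u + v) w = Φ.B u w + Φ.B v w := by
  simp [B, add_mul, Finset.sum_add_distrib]
theorem B_add_right (u v w : ι → F) : Φ.B u (v + w) = Φ.B u v + Φ.B u w := by
  simp [B, mul_add, Finset.sum_add_distrib]
theorem B_sub_left (u v w : ι → F) : Φ.B (u - v) w = Φ.B u w - Φ.B v w := by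
  simp [B, sub_mul, Finset.sum_sub_distrib]
theorem B_sub_right (u v w : ι → F) : Φ.B u (v - w) = Φ.B u v - Φ.B u w := by
  simp [B, mul_sub, Finset.sum_sub_distrib]
theorem B_smul_left (a : F) (v w : ι → F) : Φ.B (a • v) w = a * Φ.B v w := by
  simp [B, Finset.mul_sum, mul_assoc]
theorem B_smul_right (a : F) (v w : ι → F) : Φ.B v (a • w) = Φ.c a * Φ.B v w := by
  simp [B, Finset.mul_sum, mul_left_comm]
theorem B_zero_left (w : ι → F) : Φ.B 0 w = 0 := by simp [B]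
theorem B_zero_right (w : ι → F) : Φ.B w 0 = 0 := by simp [B]
theorem B_symm (v w : ι → F) : Φ.c (Φ.B v w) = Φ.B w v := by simp [B, c_c, mul_comm]
theorem B_single_right (v : ι → F) (i : ι) (a : F) : Φ.B v (Pi.single i a) = v i * Φ.c a := by
  rw [B, Finset.sum_eq_single i] <;> simp +contextual [Pi.single_apply]
theorem B_single_left (v : ι → F) (i : ι) (a : F) : Φ.B (Pi.single i a) v = a * Φ.c (v i) := by
  rw [B, Finset.sum_eq_single i] <;> simp +contextual [Pi.single_apply]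
theorem B_nd {v : ι → F} (h : ∀ w, Φ.B v w = 0) : v = 0 := by
  ext i; simpa [B_single_right] using h (Pi.single i 1)
theorem B_mulVec (x : Matrix ι ι F) (v w : ι → F) : Φ.B (x *ᵥ v) w = Φ.B v (Φ.adj x *ᵥ w) := by
  simp only [B, mulVec, dotProduct, adj_apply, map_sum, map_mul, c_c, Finset.sum_mul,
    Finset.mul_sum]
  rw [Finset.sum_comm]; exact Finset.sum_congr rfl fun i _ => Finset.sum_congr rfl fun j _ => by ring
theorem vmv_mulVec (v w x : ι → F) : vecMulVec v (Φ.c ∘ w) *ᵥ x = Φ.B x w • v := by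
  ext i; simp [mulVec, dotProduct, vecMulVec_apply, B, Finset.sum_mul, mul_comm, mul_left_comm,
    Finset.mul_sum]
theorem B_herm (v w : Fin n → F) : Φ.B v w = Cfsg.hermForm n F Φ.q v w := by
  simp [B, Cfsg.hermForm, cq]
theorem mem_perp {A : Submodule F (ι → F)} {v : ι → F} : v ∈ Φ.perp A ↔ ∀ w ∈ A, Φ.B v w = 0 :=
  Iff.rfl

theorem mem_Γ {g : GL ι F} : g ∈ Φ.Γ ι ↔ (Φ.u → Φ.adj (g : Matrix ι ι F) * g = 1) := Iff.rfl
theorem mem_S {g : GL ι F} : g ∈ Φ.S ι ↔ g ∈ Φ.Γ ι ∧ (g : Matrix ι ι F).det = 1 :=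
  and_congr_right fun _ => (MonoidHom.mem_ker.trans Units.ext_iff)
variable {Φ} in
theorem adj_Γ {g : GL ι F} (hg : g ∈ Φ.Γ ι) (hu : Φ.u) :
    Φ.adj (g : Matrix ι ι F) = (g⁻¹ : GL ι F) := by
  have := congrArg (· * ((g⁻¹ : GL ι F) : Matrix ι ι F)) (hg hu)
  simpa [Matrix.mul_assoc] using this
variable {Φ} in
theorem B_Γ {g : GL ι F} (hg : g ∈ Φ.Γ ι) (hu : Φ.u) (v w : ι → F) :
    Φ.B ((g : Matrix ι ι F) *ᵥ v) ((g : Matrix ι ι F) *ᵥ w) = Φ.B v w := by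
  rw [B_mulVec, mulVec_mulVec, hg hu, one_mulVec]
theorem mem_Γ_of_B {g : GL ι F}
    (h : ∀ v w, Φ.B ((g : Matrix ι ι F) *ᵥ v) ((g : Matrix ι ι F) *ᵥ w) = Φ.B v w) : g ∈ Φ.Γ ι := by
  intro _
  ext i j
  have := h (Pi.single i 1) (Pi.single j 1)
  rw [B_mulVec, mulVec_mulVec, B_single_left, B_single_left, one_mul, one_mul] at this
  simpa [one_apply, Pi.single_apply] using Φ.c.injective this
variable {Φ} in
theorem det_Mu {g : GL ι F} (hg : g ∈ Φ.Γ ι) : Φ.Mu (g : Matrix ι ι F).det := by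
  by_cases hu : Φ.u
  · rw [Φ.mu_U hu, ← det_adj, ← det_mul, mul_eq_one_comm.1 (hg hu), det_one]
  · exact (Φ.mu_L hu).2 (GeneralLinearGroup.det g).ne_zero

/-- an element of `Γ` from a matrix -/
noncomputable def mkG (x : Matrix ι ι F) (hd : x.det ≠ 0) : GL ι F :=
  GeneralLinearGroup.mkOfDetNeZero x hd
theorem coe_mkG (x : Matrix ι ι F) (hd : x.det ≠ 0) : (mkG x hd : Matrix ι ι F) = x := rfl
/-- an element of `S` from a matrix -/
noncomputable def mkS (x : Matrix ι ι F) (hd : x.det = 1) (hu : Φ.u → Φ.adj x * x = 1) : Φ.S ι :=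
  ⟨mkG x (by simp [hd]), Φ.mem_S.2 ⟨hu, hd⟩⟩
theorem mt_mkS (x : Matrix ι ι F) (hd : x.det = 1) (hu : Φ.u → Φ.adj x * x = 1) :
    mt (Φ.mkS x hd hu) = x := rfl
theorem smul_mem_Γ {g g' : GL ι F} {a : F} (hg : g ∈ Φ.Γ ι) (ha : Φ.Mu a)
    (h : (g' : Matrix ι ι F) = a • (g : Matrix ι ι F)) : g' ∈ Φ.Γ ι := fun hu => by
  rw [h, adj_smul, smul_mul_smul_comm, hg hu, mul_comm, (Φ.mu_U hu).1 ha, one_smul]
end Fm

variable {Φ : Fm F}
theorem mt_mul (s t : Φ.S ι) : mt (s * t) = mt s * mt t := rfl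
theorem mt_one : mt (1 : Φ.S ι) = 1 := rfl
theorem mt_pow (s : Φ.S ι) (m : ℕ) : mt (s ^ m) = mt s ^ m := by simp [mt]
theorem mt_mul_inv (s : Φ.S ι) : mt s * mt s⁻¹ = 1 := by rw [← mt_mul, mul_inv_cancel, mt_one]
theorem mt_inv_mul (s : Φ.S ι) : mt s⁻¹ * mt s = 1 := by rw [← mt_mul, inv_mul_cancel, mt_one]
theorem mt_inv (s : Φ.S ι) : mt s⁻¹ = (((s : GL ι F)⁻¹ : GL ι F) : Matrix ι ι F) := rfl
theorem mt_inj {s t : Φ.S ι} (h : mt s = mt t) : s = t := Subtype.ext (Units.ext h)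
theorem mt_det (s : Φ.S ι) : (mt s).det = 1 := (Φ.mem_S.1 s.2).2
theorem mt_Γ (s : Φ.S ι) : (s : GL ι F) ∈ Φ.Γ ι := (Φ.mem_S.1 s.2).1
theorem mt_adj (hu : Φ.u) (s : Φ.S ι) : Φ.adj (mt s) = mt s⁻¹ := Fm.adj_Γ (mt_Γ s) hu
theorem mt_B (hu : Φ.u) (s : Φ.S ι) (v w : ι → F) : Φ.B (mt s *ᵥ v) (mt s *ᵥ w) = Φ.B v w :=
  Fm.B_Γ (mt_Γ s) hu v w
theorem mt_comm {s t : Φ.S ι} : s * t = t * s ↔ mt s * mt t = mt t * mt s :=
  ⟨fun h => congrArg mt h, fun h => mt_inj h⟩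
theorem Γ_sc_Mu [Nonempty ι] {g : GL ι F} (hg : g ∈ Φ.Γ ι) {a : F}
    (h : (g : Matrix ι ι F) = a • 1) : Φ.Mu a := by
  obtain ⟨i⟩ := ‹Nonempty ι›
  by_cases hu : Φ.u
  · have := congrFun (congrFun (hg hu) i) i
    rw [h, Fm.adj_smul, Fm.adj_one] at this
    rw [Φ.mu_U hu]; simpa using this
  · rw [Φ.mu_L hu]; rintro rfl
    have := congrFun (congrFun g.mul_inv i) i
    rw [h] at this; simp at this
theorem sc_Mu [Nonempty ι] {s : Φ.S ι} {a : F} (h : mt s = a • 1) : Φ.Mu a := Γ_sc_Mu (mt_Γ s) h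

theorem mem_St {𝒳 : Set (Matrix ι ι F)} {g : GL ι F} : g ∈ St 𝒳 ↔
    ∀ x, x ∈ 𝒳 ↔ (g : Matrix ι ι F) * x * ((g⁻¹ : GL ι F) : Matrix ι ι F) ∈ 𝒳 := Iff.rfl

theorem iff_of_maps {α : Type} [Finite α] {𝒳 : Set α} {φ : α → α} (hi : Function.Injective φ)
    (h : ∀ x ∈ 𝒳, φ x ∈ 𝒳) (x : α) : x ∈ 𝒳 ↔ φ x ∈ 𝒳 := by
  refine ⟨h x, fun hx => ?_⟩
  obtain ⟨y, hy, e⟩ := ((Set.toFinite 𝒳).injOn_iff_bijOn_of_mapsTo h).1 hi.injOn |>.surjOn hx
  exact hi e ▸ hy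

theorem mem_St_of_maps {𝒳 : Set (Matrix ι ι F)} {g : GL ι F}
    (h : ∀ x ∈ 𝒳, (g : Matrix ι ι F) * x * ((g⁻¹ : GL ι F) : Matrix ι ι F) ∈ 𝒳) : g ∈ St 𝒳 :=
  iff_of_maps (fun _ _ e => (Units.mul_right_inj g).1 ((Units.mul_left_inj g⁻¹).1 e)) h

theorem mem_St_of_comm {𝒳 : Set (Matrix ι ι F)} {g : GL ι F}
    (h : ∀ x ∈ 𝒳, (g : Matrix ι ι F) * x = x * g) : g ∈ St 𝒳 :=
  mem_St_of_maps fun x hx => by rw [h x hx, Units.mul_inv_cancel_right]; exact hx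

end H22.SB
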