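/-
Point stabilizers of primitive groups with linear or unitary socle: kit for the action.
-/
import Cfsg.Agent.H22.SB2

set_option autoImplicit false
set_option linter.unusedSectionVars false

namespace H22.SB
open Matrix

universe u
variable {F : Type} [Field F] [Fintype F] {n k : ℕ} {Φ : Fm F} {G : Type u} [Group G]

namespace Tx
variable (X : Tx Φ G n)

include X in
theorem u3 (hu : Φ.u) : 3 ≤ n := by
  have := X.n2; by_contra h; exact (X.nL (by omega)).1 hu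
include X in
theorem ne : Nonempty (Fin n) := ⟨⟨0, by have := X.n2; omega⟩⟩
theorem th_lin {h : G} (e : X.ε h = 1) (x : Mat n F) :
    X.th h x = X.g h * x.map (X.σ h) * ((X.g h)⁻¹ : GL (Fin n) F) := by simp [th, tw, e]
theorem th_ant {h : G} (e : X.ε h ≠ 1) (x : Mat n F) :
    X.th h x = X.g h * (x.map (X.σ h))ᵀ * ((X.g h)⁻¹ : GL (Fin n) F) := by simp [th, tw, e]
theorem th_add (h : G) (x y : Mat n F) : X.th h (x + y) = X.th h x + X.th h y := by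
  by_cases e : X.ε h = 1
  · simp [th_lin _ e, Matrix.map_add, mul_add, add_mul]
  · simp [th_ant _ e, Matrix.map_add, mul_add, add_mul]
theorem th_smul (h : G) (a : F) (x : Mat n F) : X.th h (a • x) = X.σ h a • X.th h x := by
  have : (a • x).map (X.σ h) = X.σ h a • x.map (X.σ h) := by ext; simp
  by_cases e : X.ε h = 1
  · simp [th_lin _ e, this]
  · simp [th_ant _ e, this]
theorem th_one (h : G) : X.th h 1 = 1 := by
  by_cases e : X.ε h = 1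
  · simp [th_lin _ e]
  · simp [th_ant _ e]
theorem th_zero (h : G) : X.th h 0 = 0 := by simpa using X.th_smul h 0 0
theorem th_neg (h : G) (x : Mat n F) : X.th h (-x) = -X.th h x := by
  simpa using X.th_smul h (-1) x
theorem th_sub (h : G) (x y : Mat n F) : X.th h (x - y) = X.th h x - X.th h y := by
  rw [sub_eq_add_neg, th_add, th_neg, sub_eq_add_neg]
/-- `th h` as an additive map -/
def thA (h : G) : Mat n F →+ Mat n F := ⟨⟨X.th h, X.th_zero h⟩, X.th_add h⟩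
theorem th_sum (h : G) {γ : Type*} (s : Finset γ) (x : γ → Mat n F) :
    X.th h (∑ i ∈ s, x i) = ∑ i ∈ s, X.th h (x i) := map_sum (X.thA h) x s
theorem th_mul {h : G} (e : X.ε h = 1) (x y : Mat n F) :
    X.th h (x * y) = X.th h x * X.th h y := by
  simp [th_lin _ e, Matrix.map_mul, Matrix.mul_assoc]
theorem th_anti {h : G} (e : X.ε h ≠ 1) (x y : Mat n F) :
    X.th h (x * y) = X.th h y * X.th h x := by
  simp [th_ant _ e, Matrix.map_mul, Matrix.mul_assoc, transpose_mul]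
theorem th_pow (h : G) (x : Mat n F) (m : ℕ) : X.th h (x ^ m) = X.th h x ^ m := by
  induction m with
  | zero => simp [th_one]
  | succ m ih =>
    by_cases e : X.ε h = 1
    · rw [pow_succ, th_mul _ e, ih, pow_succ]
    · rw [pow_succ, th_anti _ e, ih, pow_succ']
theorem th_comm (h : G) {x y : Mat n F} (e : x * y = y * x) :
    X.th h x * X.th h y = X.th h y * X.th h x := by
  by_cases e' : X.ε h = 1
  · rw [← th_mul _ e', e, th_mul _ e']
  · rw [← th_anti _ e', ← e, th_anti _ e']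
theorem th_th (h h' : G) (x : Mat n F) : X.th (h * h') x = X.th h (X.th h' x) := X.tmul h h' x
theorem th_pi (s : Φ.S (Fin n)) (x : Mat n F) : X.th (X.π s) x = mt s * x * mt s⁻¹ := X.tπ s x
theorem th_id (x : Mat n F) : X.th 1 x = x := by
  simpa [mt_one] using X.th_pi 1 x
theorem th_inv (h : G) (x : Mat n F) : X.th h⁻¹ (X.th h x) = x := by
  rw [← th_th, inv_mul_cancel, th_id]
theorem th_inv' (h : G) (x : Mat n F) : X.th h (X.th h⁻¹ x) = x := by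
  rw [← th_th, mul_inv_cancel, th_id]
theorem th_inj (h : G) : Function.Injective (X.th h) := fun x y e => by
  rw [← X.th_inv h x, e, th_inv]
theorem th_eq_zero {h : G} {x : Mat n F} : X.th h x = 0 ↔ x = 0 :=
  ⟨fun e => X.th_inj h (e.trans (X.th_zero h).symm), fun e => by rw [e, th_zero]⟩
theorem th_sc (h : G) {x : Mat n F} : Sc (X.th h x) ↔ Sc x := by
  have key : ∀ h x, Sc x → Sc (X.th h x) := by
    rintro h _ ⟨a, rfl⟩; exact ⟨_, by rw [th_smul, th_one]⟩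
  exact ⟨fun e => X.th_inv h x ▸ key h⁻¹ _ e, key h x⟩
theorem th_adj (hu : Φ.u) (h : G) (x : Mat n F) : X.th h (Φ.adj x) = Φ.adj (X.th h x) := by
  rw [th_lin _ (X.εU hu h), th_lin _ (X.εU hu h), Φ.adj_mul, Φ.adj_mul, Φ.adj_map,
    Fm.adj_Γ (X.gΓ h) hu, Fm.adj_Γ (inv_mem (X.gΓ h)) hu, inv_inv, Matrix.mul_assoc]
theorem th_det (h : G) (x : Mat n F) : (X.th h x).det = X.σ h x.det := by
  have h1 : (x.map (X.σ h)).det = X.σ h x.det := (RingEquiv.map_det (X.σ h) x).symm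
  have h2 : ∀ y : Mat n F, ((X.g h : Mat n F) * y * ((X.g h)⁻¹ : GL (Fin n) F)).det = y.det :=
    fun y => by rw [det_mul_comm, ← Matrix.mul_assoc, Units.inv_mul, Matrix.one_mul]
  by_cases e : X.ε h = 1
  · rw [th_lin _ e, h2, h1]
  · rw [th_ant _ e, h2, det_transpose, h1]

theorem rank_map_le (σ : RingAut F) (x : Mat n F) : (x.map σ).rank ≤ x.rank := by
  have hc : ∀ y : Mat n F, Nat.card (LinearMap.range y.mulVecLin) = Nat.card F ^ y.rank :=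
    fun y => by rw [Module.natCard_eq_pow_finrank (K := F)]; rfl
  have h1 : 1 < Nat.card F := Finite.one_lt_card
  rw [← Nat.pow_le_pow_iff_right h1, ← hc, ← hc]
  refine Nat.card_le_card_of_injective (fun v => ⟨σ.symm ∘ v.1, ?_⟩) ?_
  · obtain ⟨w, hw⟩ := v.2
    refine ⟨σ.symm ∘ w, funext fun i => ?_⟩
    simp [← hw, mulVec, dotProduct]
  · intro v w e
    exact Subtype.ext (funext fun i => σ.symm.injective (congrFun (congrArg Subtype.val e) i))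

theorem th_rank (h : G) (x : Mat n F) : (X.th h x).rank = x.rank := by
  have key : ∀ h x, (X.th h x).rank ≤ x.rank := fun h x => by
    by_cases e : X.ε h = 1
    · rw [th_lin _ e]
      exact (rank_mul_le_left _ _).trans ((rank_mul_le_right _ _).trans (rank_map_le _ _))
    · rw [th_ant _ e]
      exact (rank_mul_le_left _ _).trans ((rank_mul_le_right _ _).trans
        ((rank_transpose _).le.trans (rank_map_le _ _)))
  exact le_antisymm (key h x) (by simpa [th_inv] using key h⁻¹ (X.th h x))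

theorem thS (h : G) (s : Φ.S (Fin n)) : ∃ s', mt s' = X.th h (mt s) ∧
    (X.ε h = 1 → X.π s' = h * X.π s * h⁻¹) ∧ (X.ε h ≠ 1 → X.π s' = (h * X.π s * h⁻¹)⁻¹) := by
  refine ⟨Φ.mkS (X.th h (mt s)) (by rw [th_det, mt_det, map_one]) fun hu => ?_, rfl,
    fun e => X.cjl h s _ e rfl, fun e => X.cja h s _ e rfl⟩
  rw [← th_adj _ hu, ← th_mul _ (X.εU hu h), mt_adj hu, mt_inv_mul, th_one]

theorem conj_range (h : G) (s : Φ.S (Fin n)) : ∃ s', X.π s' = h * X.π s * h⁻¹ := by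
  obtain ⟨s', -, h1, h2⟩ := X.thS h s
  by_cases e : X.ε h = 1
  · exact ⟨s', h1 e⟩
  · exact ⟨s'⁻¹, by rw [map_inv, h2 e, inv_inv]⟩

theorem pi_eq {s t : Φ.S (Fin n)} : X.π s = X.π t ↔ ∃ a : F, mt s = a • mt t := by
  rw [← mul_inv_eq_one, ← map_inv, ← map_mul, X.ker]
  refine exists_congr fun a => ⟨fun e => ?_, fun e => ?_⟩
  · have := congrArg (· * mt t) e
    simpa [mt_mul, Matrix.mul_assoc, mt_inv_mul] using this
  · rw [mt_mul, e, smul_mul_assoc, mt_mul_inv]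

theorem eq_one_of_th {h : G} (e : X.ε h = 1) (ht : ∀ s : Φ.S (Fin n), X.th h (mt s) = mt s) :
    h = 1 := X.faith h fun s => by
  have := X.cjl h s s e (ht s).symm
  rw [eq_mul_inv_iff_mul_eq] at this; exact this.symm

theorem Iv.iff {K : Subgroup G} {𝒳 : Set (Mat n F)} (hi : X.Iv K 𝒳) {h : G} (hh : h ∈ K)
    (x : Mat n F) : x ∈ 𝒳 ↔ X.th h x ∈ 𝒳 :=
  ⟨hi h hh x, fun hx => X.th_inv h x ▸ hi h⁻¹ (inv_mem hh) _ hx⟩

theorem mem_Hs {K : Subgroup G} {h : G} : h ∈ X.Hs K ↔ h ∈ K ∧ X.σ h = 1 ∧ X.ε h = 1 := by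
  simp [Hs, and_assoc]
end Tx

namespace Cx
variable (X : Cx Φ G n)

theorem mem_M {s : Φ.S (Fin n)} : s ∈ X.M ↔ X.π s ∈ X.H := Iff.rfl
theorem mem_D {x : Φ.S (Fin n)} : x ∈ X.D ↔ X.π x ∈ X.H ∧ X.π (X.s⁻¹ * x * X.s) ∈ X.H := by
  refine and_congr_right fun _ => ⟨?_, fun h => ⟨_, h, by simp [mul_assoc]⟩⟩
  rintro ⟨y, hy, rfl⟩; simpa [mul_assoc, mem_M] using hy
theorem D_le : X.D ≤ X.M := inf_le_left

theorem thR {h : G} (hh : h ∈ X.H) {x : Φ.S (Fin n)} (hx : x ∈ X.R) :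
    ∃ y ∈ X.R, mt y = X.th h (mt x) ∧ (X.ε h = 1 → X.π y = h * X.π x * h⁻¹) ∧
      (X.ε h ≠ 1 → X.π y = (h * X.π x * h⁻¹)⁻¹) := by
  obtain ⟨y, h1, h2, h3⟩ := X.thS h x
  refine ⟨y, ?_, h1, h2, h3⟩
  by_cases e : X.ε h = 1
  · exact X.Rinv h hh x hx y (h2 e)
  · exact X.Rinv h hh x⁻¹ (inv_mem hx) y (by rw [h3 e]; simp [mul_assoc])
theorem conjR {m x : Φ.S (Fin n)} (hm : X.π m ∈ X.H) (hx : x ∈ X.R) : m * x * m⁻¹ ∈ X.R :=
  X.Rinv _ hm x hx _ (by simp)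
theorem mem_R_of_pi {x y : Φ.S (Fin n)} (hx : x ∈ X.R) (e : X.π y = X.π x) : y ∈ X.R :=
  X.Rinv 1 (one_mem _) x hx y (by simpa using e)
theorem mem_R_of_smul {x y : Φ.S (Fin n)} (hx : x ∈ X.R) {a : F} (e : mt y = a • mt x) :
    y ∈ X.R := X.mem_R_of_pi hx (X.pi_eq.2 ⟨a, e⟩)

theorem MX {𝒳 : Set (Mat n F)} (hi : X.Inv 𝒳) (hp : Pr Φ 𝒳) (s : Φ.S (Fin n)) :
    X.π s ∈ X.H ↔ (s : GL (Fin n) F) ∈ St 𝒳 := by
  let T : Subgroup G :=
    { carrier := {h | ∀ x, x ∈ 𝒳 ↔ X.th h x ∈ 𝒳}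
      one_mem' := fun x => by rw [Tx.th_id]
      mul_mem' := fun {a b} ha hb x => by rw [Tx.th_th, ← ha, ← hb]
      inv_mem' := fun {a} ha x => by rw [ha (X.th a⁻¹ x), Tx.th_inv'] }
  have hT : ∀ s : Φ.S (Fin n), X.π s ∈ T ↔ (s : GL (Fin n) F) ∈ St 𝒳 := fun s =>
    forall_congr' fun x => by rw [Tx.th_pi]; rfl
  have hle : X.H ≤ T := fun h hh x => Tx.Iv.iff _ hi hh x
  obtain ⟨t, ht⟩ := hp
  have hne : T ≠ ⊤ := fun e => ht ((hT t).1 (e ▸ Subgroup.mem_top _))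
  rw [← hT, ← (X.mx.le_iff.1 hle).resolve_left hne]

variable [Finite G]

theorem D_eq : X.D = (X.H ⊓ X.H.map (MulAut.conj (X.π X.s)).toMonoidHom).comap X.π := by
  ext x; rw [mem_D, Subgroup.mem_comap, Subgroup.mem_inf]
  refine and_congr_right fun _ => ⟨fun h => ⟨_, h, by simp [mul_assoc]⟩, ?_⟩
  rintro ⟨y, hy, e⟩
  simp only [map_mul, map_inv, ← e]; simpa [mul_assoc] using hy

theorem d0_eq : X.d0 = (X.H.map (MulAut.conj (X.π X.s)).toMonoidHom).relIndex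
    (X.H ⊓ X.π.range) := by
  rw [d0, D_eq, M, Subgroup.relIndex_comap, Subgroup.map_comap_eq, inf_comm X.π.range,
    ← Subgroup.inf_relIndex_right, ← Subgroup.inf_relIndex_right (X.H.map _)]
  congr 1; ext; simp only [Subgroup.mem_inf]; tauto

theorem d0_le : X.d0 ≤ X.d := by
  rw [d0_eq, ← X.hd]
  exact Subgroup.relIndex_le_of_le_right inf_le_left Subgroup.FiniteIndex.index_ne_zero

theorem d0_pos : 0 < X.d0 := Nat.pos_of_ne_zero Subgroup.FiniteIndex.index_ne_zero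

theorem OB {α : Type*} (φ : Φ.S (Fin n) → α) (hφ : ∀ m ∈ X.M, ∀ y ∈ X.D, φ (m * y) = φ m) :
    Nat.card (φ '' X.M) ≤ X.d0 := by
  let ψ : X.M ⧸ X.D.subgroupOf X.M → φ '' X.M := fun c => ⟨φ c.out, _, c.out.2, rfl⟩
  refine Nat.card_le_card_of_surjective ψ ?_
  rintro ⟨_, m, hm, rfl⟩
  refine ⟨QuotientGroup.mk ⟨m, hm⟩, Subtype.ext ?_⟩
  obtain ⟨y, hy⟩ := QuotientGroup.mk_out_eq_mul (X.D.subgroupOf X.M) ⟨m, hm⟩
  simp only [ψ, hy]; exact hφ m hm _ y.2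

theorem CV : ∃ T : Finset (Φ.S (Fin n)), T.card ≤ X.d0 ∧
    ∀ m ∈ X.M, ∃ t ∈ T, t ∈ X.M ∧ ∃ y ∈ X.D, m = t * y := by
  classical
  have := Fintype.ofFinite (X.M ⧸ X.D.subgroupOf X.M)
  refine ⟨Finset.univ.image fun c : X.M ⧸ X.D.subgroupOf X.M => (c.out : Φ.S (Fin n)),
    Finset.card_image_le.trans (by rw [Finset.card_univ, ← Nat.card_eq_fintype_card]; rfl),
    fun m hm => ?_⟩
  obtain ⟨y, hy⟩ := QuotientGroup.mk_out_eq_mul (X.D.subgroupOf X.M) ⟨m, hm⟩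
  refine ⟨_, Finset.mem_image_of_mem _ (Finset.mem_univ (QuotientGroup.mk ⟨m, hm⟩)),
    Subtype.property _, (y.1⁻¹ : X.M), (inv_mem y.2 : y.1⁻¹ ∈ _), ?_⟩
  rw [hy]; simp

theorem DB (h1 : ∃ h ∈ X.H, X.ε h ≠ 1)
    (h2 : ∀ h ∈ X.H, (X.π X.s)⁻¹ * h * X.π X.s ∈ X.H → X.ε h = 1) : 2 * X.d0 ≤ X.d := by
  set K := X.H.map (MulAut.conj (X.π X.s)).toMonoidHom
  have hK : X.H ⊓ K ≤ X.H ⊓ X.ε.ker := by
    rintro x ⟨hx, y, hy, rfl⟩
    exact ⟨hx, h2 _ hx (by simpa [mul_assoc] using hy)⟩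
  have e1 := Subgroup.relIndex_mul_relIndex _ _ _ hK (inf_le_left : _ ≤ X.H)
  rw [Subgroup.inf_relIndex_left, Subgroup.inf_relIndex_left X.H K, X.hd] at e1
  have e2 : 2 ≤ X.ε.ker.relIndex X.H := by
    obtain ⟨h, hh, e⟩ := h1
    have a0 : X.ε.ker.relIndex X.H ≠ 0 := Subgroup.FiniteIndex.index_ne_zero
    have a1 : X.ε.ker.relIndex X.H ≠ 1 := fun a => e (Subgroup.relIndex_eq_one.1 a hh)
    omega
  have e3 : X.d0 ≤ (X.H ⊓ K).relIndex (X.H ⊓ X.ε.ker) := by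
    have : X.d0 = (X.H ⊓ K).relIndex (X.H ⊓ X.π.range) := by
      rw [d0_eq, ← Subgroup.inf_relIndex_right, ← Subgroup.inf_relIndex_right (X.H ⊓ K)]
      congr 1; ext; simp only [Subgroup.mem_inf]; tauto
    rw [this]
    refine Subgroup.relIndex_le_of_le_right (inf_le_inf_left _ ?_)
      Subgroup.FiniteIndex.index_ne_zero
    rintro _ ⟨s, rfl⟩; exact X.επ s
  rw [← e1, mul_comm]; exact Nat.mul_le_mul e3 e2

theorem R_pow {y : Φ.S (Fin n)} (hy : y ∈ X.R) : ∃ j, Sc (mt y ^ X.r ^ j) := by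
  obtain ⟨j, hj⟩ := X.Rr ⟨X.π y, y, hy, rfl⟩
  exact ⟨j, by rw [← mt_pow, ← X.ker, map_pow]; exact congrArg Subtype.val hj⟩

theorem R_ord {y : Φ.S (Fin n)} (hy : y ∈ X.R) :
    ∃ j, y ^ (X.r ^ j * (Fintype.card F - 1)) = 1 := by
  obtain ⟨j, a, ha⟩ := X.R_pow hy
  have := X.ne
  refine ⟨j, mt_inj ?_⟩
  rw [mt_pow, pow_mul, ha, smul_pow, one_pow, FiniteField.pow_card_sub_one_eq_one a
    (sc_Mu (s := y ^ X.r ^ j) (by rw [mt_pow, ha])).ne, one_smul, mt_one]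

theorem cop (hr : X.r ≠ Φ.p) (j : ℕ) : Φ.p.Coprime (X.r ^ j * (Fintype.card F - 1)) := by
  refine Nat.Coprime.mul_right (((Nat.coprime_primes Φ.pp X.rp).2 hr.symm).pow_right _) ?_
  have := Φ.ch
  obtain ⟨m, -, hm⟩ := FiniteField.card F Φ.p
  rw [Φ.pp.coprime_iff_not_dvd]
  intro h
  have h1 : Φ.p ∣ Fintype.card F := hm ▸ dvd_pow_self _ m.ne_zero
  have := (Nat.dvd_sub h1 h)
  rw [Nat.sub_sub_self Fintype.card_pos] at this
  exact Φ.pp.one_lt.ne' (Nat.dvd_one.1 this)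

theorem RP (hr : X.r ≠ Φ.p) {y : Φ.S (Fin n)} (hy : y ∈ X.R) (h : y ^ Φ.p = 1) : y = 1 := by
  obtain ⟨j, hj⟩ := X.R_ord hy
  rw [← orderOf_eq_one_iff]
  exact Nat.eq_one_of_dvd_coprimes (X.cop hr j) (orderOf_dvd_of_pow_eq_one h)
    (orderOf_dvd_of_pow_eq_one hj)

theorem R_cop (hr : X.r ≠ Φ.p) : Φ.p.Coprime (Nat.card X.R) := by
  have := Fact.mk Φ.pp
  rw [Φ.pp.coprime_iff_not_dvd]
  intro h
  obtain ⟨y, hy⟩ := exists_prime_orderOf_dvd_card' _ h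
  have h1 : y = 1 := Subtype.ext (X.RP hr y.2 (by
    rw [← hy]; exact congrArg Subtype.val (pow_orderOf_eq_one y)))
  rw [h1, orderOf_one] at hy; exact Φ.pp.one_lt.ne hy

theorem r_le : X.r ≤ X.d := by
  obtain ⟨x, hx, hs⟩ := X.Rne
  refine X.pr _ X.rp ?_
  have hle : X.R.map X.π ≤ X.H := by rintro _ ⟨y, hy, rfl⟩; exact X.RH y hy
  refine dvd_trans ?_ (Subgroup.card_dvd_of_le hle)
  have : Nontrivial (X.R.map X.π) := (Subgroup.nontrivial_iff_exists_ne_one _).2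
    ⟨_, ⟨x, hx, rfl⟩, fun e => hs ((X.ker x).1 e)⟩
  obtain ⟨j, hj, e⟩ := (IsPGroup.nontrivial_iff_card X.Rr).1 this
  rw [e]; exact dvd_pow_self _ hj.ne'
end Cx

end H22.SB
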