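import Cfsg.Agent.H17.FV0

/-! S5720: uniserial modules of odd weight. -/

set_option autoImplicit false
set_option linter.unusedSectionVars false
set_option linter.unusedVariables false

open Module H17.FV

namespace H22.FV

universe v w

theorem rk_map {K M : Type*} [Field K] [AddCommGroup M] [Module K M] [FiniteDimensional K M] (f : End K M)
    (S : Submodule K M) : finrank K (S.map f) + finrank K ↥(LinearMap.ker f ⊓ S) = finrank K S := by
  rw [← LinearMap.finrank_range_add_finrank_ker (f.domRestrict S), LinearMap.range_domRestrict,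
    LinearMap.ker_domRestrict, ← Submodule.finrank_map_subtype_eq S (Submodule.comap _ _),
    Submodule.map_comap_subtype, inf_comm]

theorem sm (ch : CH.{v, w}) (s2 : S2.{v, w}) (sl : SL.{v, w}) (su : SU.{v, w}) : SM.{v, w} := by
  intro K A M _ _ _ _ _ _ _ _ p _ _ D ν hp hν ef s j v c u hj
  obtain ⟨ev, two⟩ := s2 K A M p D ν hp hν ef s j v c u hj
  by_cases e2 : s = 2
  · exact two e2
  obtain ⟨b, hb⟩ := u.bas
  have hv : D.H (-1) • v = -v := by
    rw [← u.wt, ← mul_smul, ef.Hπ, smul_assoc, Units.val_neg, Units.val_one, hj.neg_one_pow, map_neg, map_one,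
      neg_one_smul]
  have hz : ∀ m : M, D.H (-1) • m = -m := fun m => by
    have : act K M (D.H (-1)) = -LinearMap.id := b.ext fun i => by
      show D.H (-1) • b i = -b i
      rw [hb, ← mul_smul, D.zc, mul_smul, hv, smul_neg]
    exact LinearMap.congr_fun this m
  have pos := u.pos
  have h1 := sl K A M p D ν hp hν ef hz
  have h2 := su K A M p D ν hp hν ef s j v c u hz (by obtain ⟨k, rfl⟩ := ev; omega)
  have h3 := ch K A M p D ν hp hν ef 3
  have h4 := rk_map (act K M (D.e ^ ((p - 1) / 2))) (LinearMap.range (act K M (D.π 3)))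
  rw [← LinearMap.range_comp, ← End.mul_eq_comp, ← map_mul] at h4
  change rk K M (D.e ^ ((p - 1) / 2) * D.π 3) + _ = _ at h4
  have h5 := LinearMap.finrank_range_add_finrank_ker (act K M D.e)
  have h6 : finrank K M = s := by simpa using finrank_eq_card_basis b
  have h7 : finrank K M ≤ rk K M D.e + 1 := by
    have t : LinearMap.range (act K M D.e) ⊔ K ∙ v = ⊤ := top_le_iff.1 (b.span_eq.ge.trans (Submodule.span_le.2 (by
      rintro _ ⟨⟨i, hi⟩, rfl⟩
      rw [hb]
      rcases i with _ | i
      · exact Submodule.mem_sup_right (by simp)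
      · exact Submodule.mem_sup_left ⟨D.e ^ i • v, by simp [pow_succ', mul_smul]⟩)))
    have := Submodule.finrank_add_le_finrank_add_finrank (LinearMap.range (act K M D.e)) (K ∙ v)
    rw [t, finrank_top] at this
    exact this.trans (Nat.add_le_add_left ((finrank_span_le_card _).trans (by simp)) _)
  unfold Dat.Ineq
  obtain ⟨k, rfl⟩ := ev
  simp only [rk] at *
  omega

end H22.FV
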