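import Cfsg.Agent.H17.FV0
import Cfsg.Agent.H11.SL2Schur

/-! S5720: minimal central covers of `SL₂(p)`. -/

set_option autoImplicit false

open H17.FV Subgroup H11 H13.SL2
open scoped MatrixGroups

namespace H22.FV

universe u

def a7 : SL(2, ZMod 7) := ⟨!![2, 0; 0, 4], by decide⟩
def b7 : SL(2, ZMod 7) := ⟨!![2, 2; 0, 4], by decide⟩

theorem stem {K : Type*} [Field K] [Fintype K] (hp : (Fintype.card K).Prime) {Γ : Type*} [Group Γ]
    {τ : Γ →* SL(2, K)} (hτ : Cfsg.IsStemExtension τ) : τ.ker = ⊥ := by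
  refine sl2_ker_eq_bot_of_noStem hτ ?_
  choose X hX using fun t : K => hτ.1 (x t)
  have key : ∀ s, ∃ n : ℕ, τ (X 1 ^ n) = τ (X s) := fun s => by
    obtain ⟨n, rfl⟩ := exists_natCast_eq hp s
    refine ⟨n, ?_⟩
    rw [map_pow, hX, hX]
    induction n with
    | zero => simp
    | succ n ih => rw [pow_succ, ih, ← x_add]; simp
  refine noStem_of_comm fun a b ha hb => ?_
  obtain ⟨s, hs⟩ := mem_upper.1 ha
  obtain ⟨t, ht⟩ := mem_upper.1 hb
  obtain ⟨m, hm⟩ := key s
  obtain ⟨n, hn⟩ := key t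
  exact commute_congr hτ.2.1 (hm.trans ((hX s).trans hs.symm)) (hn.trans ((hX t).trans ht.symm))
    (Commute.pow_pow_self _ _ _)

theorem g4 : G4.{u} := by
  refine ⟨fun X _ _ p _ f hp m c => ?_, fun h => absurd (h a7 b7 (by decide) (by decide) (by decide) (by decide)
    (by decide) (by decide)) (by decide)⟩
  have k := ZMod.card p
  have e : commutator X = ⊤ := m.min _ (by
    rw [map_commutator_eq, MonoidHom.range_eq_top.2 m.surj]
    exact H11.sl2_perfect (by omega))
  exact (MonoidHom.ker_eq_bot_iff f).1 (stem (k.symm ▸ Fact.out) ⟨m.surj, c, e ▸ le_top⟩)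

end H22.FV
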