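import Cfsg.Agent.H0.RU0
import Cfsg.Agent.H12.Zsig

/-! S2196, chunks LA and ZS. -/

set_option autoImplicit false

namespace H22.RU
open Module H0.RU

universe u

theorem zm2 : ∀ a : ZMod 2, a = 0 ∨ a = 1 := by decide

theorem zs : ZS := by
  intro q e hq he
  have k2 : ∀ (r : ℕ) (a : ZMod r) (m : ℕ), (-a) ^ m = 1 → orderOf a ∣ 2 * m := fun r a m h => by
    rw [orderOf_dvd_iff_pow_eq_one, ← Even.neg_pow (by simp), mul_comm, pow_mul, h, one_pow]
  rcases Nat.even_or_odd e with ⟨h, rfl⟩ | ho
  · rcases Nat.even_or_odd h with he | ho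
    · obtain ⟨r, hr, e⟩ := H12.zsigmondy (a := q) (n := 2 * h) (by omega) (by omega) (by omega)
        (by omega)
      refine ⟨r, hr, (orderOf_eq_iff (by omega)).2 ⟨?_, fun m h1 h2 h3 => ?_⟩⟩
      · rw [Even.neg_pow (by simp), ← two_mul, ← e, pow_orderOf_eq_one]
      · obtain ⟨c, rfl⟩ := Nat.dvd_of_mul_dvd_mul_left two_pos (e ▸ k2 r q m h3)
        rw [(he.mul_right c).neg_pow, ← orderOf_dvd_iff_pow_eq_one, e] at h3
        have := Nat.le_of_dvd h2 h3
        omega
    · obtain ⟨r, hr, e⟩ := H12.zsigmondy (a := q) (n := h) (by omega) (by omega) (by omega)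
        (by have := Nat.odd_iff.1 ho; omega)
      have := Fact.mk hr
      have h2 : r ≠ 2 := by
        rintro rfl
        rcases zm2 q with h1 | h1 <;> rw [h1] at e <;> simp at e <;> omega
      have h3 : orderOf (-1 : ZMod r) = 2 := by
        rw [orderOf_neg_one, ZMod.ringChar_zmod_n, if_neg h2]
      refine ⟨r, hr, ?_⟩
      rw [← neg_one_mul, (Commute.all _ _).orderOf_mul_eq_mul_orderOf_of_coprime
        (by rw [e, h3]; exact Nat.coprime_two_left.2 ho), e, h3, two_mul]
  · obtain ⟨r, hr, h⟩ := H12.zsigmondy (a := q) (n := 2 * e) (by omega) (by omega) (by omega)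
      (by omega)
    have := Fact.mk hr
    refine ⟨r, hr, (orderOf_eq_iff (by omega)).2 ⟨?_, fun m h1 h2 h3 => ?_⟩⟩
    · have h1 : ((q : ZMod r) ^ e) ^ 2 = 1 := by rw [← pow_mul, mul_comm, ← h, pow_orderOf_eq_one]
      rcases mul_self_eq_one_iff.1 (sq (_ : ZMod r) ▸ h1) with h2 | h2
      · have := Nat.le_of_dvd (by omega) (h ▸ orderOf_dvd_iff_pow_eq_one.2 h2)
        omega
      · rw [ho.neg_pow, h2, neg_neg]
    · have := Nat.le_of_dvd (by omega) (h ▸ k2 r q m h3)
      omega

section
variable {E : Type u} [AddCommGroup E] [Module ℂ E] {S A : End ℂ E} {Q c x y z : ℂ}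

def Cub (A : End ℂ E) (x y z : ℂ) : Prop :=
  ∀ v, A (A (A v)) = (x + y + z) • A (A v) - (x * y + y * z + z * x) • A v + (x * y * z) • v
def Qua (A : End ℂ E) (x y : ℂ) : Prop := ∀ v, A (A v) = (x + y) • A v - (x * y) • v
def Eg (A : End ℂ E) (x : ℂ) : Prop := ∃ v, v ≠ 0 ∧ A v = x • v

theorem Cub.rot (h : Cub A x y z) : Cub A y z x := fun v => by rw [h v]; module
theorem Cub.swap (h : Cub A x y z) : Cub A y x z := fun v => by rw [h v]; module
theorem Qua.swap (h : Qua A x y) : Qua A y x := fun v => by rw [h v]; module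

theorem Cub.qua (h : Cub A x y z) (e : ¬ Eg A z) : Qua A x y := fun v => by
  by_contra n
  refine e ⟨_, sub_ne_zero.2 n, ?_⟩
  simp only [map_sub, map_smul, h v]
  module

theorem Qua.lin (h : Qua A x y) (e : ¬ Eg A y) (v : E) : A v = x • v := by
  by_contra n
  refine e ⟨_, sub_ne_zero.2 n, ?_⟩
  simp only [map_sub, map_smul, h v]
  module

theorem Qua.dim [FiniteDimensional ℂ E] (h : Qua A x y) : finrank ℂ E ≤
    finrank ℂ (LinearMap.ker (A - x • 1)) + finrank ℂ (LinearMap.ker (A - y • 1)) := by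
  rw [← LinearMap.finrank_range_add_finrank_ker (A - y • 1)]
  refine Nat.add_le_add_right (Submodule.finrank_mono ?_) _
  rintro _ ⟨v, rfl⟩
  simp only [LinearMap.mem_ker, LinearMap.sub_apply, LinearMap.smul_apply, End.one_apply, map_sub,
    map_smul, h v]
  module

theorem eig (R : ∀ w, Q • A w + S (A (S w)) = c • w) {v : E} {s : ℂ} (h0 : v ≠ 0)
    (h1 : A v = x • v) (h2 : S v = s • v) : c = (s ^ 2 + Q) * x := by
  have := R v
  simp only [map_smul, h1, h2] at this
  exact smul_left_injective ℂ h0 (by linear_combination (norm := module) -this)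

theorem inv (hQ : Q ≠ 0) (R : ∀ w, Q • A w + S (A (S w)) = c • w) (h : Cub A x y z)
    (n1 : c ≠ Q * (z + x)) (n2 : c ≠ Q * (z + y)) {v : E} (hv : A v = z • v) :
    A (S v) = z • S v := by
  have h1 := R (A (S v))
  have h2 := congrArg (fun w => S (A w)) (R v)
  simp only [map_add, map_smul, hv] at h2
  have h3 : Q • A (A (S v) - z • S v) = (c - Q * z) • (A (S v) - z • S v) := by
    simp only [map_sub, map_smul]
    linear_combination (norm := module) h1 - h2
  have h4 : A (A (A (S v) - z • S v)) = (x + y) • A (A (S v) - z • S v) -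
      (x * y) • (A (S v) - z • S v) := by
    simp only [map_sub, map_smul, h (S v)]
    module
  rw [← sub_eq_zero]
  generalize A (S v) - z • S v = w at h3 h4
  have h5 := congrArg A h3
  simp only [map_smul] at h5
  have : ((c - Q * (z + x)) * (c - Q * (z + y))) • w = 0 := by
    linear_combination (norm := module) (Q ^ 2) • h4 - Q • h5 - (c - Q * (x + y + z)) • h3
  exact (smul_eq_zero.1 this).resolve_left (mul_ne_zero (sub_ne_zero.2 n1) (sub_ne_zero.2 n2))

theorem val (hQ : Q ≠ 0) (hS : Qua S Q (-1)) (R : ∀ w, Q • A w + S (A (S w)) = c • w)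
    (h : Cub A x y z) (n1 : c ≠ Q * (z + x)) (n2 : c ≠ Q * (z + y)) (e : Eg A z) :
    c = (Q ^ 2 + Q) * z ∨ c = (Q + 1) * z := by
  obtain ⟨v, h0, hv⟩ := e
  by_cases k : S v + v = 0
  · right
    rw [eig R h0 hv (s := -1) (by linear_combination (norm := module) k)]; ring
  · exact Or.inl (eig R k (by rw [map_add, inv hQ R h n1 n2 hv, hv, smul_add])
      (by rw [map_add, hS v]; module))

end

theorem la : LA.{u} := by
  intro E _ _ _ _ S A Q c a hQ hQ1 ha h1 h2 hS hA hR
  have R : ∀ w, Q • A w + S (A (S w)) = c • w := fun w => congrArg (· w) hR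
  have qS : Qua S Q (-1) := fun v => by
    have : S (S v) = (Q - 1) • S v + Q • v := congrArg (· v) hS
    rw [this]; module
  have cub : Cub A (a 0) (a 1) (a 2) := fun v => by
    have := congrArg (· v) hA
    simp only [End.mul_apply, LinearMap.sub_apply, LinearMap.smul_apply, End.one_apply, map_sub,
      map_smul, LinearMap.zero_apply] at this
    linear_combination (norm := module) this
  have third : ∀ i j : Fin 3, i ≠ j → ∃ l, l ≠ i ∧ l ≠ j ∧ Cub A (a i) (a j) (a l) := by
    intro i j h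
    fin_cases i <;> fin_cases j <;> simp at h
    exacts [⟨2, by decide, by decide, cub⟩, ⟨1, by decide, by decide, cub.rot.rot.swap⟩,
      ⟨2, by decide, by decide, cub.swap⟩, ⟨0, by decide, by decide, cub.rot⟩,
      ⟨1, by decide, by decide, cub.rot.rot⟩, ⟨0, by decide, by decide, cub.rot.swap⟩]
  refine ⟨fun v hv => ?_, ?_⟩
  · have := R v
    simp only [map_smul, hv, map_sub] at this ⊢
    linear_combination (norm := module) (Q + 1) • this
  by_cases hp : ∃ i j, i ≠ j ∧ c = Q * (a i + a j)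
  · obtain ⟨i, j, hij, hc⟩ := hp
    obtain ⟨l, l1, l2, cl⟩ := third i j hij
    have q : Qua A (a i) (a j) := cl.qua fun e => by
      rcases val hQ qS R cl (fun h => l2 (ha (by
        have := mul_left_cancel₀ hQ (hc.symm.trans h); linear_combination -this)))
        (fun h => l1 (ha (by
        have := mul_left_cancel₀ hQ (hc.symm.trans h); linear_combination -this))) e with h | h
      · exact (h2 l i j hij).1 (h.symm.trans hc)
      · exact (h2 l i j hij).2 (h.symm.trans hc)
    have d : ∀ s m, s = Q ∨ s = -1 → finrank ℂ (LinearMap.ker (S - s • 1)) +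
        finrank ℂ (LinearMap.ker (A - a m • 1)) ≤ finrank ℂ E := fun s m hs =>
      Submodule.finrank_add_finrank_le_of_disjoint (Submodule.disjoint_def.2 fun v e1 e2 => by
        by_contra h0
        have := eig R h0 (sub_eq_zero.1 e2) (sub_eq_zero.1 e1)
        rcases hs with rfl | rfl
        · exact (h2 m i j hij).1 (this.symm.trans hc)
        · exact (h2 m i j hij).2 (by rw [← hc, this]; ring))
    have d1 := d Q i (.inl rfl)
    have d2 := d Q j (.inl rfl)
    have d3 := d (-1) i (.inr rfl)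
    have d4 := d (-1) j (.inr rfl)
    have d5 := q.dim
    have d6 := qS.dim
    refine .inr (.inr ⟨i, j, hij, hc, LinearMap.ext fun v => ?_, by omega, by omega, by omega⟩)
    simp only [End.mul_apply, LinearMap.sub_apply, LinearMap.smul_apply, End.one_apply, map_sub,
      map_smul, LinearMap.zero_apply, q v]
    module
  have vl : ∀ l, Eg A (a l) → c = (Q ^ 2 + Q) * a l ∨ c = (Q + 1) * a l := fun l e => by
    obtain ⟨i, hi⟩ := exists_ne l
    obtain ⟨j, j1, j2, cl⟩ := third i l hi
    exact val hQ qS R cl.swap.rot (fun h => hp ⟨l, i, hi.symm, h⟩)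
      (fun h => hp ⟨l, j, j2.symm, h⟩) e
  have un : ∀ i j, Eg A (a i) → Eg A (a j) → i = j := fun i j e1 e2 => by
    rcases vl i e1 with k1 | k1 <;> rcases vl j e2 with k2 | k2
    · exact ha (mul_left_cancel₀ (by rw [sq, ← mul_add_one]; exact mul_ne_zero hQ hQ1)
        (k1.symm.trans k2))
    · exact absurd (k1.symm.trans k2) (h1 i j)
    · exact absurd (k2.symm.trans k1) (h1 j i)
    · exact ha (mul_left_cancel₀ hQ1 (k1.symm.trans k2))
  obtain ⟨i, ei⟩ : ∃ i, Eg A (a i) := by
    by_contra n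
    obtain ⟨v, hv⟩ := exists_ne (0 : E)
    exact n ⟨0, v, hv, (cub.qua fun e => n ⟨2, e⟩).lin (fun e => n ⟨1, e⟩) v⟩
  obtain ⟨j, hj⟩ := exists_ne i
  obtain ⟨l, l1, -, cl⟩ := third i j hj.symm
  have lin := (cl.qua fun e => l1 (un _ _ e ei)).lin fun e => hj (un _ _ e ei)
  rcases vl i ei with k | k
  · refine .inl ⟨i, k, LinearMap.ext (qS.lin fun ⟨v, h0, hv⟩ => h1 i i ?_), LinearMap.ext lin⟩
    rw [← k, eig R h0 (lin v) hv]; ring
  · refine .inr (.inl ⟨i, k, LinearMap.ext fun v => (qS.swap.lin (fun ⟨v, h0, hv⟩ => h1 i i ?_) v).trans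
      (neg_one_smul _ _), LinearMap.ext lin⟩)
    rw [← k, eig R h0 (lin v) hv]

end H22.RU
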