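import Cfsg.Agent.H29.AH0

/-! S4162, chunk S6, group part: self-centralizing elements of order three in solvable groups. -/

set_option autoImplicit false

namespace H22.AH
open Subgroup H29.AH

variable {G G' : Type*} [Group G] [Group G']

/-- self-centralizing element of order three -/
def SC (s : G) : Prop := orderOf s = 3 ∧ ∀ g, Commute g s → g ∈ zpowers s

theorem SC.of_cc [Finite G] {s : G} (h : orderOf s = 3) (hc : cc s ≤ 3) : SC s := by
  refine ⟨h, fun g hg => ?_⟩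
  have h1 : zpowers s ≤ centralizer ({s} : Set G) := zpowers_le.2 (mem_cc.2 (Commute.refl s))
  have h2 := eq_of_le_of_card_ge h1 (by rw [Nat.card_zpowers, h]; exact hc)
  rw [h2]; exact mem_cc.2 hg

theorem SC.le3 [Finite G] {s : G} (h : SC s) : cc s ≤ 3 := by
  rw [← h.1, ← Nat.card_zpowers]
  exact card_le_of_le fun g hg => h.2 g (mem_cc.1 hg)

theorem pow3 {s : G} (h : orderOf s = 3) : s ^ 3 = 1 := by rw [← h, pow_orderOf_eq_one]

theorem ne1 {s : G} (h : orderOf s = 3) : s ≠ 1 := by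
  rintro rfl; simp at h

theorem inv_eq {s : G} (h : orderOf s = 3) : s⁻¹ = s ^ 2 := by
  rw [inv_eq_iff_mul_eq_one, ← pow_succ', pow3 h]

theorem mem3 [Finite G] {s g : G} (h : orderOf s = 3) (hg : g ∈ zpowers s) :
    g = 1 ∨ g = s ∨ g = s⁻¹ := by
  obtain ⟨k, hk⟩ := mem_powers_iff_mem_zpowers.2 hg
  rw [← show s ^ k = g from hk, ← pow_mod_orderOf, h, inv_eq h]
  have : k % 3 < 3 := Nat.mod_lt _ (by norm_num)
  generalize k % 3 = j at this
  interval_cases j <;> simp

theorem ord3 {s : G} (h3 : s ^ 3 = 1) (h1 : s ≠ 1) : orderOf s = 3 :=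
  have : Fact (Nat.Prime 3) := ⟨Nat.prime_three⟩
  orderOf_eq_prime h3 h1

theorem ne_inv {s : G} (h : orderOf s = 3) : s⁻¹ ≠ s := fun h1 => ne1 h (by
  have h2 := pow3 h
  rw [pow_succ, pow_two, show s * s = 1 by nth_rw 1 [← h1]; simp, one_mul] at h2
  exact h2)

theorem SC.inv {s : G} (h : SC s) : SC s⁻¹ :=
  ⟨by rw [orderOf_inv, h.1], fun g hg => by
    rw [zpowers_inv]; exact h.2 g (by simpa using hg.inv_right)⟩

theorem SC.conj {s x : G} (h : SC s) (hx : IsConj s x) : SC x := by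
  obtain ⟨c, rfl⟩ := isConj_iff.1 hx
  refine ⟨(orderOf_injective (MulAut.conj c).toMonoidHom (MulAut.conj c).injective s).trans h.1,
    fun g hg => ?_⟩
  obtain ⟨k, hk⟩ := mem_zpowers_iff.1 (h.2 (c⁻¹ * g * c) (by
    have := hg.eq
    rw [Commute, SemiconjBy]
    calc c⁻¹ * g * c * s = c⁻¹ * (g * (c * s * c⁻¹)) * c := by group
      _ = _ := by rw [this]; group))
  exact mem_zpowers_iff.2 ⟨k, by rw [conj_zpow, hk]; group⟩

/-- all elements of order three are conjugate to `s` or `s⁻¹` -/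
theorem SC.ord [Finite G] {s x : G} (h : SC s) (hx : orderOf x = 3) :
    IsConj s x ∨ IsConj s⁻¹ x := by
  have : Fact (Nat.Prime 3) := ⟨Nat.prime_three⟩
  have hp : ∀ y : G, orderOf y = 3 → IsPGroup 3 (zpowers y) := fun y hy =>
    IsPGroup.of_card (n := 1) (by rw [Nat.card_zpowers, hy, pow_one])
  obtain ⟨P, hP⟩ := (hp s h.1).exists_le_sylow
  obtain ⟨R, hR⟩ := (hp x hx).exists_le_sylow
  have hsP : s ∈ (P : Subgroup G) := hP (mem_zpowers s)
  have : Nontrivial (P : Subgroup G) :=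
    ⟨⟨⟨s, hsP⟩, 1, fun h1 => ne1 h.1 (congrArg Subtype.val h1)⟩⟩
  have := P.isPGroup'.center_nontrivial
  obtain ⟨z, hz⟩ := exists_ne (1 : center (P : Subgroup G))
  have hc : ∀ g ∈ (P : Subgroup G), Commute g (z : (P : Subgroup G)) := fun g hg =>
    congrArg Subtype.val (mem_center_iff.1 z.2 ⟨g, hg⟩)
  have hPs : ∀ g ∈ (P : Subgroup G), g ∈ zpowers s := fun g hg => h.2 g (by
    rcases mem3 h.1 (h.2 _ (hc s hsP).symm) with h1 | h1 | h1
    · exact absurd (Subtype.ext (Subtype.ext h1)) hz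
    · rw [← h1]; exact hc g hg
    · have := hc g hg
      rw [h1] at this
      simpa using this.inv_right)
  obtain ⟨c, hc⟩ := MulAction.exists_smul_eq G R P
  have h1 : c * x * c⁻¹ ∈ (P : Subgroup G) := by
    rw [← hc, Sylow.coe_subgroup_smul]
    exact smul_mem_pointwise_smul _ (MulAut.conj c) _ (hR (mem_zpowers x))
  rcases mem3 h.1 (hPs _ h1) with h2 | h2 | h2
  · exact absurd (by simpa using h2) (ne1 hx)
  · exact Or.inl (isConj_iff.2 ⟨c, h2⟩).symm
  · exact Or.inr (isConj_iff.2 ⟨c, h2⟩).symm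

/-- elements of order divisible by three -/
theorem SC.dvd [Finite G] {s g : G} (h : SC s) (hg : 3 ∣ orderOf g) :
    IsConj s g ∨ IsConj s⁻¹ g := by
  have h0 := orderOf_pos g
  have hx : orderOf (g ^ (orderOf g / 3)) = 3 := orderOf_pow_orderOf_div h0.ne' hg
  have hs : SC (g ^ (orderOf g / 3)) := (h.ord hx).elim h.conj h.inv.conj
  rcases mem3 hx (hs.2 g ((Commute.refl g).pow_right _)) with h1 | h1 | h1
  · rw [h1] at hg; simp at hg
  · exact h.ord (h1 ▸ hx)
  · exact h.ord (by rw [h1, orderOf_inv, hx])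

/-- an element commuting with `s` and with an inverter of `s` is trivial -/
theorem SC.fix [Finite G] {s e g : G} (h : SC s) (he : e * s * e⁻¹ = s⁻¹) (h1 : Commute g s)
    (h2 : Commute g e) : g = 1 := by
  rcases mem3 h.1 (h.2 g h1) with h3 | h3 | h3
  · exact h3
  · subst h3
    rw [← h2.eq, mul_inv_cancel_right] at he
    exact absurd he.symm (ne_inv h.1)
  · subst h3
    have : Commute s e := by simpa using h2.inv_left
    rw [← this.eq, mul_inv_cancel_right] at he
    exact absurd he.symm (ne_inv h.1)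

theorem inv_conj {s e : G} (he : e * s * e⁻¹ = s⁻¹) : e * s⁻¹ * e⁻¹ = s := by
  rw [← conj_inv, he, inv_inv]

theorem SC.sq [Finite G] {s e : G} (h : SC s) (he : e * s * e⁻¹ = s⁻¹) : e ^ 2 = 1 :=
  h.fix he (by
    rw [Commute, SemiconjBy, ← mul_inv_eq_iff_eq_mul]
    calc e ^ 2 * s * (e ^ 2)⁻¹ = e * (e * s * e⁻¹) * e⁻¹ := by rw [pow_two]; group
      _ = s := by rw [he, inv_conj he]) ((Commute.refl e).pow_left 2)

theorem ord_map {s : G} (h : orderOf s = 3) (f : G →* G') [Finite G] (hk : ¬ 3 ∣ Nat.card f.ker) :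
    orderOf (f s) = 3 :=
  ord3 (by rw [← map_pow, pow3 h, map_one]) fun h1 => hk (by
    rw [← h]; exact orderOf_dvd_natCard (⟨s, h1⟩ : f.ker) |> fun h2 => by
      rwa [← orderOf_coe] at h2)

theorem SC.map [Finite G] {s : G} (h : SC s) (f : G →* G') (hf : Function.Surjective f)
    (hk : ¬ 3 ∣ Nat.card f.ker) : SC (f s) :=
  have := Finite.of_surjective f hf
  SC.of_cc (ord_map h.1 f hk) ((cc_le f hf s).trans h.le3)

theorem ex_ab [Nontrivial G] (hs : Group.IsSolvable G) :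
    ∃ A : Subgroup G, A.Normal ∧ A ≠ ⊥ ∧ ∀ a ∈ A, ∀ b ∈ A, Commute a b := by
  classical
  obtain ⟨hs⟩ := hs
  have h0 : Nat.find hs ≠ 0 := fun h => by
    have := Nat.find_spec hs
    rw [h, derivedSeries_zero] at this
    exact top_ne_bot this
  obtain ⟨n, hn⟩ := Nat.exists_eq_succ_of_ne_zero h0
  refine ⟨derivedSeries G n, derivedSeries_normal G n, Nat.find_min hs (by omega), ?_⟩
  have := Nat.find_spec hs
  rw [hn, derivedSeries_succ, commutator_eq_bot_iff_le_centralizer] at this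
  exact fun a ha b hb => (mem_centralizer_iff.1 (this ha) b hb).symm

/-- structure of a solvable group with a self-centralizing element of order three -/
theorem SC.str [Finite G] (hs : Group.IsSolvable G) {s : G} (h : SC s) :
    ∃ Q : Subgroup G, Q.Normal ∧ ¬ 3 ∣ Nat.card Q ∧ Nat.card G ≤ 6 * Nat.card Q ∧
      (∀ g, g * s * g⁻¹ * s⁻¹ ∈ Q ∨ g * s * g⁻¹ * s ∈ Q) ∧ ∀ g, g ^ 3 ∈ Q ∨ g ^ 2 ∈ Q := by
  classical
  have : Fact (Nat.Prime 3) := ⟨Nat.prime_three⟩
  obtain ⟨Q, ⟨hQn, hQ⟩, hm⟩ := Set.exists_max_image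
    {Q : Subgroup G | Q.Normal ∧ ¬ 3 ∣ Nat.card Q} (fun Q => Nat.card Q) (Set.toFinite _)
    ⟨⊥, inferInstance, by simp⟩
  set f := QuotientGroup.mk' Q with hf
  have hsu := QuotientGroup.mk'_surjective Q
  have hk : f.ker = Q := QuotientGroup.ker_mk' Q
  have h' : SC (f s) := h.map f hsu (by rw [hk]; exact hQ)
  have : Nontrivial (G ⧸ Q) := ⟨⟨_, _, ne1 h'.1⟩⟩
  obtain ⟨A, hAn, hA0, hA⟩ := ex_ab (Group.isSolvable_of_surjective hsu)
  have hc : Nat.card (A.comap f) = Nat.card A * Nat.card Q := by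
    refine (Nat.card_congr (QuotientGroup.preimageMkEquivSubgroupProdSet Q
      (A : Set (G ⧸ Q)))).trans ?_
    rw [Nat.card_prod, mul_comm]
    rfl
  have h3 : 3 ∣ Nat.card A := by
    by_contra h3
    have h1 := hm (A.comap f) ⟨hAn.comap f, by
      rw [hc]; exact fun h => (Nat.prime_three.dvd_mul.1 h).elim h3 hQ⟩
    have h2 := (one_lt_card_iff_ne_bot A).2 hA0
    have h4 : 0 < Nat.card Q := Nat.card_pos
    rw [hc] at h1
    nlinarith
  obtain ⟨x, hx⟩ := exists_prime_orderOf_dvd_card' 3 h3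
  rw [← orderOf_coe] at hx
  have hsA : f s ∈ A := by
    rcases h'.ord hx with h1 | h1
    · obtain ⟨c, hc⟩ := isConj_iff.1 h1.symm
      rw [← hc]; exact hAn.conj_mem _ x.2 c
    · obtain ⟨c, hc⟩ := isConj_iff.1 h1.symm
      rw [← inv_mem_iff, ← hc]; exact hAn.conj_mem _ x.2 c
  have hcj : ∀ g : G ⧸ Q, g * f s * g⁻¹ = f s ∨ g * f s * g⁻¹ = (f s)⁻¹ := fun g => by
    rcases mem3 h'.1 (h'.2 _ (hA _ (hAn.conj_mem _ hsA g) _ hsA)) with h1 | h1
    · exact absurd (by simpa using h1) (ne1 h'.1)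
    · exact h1
  refine ⟨Q, hQn, hQ, ?_, fun g => ?_, fun g => ?_⟩
  · have h1 := card_cls (f s)
    have h2 : Nat.card {y // IsConj (f s) y} ≤ Nat.card Bool :=
      Nat.card_le_card_of_injective (fun y => decide ((y : G ⧸ Q) = f s)) fun a b hab => by
        obtain ⟨c, hc⟩ := isConj_iff.1 a.2
        obtain ⟨d, hd⟩ := isConj_iff.1 b.2
        have h4 := decide_eq_decide.1 hab
        have h5 := hc ▸ hcj c
        have h6 := hd ▸ hcj d
        refine Subtype.ext ?_
        rcases h5 with h5 | h5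
        · rw [h5, h4.1 h5]
        · rcases h6 with h6 | h6
          · rw [h6, h4.2 h6]
          · rw [h5, h6]
    rw [Nat.card_eq_fintype_card (α := Bool), Fintype.card_bool] at h2
    rw [card_eq_card_quotient_mul_card_subgroup Q, ← h1]
    exact Nat.mul_le_mul_right _ (Nat.mul_le_mul h2 h'.le3)
  · rw [← hk, MonoidHom.mem_ker, MonoidHom.mem_ker]
    simp only [map_mul, map_inv]
    rcases hcj (f g) with h1 | h1
    · left; rw [h1, mul_inv_cancel]
    · right; rw [h1, inv_mul_cancel]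
  · rw [← hk, MonoidHom.mem_ker, MonoidHom.mem_ker, map_pow, map_pow]
    rcases hcj (f g) with h1 | h1
    · left
      rcases mem3 h'.1 (h'.2 _ (mul_inv_eq_iff_eq_mul.1 h1)) with h2 | h2 | h2
      · rw [h2, one_pow]
      · rw [h2, pow3 h'.1]
      · rw [h2, inv_pow, pow3 h'.1, inv_one]
    · exact Or.inr (h'.sq h1)

end H22.AH
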