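import Cfsg.Agent.H22.AH1
import Mathlib.RepresentationTheory.Basic

/-! S4162, chunk S6. -/

set_option autoImplicit false

namespace H22.AH
open Subgroup H29.AH

universe u

section
variable {X G R : Type*} [Group X] [Group G] [Ring R]

theorem mi (σ : X →* R) (x : X) : σ x * σ x⁻¹ = 1 := by rw [← map_mul, mul_inv_cancel, map_one]

theorem tr [Finite G] (f : X →* G) (hf : Function.Surjective f) {s : X} (h : SC (f s))
    (σ : X →* R) {ε : R} (hε : ε = 1 ∨ ε = -1) (hk : ∀ x, f x = 1 → σ x = 1 ∨ σ x = ε)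
    (h3 : σ s + σ s⁻¹ = -1) {g : X} (hg : 3 ∣ orderOf (f g)) :
    σ g + σ g⁻¹ = -1 ∨ σ g + σ g⁻¹ = -ε := by
  obtain ⟨y, hy, hc⟩ : ∃ y, σ y + σ y⁻¹ = -1 ∧ IsConj (f y) (f g) := by
    rcases h.dvd hg with h1 | h1
    · exact ⟨s, h3, h1⟩
    · exact ⟨s⁻¹, by rw [inv_inv, add_comm, h3], by rwa [map_inv]⟩
  obtain ⟨c', hc⟩ := isConj_iff.1 hc
  obtain ⟨c, rfl⟩ := hf c'
  have ha : σ (c * y * c⁻¹) + σ (c * y * c⁻¹)⁻¹ = -1 := by
    rw [conj_inv, map_mul, map_mul, map_mul, map_mul, ← add_mul, ← mul_add, hy, mul_neg_one,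
      neg_mul, mi]
  generalize hd : c * y * c⁻¹ = a at ha
  have hx : f (g * a⁻¹) = 1 := by rw [map_mul, map_inv, ← hd, map_mul, map_mul, map_inv, hc]; simp
  have e1 : σ g = σ (g * a⁻¹) * σ a := by rw [← map_mul, inv_mul_cancel_right]
  have e2 : σ g⁻¹ = σ a⁻¹ * σ (g * a⁻¹)⁻¹ := by rw [← map_mul]; congr 1; group
  have e3 := mi σ (g * a⁻¹)
  rw [e1, e2]
  have k1 : σ (g * a⁻¹) = 1 → σ (g * a⁻¹) * σ a + σ a⁻¹ * σ (g * a⁻¹)⁻¹ = -1 := fun h1 => by
    rw [h1, one_mul] at e3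
    rw [h1, e3, one_mul, mul_one, ha]
  rcases hk _ hx with h1 | h1
  · exact Or.inl (k1 h1)
  · rcases hε with rfl | rfl
    · exact Or.inl (k1 h1)
    · rw [h1, neg_one_mul, neg_eq_iff_eq_neg] at e3
      right
      rw [h1, e3, neg_one_mul, mul_neg_one, ← neg_add, ha]

theorem dvd_q [Finite G] (Q : Subgroup G) [Q.Normal] (hQ : ¬ 3 ∣ Nat.card Q) {q y : G} (hq : q ∈ Q)
    (hy : orderOf y = 3) : 3 ∣ orderOf (q * y) := by
  have h1 := ord_map hy (QuotientGroup.mk' Q) (by rw [QuotientGroup.ker_mk']; exact hQ)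
  have h2 : QuotientGroup.mk' Q q = 1 := (QuotientGroup.eq_one_iff q).2 hq
  rw [← h1, ← one_mul (QuotientGroup.mk' Q y), ← h2, ← map_mul]
  exact orderOf_map_dvd _ _

theorem mtr [Finite G] (f : X →* G) (hf : Function.Surjective f) {s : X} (h : SC (f s))
    (σ : X →* R) {ε : R} (hε : ε = 1 ∨ ε = -1) (hk : ∀ x, f x = 1 → σ x = 1 ∨ σ x = ε)
    (h3 : σ s + σ s⁻¹ = -1) (Q : Subgroup G) [Q.Normal] (hQ : ¬ 3 ∣ Nat.card Q) {m : X}
    (hm : f m ∈ Q) : ∃ α γ : R, (α = -1 ∨ α = -ε) ∧ (γ = -1 ∨ γ = -ε) ∧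
      σ m + σ m⁻¹ = -α - γ := by
  refine ⟨_, _, tr f hf h σ hε hk h3 (g := m * s) (by rw [map_mul]; exact dvd_q Q hQ hm h.1),
    tr f hf h σ hε hk h3 (g := m * s * s) (by
      rw [mul_assoc, map_mul, map_mul, ← pow_two, ← inv_eq h.1]
      exact dvd_q Q hQ hm h.inv.1), ?_⟩
  have e1 : σ m = σ (m * s) * σ s⁻¹ := by rw [← map_mul, mul_inv_cancel_right]
  have e2 : σ m⁻¹ = σ s * σ (m * s)⁻¹ := by rw [← map_mul]; congr 1; group
  have e3 : σ (m * s * s)⁻¹ = σ s⁻¹ * σ (m * s)⁻¹ := by rw [← map_mul, ← mul_inv_rev]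
  have e4 : σ s⁻¹ = -1 - σ s := eq_sub_of_add_eq' h3
  rw [e1, e2, e3, map_mul σ (m * s) s, e4]
  noncomm_ring

theorem unip {p : ℕ} [Fact p.Prime] [Algebra (ZMod p) R] {a a' : R} {n : ℕ} (h2 : a + a' = 2)
    (h1 : a * a' = 1) (hn : a ^ n = 1) (hp : ¬ p ∣ n) : a = 1 := by
  have h3 : (a - 1) * (a - 1) = 0 := by
    have h4 : a * a + 1 = a * 2 := by rw [← h1, ← h2, mul_add]
    calc (a - 1) * (a - 1) = a * a + 1 - a * 2 := by noncomm_ring
      _ = 0 := by rw [h4, sub_self]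
  have h4 : ∀ k : ℕ, a ^ k = 1 + (k : ZMod p) • (a - 1) := fun k => by
    induction k with
    | zero => simp
    | succ k ih =>
      rw [pow_succ, ih, Nat.cast_succ, add_smul, one_smul]
      nth_rw 2 [show a = 1 + (a - 1) by abel]
      rw [add_mul, one_mul, mul_add, mul_one, smul_mul_assoc, h3, smul_zero]
      abel
  have h5 := h4 n
  rw [hn, left_eq_add, smul_eq_zero, ZMod.natCast_eq_zero_iff, sub_eq_zero] at h5
  exact h5.resolve_left hp

theorem z1 {p : ℕ} [Fact p.Prime] [Algebra (ZMod p) R] [Finite X] [Finite G]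
    (hs : Group.IsSolvable G) (f : X →* G) (hf : Function.Surjective f) {s : X} (h : SC (f s))
    (σ : X →* R) (hk : ∀ x, f x = 1 → σ x = 1) (h3 : σ s + σ s⁻¹ = -1) (hp : ¬ p ∣ Nat.card X)
    (g : X) : σ g ^ 3 = 1 ∨ σ g ^ 2 = 1 := by
  obtain ⟨Q, hQn, hQ, -, -, h5⟩ := h.str hs
  have key : ∀ m, f m ∈ Q → σ m = 1 := fun m hm => by
    obtain ⟨α, γ, ha, hg, he⟩ := mtr f hf h σ (Or.inl rfl) (fun x hx => Or.inl (hk x hx)) h3 Q hQ hm
    rw [or_self] at ha hg
    refine unip (p := p) (a' := σ m⁻¹) (n := Nat.card X) ?_ (mi σ m) ?_ hp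
    · rw [he, ha, hg]; norm_num
    · rw [← map_pow, pow_card_eq_one', map_one]
  rw [← map_pow, ← map_pow]
  exact (h5 (f g)).imp (fun h1 => key _ (by rwa [map_pow])) fun h1 => key _ (by rwa [map_pow])

theorem sc_quot [Finite X] {h : X} (h6 : h ^ 6 = 1) (h2 : h ^ 2 ≠ 1)
    (hc : ∀ g, Commute g h → g ∈ zpowers h) (hz : ∀ g, Commute g (h ^ 3)) :
    ∃ (N : Subgroup X) (_ : N.Normal), (∀ x, QuotientGroup.mk' N x = 1 ↔ x = 1 ∨ x = h ^ 3) ∧
      SC (QuotientGroup.mk' N (h ^ 2)) := by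
  have hN : ∀ x, x ∈ zpowers (h ^ 3) ↔ x = 1 ∨ x = h ^ 3 := fun x => by
    refine ⟨fun hx => ?_, fun hx => hx.elim (· ▸ one_mem _) (· ▸ mem_zpowers _)⟩
    obtain ⟨k, hk⟩ := mem_powers_iff_mem_zpowers.2 hx
    rw [← show (h ^ 3) ^ k = x from hk, pow_eq_pow_mod k (show (h ^ 3) ^ 2 = 1 by rwa [← pow_mul])]
    rcases Nat.mod_two_eq_zero_or_one k with h1 | h1 <;> simp [h1]
  have hn : (zpowers (h ^ 3)).Normal := ⟨fun x hx g => by
    rcases (hN x).1 hx with rfl | rfl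
    · simp
    · rw [(hz g).eq, mul_inv_cancel_right]; exact mem_zpowers _⟩
  have hk : ∀ x, QuotientGroup.mk' (zpowers (h ^ 3)) x = 1 ↔ x = 1 ∨ x = h ^ 3 := fun x =>
    (QuotientGroup.eq_one_iff x).trans (hN x)
  refine ⟨_, hn, hk, ord3 (by rw [← map_pow, ← pow_mul, h6, map_one]) fun h1 => ?_, fun g hg => ?_⟩
  · rcases (hk _).1 h1 with h3 | h3
    · exact h2 h3
    · rw [pow_succ h 2, left_eq_mul] at h3
      exact h2 (by rw [h3, one_pow])
  · obtain ⟨g, rfl⟩ := QuotientGroup.mk'_surjective _ g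
    have h3 : g * h ^ 2 * g⁻¹ * (h ^ 2)⁻¹ = 1 := by
      rcases (hk (g * h ^ 2 * g⁻¹ * (h ^ 2)⁻¹)).1 (by
        rw [map_mul, map_mul, map_mul, hg.eq, map_inv, map_inv]; group) with h3 | h3
      · exact h3
      · have h4 : (g * h ^ 2 * g⁻¹) ^ 3 = h ^ 6 * h ^ 6 * h ^ 3 := by
          rw [mul_inv_eq_iff_eq_mul.1 h3]; group
        rw [conj_pow, ← pow_mul, h6] at h4
        rw [h3]; simpa using h4.symm
    have h4 : Commute g (h ^ 2) := mul_inv_eq_iff_eq_mul.1 (mul_inv_eq_one.1 h3)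
    have h5 : Commute g h := by
      have := (hz g).mul_right h4.inv_right
      rwa [pow_succ' h 2, mul_inv_cancel_right] at this
    obtain ⟨k, rfl⟩ := mem_zpowers_iff.1 (hc g h5)
    rw [map_zpow]
    refine zpow_mem ?_ k
    have h7 : QuotientGroup.mk' (zpowers (h ^ 3)) h = QuotientGroup.mk' _ (h ^ 2) ^ 2 := by
      rw [← map_pow, ← pow_mul, show 2 * 2 = 1 + 3 from rfl, pow_add, map_mul,
        (hk _).2 (Or.inr rfl), pow_one, mul_one]
    rw [h7]
    exact pow_mem (mem_zpowers _) 2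

theorem pick [Finite G] (Q : Subgroup G) (h : 4 < Nat.card Q) (a b c d : G) :
    ∃ x ∈ Q, x ≠ a ∧ x ≠ b ∧ x ≠ c ∧ x ≠ d := by
  by_contra hn
  have h1 : (Q : Set G) ⊆ {a, b, c, d} := fun x hx => by
    by_contra h2
    simp only [Set.mem_insert_iff, Set.mem_singleton_iff, not_or] at h2
    exact hn ⟨x, hx, h2⟩
  have h2 := Set.ncard_le_ncard h1 (Set.toFinite _)
  have h3 := Set.ncard_insert_le a {b, c, d}
  have h4 := Set.ncard_insert_le b {c, d}
  have h5 := Set.ncard_insert_le c {d}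
  rw [Set.ncard_singleton] at h5
  have : Nat.card Q = (Q : Set G).ncard := rfl
  omega

theorem le4 [Finite G] (f : X →* G) (hf : Function.Surjective f) {t : X} (ht : f t = 1)
    (h1 : t ≠ 1) (h2 : t * t = 1) (hz : ∀ g, Commute g t) (Q : Subgroup G)
    (key : ∀ m, f m ∈ Q → f m = 1 ∨ m * m = t) : Nat.card Q ≤ 4 := by
  have sq : ∀ q ∈ Q, ∀ r, q * r = 1 → r = q := fun q hq r hr => by
    obtain ⟨m, rfl⟩ := hf q
    refine mul_left_cancel (hr.trans ?_)
    rcases key m hq with h | h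
    · rw [h, mul_one]
    · rw [← map_mul, h, ht]
  have anti : ∀ m n, f m ∈ Q → f n ∈ Q → f m ≠ 1 → f n ≠ 1 → f n ≠ f m → n * m = m * n * t :=
    fun m n hm hn a b c => by
      have e1 := (key m hm).resolve_left a
      have e2 := (key n hn).resolve_left b
      have e3 := (key (m * n) (by rw [map_mul]; exact mul_mem hm hn)).resolve_left
        fun h => c (sq _ hm _ (by rwa [← map_mul]))
      refine mul_left_cancel (a := m) (mul_right_cancel (b := n) ?_)
      calc m * (n * m) * n = m * n * (m * n) := by group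
        _ = t * (t * t) := by rw [e3, h2, mul_one]
        _ = m * m * (n * (n * t)) := by rw [e1, ← mul_assoc n, e2]
        _ = _ := by rw [(hz n).eq]; group
  by_contra hn
  obtain ⟨a, ha, a1, -⟩ := pick Q (not_le.1 hn) 1 1 1 1
  obtain ⟨b, hb, b1, b2, -⟩ := pick Q (not_le.1 hn) 1 a 1 1
  obtain ⟨c, hc, c1, c2, c3, c4⟩ := pick Q (not_le.1 hn) 1 a b (a * b)
  obtain ⟨m, rfl⟩ := hf a
  obtain ⟨n, rfl⟩ := hf b
  obtain ⟨l, rfl⟩ := hf c
  have e1 := anti m l ha hc a1 c1 c2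
  have e2 := anti n l hb hc b1 c1 c3
  have e3 := anti (m * n) l (by rw [map_mul]; exact mul_mem ha hb) hc
    (fun h => b2 (sq _ ha _ (by rwa [← map_mul]))) c1 (by rwa [map_mul])
  rw [← mul_assoc, e1, mul_assoc _ t, ← (hz n).eq, ← mul_assoc, mul_assoc m l, e2, mul_assoc m,
    mul_assoc _ t, h2, mul_one, ← mul_assoc, left_eq_mul] at e3
  exact h1 e3

end

section
variable {p : ℕ} [Fact p.Prime] {H V : Type*} [Group H] [AddCommGroup V] [Module (ZMod p) V]

theorem eig {a : Module.End (ZMod p) V} {v : V} {k : ZMod p} (h : a v = k • v) (hv : v ≠ 0) {n : ℕ}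
    (hn : (a ^ n) v = v) : k ^ n = 1 := by
  have h1 : ∀ j : ℕ, (a ^ j) v = k ^ j • v := fun j => by
    induction j with
    | zero => simp
    | succ j ih => rw [pow_succ', Module.End.mul_apply, ih, map_smul, h, smul_smul, pow_succ]
  rw [h1] at hn
  exact smul_left_injective _ hv (hn.trans (one_smul _ v).symm)

theorem num (h5 : 5 ≤ p) :
    (2 : ZMod p) ≠ 0 ∧ (-2 : ZMod p) ^ 2 ≠ 1 ∧ (-2 : ZMod p) ^ 3 ≠ 1 := by
  have k : ∀ n : ℕ, 0 < n → n < 5 → (n : ZMod p) ≠ 0 := fun n a b h =>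
    absurd (Nat.le_of_dvd a ((ZMod.natCast_eq_zero_iff n p).1 h)) (by omega)
  have k3 : (3 : ZMod p) ≠ 0 := by exact_mod_cast k 3 (by norm_num) (by norm_num)
  refine ⟨by exact_mod_cast k 2 (by norm_num) (by norm_num), fun h => k3 ?_, fun h => ?_⟩
  · linear_combination h
  · exact k3 ((pow_eq_zero_iff two_ne_zero).1 (by linear_combination -h))

theorem neg_of_fpf (ρ : H →* Module.End (ZMod p) V) {t : H} (h2 : t ^ 2 = 1)
    (hf : ∀ v, ρ t v = v → v = 0) : ρ t = -1 := by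
  ext v
  refine eq_neg_of_add_eq_zero_left (hf _ ?_)
  rw [map_add, ← Module.End.mul_apply, ← map_mul, ← pow_two, h2, map_one, add_comm]
  rfl

theorem three (ρ : H →* Module.End (ZMod p) V) {s : H} (h3 : s ^ 3 = 1) (v : V) :
    ρ s (ρ s v + ρ s⁻¹ v + v) = ρ s v + ρ s⁻¹ v + v := by
  have : s * s = s⁻¹ := by rw [eq_inv_iff_mul_eq_one, ← h3, pow_three']
  rw [map_add, map_add, ← Module.End.mul_apply, ← map_mul, this, ← Module.End.mul_apply, mi]
  simp only [Module.End.one_apply]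
  abel

theorem z2 {G : Type*} [Group G] [Finite H] [Finite G] (ρ : H →* Module.End (ZMod p) V)
    (hρ : RM p ρ) (h5 : 5 ≤ p) (hs : Group.IsSolvable G) (f : H →* G) (hf : Function.Surjective f)
    {s t : H} (h : SC (f s)) (hs3 : 3 ∣ Nat.card H) (hk : ∀ x, f x = 1 ↔ x = 1 ∨ x = t)
    (ht : ρ t = -1) (h3 : ρ s + ρ s⁻¹ = -1) : False := by
  obtain ⟨k0, k2, -⟩ := num h5
  have := hρ.nt
  have hz : ∀ g, Commute g t := fun g => hρ.inj (by rw [map_mul, map_mul, ht]; simp)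
  have t2 : t * t = 1 := hρ.inj (by rw [map_mul, ht]; simp)
  have t1 : t ≠ 1 := fun h1 => by
    obtain ⟨v, hv⟩ := exists_ne (0 : V)
    have h2 := congrArg (· v) ht
    simp only [h1, map_one, Module.End.one_apply, LinearMap.neg_apply] at h2
    rw [eq_neg_iff_add_eq_zero, ← two_smul (ZMod p), smul_eq_zero] at h2
    exact h2.elim k0 hv
  have sq : ∀ x, f x = 1 → x * x = 1 := fun x hx => by
    rcases (hk x).1 hx with rfl | rfl
    · simp
    · exact t2
  have zz : ∀ x, f x = 1 → ∀ g, Commute g x := fun x hx g => by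
    rcases (hk x).1 hx with rfl | rfl
    · exact Commute.one_right g
    · exact hz g
  have hH : Nat.card H ≤ 2 * Nat.card G := by
    have h1 := f.ker.card_mul_index
    rw [index_ker, f.range_eq_top_of_surjective hf, card_top] at h1
    rw [← h1]
    refine Nat.mul_le_mul_right _ ?_
    have h2 : (f.ker : Set H) ⊆ {1, t} := fun x hx => (hk x).1 hx
    exact (Set.ncard_le_ncard h2 (Set.toFinite _)).trans
      ((Set.ncard_insert_le _ _).trans (by rw [Set.ncard_singleton]))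
  obtain ⟨Q, hQn, hQ, hG, hcj, -⟩ := h.str hs
  have un : ∀ m, ρ m + ρ m⁻¹ = 2 → m = 1 := fun m hm => hρ.inj (by
    rw [map_one]
    exact unip (p := p) (n := Nat.card H) hm (mi ρ m)
      (by rw [← map_pow, pow_card_eq_one', map_one]) hρ.cop)
  have key : ∀ m, f m ∈ Q → f m = 1 ∨ m * m = t := fun m hm => by
    obtain ⟨α, γ, ha, hg, he⟩ := mtr f hf h ρ (Or.inr rfl)
      (fun x hx => ((hk x).1 hx).imp (fun h => by rw [h, map_one]) fun h => by rw [h, ht]) h3 Q hQ hm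
    have z0 : ρ m + ρ m⁻¹ = 0 → m * m = t := fun h0 => hρ.inj (by
      rw [ht, map_mul, ← mi ρ m, ← mul_neg, ← eq_neg_of_add_eq_zero_left h0])
    rcases ha with rfl | rfl <;> rcases hg with rfl | rfl
    · exact Or.inl ((hk m).2 (Or.inl (un m (by rw [he]; norm_num))))
    · exact Or.inr (z0 (by rw [he]; simp))
    · exact Or.inr (z0 (by rw [he]; simp))
    · refine Or.inl ((hk m).2 (Or.inr ?_))
      have h1 := un (m * t) (by
        rw [mul_inv_rev, ← eq_inv_of_mul_eq_one_left t2, map_mul, map_mul, ht, mul_neg_one,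
          neg_one_mul, ← neg_add, he]; norm_num)
      rw [eq_inv_of_mul_eq_one_left h1, ← eq_inv_of_mul_eq_one_left t2]
  have hQ4 := le4 f hf ((hk t).2 (Or.inr rfl)) t1 t2 hz Q key
  obtain ⟨e, he⟩ := hρ.rat.real s
  have he' : f e * f s * (f e)⁻¹ = (f s)⁻¹ := by rw [← map_inv, ← map_mul, ← map_mul, he, map_inv]
  have e2 : f (e * e) = 1 := by rw [map_mul, ← pow_two, h.sq he']
  have hpos : 0 < Nat.card H := Nat.card_pos
  have two : Fact (Nat.Prime 2) := ⟨Nat.prime_two⟩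
  by_cases hA : ∃ m, f m ∈ Q ∧ f (e * m * e⁻¹ * m) ≠ 1
  · obtain ⟨m, hm, hw⟩ := hA
    have w2 := (key _ (by
      rw [map_mul, map_mul, map_mul, map_inv]
      exact mul_mem (hQn.conj_mem _ hm _) hm)).resolve_left hw
    have e3 : (e * m) ^ 2 = e * m * e⁻¹ * m * (e * e) := by
      rw [mul_assoc _ m, (zz _ e2 m).eq, pow_two]; group
    have e4 : (e * m) ^ 2 ^ 2 = t := by
      rw [show 2 ^ 2 = 2 * 2 from rfl, pow_mul, e3, (zz _ e2 _).mul_pow, pow_two, pow_two, w2,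
        sq _ e2, mul_one]
    have e8 : orderOf (e * m) = 2 ^ (2 + 1) := orderOf_eq_prime_pow (by rw [e4]; exact t1)
      (by rw [pow_succ 2, pow_mul, e4, pow_two, t2])
    have h1 := hρ.rat.dvd' (e * m)
    rw [e8, show Nat.totient (2 ^ (2 + 1)) = 4 by decide] at h1
    omega
  · have c1 : ∀ q ∈ Q, Commute (f e) q := fun q hq => by
      obtain ⟨m, rfl⟩ := hf q
      have h1 : f (e * m * e⁻¹ * m) = 1 := by_contra fun h1 => hA ⟨m, hq, h1⟩
      have h2 : f m * f m = 1 := by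
        rcases key m hq with h2 | h2
        · rw [h2, mul_one]
        · rw [← map_mul, h2, (hk t).2 (Or.inr rfl)]
      rw [map_mul, map_mul, map_mul, map_inv, ← h2] at h1
      exact mul_inv_eq_iff_eq_mul.1 (mul_right_cancel h1)
    have c2 : ∀ q ∈ Q, q = 1 := fun q hq => by
      refine h.fix he' ?_ (c1 q hq).symm
      have h1 : Commute (f s * f e * (f s)⁻¹) q := by
        have := (c1 _ (hQn.conj_mem' q hq (f s))).eq
        rw [Commute, SemiconjBy]
        calc _ = f s * (f e * ((f s)⁻¹ * q * f s)) * (f s)⁻¹ := by group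
          _ = _ := by rw [this]; group
      have h2 := h1.mul_left (c1 q hq).inv_left
      rw [mul_assoc, mul_assoc, ← mul_assoc (f e), inv_conj he', ← pow_two, ← inv_eq h.1] at h2
      simpa using h2.inv_left.symm
    have hb : Nat.card Q = 1 := by rw [(eq_bot_iff_forall Q).2 c2, card_bot]
    rcases (hk _).1 e2 with h1 | h1
    · obtain ⟨v, hv, h2⟩ : ∃ v, v ≠ 0 ∧ ρ e v = v := by
        by_contra hn
        have h2 : e = t := hρ.inj (by
          rw [ht]
          exact neg_of_fpf ρ (by rw [pow_two, h1]) fun v hv => by_contra fun h => hn ⟨v, h, hv⟩)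
        rw [h2, (hk t).2 (Or.inr rfl), one_mul, inv_one, mul_one] at he'
        exact ne_inv h.1 he'.symm
      obtain ⟨g, hg, h4⟩ := hρ.ev e v h2 (-2) (neg_ne_zero.2 k0)
      have g2 : g * g = 1 := by
        rcases hcj (f g) with h6 | h6
        · exact sq g (h.fix he' (mul_inv_eq_iff_eq_mul.1 (mul_inv_eq_one.1 (c2 _ h6))) (hg.map f))
        · have h7 : f g * f s * (f g)⁻¹ = (f s)⁻¹ := eq_inv_of_mul_eq_one_left (c2 _ h6)
          have h8 := sq (g * e) (h.fix he' (by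
            rw [map_mul, Commute, SemiconjBy, ← mul_inv_eq_iff_eq_mul]
            calc _ = f g * (f e * f s * (f e)⁻¹) * (f g)⁻¹ := by group
              _ = _ := by rw [he', inv_conj h7]) ((hg.mul_left (Commute.refl e)).map f))
          rwa [← pow_two, hg.mul_pow, pow_two e, h1, mul_one, pow_two] at h8
      exact k2 (eig h4 hv (by rw [← map_pow, pow_two, g2, map_one]; rfl))
    · have e4 : orderOf e = 2 ^ (1 + 1) := orderOf_eq_prime_pow
        (by rw [pow_one, pow_two, h1]; exact t1)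
        (by rw [pow_succ 2, pow_mul, pow_one, pow_two e, h1, pow_two, t2])
      have h2 := hρ.rat.dvd' e
      rw [e4, show Nat.totient (2 ^ (1 + 1)) = 2 by decide] at h2
      omega

theorem core [Finite H] (ρ : H →* Module.End (ZMod p) V) (hρ : RM p ρ) (h5 : 5 ≤ p)
    (hs : Group.IsSolvable H) {h : H} (h6 : h ^ 6 = 1) (h2 : h ^ 2 ≠ 1)
    (hf : ∀ v, ρ h v = v → v = 0) (hcc : cc h ≤ orderOf h) : False := by
  obtain ⟨k0, k2, k3⟩ := num h5
  have hc : ∀ g, Commute g h → g ∈ zpowers h := fun g hg => by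
    have h1 : zpowers h ≤ centralizer ({h} : Set H) := zpowers_le.2 (mem_cc.2 (Commute.refl h))
    rw [eq_of_le_of_card_ge h1 (by rw [Nat.card_zpowers]; exact hcc)]
    exact mem_cc.2 hg
  have s3 : (h ^ 2) ^ 3 = 1 := by rwa [← pow_mul]
  have hf' : ∀ v, ρ (h ^ 2) v = v → ρ (h ^ 3) v = v → v = 0 := fun v a b => hf v (by
    rwa [pow_succ' h 2, map_mul, Module.End.mul_apply, a] at b)
  by_cases hU : ∃ u, u ≠ 0 ∧ ρ (h ^ 3) u = u
  · obtain ⟨u, hu, h1⟩ := hU
    set X := centralizer ({h ^ 3} : Set H)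
    let U : Submodule (ZMod p) V := LinearMap.eqLocus (ρ (h ^ 3)) LinearMap.id
    let σ : X →* Module.End (ZMod p) U := Representation.subrepresentation (ρ.comp X.subtype) U
      fun g v hv => by
        change ρ (h ^ 3) (ρ g v) = ρ g v
        rw [← Module.End.mul_apply, ← map_mul, ← (mem_cc.1 g.2).eq, map_mul, Module.End.mul_apply,
          show ρ (h ^ 3) v = v from hv]
    have hσ : ∀ (g : X) (v : U), (σ g v : V) = ρ g v := fun _ _ => rfl
    let h' : X := ⟨h, mem_cc.2 ((Commute.refl h).pow_right 3)⟩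
    obtain ⟨N, hN, hk, hsc⟩ := sc_quot (h := h') (Subtype.ext h6) (fun a => h2 (congrArg Subtype.val a))
      (fun g hg => by
        obtain ⟨k, hk⟩ := mem_zpowers_iff.1 (hc g (hg.map X.subtype))
        exact mem_zpowers_iff.2 ⟨k, Subtype.ext hk⟩)
      fun g => Subtype.ext (mem_cc.1 g.2).eq
    obtain ⟨g, hg, h4⟩ := hρ.ev _ u h1 (-2) (neg_ne_zero.2 k0)
    have h7 : σ ⟨g, mem_cc.2 hg⟩ ⟨u, h1⟩ = (-2 : ZMod p) • (⟨u, h1⟩ : U) := Subtype.ext h4
    have hu' : (⟨u, h1⟩ : U) ≠ 0 := fun a => hu (congrArg Subtype.val a)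
    rcases z1 (p := p) (Group.isSolvable_of_surjective (QuotientGroup.mk'_surjective N)) _
      (QuotientGroup.mk'_surjective N) hsc σ (fun x hx => by
        rcases (hk x).1 hx with rfl | rfl
        · exact map_one σ
        · exact LinearMap.ext fun v => Subtype.ext v.2)
      (LinearMap.ext fun v => eq_neg_of_add_eq_zero_left (Subtype.ext (hf' _ (three ρ s3 v)
        ((σ (h' ^ 2) + σ (h' ^ 2)⁻¹) v + v).2)))
      (fun a => hρ.cop (a.trans (card_subgroup_dvd_card X))) ⟨g, mem_cc.2 hg⟩ with h8 | h8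
    · exact k3 (eig h7 hu' (by rw [h8]; rfl))
    · exact k2 (eig h7 hu' (by rw [h8]; rfl))
  · have ht : ρ (h ^ 3) = -1 := neg_of_fpf ρ (by rwa [← pow_mul])
      fun v hv => by_contra fun a => hU ⟨v, a, hv⟩
    have hz : ∀ g, Commute g (h ^ 3) := fun g => hρ.inj (by rw [map_mul, map_mul, ht]; simp)
    obtain ⟨N, hN, hk, hsc⟩ := sc_quot h6 h2 hc hz
    have fs : ∀ v, ρ (h ^ 2) v = v → v = 0 := fun v hv => by_contra fun h0 => by
      obtain ⟨g, hg, h4⟩ := hρ.ev _ v hv (-2) (neg_ne_zero.2 k0)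
      have h7 : Commute g h := by
        have := (hz g).mul_right hg.inv_right
        rwa [pow_succ' h 2, mul_inv_cancel_right] at this
      obtain ⟨k, hk⟩ := mem_powers_iff_mem_zpowers.2 (hc g h7)
      refine k2 (eig h4 h0 ?_)
      rw [← map_pow, ← show h ^ k = g from hk, ← pow_mul, mul_comm, pow_mul, map_pow]
      rw [Module.End.pow_apply]; exact Function.iterate_fixed hv k
    exact z2 ρ hρ h5 (Group.isSolvable_of_surjective (QuotientGroup.mk'_surjective N)) _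
      (QuotientGroup.mk'_surjective N) hsc (ord3 s3 h2 ▸ orderOf_dvd_natCard _) hk ht
      (LinearMap.ext fun v => eq_neg_of_add_eq_zero_left (fs _ (three ρ s3 v)))

end

theorem s6 : S6.{u} := by
  intro p _ H V _ _ _ _ _ ρ hρ h5 hs h h6 hf
  by_contra hn
  rw [not_lt] at hn
  obtain ⟨k0, k2, k3⟩ := num h5
  have o6 : ∀ x : H, x ^ 6 = 1 → x ^ 2 ≠ 1 → x ^ 3 ≠ 1 → orderOf x = 6 := fun x a b c => by
    have h1 := orderOf_dvd_of_pow_eq_one a
    have h2 := mt orderOf_dvd_iff_pow_eq_one.1 b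
    have h3 := mt orderOf_dvd_iff_pow_eq_one.1 c
    have h4 := Nat.le_of_dvd (by norm_num) h1
    generalize orderOf x = n at *
    interval_cases n <;> omega
  by_cases h2 : h ^ 2 = 1
  · have ht := neg_of_fpf ρ h2 hf
    have hc : centralizer ({h} : Set H) = ⊤ := eq_top_iff.2 fun g _ =>
      mem_cc.2 (hρ.inj (by rw [map_mul, map_mul, ht]; simp))
    rw [cc, hc, card_top] at hn
    have := hρ.nt
    obtain ⟨v, hv⟩ := exists_ne (0 : V)
    obtain ⟨g, -, h4⟩ := hρ.ev 1 v (by rw [map_one]; rfl) (-2) (neg_ne_zero.2 k0)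
    have h7 := (Nat.le_of_dvd Nat.card_pos (hρ.rat.dvd' g)).trans hn
    have h8 := (Nat.le_of_dvd Nat.card_pos (orderOf_dvd_natCard g)).trans hn
    have h9 : orderOf g ∣ 2 ∨ orderOf g ∣ 3 := by
      have := orderOf_pos g
      generalize orderOf g = n at *
      interval_cases n <;> revert h7 <;> decide
    rcases h9 with h9 | h9
    · exact k2 (eig h4 hv (by rw [← map_pow, orderOf_dvd_iff_pow_eq_one.1 h9, map_one]; rfl))
    · exact k3 (eig h4 hv (by rw [← map_pow, orderOf_dvd_iff_pow_eq_one.1 h9, map_one]; rfl))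
  by_cases h3 : h ^ 3 = 1
  · have o3 := ord3 h3 fun a => h2 (by rw [a, one_pow])
    by_cases h4 : cc h ≤ 3
    · exact core ρ hρ h5 hs h6 h2 hf (o3 ▸ h4)
    have h7 := o3 ▸ orderOf_dvd_cc h
    have : Fact (Nat.Prime 2) := ⟨Nat.prime_two⟩
    obtain ⟨t, ht⟩ := exists_prime_orderOf_dvd_card' (G := centralizer ({h} : Set H)) 2
      (show 2 ∣ cc h by omega)
    rw [← orderOf_coe] at ht
    have hc : Commute h t := (mem_cc.1 t.2).symm
    have t2 : (t : H) ^ 2 = 1 := by rw [← ht, pow_orderOf_eq_one]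
    have e2 : (h * t) ^ 2 = h ^ 2 := by rw [hc.mul_pow, t2, mul_one]
    have e4 : (h * t) ^ 4 = h := by
      rw [show 4 = 2 * 2 from rfl, pow_mul, e2, ← pow_mul, pow_succ h 3, h3, one_mul]
    have e6 : (h * t) ^ 6 = 1 := by rw [show 6 = 2 * 3 from rfl, pow_mul, e2, ← pow_mul, h6]
    refine core ρ hρ h5 hs e6 (e2 ▸ h2) (fun v hv => hf v ?_) ?_
    · rw [← e4, map_pow]
      rw [Module.End.pow_apply]; exact Function.iterate_fixed hv 4
    · rw [o6 _ e6 (e2 ▸ h2) (by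
        rw [hc.mul_pow, h3, one_mul, pow_succ, t2, one_mul]
        intro a
        rw [a, orderOf_one] at ht
        omega)]
      exact (card_le_of_le fun g hg => mem_cc.2 (e4 ▸ (mem_cc.1 hg).pow_right 4)).trans hn
  · exact core ρ hρ h5 hs h6 h2 hf (o6 h h6 h2 h3 ▸ hn)

end H22.AH
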