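import Mathlib

/-! Babai's lower bound for the minimal degree of a primitive group. -/

set_option autoImplicit false
open MulAction Finset

namespace H22.Bab

variable {G Ω : Type*} [Group G] [MulAction G Ω]

theorem preorder [Finite G] [IsPreprimitive G Ω] (R : Ω → Ω → Prop) (hr : ∀ u, R u u)
    (ht : ∀ u v w, R u v → R v w → R u w) (hi : ∀ (h : G) u v, R u v → R (h • u) (h • v))
    {a b : Ω} (hab : a ≠ b) (hR : R a b) (u v : Ω) : R u v := by
  have : Nontrivial Ω := ⟨a, b, hab⟩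
  let S : Submonoid G :=
    { carrier := {h | R a (h • a)}
      mul_mem' := fun {h k} hh hk => ht _ _ _ hh (by rw [mul_smul]; exact hi h _ _ hk)
      one_mem' := by simpa using hr a }
  let H : Subgroup G := { S with
    inv_mem' := fun {h} hh => by
      have e : h⁻¹ = h ^ (orderOf h - 1) := by
        rw [eq_comm, eq_inv_iff_mul_eq_one, ← pow_succ, Nat.sub_add_cancel (orderOf_pos h),
          pow_orderOf_eq_one]
      rw [e]; exact S.pow_mem hh _ }
  obtain ⟨k, hk⟩ := exists_smul_eq G a b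
  have hH : H = ⊤ := (IsPreprimitive.isCoatom_stabilizer_of_isPreprimitive G a).2 H
    (lt_of_le_of_ne (fun h hh => by
      change R a (h • a); rw [mem_stabilizer_iff.1 hh]; exact hr a) (fun e => by
        have : k ∈ stabilizer G a := by rw [e]; change R a (k • a); rwa [hk]
        exact hab ((mem_stabilizer_iff.1 this).symm.trans hk)))
  obtain ⟨h, rfl⟩ := exists_smul_eq G a u
  obtain ⟨l, hl⟩ := exists_smul_eq G a (h⁻¹ • v)
  have h1 : R a (l • a) := (hH ▸ Subgroup.mem_top l : l ∈ H)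
  have := hi h _ _ h1
  rwa [hl, smul_inv_smul] at this

variable [Fintype Ω] [DecidableEq Ω]

/-- The support. -/
def supp (Ω : Type*) [MulAction G Ω] [Fintype Ω] [DecidableEq Ω] (f : G) : Finset Ω :=
  univ.filter fun z => f • z ≠ z

@[simp] theorem mem_supp {f : G} {z : Ω} : z ∈ supp Ω f ↔ f • z ≠ z := by simp [supp]

theorem supp_inv (f : G) : supp Ω f⁻¹ = supp Ω f := by
  ext z; rw [mem_supp, mem_supp, Ne, inv_smul_eq_iff, eq_comm]

theorem card_conj (h f : G) : #(supp Ω (h * f * h⁻¹)) = #(supp Ω f) := by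
  refine (card_bijective (h • ·) (MulAction.bijective h) (fun z => ?_)).symm
  simp [mul_smul]

theorem card_mul (f f' : G) : #(supp Ω (f * f')) ≤ #(supp Ω f) + #(supp Ω f') := by
  refine le_trans (card_le_card (fun z hz => ?_)) (card_union_le _ _)
  by_contra hc
  simp only [mem_union, mem_supp, not_or, not_not] at hc
  exact mem_supp.1 hz (by rw [mul_smul, hc.2, hc.1])

/-- The undirected orbital graph. -/
def Adj (G : Type*) [Group G] [MulAction G Ω] (x y u v : Ω) : Prop :=
  ∃ h : G, (h • x = u ∧ h • y = v) ∨ (h • x = v ∧ h • y = u)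

omit [Fintype Ω] [DecidableEq Ω] in
theorem Adj.smul {x y u v : Ω} (h : Adj G x y u v) (k : G) : Adj G x y (k • u) (k • v) := by
  obtain ⟨h, h1 | h1⟩ := h
  · exact ⟨k * h, Or.inl (by simp [mul_smul, h1])⟩
  · exact ⟨k * h, Or.inr (by simp [mul_smul, h1])⟩

omit [Fintype Ω] [DecidableEq Ω] in
theorem Adj.symm {x y u v : Ω} (h : Adj G x y u v) : Adj G x y v u := by
  obtain ⟨h, h1⟩ := h
  exact ⟨h, h1.symm⟩

theorem Adj.small {g : G} {x u v : Ω} (h : Adj G x (g • x) u v) :
    ∃ f : G, f • u = v ∧ #(supp Ω f) = #(supp Ω g) := by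
  obtain ⟨h, ⟨rfl, rfl⟩ | ⟨rfl, rfl⟩⟩ := h
  · exact ⟨h * g * h⁻¹, by simp [mul_smul], card_conj _ _⟩
  · exact ⟨h * g⁻¹ * h⁻¹, by simp [mul_smul], by rw [card_conj, supp_inv]⟩

variable [Finite G] [IsPreprimitive G Ω]

omit [Fintype Ω] [DecidableEq Ω] in
theorem conn {x y : Ω} (hxy : x ≠ y) (u v : Ω) : Relation.ReflTransGen (Adj G x y) u v :=
  preorder (G := G) _ (fun _ => .refl) (fun _ _ _ => .trans)
    (fun h _ _ h1 => by
      induction h1 with
      | refl => exact .refl
      | tail _ h2 ih => exact ih.tail (h2.smul h)) hxy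
    (.single ⟨1, Or.inl (by simp)⟩) u v

open Classical in
theorem cover {g : G} {x : Ω} (hx : g • x ≠ x) (v : Ω) :
    Fintype.card Ω - 1 ≤ #(univ.filter (Adj G x (g • x) v)) * #(supp Ω g) := by
  choose f hf using fun (u : Ω) (h : Adj G x (g • x) v u) => h.small
  have h1 : univ.erase v ⊆ (univ.filter (Adj G x (g • x) v)).biUnion
      (fun u => if h : Adj G x (g • x) v u then supp Ω (f u h) else ∅) := by
    intro z hz
    by_contra hc
    simp only [mem_biUnion, mem_filter, mem_univ, true_and, not_exists, not_and] at hc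
    have key : ∀ w, Relation.ReflTransGen (Adj G x (g • x)) v w → ∃ k : G, k • z = z ∧ k • v = w := by
      intro w hw
      induction hw with
      | refl => exact ⟨1, by simp⟩
      | tail _ h2 ih =>
        obtain ⟨k, hk, rfl⟩ := ih
        have h3 := h2.smul k⁻¹
        rw [inv_smul_smul] at h3
        have h4 := hc _ h3
        rw [dif_pos h3, mem_supp, not_not] at h4
        exact ⟨k * f _ h3, by rw [mul_smul, h4, hk], by rw [mul_smul, (hf _ h3).1, smul_inv_smul]⟩
    obtain ⟨k, hk, hk'⟩ := key z (conn hx.symm v z)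
    exact (mem_erase.1 hz).1 (MulAction.injective k (hk.trans hk'.symm))
  have h2 := card_le_card h1
  rw [card_erase_of_mem (mem_univ _), card_univ] at h2
  refine h2.trans (card_biUnion_le_card_mul _ _ _ (fun u hu => ?_))
  rw [dif_pos (mem_filter.1 hu).2, (hf _ _).2]

theorem two_or_three {g : G} {x : Ω} (hx : g • x ≠ x) :
    (∀ u v : Ω, ∃ f : G, f • u = v ∧ #(supp Ω f) ≤ 2 * #(supp Ω g)) ∨
      Fintype.card Ω - 1 ≤ 3 * #(supp Ω g) * #(supp Ω g) := by
  classical
  let near : Ω → Ω → Prop := fun u v =>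
    u = v ∨ Adj G x (g • x) u v ∨ ∃ w, Adj G x (g • x) u w ∧ Adj G x (g • x) w v
  have hs : ∀ u v, near u v → ∃ f : G, f • u = v ∧ #(supp Ω f) ≤ 2 * #(supp Ω g) := by
    rintro u v (rfl | h | ⟨w, h1, h2⟩)
    · exact ⟨1, by simp, by simp [supp]⟩
    · obtain ⟨f, h1, h2⟩ := h.small
      exact ⟨f, h1, by omega⟩
    · obtain ⟨f, rfl, h3⟩ := h1.small
      obtain ⟨f', rfl, h4⟩ := h2.small
      exact ⟨f' * f, mul_smul _ _ _, (card_mul _ _).trans (by omega)⟩
  by_cases hn : ∀ u v, near u v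
  · exact Or.inl fun u v => hs u v (hn u v)
  right
  push Not at hn
  obtain ⟨u, v, huv⟩ := hn
  obtain ⟨w, v, h1, h2, h3⟩ : ∃ w v, near u w ∧ Adj G x (g • x) w v ∧ ¬ near u v := by
    by_contra hc
    push Not at hc
    refine huv ?_
    induction conn (G := G) hx.symm u v with
    | refl => exact Or.inl rfl
    | tail _ h2 ih =>
      by_contra h3
      exact h3 (hc _ _ (by by_contra h4; exact h4 (ih h4)) h2)
  obtain ⟨f, rfl, h4⟩ := hs u w h1
  obtain ⟨f', rfl, h5⟩ := h2.small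
  refine (cover hx u).trans (Nat.mul_le_mul_right _ ?_)
  refine le_trans (card_le_card (t := supp Ω (f' * f)) (fun z hz => ?_))
    ((card_mul _ _).trans (by omega))
  rw [mem_supp]
  intro h6
  have h7 := (mem_filter.1 hz).2
  have h8 := h7.smul (f' * f)
  rw [h6, mul_smul] at h8
  exact h3 (Or.inr (Or.inr ⟨z, h7, h8.symm⟩))

open Classical in
/-- the suborbit of `b` at `a`. -/
noncomputable def sub (G : Type*) [Group G] [MulAction G Ω] (a b : Ω) : Finset Ω :=
  univ.filter fun v => ∃ h : G, h • a = a ∧ h • b = v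

omit [Finite G] [IsPreprimitive G Ω] in
theorem avg {M ρ : ℕ} (u : Ω) (h2 : ∀ v : Ω, ∃ f : G, f • u = v ∧ #(supp Ω f) ≤ M)
    (hρ : ∀ a : Ω, #(sub G a u) ≤ ρ) : Fintype.card Ω ≤ M + ρ := by
  classical
  have h1 : ∑ z : Ω, #(univ.filter fun v => v ∉ sub G z u) =
      ∑ v : Ω, #(univ.filter fun z => v ∉ sub G z u) := by
    simp only [card_filter]; exact sum_comm
  have h3 : ∑ v : Ω, #(univ.filter fun z => v ∉ sub G z u) ≤ ∑ _v : Ω, M := by
    refine sum_le_sum (fun v _ => ?_)
    obtain ⟨f, hf, hf'⟩ := h2 v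
    refine le_trans (card_le_card (fun z hz => mem_supp.2 fun h => (mem_filter.1 hz).2 ?_)) hf'
    simp only [sub, mem_filter, mem_univ, true_and]
    exact ⟨f, h, hf⟩
  have h4 : ∑ _z : Ω, (Fintype.card Ω - ρ) ≤ ∑ z : Ω, #(univ.filter fun v => v ∉ sub G z u) := by
    refine sum_le_sum (fun z _ => ?_)
    have := hρ z
    rw [filter_not, filter_mem_eq_inter, univ_inter, card_univ_sdiff]
    omega
  have h5 := h4.trans (h1.le.trans h3)
  simp only [sum_const, card_univ, smul_eq_mul] at h5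
  have : 0 < Fintype.card Ω := Fintype.card_pos_iff.2 ⟨u⟩
  have := Nat.le_of_mul_le_mul_left h5 this
  omega

theorem compl_sq {a b : Ω} (hab : a ≠ b) (h2 : ∃ u v : Ω, u ≠ v ∧ ¬ ∃ h : G, h • a = u ∧ h • b = v) :
    ∃ k, Fintype.card Ω = 1 + #(sub G a b) + k ∧ #(sub G a b) ≤ k * k := by
  classical
  let Y : Ω → Ω → Prop := fun u v => u ≠ v ∧ ¬ ∃ h : G, h • a = u ∧ h • b = v
  have hY : ∀ (k : G) u v, Y u v → Y (k • u) (k • v) := by
    rintro k u v ⟨h1, h2⟩
    refine ⟨fun h => h1 (MulAction.injective k h), ?_⟩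
    rintro ⟨h, h3, h4⟩
    exact h2 ⟨k⁻¹ * h, by simp [mul_smul, h3], by simp [mul_smul, h4]⟩
  have hc : ∀ u, #(univ.filter (Y u)) ≤ #(univ.filter (Y a)) := by
    intro u
    obtain ⟨k, rfl⟩ := exists_smul_eq G u a
    exact card_le_card_of_injOn (k • ·) (fun v hv => by
      simpa using hY k _ _ (by simpa using hv)) (MulAction.injective k).injOn
  refine ⟨#(univ.filter (Y a)), ?_, ?_⟩
  · have h3 : a ∉ sub G a b := by
      simp only [sub, mem_filter, mem_univ, true_and, not_exists, not_and]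
      exact fun h h3 h4 => hab (MulAction.injective h (h3.trans h4.symm))
    rw [← card_univ, ← card_filter_add_card_filter_not (s := univ) (Y a), add_comm, add_comm 1,
      ← card_insert_of_notMem h3]
    congr 2
    ext v
    simp only [Y, sub, mem_filter, mem_univ, true_and, mem_insert]
    rw [not_and_or, not_not, not_not, eq_comm]
  by_cases h3 : ∃ u w v, Y u w ∧ Y w v ∧ ∃ h : G, h • a = u ∧ h • b = v
  · obtain ⟨u, w, v, h4, h5, h, rfl, rfl⟩ := h3
    refine le_trans (card_le_card (t := (univ.filter (Y a)).biUnion fun w => univ.filter (Y w))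
      (fun v hv => ?_)) (card_biUnion_le_card_mul _ _ _ (fun w _ => hc w))
    simp only [sub, mem_filter, mem_univ, true_and, mem_biUnion] at hv ⊢
    obtain ⟨k, hk, rfl⟩ := hv
    have e1 := hY (k * h⁻¹) _ _ h4
    have e2 := hY (k * h⁻¹) _ _ h5
    simp only [mul_smul, inv_smul_smul, hk] at e1 e2
    exact ⟨_, e1, e2⟩
  exfalso
  obtain ⟨u, v, huv⟩ := h2
  have := preorder (G := G) (fun u v => u = v ∨ Y u v) (fun _ => Or.inl rfl) (by
    rintro u w v (rfl | h4) (rfl | h5)
    · exact Or.inl rfl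
    · exact Or.inr h5
    · exact Or.inr h4
    · by_cases h6 : u = v
      · exact Or.inl h6
      · exact Or.inr ⟨h6, fun h7 => h3 ⟨u, w, v, h4, h5, h7⟩⟩) (by
    rintro h u v (rfl | h4)
    · exact Or.inl rfl
    · exact Or.inr (hY h _ _ h4)) huv.1 (Or.inr huv) a b
  exact this.elim hab (fun h => h.2 ⟨1, by simp⟩)

theorem uni {g : G} {x : Ω} (hx : g • x ≠ x)
    (h2 : ∀ a b : Ω, a ≠ b → ∃ u v : Ω, u ≠ v ∧ ¬ ∃ h : G, h • a = u ∧ h • b = v) :
    Fintype.card Ω ≤ (2 * #(supp Ω g) + 1) ^ 2 := by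
  rcases two_or_three hx with h | h
  · obtain ⟨a, -, ha⟩ := exists_max_image univ (fun a => #(sub G a x)) ⟨x, mem_univ _⟩
    have h1 := avg x (h x) (fun z => ha z (mem_univ _))
    by_cases hab : a = x
    · subst hab
      have : #(sub G a a) ≤ 1 := by
        refine card_le_one.2 (fun u hu v hv => ?_)
        simp only [sub, mem_filter, mem_univ, true_and] at hu hv
        obtain ⟨_, h3, rfl⟩ := hu
        obtain ⟨_, h4, rfl⟩ := hv
        rw [h3, h4]
      nlinarith
    · obtain ⟨k, h3, h4⟩ := compl_sq hab (h2 _ _ hab)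
      have : k + 1 ≤ 2 * #(supp Ω g) := by omega
      nlinarith
  · have : Fintype.card Ω ≤ 3 * #(supp Ω g) * #(supp Ω g) + 1 := by omega
    nlinarith

end H22.Bab

namespace H22.Bab

variable {G Ω : Type*} [Group G] [MulAction G Ω] [Fintype Ω] [DecidableEq Ω]

theorem three (σ τ : G) {x : Ω} (h1 : σ • x ≠ x) (h2 : τ • x ≠ x)
    (h : ∀ z, σ • z ≠ z → τ • z ≠ z → z = x) :
    (toPermHom G Ω (σ * τ * σ⁻¹ * τ⁻¹)).IsThreeCycle := by
  have a1 : ∀ z, z ≠ x → σ • z ≠ z → τ • z = z := fun z h3 h4 => by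
    by_contra h5; exact h3 (h z h4 h5)
  have a2 : ∀ z, z ≠ x → τ • z ≠ z → σ • z = z := fun z h3 h4 => by
    by_contra h5; exact h3 (h z h5 h4)
  have i1 : ∀ (f : G) (z : Ω), f • z = z → f⁻¹ • z = z := fun f z h => by
    rw [inv_smul_eq_iff, h]
  have i2 : ∀ (f : G) (z : Ω), f • z ≠ z → f • f⁻¹ • z ≠ f⁻¹ • z := fun f z h h' => by
    rw [smul_inv_smul, eq_inv_smul_iff] at h'; exact h h'
  set c := toPermHom G Ω (σ * τ * σ⁻¹ * τ⁻¹) with hc
  have hcz : ∀ z, c z = σ • τ • σ⁻¹ • τ⁻¹ • z := fun z => by simp [hc, mul_smul]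
  have hle : c.support ⊆ {x, σ • x, τ • x} := by
    intro z hz
    by_contra h3
    simp only [mem_insert, mem_singleton, not_or] at h3
    refine Equiv.Perm.mem_support.1 hz ?_
    rw [hcz]
    by_cases h4 : σ • z = z
    · by_cases h5 : τ • z = z
      · rw [i1 _ _ h5, i1 _ _ h4, h5, h4]
      · rw [i1 _ _ (a2 _ (fun e => h3.2.2 (by rw [← e, smul_inv_smul])) (i2 _ _ h5)),
          smul_inv_smul, h4]
    · rw [i1 _ _ (a1 z h3.1 h4), a1 _ (fun e => h3.2.1 (by rw [← e, smul_inv_smul])) (i2 _ _ h4),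
        smul_inv_smul]
  have hne : c ≠ 1 := by
    intro e
    have := hcz (τ • x)
    rw [e, inv_smul_smul, a1 _ (fun e => h1 (by rw [inv_smul_eq_iff] at e; exact e.symm)) (i2 _ _ h1),
      smul_inv_smul] at this
    exact h2 this
  have h3 := (card_le_card hle).trans card_le_three
  have h4 := Equiv.Perm.two_le_card_support_of_ne_one hne
  have h5 : #c.support ≠ 2 := fun e => by
    have := (Equiv.Perm.card_support_eq_two.1 e).sign_eq
    rw [hc] at this
    simp only [map_mul, map_inv, Int.units_inv_eq_self] at this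
    rw [mul_right_comm (Equiv.Perm.sign _), Int.units_mul_self, one_mul, Int.units_mul_self] at this
    exact absurd this (by decide)
  exact card_support_eq_three_iff.1 (by omega)

theorem count {K : Type*} [Group K] [Fintype K] [MulAction K Ω] (y y' : Ω) :
    #(univ.filter fun h : K => h • y = y') * Nat.card (orbit K y) ≤ Fintype.card K := by
  classical
  rcases (univ.filter fun h : K => h • y = y').eq_empty_or_nonempty with h | ⟨k, hk⟩
  · simp [h]
  have h1 : #(univ.filter fun h : K => h • y = y') ≤ Nat.card (stabilizer K y) := by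
    rw [Nat.card_eq_fintype_card, Fintype.card_subtype]
    refine card_le_card_of_injOn (k⁻¹ * ·) (fun h hh => ?_) (mul_right_injective _).injOn
    simp only [coe_filter, mem_univ, true_and, Set.mem_ofPred_eq, mem_filter,
      mem_stabilizer_iff] at hk hh ⊢
    rw [mul_smul, hh, ← hk, inv_smul_smul]
  have h2 := Subgroup.card_mul_index (stabilizer K y)
  rw [index_stabilizer, ← Nat.card_coe_set_eq, Nat.card_eq_fintype_card (α := K)] at h2
  exact h2 ▸ Nat.mul_le_mul_right _ h1

theorem two_trans [Finite G] {g : G} {x : Ω} (hx : g • x ≠ x)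
    (h2 : ∀ u v : Ω, u ≠ x → v ≠ x → ∃ h : G, h • x = x ∧ h • u = v)
    (h3 : ∀ f : G, ¬ (toPermHom G Ω f).IsThreeCycle) :
    Fintype.card Ω - 1 ≤ #(supp Ω g) * #(supp Ω g) := by
  classical
  have := Fintype.ofFinite (stabilizer G x)
  set D := (supp Ω g).erase x
  have h1 : (univ : Finset (stabilizer G x)) ⊆
      (D ×ˢ D).biUnion fun p => univ.filter fun h => h • p.1 = p.2 := by
    intro h _
    by_contra hc
    simp only [mem_biUnion, mem_filter, mem_univ, true_and, not_exists, not_and] at hc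
    have hh : (h : G)⁻¹ • x = x := mem_stabilizer_iff.1 (inv_mem h.2)
    refine h3 _ (three g (h * g * (h : G)⁻¹) hx (fun e => hx ?_) (fun z h4 h5 => ?_))
    · rw [mul_smul, mul_smul, hh, ← eq_inv_smul_iff, hh] at e; exact e
    · by_contra h6
      refine hc ((h : G)⁻¹ • z, z) ?_ (smul_inv_smul (h : G) z)
      simp only [D, mem_product, mem_erase, mem_supp]
      refine ⟨⟨fun e => h6 ?_, fun e => h5 ?_⟩, h6, h4⟩
      · rw [inv_smul_eq_iff] at e; rw [e]; exact h.2
      · rw [mul_smul, mul_smul, e, smul_inv_smul]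
  have h4 := (card_le_card h1).trans card_biUnion_le
  have h5 : (∑ p ∈ D ×ˢ D, #(univ.filter fun h : stabilizer G x => h • p.1 = p.2)) *
      (Fintype.card Ω - 1) ≤ ∑ _p ∈ D ×ˢ D, Fintype.card (stabilizer G x) := by
    rw [sum_mul]
    refine sum_le_sum (fun p hp => le_trans (Nat.mul_le_mul_left _ ?_) (count p.1 p.2))
    have hp1 := (mem_erase.1 (mem_product.1 hp).1).1
    rw [← card_univ, ← card_erase_of_mem (mem_univ x), Nat.card_coe_set_eq,
      ← Set.ncard_coe_finset]
    refine Set.ncard_le_ncard (fun v hv => ?_)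
    obtain ⟨h, h6, h7⟩ := h2 p.1 v hp1 (mem_erase.1 hv).1
    exact ⟨⟨h, h6⟩, h7⟩
  have h6 := (Nat.mul_le_mul_right _ h4).trans h5
  rw [sum_const, card_product, smul_eq_mul, card_univ, mul_comm (#D * #D)] at h6
  have h7 := Nat.le_of_mul_le_mul_left h6 Fintype.card_pos
  have h8 : #D ≤ #(supp Ω g) := card_erase_le
  exact h7.trans (Nat.mul_le_mul h8 h8)

theorem main [Finite G] [IsPreprimitive G Ω] {g : G} {x : Ω} (hx : g • x ≠ x)
    (h3 : ∀ f : G, ¬ (toPermHom G Ω f).IsThreeCycle) :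
    Fintype.card Ω ≤ (2 * #(supp Ω g) + 1) ^ 2 := by
  by_cases h2 : ∀ a b : Ω, a ≠ b → ∃ u v : Ω, u ≠ v ∧ ¬ ∃ h : G, h • a = u ∧ h • b = v
  · exact uni hx h2
  push Not at h2
  obtain ⟨a, b, -, h2⟩ := h2
  have := two_trans hx (fun u v hu hv => by
    obtain ⟨h, h4, rfl⟩ := h2 x u hu.symm
    obtain ⟨k, h5, rfl⟩ := h2 x v hv.symm
    exact ⟨k * h⁻¹, by rw [mul_smul, inv_smul_eq_iff.2 h4.symm, h5], by simp [mul_smul]⟩) h3
  have : Fintype.card Ω ≤ #(supp Ω g) * #(supp Ω g) + 1 := by omega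
  nlinarith

end H22.Bab
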