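import Cfsg.Agent.S0814
import Cfsg.Agent.H11.OmegaOrder

/-! `Sp₆(2)`: order, automorphisms, centralisers of elements of order seven. -/

set_option autoImplicit false

namespace H22.E8

open Matrix Subgroup H11 H12

/-- small centralisers of elements of order seven -/
def C7 (G : Type*) [Group G] : Prop := ∀ x : G, x ^ 7 = 1 → x ≠ 1 → Nat.card (centralizer {x}) ≤ 7

theorem cent_le {G H : Type*} [Group G] [Group H] [Finite H] {A : Subgroup G} (φ : A →* H)
    (hφ : Function.Injective φ) {x : A} (h : centralizer {x.1} ≤ A) :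
    Nat.card (centralizer {x.1}) ≤ Nat.card (centralizer {φ x}) :=
  Nat.card_le_card_of_injective (fun c => ⟨φ ⟨c.1, h c.2⟩, mem_centralizer_singleton_iff.2 (by
    rw [← map_mul, ← map_mul]; exact congrArg φ (Subtype.ext (mem_centralizer_singleton_iff.1 c.2)))⟩)
    fun _ _ e => by simpa using hφ (congrArg Subtype.val e)

theorem C7.congr {G H : Type*} [Group G] [Group H] [Finite H] (e : G ≃* H) (h : C7 H) : C7 G :=
  fun x h1 h2 => (Nat.card_le_card_of_injective (fun c : centralizer {x} => (⟨e c.1,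
    mem_centralizer_singleton_iff.2 (by rw [← map_mul, ← map_mul, mem_centralizer_singleton_iff.1 c.2])⟩ :
      centralizer {e x})) fun _ _ e' => Subtype.ext (e.injective (congrArg Subtype.val e'))).trans
    (h _ (by rw [← map_pow, h1, map_one]) (by simpa using h2))

theorem c7_of {G : Type*} [Group G] [Finite G] {m : ℕ} (hG : Nat.card G = 7 * m) (hm : ¬ 7 ∣ m) {y : G}
    (h0 : y ^ 7 = 1) (h1 : y ≠ 1) (hc : Nat.card (centralizer {y}) ≤ 7) : C7 G := fun x hx hx1 => by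
  have : Fact (Nat.Prime 7) := ⟨by norm_num⟩
  have m0 : m ≠ 0 := fun h => hm (h ▸ dvd_zero 7)
  have f : (Nat.card G).factorization 7 = 1 := by
    rw [hG, Nat.factorization_mul (by norm_num) m0, Finsupp.add_apply, Nat.factorization_eq_zero_of_not_dvd hm,
      Nat.Prime.factorization_self Fact.out]
  have c : ∀ z : G, z ^ 7 = 1 → z ≠ 1 → Nat.card (zpowers z) = 7 ^ (Nat.card G).factorization 7 :=
    fun z a b => by rw [f, Nat.card_zpowers, orderOf_eq_prime a b, pow_one]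
  obtain ⟨g, hg⟩ := MulAction.exists_smul_eq G (Sylow.ofCard _ (c x hx hx1)) (Sylow.ofCard _ (c y h0 h1))
  have : y ∈ (g • Sylow.ofCard _ (c x hx hx1) : Sylow 7 G) := hg ▸ mem_zpowers y
  obtain ⟨_, ⟨k, rfl⟩, e⟩ := this
  refine le_trans (Nat.card_le_card_of_injective (fun c : centralizer {x} => (⟨g * c.1 * g⁻¹,
    mem_centralizer_singleton_iff.2 ?_⟩ : centralizer {y})) fun _ _ e' => Subtype.ext ?_) hc
  · have e' : y = g * x ^ k * g⁻¹ := e.symm
    have := (Commute.zpow_right (mem_centralizer_singleton_iff.1 c.2) k).eq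
    rw [e']
    calc _ = g * (c.1 * x ^ k) * g⁻¹ := by group
      _ = _ := by rw [this]; group
  · simpa using congrArg Subtype.val e'

/-- the field -/
abbrev K := ZMod 2

/-- the symplectic group -/
abbrev Sp := symplecticGroup (Fin 3) K

/-- its natural module -/
abbrev V6 := Fin 3 ⊕ Fin 3 → K

theorem center_sp : center Sp = ⊥ := by rw [← card_eq_one, card_center_sp]; rfl

theorem card_sp6 : Nat.card Sp = 1451520 := by simpa [Finset.prod_range_succ] using card_sp (F := K) 3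

theorem aut_sp : Nat.card (MulAut Sp) = Nat.card Sp := by
  have e := quotCenterEquivOfBot center_sp
  have := Cfsg.Agent.S0814.result (F := K) 2 1 le_rfl (by simp) 3 (by norm_num) (by norm_num)
  rw [Nat.card_congr (MulAut.congr e).toEquiv, Nat.card_congr e.toEquiv] at this
  simpa using this

/-- an element of order seven -/
def X6 : Matrix (Fin 3 ⊕ Fin 3) (Fin 3 ⊕ Fin 3) K :=
  fromBlocks !![0, 0, 1; 1, 0, 1; 0, 1, 0] 0 0 !![1, 0, 1; 1, 0, 0; 0, 1, 0]

/-- an element of order seven -/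
def x6 : Sp := ⟨X6, SymplecticGroup.mem_iff.2 (by decide +kernel)⟩

theorem k1 : ∀ u : V6, X6 *ᵥ X6 *ᵥ X6 *ᵥ u = X6 *ᵥ u + u → ∀ i, u (.inr i) = 0 := by decide +kernel

theorem k2 : ∀ (j : Fin 3) (u : V6), X6 *ᵥ X6 *ᵥ X6 *ᵥ u = X6 *ᵥ X6 *ᵥ u + u →
    (∀ i : Fin 3, Pi.single (.inl i) 1 ⬝ᵥ J (Fin 3) K *ᵥ u =
      Pi.single (.inl i) 1 ⬝ᵥ J (Fin 3) K *ᵥ Pi.single (.inr j) 1) → u = Pi.single (.inr j) 1 := by
  decide +kernel

theorem comm6 {c : Sp} (h : c ∈ centralizer {x6}) (u : V6) : X6 *ᵥ c.1 *ᵥ u = c.1 *ᵥ X6 *ᵥ u := by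
  have e : c.1 * x6.1 = x6.1 * c.1 := congrArg Subtype.val (mem_centralizer_singleton_iff.1 h)
  rw [mulVec_mulVec, mulVec_mulVec]
  exact congrArg (· *ᵥ u) e.symm

theorem k3 : X6 *ᵥ Pi.single (.inl 0) 1 = Pi.single (.inl 1) 1 ∧
    X6 *ᵥ Pi.single (.inl 1) 1 = Pi.single (.inl 2) 1 ∧ ∀ j : Fin 3, X6 *ᵥ X6 *ᵥ X6 *ᵥ Pi.single (.inr j) 1 =
      X6 *ᵥ X6 *ᵥ Pi.single (.inr j) 1 + Pi.single (.inr j) 1 := by decide +kernel

theorem fix6 {c : Sp} (h : c ∈ centralizer {x6}) (e : c.1 *ᵥ Pi.single (.inl 0) 1 = Pi.single (.inl 0) 1) :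
    c = 1 := by
  have a : ∀ u v, X6 *ᵥ u = v → c.1 *ᵥ u = u → c.1 *ᵥ v = v := fun u v e hu => by rw [← e, ← comm6 h, hu]
  have b : ∀ i : Fin 3, c.1 *ᵥ Pi.single (.inl i) 1 = Pi.single (.inl i) 1 :=
    Fin.forall_fin_succ.2 ⟨e, Fin.forall_fin_two.2 ⟨a _ _ k3.1 e, a _ _ k3.2.1 (a _ _ k3.1 e)⟩⟩
  have d : ∀ j : Fin 3, c.1 *ᵥ Pi.single (.inr j) 1 = Pi.single (.inr j) 1 := fun j => k2 j _ (by
    rw [comm6 h, comm6 h, comm6 h, ← mulVec_add, k3.2.2]) fun i => by
      have := (mem_symplecticGroup_iff _).1 c.2 (Pi.single (.inl i) 1) (Pi.single (.inr j) 1)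
      rwa [b, spForm_B, spForm_B] at this
  refine Subtype.ext (Matrix.ext fun i j => ?_)
  have : c.1 *ᵥ Pi.single j 1 = Pi.single j 1 := by rcases j with j | j; exacts [b j, d j]
  simpa [one_apply, Pi.single_apply] using congrFun this i

theorem cent6 : Nat.card (centralizer {x6}) ≤ 7 := by
  refine le_trans (Nat.card_le_card_of_injective (β := {u : V6 // u ≠ 0 ∧ ∀ i, u (.inr i) = 0})
    (fun c => ⟨c.1.1 *ᵥ Pi.single (.inl 0) 1, fun h => ?_, k1 _ ?_⟩) fun c d e => ?_) ?_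
  · have := congrArg (c.1⁻¹.1 *ᵥ ·) h
    simp only [mulVec_mulVec, ← Submonoid.coe_mul, inv_mul_cancel, mulVec_zero] at this
    simpa using congrFun this (.inl 0)
  · simp only [comm6 c.2, ← mulVec_add]
    exact congrArg _ (by decide +kernel)
  · have := fix6 (d⁻¹ * c).2 (by
      have e' : c.1.1 *ᵥ _ = d.1.1 *ᵥ _ := congrArg Subtype.val e
      rw [coe_mul, Submonoid.coe_mul, ← mulVec_mulVec, e', mulVec_mulVec, ← Submonoid.coe_mul, coe_inv,
        inv_mul_cancel, OneMemClass.coe_one, one_mulVec])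
    exact (inv_mul_eq_one.1 (Subtype.ext this)).symm
  · rw [Nat.card_eq_fintype_card]
    decide +kernel

theorem c7_sp : C7 Sp := c7_of (m := 207360) card_sp6 (by norm_num) (y := x6)
  (Subtype.ext (show X6 ^ 7 = 1 by decide +kernel)) (fun h => absurd (congrArg Subtype.val h)
    (show X6 ≠ 1 by decide +kernel)) cent6

end H22.E8
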