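import Cfsg.Agent.H22.E8A
import Cfsg.Agent.S0817
import Cfsg.Agent.H12.Char2

/-! `Ω₈⁺(2)`: the stabiliser of a non-singular vector is `Sp₆(2)`; centralisers of elements of order seven. -/

set_option autoImplicit false

namespace H22.E8

open Matrix Subgroup H11 H12 QuadraticMap Module

/-- the natural module -/
abbrev V8 := Fin 4 ⊕ Fin 4 → K

local notation "Q" => qPlus 4 K

/-- the group of the prelude -/
abbrev Om := Cfsg.Omega K (Cfsg.quadFormPlus 4 K)

/-- the abstract model -/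
noncomputable def eOm : Om ≃* OmegaV Q :=
  (omegaEquiv Q (coe_qPlus 4)).trans (equivMapOfInjective _ _ (orth Q).subtype_injective)

theorem center_om : center Om = ⊥ := by
  rw [← card_eq_one, card_center_omegaPlus (by norm_num) (.inr (by norm_num))]; rfl

theorem card_om : Nat.card Om = 174182400 := by
  simpa [Finset.prod_range_succ] using card_omegaPlus_mul (F := K) (m := 3) (.inr (by decide))

theorem simple_om : IsSimpleGroup Om :=
  haveI := pomegaPlus_simple (F := K) (m := 4) (by norm_num)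
  (quotCenterEquivOfBot center_om).symm.isSimpleGroup

theorem aut_om : Nat.card (MulAut Om) = 6 * Nat.card Om := by
  have e := quotCenterEquivOfBot center_om
  have := Cfsg.Agent.S0817.result (F := K) 2 1 le_rfl (by simp) 4 le_rfl
  rw [Nat.card_congr (MulAut.congr e).toEquiv, Nat.card_congr e.toEquiv] at this
  simpa using this

theorem hne : NotExc K V8 := notExc_of_card (n := 8) (by simp) (.inr (by norm_num))

/-- the non-singular vector -/
def v0 : V8 := Sum.elim ![0, 0, 0, 1] ![0, 0, 0, 1]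

/-- a singular vector -/
def e0 : V8 := Sum.elim ![0, 0, 0, 1] 0

/-- the projection -/
def pr : V8 →ₗ[K] V6 := LinearMap.funLeft K K (Sum.map Fin.castSucc Fin.castSucc)

/-- the inclusion -/
def io : V6 →ₗ[K] V8 where
  toFun w := Sum.elim ![w (.inl 0), w (.inl 1), w (.inl 2), 0] ![w (.inr 0), w (.inr 1), w (.inr 2), 0]
  map_add' a b := by ext (i | i) <;> fin_cases i <;> simp
  map_smul' a b := by ext (i | i) <;> fin_cases i <;> simp

theorem pol (u w : V8) : polar Q u w = ∑ i, (u (.inl i) * w (.inr i) + u (.inr i) * w (.inl i)) := by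
  rw [coe_qPlus, polar_quadFormPlus]

theorem pol0 (u : V8) : polar Q v0 u = u (.inl 3) + u (.inr 3) := by
  rw [pol]; simp [Fin.sum_univ_four, v0, add_comm]

theorem Q0 : Q v0 = 1 := by simp [Cfsg.quadFormPlus, Fin.sum_univ_four, v0]

theorem dec (u : V8) : u = io (pr u) + u (.inr 3) • v0 + polar Q v0 u • e0 := by
  rw [pol0]
  ext (i | i) <;> fin_cases i <;> simp [io, pr, v0, e0, LinearMap.funLeft_apply]
  all_goals first | rfl | rw [add_comm (u (.inl 3)), CharTwo.add_cancel_left]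

theorem pr_v0 : pr v0 = 0 := by ext (i | i) <;> fin_cases i <;> rfl

theorem pol_io (w : V6) : polar Q v0 (io w) = 0 := by rw [pol0]; simp [io]

theorem pol_pr {u w : V8} (hu : polar Q v0 u = 0) (hw : polar Q v0 w = 0) :
    pr u ⬝ᵥ J (Fin 3) K *ᵥ pr w = polar Q u w := by
  rw [pol0, CharTwo.add_eq_zero] at hu hw
  simp only [J_form_apply, pol, Fin.sum_univ_castSucc (n := 3), CharTwo.sub_eq_add]
  rw [show Fin.last 3 = 3 from rfl, hu, hw, CharTwo.add_self_eq_zero, add_zero]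
  exact Finset.sum_congr rfl fun i _ => add_comm _ _

theorem pr_io (w : V6) : pr (io w) = w := by ext (i | i) <;> fin_cases i <;> rfl

/-- the stabiliser -/
abbrev St := MulAction.stabilizer (OmegaV Q) v0

theorem st_pol (g : St) (u w : V8) : polar Q (g.1.1 u) (g.1.1 w) = polar Q u w :=
  orth_polar ⟨_, OmegaV_le g.1.2⟩ u w

theorem st_v0 (g : St) : g.1.1 v0 = v0 := g.2

theorem st_pol0 (g : St) (u : V8) : polar Q v0 (g.1.1 u) = polar Q v0 u := by
  conv_lhs => rw [← st_v0 g, st_pol]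

theorem st_pr (g : St) {u : V8} (hu : polar Q v0 u = 0) : pr (g.1.1 (io (pr u))) = pr (g.1.1 u) := by
  conv_rhs => rw [dec u, hu, zero_smul, add_zero, map_add, map_smul, st_v0, map_add, map_smul, pr_v0,
    smul_zero, add_zero]

/-- the action on `v^⊥ / v` -/
def ph0 : St →* End K V6 where
  toFun g := pr ∘ₗ g.1.1.toLinearMap ∘ₗ io
  map_one' := LinearMap.ext pr_io
  map_mul' g h := LinearMap.ext fun w => (st_pr g ((st_pol0 h _).trans (pol_io w))).symm

theorem ph0_apply (g : St) (w : V6) : ph0 g w = pr (g.1.1 (io w)) := rfl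

/-- the action on `v^⊥ / v` -/
noncomputable def ph : St →* Sp :=
  ((LinearMap.toMatrixAlgEquiv' (R := K) (n := Fin 3 ⊕ Fin 3)).toMulEquiv.toMonoidHom.comp ph0).codRestrict _
    fun g => (mem_symplecticGroup_iff _).2 fun u w => by
      have e : ∀ u, LinearMap.toMatrixAlgEquiv' (ph0 g) *ᵥ u = ph0 g u := fun u => by
        rw [← toLinAlgEquiv'_apply, toLinAlgEquiv'_toMatrixAlgEquiv']
      change (spForm (Fin 3) K).B (LinearMap.toMatrixAlgEquiv' (ph0 g) *ᵥ u) (LinearMap.toMatrixAlgEquiv' (ph0 g) *ᵥ w) = _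
      rw [e, e, spForm_B, spForm_B, ph0_apply, ph0_apply, pol_pr ((st_pol0 g _).trans (pol_io u))
        ((st_pol0 g _).trans (pol_io w)), st_pol, ← pol_pr (pol_io u) (pol_io w), pr_io, pr_io]

theorem k4 : ∀ u : V8, (∀ i, ∑ j, (io (Pi.single i 1) (.inl j) * u (.inr j) +
    io (Pi.single i 1) (.inr j) * u (.inl j)) = 0) → u (.inl 3) + u (.inr 3) = 1 → u = e0 ∨ u = e0 - v0 := by
  decide +kernel

theorem ph_inj : Function.Injective ph := (injective_iff_map_eq_one _).2 fun g hg => by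
  have h0 : ph0 g = 1 := LinearMap.toMatrixAlgEquiv'.injective ((congrArg Subtype.val hg).trans (map_one _).symm)
  have h1 : ∀ w, g.1.1 (io w) = io w := fun w => by
    have a := dec (g.1.1 (io w))
    have b : Q (g.1.1 (io w)) = Q (io w) := orth_Q ⟨_, OmegaV_le g.1.2⟩ _
    rw [← ph0_apply, h0, st_pol0, pol_io, zero_smul, add_zero, End.one_apply] at a
    generalize g.1.1 (io w) (.inr 3) = t at a
    rw [a, Q_add, Q_smul, Q0, polar_smul_right, polar_comm, pol_io, smul_zero, add_zero, add_eq_left, mul_one,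
      mul_self_eq_zero] at b
    rw [a, b, zero_smul, add_zero]
  have h2 : ∀ w, polar Q (io w) e0 = 0 := fun w => by rw [pol]; simp [Fin.sum_univ_four, io, e0]
  have h3 : polar Q v0 e0 = 1 := by rw [pol0]; simp [e0]
  have h4 : ∀ f : V8 ≃ₗ[K] V8, (∀ w, f (io w) = io w) → f v0 = v0 → f e0 = g.1.1 e0 → g.1.1 = f :=
    fun f a b c => LinearEquiv.ext fun u => by
      rw [dec u]
      simp only [map_add, map_smul, h1, a, b, c, st_v0]
  rcases k4 (g.1.1 e0) (fun i => by rw [← pol, ← h1, st_pol, h2]) (by rw [← pol0, st_pol0, h3]) with e | e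
  · exact Subtype.ext (Subtype.ext (h4 1 (fun _ => rfl) rfl e.symm))
  · have := g.1.2
    rw [h4 (refl Q v0).1 (fun w => refl_apply_of_orth (pol_io w)) (refl_apply_of_orth (by rw [pol0]; rfl))
      (by rw [e, refl_apply, Q0, h3, inv_one, one_mul, one_smul]), mem_OmegaV,
      mem_commutator_iff (qPlus_nondeg 4) hne, dickson_refl (qPlus_nondeg 4) hne (Q0.trans_ne one_ne_zero)] at this
    exact absurd this.1 (by decide)

theorem card_st : 1451520 ≤ Nat.card St := by
  have h1 := St.index_mul_card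
  rw [MulAction.index_stabilizer, ← Nat.card_congr eOm.toEquiv, card_om] at h1
  have h2 : (MulAction.orbit (OmegaV Q) v0).ncard ≤ 120 := by
    have := card_quadFormPlus_eq (F := K) 4 1
    rw [if_neg one_ne_zero, ZMod.card] at this
    refine le_trans (Set.ncard_le_ncard (t := {v | Cfsg.quadFormPlus 4 K v = 1}) ?_) this.le
    rintro _ ⟨g, rfl⟩
    rw [← coe_qPlus]
    exact (orth_Q ⟨_, OmegaV_le g.2⟩ _).trans Q0
  by_contra! h
  have := Nat.mul_lt_mul_of_le_of_lt h2 h (by norm_num)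
  omega

/-- the stabiliser is the symplectic group -/
noncomputable def eSt : St ≃* Sp :=
  MulEquiv.ofBijective ph (ph_inj.bijective_of_nat_card_le (card_sp6 ▸ card_st))

theorem coatom_st : IsCoatom St := by
  have h := isMaximalIn_nonsingular (qPlus_nondeg (F := K) 4) rfl (by simp) (Q0.trans_ne one_ne_zero)
  have e : St.map (OmegaV Q).subtype = glStab (Submodule.span K {v0}) ⊓ OmegaV Q := by
    refine le_antisymm ?_ fun g hg => ⟨⟨g, hg.2⟩, ?_, rfl⟩
    · rintro _ ⟨g, hg, rfl⟩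
      refine ⟨mem_glStab_of_mapsTo fun x hx => ?_, g.2⟩
      obtain ⟨a, rfl⟩ := Submodule.mem_span_singleton.1 hx
      rw [map_smul]
      exact Submodule.smul_mem _ _ ((show g.1 v0 = v0 from hg).symm ▸ Submodule.mem_span_singleton_self _)
    · obtain ⟨a, ha⟩ := Submodule.mem_span_singleton.1 ((hg.1 v0).1 (Submodule.mem_span_singleton_self _))
      have b : Q (g v0) = Q v0 := orth_Q ⟨_, OmegaV_le hg.2⟩ _
      rw [← ha, Q_smul, Q0] at b
      obtain rfl : a = 1 := by clear ha; revert a; decide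
      exact ha.symm.trans (one_smul _ _)
  rw [← e] at h
  refine ⟨fun e' => h.1.ne (by rw [e', ← MonoidHom.range_eq_map, range_subtype]), fun M hM => ?_⟩
  rcases h.2 (M.map (OmegaV Q).subtype) (map_mono hM.le) (map_subtype_le _) with e' | e'
  · exact absurd (map_injective (OmegaV Q).subtype_injective e') hM.ne'
  · exact map_injective (OmegaV Q).subtype_injective (by rw [e', ← MonoidHom.range_eq_map, range_subtype])

theorem om1' : ∃ A : Subgroup Om, IsCoatom A ∧ Nonempty (A ≃* Sp) :=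
  ⟨St.map eOm.symm.toMonoidHom, (OrderIso.isCoatom_iff (MulEquiv.mapSubgroup eOm.symm) St).2 coatom_st,
    ⟨(eOm.symm.subgroupMap St).symm.trans eSt⟩⟩

/-- an element of order seven -/
def X8 : Matrix (Fin 4 ⊕ Fin 4) (Fin 4 ⊕ Fin 4) K :=
  fromBlocks !![0, 0, 1, 0; 1, 0, 1, 0; 0, 1, 0, 0; 0, 0, 0, 1] 0 0
    !![1, 0, 1, 0; 1, 0, 0, 0; 0, 1, 0, 0; 0, 0, 0, 1]

theorem k5 : X8 ^ 7 = 1 ∧ X8 ≠ 1 ∧ X8 *ᵥ v0 = v0 ∧
    (∀ u : V8, Cfsg.quadFormPlus 4 K (X8 *ᵥ u) = Cfsg.quadFormPlus 4 K u) ∧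
    ∀ u : V8, X8 *ᵥ u = u → Cfsg.quadFormPlus 4 K u = 1 → u = v0 := by decide +kernel

theorem ex_y : ∃ y : St, y ^ 7 = 1 ∧ y ≠ 1 ∧ ∀ u, y.1.1 u = X8 *ᵥ u := by
  obtain ⟨g, hg⟩ : ∃ g : GL (Fin 4 ⊕ Fin 4) K, g.1 = X8 :=
    ⟨⟨X8, X8 ^ 6, by rw [← pow_succ', k5.1], by rw [← pow_succ, k5.1]⟩, rfl⟩
  have g7 : g ^ 7 = 1 := Units.ext (by rw [Units.val_pow_eq_pow_val, hg, k5.1, Units.val_one])
  have e : ∀ u, H11.glEquiv g u = X8 *ᵥ u := fun u => by rw [H11.glEquiv_apply, hg]
  obtain ⟨x, hx⟩ : ∃ x : orth Q, x.1 = H11.glEquiv g :=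
    ⟨⟨H11.glEquiv g, mem_orth.2 fun u => by rw [e, coe_qPlus]; exact k5.2.2.2.1 u⟩, rfl⟩
  have x7 : x ^ 7 = 1 := Subtype.ext (by rw [SubmonoidClass.coe_pow, hx, ← map_pow, g7, map_one]; rfl)
  have hx' : x.1 ∈ OmegaV Q := by
    rw [show x = x ^ 4 * x ^ 4 by rw [← pow_add, pow_succ', x7, mul_one], mem_OmegaV,
      mem_commutator_iff (qPlus_nondeg 4) hne]
    simp only [map_mul, Int.units_mul_self, and_self]
  refine ⟨⟨⟨x.1, hx'⟩, show x.1 v0 = v0 by rw [hx, e, k5.2.2.1]⟩, Subtype.ext (Subtype.ext ?_), fun h => k5.2.1 ?_,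
    fun u => show x.1 u = _ by rw [hx, e]⟩
  · simpa using congrArg Subtype.val x7
  · have : x.1 = 1 := congrArg (fun z : St => z.1.1) h
    rw [hx, map_eq_one_iff _ H11.glEquiv.injective] at this
    rw [← hg, this, Units.val_one]

theorem c7_om : C7 Om := by
  obtain ⟨y, y7, y1, e⟩ := ex_y
  have : Finite (OmegaV Q) := .of_equiv _ eOm.toEquiv
  refine .congr eOm (c7_of (m := 24883200) (by rw [← Nat.card_congr eOm.toEquiv, card_om]) (by norm_num)
    (y := y.1) (congrArg Subtype.val y7) (fun h => y1 (Subtype.ext h))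
    ((cent_le ph ph_inj fun c hc => k5.2.2.2.2 _ ?_ ?_).trans (c7_sp _ (by rw [← map_pow, y7, map_one])
      fun h => y1 (ph_inj (h.trans (map_one _).symm)))))
  · have : c.1 (y.1.1 v0) = y.1.1 (c.1 v0) :=
      congrArg (fun z : OmegaV Q => z.1 v0) (mem_centralizer_singleton_iff.1 hc)
    rw [st_v0, e] at this
    exact this.symm
  · rw [← coe_qPlus]
    exact (orth_Q ⟨_, OmegaV_le c.2⟩ _).trans Q0

end H22.E8
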