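import Cfsg.Agent.H22.E8B
import Cfsg.Agent.H8.E8H

/-! Group theory of `Sp₆(2)` and `Ω₈⁺(2)`: the chunks. -/

set_option autoImplicit false

namespace H22.E8

theorem sp3 : H8.E8.SP3 := ⟨center_sp, card_sp6, aut_sp ▸ dvd_mul_left _ _, c7_sp⟩

theorem om1 : H8.E8.OM1 := om1'

theorem om2 : H8.E8.OM2 := ⟨simple_om, card_om, aut_om.dvd, c7_om⟩

end H22.E8
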