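import Cfsg.Agent.H8.E8H
import Cfsg.Agent.S2126
import Cfsg.Agent.H23.SzTori

/-! `Sz(8)` in `E₈(3)`: a fixed vector, and the trace of elements of order seven. -/

set_option autoImplicit false

namespace H22.E8

open Subgroup H23 H23.Sz H8.E8 H0.BC

section gen
variable {G : Type*} [Group G] [Fintype G] {φ : G → ℂ}

open Classical in
theorem sum_ti {U : Subgroup G} (h : IsTI U) (hφ : ∀ g x, φ (x * g * x⁻¹) = φ g) {n : ℕ}
    (hn : n * Nat.card (normalizer (U : Set G)) = Nat.card G) :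
    ∑ g, (tiCls U).indicator φ g = n * (∑ u : U, φ u - φ 1) := by
  have key : ∀ g, ∑ x : G, (if x⁻¹ * g * x ∈ U ∧ g ≠ 1 then φ g else 0) =
      Nat.card (normalizer (U : Set G)) * (tiCls U).indicator φ g := fun g => by
    by_cases hg : g ∈ tiCls U
    · obtain ⟨g1, y, hy⟩ := mem_tiCls.1 hg
      rw [Set.indicator_of_mem hg, ← Finset.sum_filter, Finset.sum_const, nsmul_eq_mul, ← Fintype.card_subtype,
        ← Nat.card_eq_fintype_card]
      refine congrArg (fun k : ℕ => (k : ℂ) * φ g) (Nat.card_congr (Equiv.subtypeEquiv (Equiv.mulLeft y⁻¹) fun x => ?_))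
      refine ⟨fun hx => inv_mem_iff.1 (h _ _ hy (fun e => g1 ?_) ?_), fun hx => ⟨?_, g1⟩⟩
      · simpa [mul_assoc, mul_eq_one_iff_eq_inv] using e
      · simpa [mul_assoc] using hx.1
      · simpa [mul_assoc] using (mem_normalizer_iff.1 (inv_mem hx) _).1 hy
    · rw [Set.indicator_of_notMem hg, mul_zero]
      exact Finset.sum_eq_zero fun x _ => if_neg fun hx => hg (mem_tiCls.2 ⟨hx.2, x, hx.1⟩)
  have e : ∀ x : G, ∑ g, (if x⁻¹ * g * x ∈ U ∧ g ≠ 1 then φ g else 0) = ∑ u : U, φ u - φ 1 := fun x => by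
    rw [← (MulAut.conj x).toEquiv.sum_comp, ← Finset.sum_subtype (Finset.univ.filter (· ∈ U)) (by simp),
      Finset.sum_filter, show φ 1 = ∑ g, if g = 1 then φ g else 0 by simp, ← Finset.sum_sub_distrib]
    refine Finset.sum_congr rfl fun g _ => ?_
    by_cases g1 : g = 1
    · simp [g1]
    · by_cases h : g ∈ U <;> simp [g1, h, hφ, mul_assoc, mul_eq_one_iff_eq_inv, ← hφ g x]
  apply mul_left_cancel₀ (Nat.cast_ne_zero.2 (Nat.card_pos (α := normalizer (U : Set G))).ne')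
  rw [Finset.mul_sum, ← Finset.sum_congr rfl fun g _ => key g, Finset.sum_comm, Finset.sum_congr rfl fun x _ => e x,
    Finset.sum_const, nsmul_eq_mul, Finset.card_univ, ← Nat.card_eq_fintype_card, ← hn]
  push_cast; ring

theorem sum_cyc {U : Subgroup G} [Fintype U] {l : ℕ} (hl : l.Prime) (hU : Nat.card U = l) {x : G} (hx : x ∈ U)
    (h1 : x ≠ 1) : x ^ l = 1 ∧ ∑ u : U, φ u = ∑ k ∈ Finset.range l, φ (x ^ k) := by
  have : Fact l.Prime := ⟨hl⟩
  have e : x ^ l = 1 := hU ▸ congrArg Subtype.val (pow_card_eq_one' (x := (⟨x, hx⟩ : U)))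
  have o := orderOf_eq_prime e h1
  refine ⟨e, ?_⟩
  rw [← Finset.sum_coe_sort (Finset.range l)]
  refine (Fintype.sum_bijective (fun k : Finset.range l => (⟨x ^ k.1, pow_mem hx _⟩ : U))
    ((Nat.bijective_iff_injective_and_card _).2 ⟨fun a b h => Subtype.ext (pow_injOn_Iio_orderOf
      ((Finset.mem_range.1 a.2).trans_eq o.symm) ((Finset.mem_range.1 b.2).trans_eq o.symm) (congrArg Subtype.val h)),
      by rw [hU, Nat.card_eq_fintype_card, Fintype.card_coe, Finset.card_range]⟩) _ _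
    fun _ => rfl).symm

end gen

variable {F : Type*} [Field F] [Tits F] [Fintype F] [Big F] {G : Type*} [Group G] [Model F G] [Fintype G]
  (hF : Nat.card F = 8) (c : Cx) {f : G →* E83} (hf : Function.Injective f)

omit [Fintype G] in
theorem bcl (g x : G) : c.β (f (x * g * x⁻¹)) = c.β (f g) := by
  rw [map_mul, map_mul, map_inv]; exact c.h.cl _ _

include hF

omit [Big F] [Fintype G] in
theorem sm (A : Subgroup G) [Fintype A] : ∑ a : A, c.β (f a) = Nat.card A * c.dm f A :=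
  Cx.sum_eq A fun h => absurd (h.trans A.card_subgroup_dvd_card) (by rw [card_G F G, hF]; norm_num)

open Classical in
include hf in
theorem dm_pos : 0 < c.dm f ⊤ := by
  obtain ⟨u, v, hu, hv, huv, hall, cu, cv⟩ := tori' F G (r := 4) (by rw [hF]; norm_num)
  rw [hF] at cu cv
  have cG : Nat.card G = 29120 := by rw [card_G F G, hF]; norm_num
  have n1 : ∀ U : Subgroup G, (1 : G) ∉ tiCls U := fun U h => (mem_tiCls.1 h).1 rfl
  set φ := fun g => c.β (f g)
  have key : ∀ g, φ g = (if g = 1 then φ g else 0) + (tiCls (Q F G)).indicator φ g +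
      (tiCls (H F G)).indicator φ g + (tiCls (centralizer ({u} : Set G))).indicator φ g +
      (tiCls (centralizer ({v} : Set G))).indicator φ g := fun g => by
    by_cases g1 : g = 1
    · simp [g1, n1]
    rcases mem_tiCls_cases (F := F) g1 with h | h | h
    · simp [g1, h, Set.disjoint_left.1 disjoint_tiCls_Q_H h, mt (free_of_mem_tiCls hu) (not_free_of_tiCls_Q h),
        mt (free_of_mem_tiCls hv) (not_free_of_tiCls_Q h)]
    · simp [g1, h, Set.disjoint_right.1 disjoint_tiCls_Q_H h, mt (free_of_mem_tiCls hu) (not_free_of_tiCls_H h),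
        mt (free_of_mem_tiCls hv) (not_free_of_tiCls_H h)]
    · have a1 : g ∉ tiCls (Q F G) := fun e => not_free_of_tiCls_Q e h
      have a2 : g ∉ tiCls (H F G) := fun e => not_free_of_tiCls_H e h
      rcases hall g h with h' | h'
      · simp [g1, h', a1, a2, Set.disjoint_left.1 (hu.disjoint hv huv) h']
      · simp [g1, h', a1, a2, Set.disjoint_right.1 (hu.disjoint hv huv) h']
  have p1 : φ 1 = 248 := by simp [φ, c.b1]
  have e := sm hF c (f := f) ⊤
  rw [← Finset.sum_subtype Finset.univ (by simp) φ, Finset.sum_congr rfl fun g _ => key g] at e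
  simp only [Finset.sum_add_distrib] at e
  rw [sum_ti isTI_Q (bcl c) (n := 65) (by rw [normalizer_Q, card_B, hF, cG]; norm_num),
    sum_ti isTI_H (bcl c) (n := 2080) (by rw [card_normalizer_H, hF, cG]),
    sum_ti hu.isTI (bcl c) (n := 560) (by rw [hu.card_normalizer, cu, cG]),
    sum_ti hv.isTI (bcl c) (n := 1456) (by rw [hv.card_normalizer, cv, cG])] at e
  obtain ⟨u1, u2⟩ := sum_cyc (φ := φ) (l := 13) (by norm_num) cu (mem_centralizer_singleton_iff.2 rfl) hu.ne_one
  obtain ⟨v1, v2⟩ := sum_cyc (φ := φ) (l := 5) (by norm_num) cv (mem_centralizer_singleton_iff.2 rfl) hv.ne_one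
  obtain ⟨m, hm, u3⟩ := c.cyc13 (x := f u) (by rw [← map_pow, u1, map_one])
  obtain ⟨n, hn, v3⟩ := c.cyc5 (x := f v) (by rw [← map_pow, v1, map_one])
  simp only [← map_pow] at u3 v3
  have h7 : ∀ a : H F G, ∃ z : ℕ, φ a = z ∧ (if a = 1 then 245 else 0) + 3 ≤ z := fun a => by
    by_cases a1 : a = 1
    · exact ⟨248, by simp [a1, p1], by simp [a1]⟩
    have := (sum_cyc (φ := φ) (l := 7) (by norm_num) (by rw [card_H, hF]) a.2 (by simpa using a1)).1
    rcases c.b7 (x := f a) (by rw [← map_pow, this, map_one]) (by simpa [map_eq_one_iff f hf] using a1) with e | e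
    exacts [⟨3, e, by simp [a1]⟩, ⟨52, e, by simp [a1]⟩]
  choose z z1 z2 using h7
  have z3 := Finset.sum_le_sum fun a (_ : a ∈ Finset.univ) => z2 a
  rw [Finset.sum_add_distrib, Finset.sum_const, Finset.card_univ, ← Nat.card_eq_fintype_card, card_H, hF] at z3
  rw [u2, v2, u3, v3, Finset.sum_congr rfl fun a _ => z1 a, ← Nat.cast_sum, sm hF c, card_Q, hF,
    card_top, cG] at e
  simp only [Finset.sum_ite_eq', Finset.mem_univ, if_true, p1] at e z3
  generalize ∑ a, z a = s at e z3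
  have : (248 + 65 * (64 * c.dm f (Q F G) - 248) + 2080 * (s - 248) + 560 * (13 * m - 248) +
      1456 * (5 * n - 248) : ℤ) = 29120 * c.dm f ⊤ := by exact_mod_cast e
  simp only [smul_eq_mul] at z3
  omega

open Classical in
theorem frob {P : Subgroup G} (hP : P ≤ Q F G) (hM : ∀ k : Fˣ, ∀ p ∈ P, M k * p * (M k)⁻¹ ∈ P)
    (h : ∀ k : Fˣ, k ≠ 1 → c.β (f (M k)) = 52) : 52 ≤ c.dm f P := by
  let A : Subgroup G :=
    { carrier := {g | ∃ p ∈ P, ∃ k : Fˣ, g = p * M k}
      one_mem' := ⟨1, one_mem _, 1, by simp⟩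
      mul_mem' := by
        rintro _ _ ⟨p, hp, k, rfl⟩ ⟨q, hq, l, rfl⟩
        exact ⟨_, mul_mem hp (hM k q hq), k * l, by rw [map_mul]; group⟩
      inv_mem' := by
        rintro _ ⟨p, hp, k, rfl⟩
        exact ⟨_, hM k⁻¹ _ (inv_mem hp), k⁻¹, by rw [map_inv]; group⟩ }
  have b : Function.Bijective fun x : P × Fˣ => (⟨x.1 * M x.2, _, x.1.2, _, rfl⟩ : A) := by
    refine ⟨fun x y e => ?_, fun ⟨_, p, hp, k, rfl⟩ => ⟨(⟨p, hp⟩, k), rfl⟩⟩
    obtain ⟨a, b, e1⟩ := hP x.1.2
    obtain ⟨a', b', e2⟩ := hP y.1.2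
    have e : x.1.1 * M x.2 = y.1.1 * M y.2 := congrArg Subtype.val e
    have := e
    rw [e1, e2, TM_inj] at this
    rw [this.2.2, mul_left_inj] at e
    exact Prod.ext (Subtype.ext e) this.2.2
  have cu : Fintype.card Fˣ = 7 := by rw [← Nat.card_eq_fintype_card, Nat.card_units, hF]
  have e := sm hF c (f := f) A
  rw [← Nat.card_eq_of_bijective _ b, ← Fintype.sum_bijective _ b _ (fun a => c.β (f a)) fun _ => rfl,
    Fintype.sum_prod_type, Nat.card_prod, Nat.card_units, hF] at e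
  have k : ∀ p : P, ∑ k : Fˣ, c.β (f (p * M k)) = c.β (f p) + 6 * 52 := fun p => by
    rw [← Finset.add_sum_erase _ _ (Finset.mem_univ 1), map_one, mul_one, Finset.sum_congr rfl (g := fun _ => 52),
      Finset.sum_const, Finset.card_erase_of_mem (Finset.mem_univ _), Finset.card_univ, cu]
    · simp
    · intro k hk
      obtain ⟨a, b, e⟩ := hP p.2
      obtain ⟨x, y, e'⟩ := TM_conj (G := G) a b (Finset.ne_of_mem_erase hk)
      rw [e, e', bcl, h k (Finset.ne_of_mem_erase hk)]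
  simp only [k, Finset.sum_add_distrib, sm hF c P, Finset.sum_const, Finset.card_univ,
    ← Nat.card_eq_fintype_card, nsmul_eq_mul] at e
  have e' : Nat.card P * (c.dm f P + 312) = Nat.card P * (7 * c.dm f A) := by
    have : ((Nat.card P * (c.dm f P + 312) : ℕ) : ℂ) = (Nat.card P * (7 * c.dm f A) : ℕ) := by
      push_cast at e ⊢; linear_combination e
    exact_mod_cast this
  have := Nat.eq_of_mul_eq_mul_left Nat.card_pos e'
  have := Cx.dm_anti (c := c) (f := f) (A := P) (B := A) fun p hp => ⟨p, hp, 1, by simp⟩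
  omega

open Classical in
include hf in
theorem ne52 {k : Fˣ} (hk : k ≠ 1) : c.β (f (M k)) ≠ 52 := fun h0 => by
  have cu : Nat.card Fˣ = 7 := by rw [Nat.card_units, hF]
  have cF : Fintype.card F = 8 := by rw [← Nat.card_eq_fintype_card, hF]
  have h : ∀ l : Fˣ, l ≠ 1 → c.β (f (M l)) = 52 := fun l hl => by
    have : Fact (Nat.Prime 7) := ⟨by norm_num⟩
    obtain ⟨n, rfl⟩ := (mem_powers_iff_mem_zpowers (x := k) (y := l)).2 (mem_zpowers_of_prime_card cu hk)
    have k7 : k ^ 7 = 1 := cu ▸ pow_card_eq_one'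
    obtain ⟨d, -, hd⟩ := c.h.unif c.hM (l := 7) (by norm_num) (by norm_num) (by decide) (s := f (M k))
      (by rw [← map_pow, ← map_pow, k7, map_one, map_one])
    rw [map_pow, map_pow, hd n fun ⟨j, e⟩ => hl (by simp [e, pow_mul, k7]), ← hd 1 (by norm_num), pow_one, h0]
  have dZ := frob hF c Z_le_Q (fun k p hp => conj_mem_Z (M_mem_B k) hp) h
  have dQ := frob hF c le_rfl (fun k p hp => conj_mem_Q (M_mem_B k) hp) h
  have dZQ := Cx.dm_anti (c := c) (f := f) (Z_le_Q (F := F))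
  have cM : ∀ (l : Fˣ) (a b : F), c.β (f (T (dl l * a) (θ (l : F) * b))) = c.β (f (T a b)) := fun l a b => by
    rw [← M_T_conj, bcl]
  have s0 : ∀ φ : F → ℂ, (∀ a, a ≠ 0 → φ a = φ 1) → ∑ a, φ a = φ 0 + 7 * φ 1 := fun φ hφ => by
    rw [← Finset.add_sum_erase _ _ (Finset.mem_univ 0), Finset.sum_congr rfl fun a ha =>
      hφ a (Finset.ne_of_mem_erase ha), Finset.sum_const, Finset.card_erase_of_mem (Finset.mem_univ _),
      Finset.card_univ, cF]
    simp
  have z1 : ∀ b : F, b ≠ 0 → c.β (f (T 0 b)) = c.β (f (T (0 : F) 1)) := fun b hb => by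
    obtain ⟨l, hl⟩ := exists_units_θ hb
    simpa [hl] using cM l 0 1
  have eZ := sm hF c (f := f) (Z F G)
  rw [← Fintype.sum_bijective (fun b : F => (⟨T 0 b, T_mem_Z b⟩ : Z F G)) ⟨fun a b e =>
    (T_inj.1 (congrArg Subtype.val e : (T 0 a : G) = T 0 b)).2, fun ⟨_, b, rfl⟩ => ⟨b, rfl⟩⟩ (fun b => c.β (f (T 0 b))) _ fun _ => rfl,
    card_Z, hF] at eZ
  have eQ := sm hF c (f := f) (Q F G)
  rw [← Fintype.sum_bijective (fun b : F × F => (⟨T b.1 b.2, T_mem_Q _ _⟩ : Q F G)) ⟨fun a b e =>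
    Prod.ext_iff.2 (T_inj.1 (congrArg Subtype.val e)), fun ⟨_, a, b, rfl⟩ => ⟨(a, b), rfl⟩⟩
    (fun b => c.β (f (T b.1 b.2))) _ fun _ => rfl, card_Q, hF, Fintype.sum_prod_type, s0 _ fun a ha => ?_, eZ] at eQ
  swap
  · obtain ⟨l, hl⟩ := exists_dl ha
    rw [← Equiv.sum_comp (Equiv.mulLeft₀ _ (θ_ne_zero l.ne_zero))]
    exact Finset.sum_congr rfl fun b _ => by simpa [hl] using cM l 1 b
  rw [s0 _ z1, T_zero, map_one, c.b1] at eZ
  have b24 : c.β (f (T (0 : F) 1)) = 24 ∧ c.dm f (Z F G) = 52 := by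
    rcases c.b2 (x := f (T (0 : F) 1)) (by rw [← map_pow, sq, T_sq, zero_mul, T_zero, map_one])
      (by simpa [map_eq_one_iff f hf] using T01_ne_one) with e | e <;> rw [e] at eZ
    · have : (248 + 7 * -8 : ℤ) = (8 : ℕ) * c.dm f (Z F G) := by exact_mod_cast eZ
      omega
    · have : 248 + 7 * 24 = 8 * c.dm f (Z F G) := by exact_mod_cast eZ
      exact ⟨e, by omega⟩
  have h4 : ∀ b : F, ∃ z : ℤ, c.β (f (T 1 b)) = z ∧ -4 ≤ z ∧ (z ≤ 28 ∨ z = 132) := fun b => by
    have e4 : f (T 1 b) ^ 4 = 1 := by rw [← map_pow, T_pow_four, map_one]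
    obtain ⟨t, ht, t1, t2, t3⟩ := c.h.tab8 c.hM (s := f (T 1 b)) (by rw [show 8 = 4 * 2 from rfl, pow_mul, e4, one_pow])
    rw [e4, c.b1] at t3
    rw [← map_pow, sq, T_sq, map_one, mul_one, b24.1] at t2
    exact ⟨_, t1, (by decide : ∀ t ∈ T8, 24 = t.2.1 → 248 = t.2.2 → -4 ≤ t.1 ∧ (t.1 ≤ 28 ∨ t.1 = 132)) t ht
      (by exact_mod_cast t2) (by exact_mod_cast t3)⟩
  choose z z2 z3 z4 using h4
  rw [b24.2, show c.dm f (Q F G) = 52 by omega, Finset.sum_congr rfl fun b _ => z2 b, ← Int.cast_sum] at eQ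
  have eS : ∑ b, z b = 416 := by
    have : ((8 : ℕ) * (52 : ℕ) + 7 * ∑ b, z b : ℤ) = (8 ^ 2 : ℕ) * (52 : ℕ) := by exact_mod_cast eQ
    omega
  by_cases h1 : ∀ b, z b ≤ 28
  · have := Finset.sum_le_card_nsmul Finset.univ z 28 fun b _ => h1 b
    rw [eS, Finset.card_univ, cF] at this
    norm_num at this
  obtain ⟨b, hb⟩ := not_forall.1 h1
  have a1 : ∀ a, z (b + θ a + a) = 132 := fun a => by
    have := bcl c (f := f) (T 1 b) (T a 0)
    rw [T_conj, mul_one, map_one, mul_one, z2, z2, (z4 b).resolve_left hb] at this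
    exact_mod_cast this
  have a2 := Finset.card_le_mul_card_image (f := fun a => b + θ a + a) Finset.univ 2 fun _ h => by
    obtain ⟨a, -, rfl⟩ := Finset.mem_image.1 h
    refine (Finset.card_le_card (t := {a, a + 1}) fun a' h' => ?_).trans Finset.card_le_two
    have := θ_eq_self (x := a' - a) (by
      rw [map_sub]; linear_combination (Finset.mem_filter.1 h').2 - (a' - a) * two (F := F))
    simpa [sub_eq_zero, sub_eq_iff_eq_add'] using this
  have a3 := Finset.sum_le_sum_of_subset_of_nonneg (f := fun b => z b + 4)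
    (Finset.subset_univ (Finset.univ.image fun a => b + θ a + a)) fun b _ _ => by linarith [z3 b]
  rw [Finset.sum_congr rfl (g := fun _ => 136) fun _ h => by
    obtain ⟨a, -, rfl⟩ := Finset.mem_image.1 h
    rw [a1]; rfl, Finset.sum_add_distrib, eS] at a3
  simp only [Finset.sum_const, Finset.card_univ, cF, nsmul_eq_mul] at a2 a3
  omega

theorem gd (h3 : Nat.card (Cfsg.Out G) = 3) : Gd G := by
  have := isSimpleGroup F G
  have cu : Nat.card Fˣ = 7 := by rw [Nat.card_units, hF]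
  have : Nontrivial Fˣ := Finite.one_lt_card_iff_nontrivial.1 (by omega)
  obtain ⟨k, hk⟩ := exists_ne (1 : Fˣ)
  refine ⟨(IsSimpleGroup.eq_bot_or_eq_top_of_normal _ inferInstance).resolve_right fun e => ?_, ?_, M k, ?_,
    mt M_eq_one.1 hk, by rw [centralizer_M hk, card_H, hF], fun c f hf => ⟨dm_pos hF c hf, .inr (ne52 hF c hf hk)⟩⟩
  · exact W_notMem_B (F := F) (Q_le_B (centralizer_le_Q (T_mem_Q 0 1) T01_ne_one
      (center_le_centralizer _ (e ▸ mem_top _))))
  · rw [card_eq_card_quotient_mul_card_subgroup (Cfsg.Inn _), h3]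
    exact mul_dvd_mul (by norm_num) (card_range_dvd _)
  · rw [← map_pow, ← cu, pow_card_eq_one', map_one]

omit hF

theorem sz.{u} : SZ.{u} := fun F _ _ h => by
  have hF : Fintype.card F = 2 ^ (2 * 1 + 1) := h
  suffices ∀ e, e = 2 ^ (1 + 1) → Gd (Cfsg.Lie.Sz F e) from this 4 rfl
  rintro _ rfl
  let := titsOfCard hF
  have := big_of_card_eq le_rfl hF
  let := lieModel hF
  have := finite_G F (Cfsg.Lie.Sz F (2 ^ (1 + 1)))
  have := Fintype.ofFinite (Cfsg.Lie.Sz F (2 ^ (1 + 1)))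
  exact gd (F := F) (by rw [Nat.card_eq_fintype_card, h]) (Cfsg.Agent.S2126.result le_rfl hF)

end H22.E8
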