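/-
Standard subgroups of type `Sp₄(2ⁿ)`: recognition of `U₄(q)` and `U₅(q)` (chunks `RU4`, `RU5`).
-/
import Cfsg.Agent.H22.F47
import Cfsg.Agent.H27.W2
import Cfsg.Agent.S2089

set_option autoImplicit false
set_option linter.unusedSectionVars false
set_option synthInstance.maxSize 100000
set_option maxRecDepth 100000

namespace H22.QU
open Cfsg Subgroup H19 H12 H11 H26.UE
open H27.S4 (Γ X I E Sh Tri ep R4 R5 G4 G5 TwU RU4 RU5 X_add X_zero X_inj)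
open H1.YG (Big h2 four_le)
universe u

/-- the roots in cyclic order -/
def ix (r : P) : I := ([7, 6, 4, 2, 0, 1, 3, 5] : List I).getD r.val 0
theorem ixT : ∀ r s k m, Tp r s k m → Tri (ix r) (ix s) (ix k) (ix m) ∧ Sh (ix k) ∧ Sh (ix s) ∧ H27.S4.cm (ix r) (ix m) = true ∧
    (((ix r).val = 3 ∨ (ix r).val = 4) ↔ ¬ ((ix m).val = 3 ∨ (ix m).val = 4)) := by decide +kernel
theorem ixS : (∀ r : I, ∃ p, ix p = r) ∧ ∀ p, Ev p ↔ ¬ Sh (ix p) := by decide +kernel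

section
variable {K : Type} [Field K] [Fintype K] [CharP K 2] {q m : ℕ} (hK : Fintype.card K = q ^ 2)
include hK
theorem su1 (hm : m = 4 ∨ m = 5) (hq : 4 ≤ q) {Δ : Type*} [Group Δ] [Finite Δ] (τ : Δ →* SU m K q) (p : Group.IsPerfect Δ)
    (s : Function.Surjective τ) (c : τ.ker ≤ center _) : Function.Injective τ := by
  have s' := (QuotientGroup.mk'_surjective (center (SU m K q))).comp s
  have := H23.card_ker_dvd (Agent.S2089.result m q hK (by omega) (by omega) (by simp; omega))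
    (H23.stem_of_perfect p (σ := (QuotientGroup.mk' _).comp τ) s' (H23.comp_ker_le_center p s c (QuotientGroup.ker_mk' _).le))
  rw [Nat.card_congr Multiplicative.toAdd, Nat.card_zmod, ← card_center_SU hK (by omega)] at this
  refine (s.bijective_of_nat_card_le ?_).1
  rw [← ((QuotientGroup.mk' (center (SU m K q))).comp τ).ker.card_mul_index, ← (center (SU m K q)).card_mul_index, index_ker,
    MonoidHom.range_eq_top.2 s', card_top]
  exact Nat.mul_le_mul_right _ (Nat.le_of_dvd Nat.card_pos this)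
theorem hB (u v : Fin m → K) : (hermC (Fin m) hK).B u v = ∑ i, v i * frob hK (u i) := rfl
theorem cf4 {ω : K} (h : ω + frob hK ω = 1) :
    Cf (hermC (Fin 4) hK) ![1, 1, 0, 0] ![0, 0, 1, 1] ![ω, frob hK ω, 0, 0] ![0, 0, ω, frob hK ω] 0 0 :=
  ⟨by simp [hB, Fin.sum_univ_succ, -frob_apply, frob_frob]; grind, .inr rfl, fun x => by
    ext i; fin_cases i <;> simp [hB, Fin.sum_univ_succ, -frob_apply, frob_frob] <;> grind⟩
theorem cf5 {ω : K} (h : ω + frob hK ω = 1) :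
    Cf (hermC (Fin 5) hK) ![1, 1, 0, 0, 0] ![0, 0, 1, 1, 0] ![ω, frob hK ω, 0, 0, 0] ![0, 0, ω, frob hK ω, 0] ![0, 0, 0, 0, 1] 1 :=
  ⟨by simp [hB, Fin.sum_univ_succ, -frob_apply, frob_frob]; grind, .inl rfl, fun x => by
    ext i; fin_cases i <;> simp [hB, Fin.sum_univ_succ, -frob_apply, frob_frob] <;> grind⟩
end

variable {F : Type} [Field F] [Big F] {G : Type u} [Group G] [Finite G] {ι : Γ F →* G} {t : G} {ρ d : F} {ξ w : I → E ρ → G}
  {r s k m : P}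

/-- the common form of the relations of `U₄(q)` (`d = 0`) and `U₅(q)` (`d = 1`) -/
structure R45 (ι : Γ F →* G) (t : G) (ρ : F) (ξ w : I → E ρ → G) (d : F) : Prop extends R4 ι t ρ ξ where
  one : ∀ r, ¬ Sh r → ∀ x : E ρ, x = 0 ∨ d = 0 → w r x = 1
  mul : ∀ r, ¬ Sh r → ∀ x y, w r x * w r y * ι (X r (d * (x * star y * star QuadraticAlgebra.omega).im)) = w r (x + y)
  wx : ∀ r, ¬ Sh r → ∀ x u, w r x * ι (X r u) = ι (X r u) * w r x
  tw : ∀ r, ¬ Sh r → ∀ x, t * w r x * t⁻¹ = w r (star x) * ι (X r (d * x.norm))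
  wy : ∀ r s k m, Tri r s k m → ∀ x e,
    ξ s x * w r e * (ξ s x)⁻¹ = w r e * w m (ep r x * e) * ξ k ((d * e.norm) • (x * ep r QuadraticAlgebra.omega))
  ww : ∀ r s k m, Tri r s k m → ∀ e e', w r e * w m e' = w m e' * w r e * ξ k (d • ep r (star e * e'))
  wc : ∀ r s k m, Tri r s k m → ∀ e, (∀ x, w m e * ξ k x = ξ k x * w m e) ∧ ∀ u, w m e * ι (X r u) = ι (X r u) * w m e
theorem x0 (R : R4 ι t ρ ξ) {r : I} (h : Sh r) : ξ r 0 = 1 := by simpa using R.add r h 0 0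
theorem of4 (R : R4 ι t ρ ξ) : R45 ι t ρ ξ (fun _ _ => 1) 0 := ⟨R, by simp, by simp [X_zero], by simp, by simp [X_zero],
  fun r s k m h => by simp [x0 R ((by decide : ∀ r s k m, Tri r s k m → Sh k) r s k m h)],
  fun r s k m h => by simp [x0 R ((by decide : ∀ r s k m, Tri r s k m → Sh k) r s k m h)], by simp⟩
theorem of5 (R : R5 ι t ρ ξ w) : R45 ι t ρ ξ w 1 := ⟨R.toR4, fun r h x e => by simpa [e.resolve_right one_ne_zero, X_zero] using R.mul r h 0 0,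
  by simpa using R.mul, R.wx, by simpa using R.tw, by simpa using R.wy, by simpa using R.ww, R.wc⟩

theorem epp (r : I) (x : E ρ) : ep r (ep r x) = x := by unfold ep; split_ifs <;> simp
theorem eps (r : I) (x : E ρ) : ep r (star x) = star (ep r x) := by unfold ep; split_ifs <;> simp
theorem epm (r : I) (x y : E ρ) : ep r (x * y) = ep r x * ep r y := by unfold ep; split_ifs <;> simp
theorem epa (r : I) (x y : E ρ) : ep r (x + y) = ep r x + ep r y := by unfold ep; split_ifs <;> simp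
theorem epF (r : I) (c : F) (x : E ρ) : ep r (c • x) = c • ep r x := by unfold ep; split_ifs <;> ext <;> simp [mul_add]
theorem epn (r : I) (x : E ρ) : (ep r x).norm = x.norm := by unfold ep; split_ifs <;> simp
theorem ept (t : Tp r s k m) (x : E ρ) : ep (ix m) x = ep (ix r) (star x) := by
  have := (ixT _ _ _ _ t).2.2.2.2
  unfold ep; split_ifs <;> simp_all

variable (ξ) in
/-- short root elements -/
def ZZ (k m : P) (a : E ρ) : G := ξ (ix k) (ep (ix m) a)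
variable (ι w) in
/-- long root elements -/
noncomputable def WW (r : P) (a c : E ρ) : G := w (ix r) (star a) * ι (X (ix r) c.re)

section
variable [Fact (∀ r : F, r ^ 2 ≠ ρ + 1 * r)] {T : FormType (E ρ)} (hσ : ∀ x, T.σ x = star x) (R : R45 ι t ρ ξ w d)
include hσ R
omit R in
theorem vim {a c : E ρ} (h : c + T.σ c = a * T.σ a * ⟨d, 0⟩) : c.im = d * a.norm := by
  have := congrArg QuadraticAlgebra.re h
  simp [hσ, QuadraticAlgebra.norm_def] at this ⊢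
  grind
theorem rz : RZ T ⟨d, 0⟩ (ZZ ξ) (WW ι w) where
  sy t a := by rw [ZZ, ZZ, ept t, hσ]
  add t a a' := by rw [ZZ, epa, R.add _ (ixT _ _ _ _ t).2.1]; rfl
  mul {r} o a c a' c' h h' := by
    have o := (ixS.2 r).1 o
    rw [WW, WW, WW, star_add, ← R.mul _ o, mul_assoc, ← mul_assoc (ι _), ← R.wx _ o]
    simp only [mul_assoc, ← map_mul, X_add]
    congr 4
    simp [hσ]
    grind
  one {r} o a h := by
    rw [WW, R.one _ ((ixS.2 r).1 o), one_mul, QuadraticAlgebra.re_zero, X_zero, map_one]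
    simpa [T.σ_eq_zero, QuadraticAlgebra.ext_iff (x := ⟨d, 0⟩)] using h
  wc {r s k m} t a c x := by
    have t2 := (ixT _ _ _ _ (tp1 _ _ _ _ t).1.2.1).1
    exact Commute.mul_left ((R.wc _ _ _ _ t2 _).1 _) (R.cm _ _ _ _ t2 _ _).1.symm
  ww {r s k m} t a c a' c' := by
    obtain ⟨t1, -, -, c1, -⟩ := ixT _ _ _ _ t
    have t2 := (ixT _ _ _ _ (tp1 _ _ _ _ t).1.2.1).1
    have k1 : ∀ x, Commute (WW ι w r a c) (ξ (ix k) x) := fun x => .mul_left ((R.wc _ _ _ _ t2 _).1 _) (R.cm _ _ _ _ t2 _ _).1.symm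
    have k2 : ∀ x, Commute (WW ι w m a' c') (ξ (ix k) x) := fun x => .mul_left ((R.wc _ _ _ _ t1 _).1 _) (R.cm _ _ _ _ t1 _ _).1.symm
    rw [mul_inv_eq_iff_eq_mul, mul_inv_eq_iff_eq_mul, ZZ, ← (k2 _).eq, mul_assoc, ← (k1 _).eq, WW, WW, mul_assoc, ← mul_assoc (ι _),
      ← (R.wc _ _ _ _ t1 _).2, mul_assoc, ← map_mul, H27.S4.comm c1, map_mul, ← mul_assoc, R.ww _ _ _ _ t1, mul_assoc, ← mul_assoc (ξ _ _),
      (R.cm _ _ _ _ t1 _ _).1, mul_assoc (ι _), (R.cm _ _ _ _ t1 _ _).2, mul_assoc (w _ _), ← mul_assoc (w _ _) (ι _), (R.wc _ _ _ _ t2 _).2,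
      ept t, ← epF]
    simp only [mul_assoc]
    congr 6
    ext <;> simp [hσ] <;> grind
  cs {r s k m} t x y := by
    obtain ⟨t1, -⟩ := ixT _ _ _ _ t
    rw [ZZ, ZZ, R.cs _ _ _ _ t1, WW, star_zero, R.one _ ((ixS.2 m).1 (tp1 _ _ _ _ t).1.2.2.2.1) _ (.inl rfl), one_mul, mul_assoc (ξ _ _),
      (R.cm _ _ _ _ (ixT _ _ _ _ (tp1 _ _ _ _ t).1.1).1 _ _).1, ← mul_assoc, (R.cm _ _ _ _ t1 _ _).1, mul_inv_cancel_right, mul_inv_cancel_right]
    congr 2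
    unfold ep; split_ifs <;> simp [hσ] <;> grind
  wy {r s k m} t x a c h := by
    obtain ⟨t1, sk, ss, -⟩ := ixT _ _ _ _ t
    have i : ∀ y, (ξ (ix s) y)⁻¹ = ξ (ix s) y := fun y => inv_eq_of_mul_eq_one_right (by
      rw [← R.add _ ss, show y + y = 0 by ext <;> simp [CharTwo.add_self_eq_zero], x0 R.toR4 ss])
    have := R.cy _ _ _ _ t1 c.re (ep (ix m) x)
    rw [mul_assoc (ξ _ _), ← inv_mul_eq_iff_eq_mul, i, ← mul_assoc] at this
    rw [ZZ, ZZ, WW, WW, ← conj_mul, R.wy _ _ _ _ t1, i, this, mul_assoc, ← mul_assoc (ξ _ _), (R.cm _ _ _ _ t1 _ _).2, mul_assoc (ι _),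
      ← mul_assoc (ξ _ _), ← R.add _ sk, (R.cm _ _ _ _ t1 _ _).1, mul_assoc (w _ _), ← mul_assoc (w _ _) (ι _), (R.wc _ _ _ _ t1 _).2, epn]
    simp only [mul_assoc]
    congr 4
    · rw [ept t, epp, star_mul']
    · congr 2; simp [hσ, QuadraticAlgebra.norm_def]; grind
    · rw [epm, ept t (T.σ c), hσ, star_star, QuadraticAlgebra.norm_star, ← vim hσ h]
      generalize ep (ix m) x = y
      congr 1
      unfold ep; split_ifs <;> ext <;> simp <;> grind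
theorem tW (o : Ev r) (a c : E ρ) (h : c + T.σ c = a * T.σ a * ⟨d, 0⟩) : t * WW ι w r a c * t⁻¹ = WW ι w r (T.σ a) (T.σ c) := by
  rw [WW, WW, ← conj_mul, R.tw _ ((ixS.2 r).1 o), R.cen, mul_inv_cancel_right, mul_assoc, ← map_mul, X_add, hσ, hσ,
    QuadraticAlgebra.norm_star, ← vim hσ h]
  simp [add_comm]

theorem rg {S : Type*} [Group S] {V : Type*} [AddCommGroup V] [Module (E ρ) V] [Finite V] {C : CForm T V} {𝒢 : Type*} [Group 𝒢] [Finite 𝒢]
    [DistribMulAction 𝒢 V] {κ : 𝒢 →* RingAut (E ρ)} {e : V} {b : P → V} {l : S →* 𝒢} [Finite (E ρ)] [CharP (E ρ) 2] (μ : Md C κ l.range)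
    (cf : ∀ {r s k m}, Tp r s k m → Cf C (b r) (b m) (b (r + 4)) (b (m + 4)) e ⟨d, 0⟩) {ψ : S →* G}
    (h1 : ∀ s, (ψ s, l s) ∈ UU (YY C κ e b (ZZ ξ) (WW ι w)) Set.univ) (h2 : ∀ g s, (g, l s) ∈ UU (YY C κ e b (ZZ ξ) (WW ι w)) Set.univ → ψ s = g) :
    ψ.range = G5 ι ξ w := by
  have Q := rz hσ R
  have X0 := frY μ cf Q
  have kW : ∀ r, Ev r → ∀ a c, c + T.σ c = a * T.σ a * ⟨d, 0⟩ → WW ι w r a c ∈ ψ.range := fun r o a c h => by
    obtain ⟨g, -, E⟩ := X0.exL μ ((tp2 r).1 o).1 h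
    obtain ⟨s, rfl⟩ := μ.EL E
    exact ⟨s, h2 _ s (mU trivial ((memL μ cf Q o).2 ⟨a, c, rfl, E⟩))⟩
  have kZ : ∀ r, Sh r → ∀ x, ξ r x ∈ ψ.range := fun r o x => by
    obtain ⟨p, rfl⟩ := ixS.1 r
    have t := (tp2 p).2 fun h => (ixS.2 p).1 h o
    obtain ⟨g, -, E⟩ := X0.exS μ t (ep (ix (p + 1)) x)
    obtain ⟨s, rfl⟩ := μ.EL E
    exact ⟨s, h2 _ s (mU trivial ((memS μ cf Q t).2 ⟨_, by rw [ZZ, epp], E⟩))⟩
  unfold G5 G4
  refine le_antisymm (fun _ ⟨s, e⟩ => e ▸ fst_le μ cf Q (fun t a => mem_sup_left (mem_sup_right (subset_closure (by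
    exact ⟨_, _, (ixT _ _ _ _ t).2.1, rfl⟩)))) (fun o a c => mul_mem (mem_sup_right (subset_closure (by exact ⟨_, _, (ixS.2 _).1 o, rfl⟩)))
      (mem_sup_left (mem_sup_left (by exact ⟨_, rfl⟩)))) (h1 s))
    (sup_le (sup_le (fun _ ⟨x, e⟩ => e ▸ (H27.S4.gen (H := ψ.range.comap ι) fun r c => ?_).ge (mem_top x)) ((closure_le _).2 ?_)) ((closure_le _).2 ?_))
  · by_cases o : Sh r
    · exact (R.em r o c ▸ kZ r o _ :)
    obtain ⟨p, rfl⟩ := ixS.1 r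
    simpa [WW, R.one _ o] using kW p ((ixS.2 p).2 o) 0 ⟨c, 0⟩ (by ext <;> simp [hσ, CharTwo.add_self_eq_zero])
  · rintro _ ⟨r, x, o, rfl⟩; exact kZ r o x
  · rintro _ ⟨r, x, o, rfl⟩
    obtain ⟨p, rfl⟩ := ixS.1 r
    simpa [WW, X_zero] using kW p ((ixS.2 p).2 o) (star x) ⟨0, d * x.norm⟩ (by ext <;> simp [hσ, QuadraticAlgebra.norm_def] <;> grind)
omit hσ in
theorem main [Fintype (E ρ)] [CharP (E ρ) 2] (hK : Fintype.card (E ρ) = Nat.card F ^ 2) (hq : ∀ x : E ρ, x ^ Nat.card F = star x) {n : ℕ}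
    (hn : n = 4 ∨ n = 5) {u v u' v' e : Fin n → E ρ} (H : Cf (hermC (Fin n) hK) u v u' v' e ⟨d, 0⟩) :
    ∃ ψ : SU n (E ρ) (Nat.card F) →* G, ψ.range = G5 ι ξ w ∧ ∃ a e₁ f₁ e₂ f₂, TwU hK n ψ t (ι (X 7 1)) a e₁ f₁ e₂ f₂ := by
  have q4 := four_le F
  have μ := md (hF := hK) (m := n) (by omega) (by omega)
  have Q := rz (T := hermT hK) hq R
  have cf := fun {r s k m} (p : Tp r s k m) => H.fr p
  obtain ⟨ψ, h1, h2, -⟩ := cover μ cf Q lam_inj rfl (su1 hK hn q4)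
  obtain ⟨a, r1, aa, f⟩ := exa μ (g := ph hK n (RingEquiv.ofBijective _ (hermT hK).σ_bijective)) H fun _ => rfl
  obtain ⟨g, -, E0⟩ := (frY μ cf Q).exL μ ((tp2 0).1 rfl).1 (a := 0) (c := 1) (by simp [CharTwo.add_self_eq_zero])
  obtain ⟨s, rfl⟩ := μ.EL E0
  have e1 : ψ s = ι (X 7 1) := (h2 (WW ι w 0 0 1) s (mU trivial ((memL μ cf Q rfl).2 ⟨0, 1, rfl, E0⟩))).trans (by
    rw [WW, R.one _ (by decide) _ (.inl (star_zero _)), one_mul]; rfl)
  refine ⟨ψ, rg hq R μ cf h1 h2, a, u, u', v, v', ?_, aa, r1, fun s s' e => h2 _ _ (e ▸ nrm μ cf Q r1 (fun r => ?_) f.2.2.2.2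
    (fun p x => by rw [ZZ, R.tc _ (ixT _ _ _ _ p).2.1, ← eps, ← hq]; rfl) (fun o => tW hq R o) (h1 s)), by simp [f], by simp [H.g], by simp [H.g],
    by simp [H.g], s, e1, by rw [zero_smul] at E0; exact E0⟩
  · refine (H1.eq_top_or_le_center_of_isSubnormal ⟨⟨su_perfect hK (by omega) (by omega)⟩, psu_simple hK (by omega) (by omega)⟩
      (Normal.isSubnormal inferInstance)).resolve_left fun k => one_ne_zero (X_inj (r := 7) (R.inj ?_))
    rw [← e1, X_zero, map_one]; exact k.ge (mem_top s)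
  · rcases (by decide : ∀ r : P, r = 0 ∨ r = 2 ∨ r = 4 ∨ r = 6 ∨ r = 1 ∨ r = 3 ∨ r = 5 ∨ r = 7) r with rfl | rfl | rfl | rfl | rfl | rfl | rfl | rfl
    exacts [f.1, f.2.1, f.2.2.1, f.2.2.2.1, smul_zero a, smul_zero a, smul_zero a, smul_zero a]
end

theorem main' (R : R45 ι t ρ ξ w d) (hρ : ∀ r, r ^ 2 + r ≠ ρ) {n : ℕ} (h : n = 4 ∧ d = 0 ∨ n = 5 ∧ d = 1) :
    ∃ (K : Type) (_ : Field K) (_ : Fintype K) (_ : CharP K 2) (hK : Fintype.card K = Nat.card F ^ 2)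
      (ψ : SU n K (Nat.card F) →* G), ψ.range = G5 ι ξ w ∧ ∃ a e₁ f₁ e₂ f₂, TwU hK n ψ t (ι (X 7 1)) a e₁ f₁ e₂ f₂ := by
  have : Fact (∀ r : F, r ^ 2 ≠ ρ + 1 * r) := ⟨fun r e => hρ r (by rw [e, one_mul, add_assoc, CharTwo.add_self_eq_zero, add_zero])⟩
  have := Fintype.ofFinite F
  have : CharP (E ρ) 2 := charP_of_injective_algebraMap (algebraMap F _).injective 2
  have hK : Fintype.card (E ρ) = Nat.card F ^ 2 := (card_quadAlg ρ 1).trans (by rw [Nat.card_eq_fintype_card])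
  have hq : ∀ x : E ρ, x ^ Nat.card F = star x := fun x => by rw [Nat.card_eq_fintype_card, quadAlg_pow_card]
  have hω : QuadraticAlgebra.omega + frob hK QuadraticAlgebra.omega = 1 := by
    rw [frob_apply, hq]; ext <;> simp <;> rfl
  rcases h with ⟨rfl, rfl⟩ | ⟨rfl, rfl⟩
  exacts [⟨_, _, _, this, hK, main R hK hq (.inl rfl) (cf4 hK hω)⟩, ⟨_, _, _, this, hK, main R hK hq (.inr rfl) (cf5 hK hω)⟩]

theorem ru4 : RU4.{u} := fun ι t ρ ξ R hρ _ => by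
  have := main' (of4 R) hρ (.inl ⟨rfl, rfl⟩)
  rwa [G5, sup_eq_left.2 ((closure_le _).2 (by rintro _ ⟨_, _, _, rfl⟩; exact one_mem _))] at this
theorem ru5 : RU5.{u} := fun ι t ρ ξ w R hρ _ => main' (of5 R) hρ (.inr ⟨rfl, rfl⟩)

end H22.QU
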