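import Mathlib
import Cfsg.Prelude.Def_LinearParabolics
import Cfsg.Agent.H5.RepEquiv

/-! Bruhat decomposition of `GL n` and double cosets of parabolic subgroups. -/

set_option autoImplicit false

namespace H22.GC

open Matrix Cfsg MulAction Finset

theorem inner_perm {G T : Type*} [Group G] [Fintype G] (H K : Subgroup G) (ι : G → T)
    (h : ∀ g g', ι g = ι g' ↔ ∃ a ∈ H, ∃ b ∈ K, g' = a * g * b) :
    (Nat.card G : ℂ)⁻¹ * ∑ g, fixedPointCharacter H g * fixedPointCharacter K g =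
      Nat.card (Set.range ι) := by
  classical
  have := Fintype.ofFinite (G ⧸ H)
  have := Fintype.ofFinite (G ⧸ K)
  have := Fintype.ofFinite (orbitRel.Quotient G ((G ⧸ H) × (G ⧸ K)))
  have h1 := sum_card_fixedBy_eq_card_orbits_mul_card_group G ((G ⧸ H) × (G ⧸ K))
  simp only [← Nat.card_eq_fintype_card, H5.card_fixedBy_prod] at h1
  have h2 : Nat.card (Set.range ι) = Nat.card (orbitRel.Quotient G ((G ⧸ H) × (G ⧸ K))) := by
    let φ : G → orbitRel.Quotient G ((G ⧸ H) × (G ⧸ K)) := fun g => Quotient.mk'' ((1 : G), g)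
    have e : ∀ g g', φ g' = φ g ↔ ι g = ι g' := fun g g' => by
      rw [h]
      refine Quotient.eq''.trans ⟨fun ⟨a, ha⟩ => ⟨a, ?_, _, QuotientGroup.eq.1 (congrArg Prod.snd ha),
        by simp [mul_assoc]⟩, ?_⟩
      · simpa using QuotientGroup.eq.1 (congrArg Prod.fst ha)
      · rintro ⟨a, ha, b, hb, rfl⟩
        exact ⟨a, Prod.ext (QuotientGroup.eq.2 (by simpa)) (QuotientGroup.eq.2 (by simpa [mul_assoc]))⟩
    refine Nat.card_congr (Equiv.ofBijective (fun x => φ x.2.choose) ⟨fun x y e1 => Subtype.ext ?_,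
      fun q => ?_⟩)
    · rw [← x.2.choose_spec, ← y.2.choose_spec, (e _ _).1 e1]
    · obtain ⟨⟨x, y⟩, rfl⟩ := Quotient.mk''_surjective q
      obtain ⟨x, rfl⟩ := QuotientGroup.mk_surjective x
      obtain ⟨y, rfl⟩ := QuotientGroup.mk_surjective y
      have hm : ι (x⁻¹ * y) ∈ Set.range ι := ⟨_, rfl⟩
      refine ⟨⟨_, hm⟩, ((e (x⁻¹ * y) _).2 hm.choose_spec.symm).trans
        (Quotient.sound' ⟨x⁻¹, Prod.ext ?_ rfl⟩)⟩
      change ((x⁻¹ * x : G) : G ⧸ H) = _
      rw [inv_mul_cancel]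
  rw [h2, inv_mul_eq_iff_eq_mul₀ (Nat.cast_ne_zero.2 Nat.card_pos.ne'), mul_comm]
  unfold fixedPointCharacter
  exact_mod_cast h1

theorem exists_equiv_fib {X Y S : Type*} [Finite X] [Finite Y] (f : X → S) (g : Y → S)
    (h : ∀ s, Nat.card {x // f x = s} = Nat.card {y // g y = s}) :
    ∃ e : X ≃ Y, ∀ x, g (e x) = f x :=
  ⟨_, Equiv.ofFiberEquiv_map fun s => (Finite.card_eq.1 (h s)).some⟩

variable {n : ℕ} {F : Type*} [Field F] {a b : Fin n → Fin n}

/-- the intersection matrix of two labellings -/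
noncomputable def MM (a b : Fin n → Fin n) (σ : Equiv.Perm (Fin n)) : Fin n → Fin n →₀ ℕ :=
  fun s => Finsupp.equivFunOnFinite.symm fun t => #{j | a (σ j) = s ∧ b j = t}

theorem MM_apply (σ : Equiv.Perm (Fin n)) (s t : Fin n) :
    MM a b σ s t = #{j | a (σ j) = s ∧ b j = t} := rfl

theorem MM_eq_iff {σ τ : Equiv.Perm (Fin n)} : MM a b σ = MM a b τ ↔
    ∃ x : Equiv.Perm (Fin n), (∀ i, a (x i) = a i) ∧
      ∃ y : Equiv.Perm (Fin n), (∀ i, b (y i) = b i) ∧ τ = x * σ * y := by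
  constructor
  · intro h
    obtain ⟨e, he⟩ := exists_equiv_fib (fun j => (a (τ j), b j)) (fun j => (a (σ j), b j))
      fun s => by simpa [MM, Fintype.card_subtype, Prod.ext_iff] using
        (DFunLike.congr_fun (congrFun h s.1) s.2).symm
    refine ⟨τ * e⁻¹ * σ⁻¹, fun i => ?_, e, fun i => congrArg Prod.snd (he i), by group⟩
    simpa using (congrArg Prod.fst (he (e⁻¹ (σ⁻¹ i)))).symm
  · rintro ⟨x, hx, y, hy, rfl⟩
    ext s t
    rw [MM_apply, MM_apply]
    exact (card_equiv y fun j => by simp [hx, hy]).symm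

theorem mem_range_MM {M : Fin n → Fin n →₀ ℕ} : M ∈ Set.range (MM a b) ↔
    (∀ s, ∑ t, M s t = #{i | a i = s}) ∧ ∀ t, ∑ s, M s t = #{i | b i = t} := by
  constructor
  · rintro ⟨σ, rfl⟩
    refine ⟨fun s => ?_, fun t => ?_⟩
    · rw [← card_equiv σ (s := {j | a (σ j) = s}) (by simp),
        card_eq_sum_card_fiberwise (f := b) (t := univ) (by simp)]
      simp [MM, filter_filter]
    · rw [card_eq_sum_card_fiberwise (f := fun j => a (σ j)) (t := univ) (by simp)]
      simp [MM, filter_filter, and_comm]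
  · rintro ⟨h1, h2⟩
    let Z := Σ x : Fin n × Fin n, Fin (M x.1 x.2)
    have c : ∀ p : Fin n × Fin n → Prop, [DecidablePred p] →
        Nat.card {z : Z // p z.1} = ∑ s, ∑ t, if p (s, t) then M s t else 0 := fun p _ => by
      rw [Nat.card_eq_fintype_card, Fintype.card_subtype, card_filter, Fintype.sum_sigma,
        Fintype.sum_prod_type]
      simp [apply_ite card]
    obtain ⟨e, he⟩ := exists_equiv_fib (fun z : Z => z.1.1) a fun s => by
      rw [c fun x => x.1 = s, sum_comm]; simp [h1, Fintype.card_subtype]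
    obtain ⟨f, hf⟩ := exists_equiv_fib (fun z : Z => z.1.2) b fun t => by
      rw [c fun x => x.2 = t]; simp [h2, Fintype.card_subtype]
    refine ⟨f.symm.trans e, ?_⟩
    ext s t
    have := c fun x => x.1 = s ∧ x.2 = t
    rw [Nat.card_eq_fintype_card, Fintype.card_subtype] at this
    rw [sum_comm] at this
    rw [MM_apply, ← card_equiv f (s := {x | x.1.1 = s ∧ x.1.2 = t}) fun z => by simp [he, hf], this]
    simp [ite_and]

/-- block triangular invertible matrices -/
def PP (F : Type*) [Field F] (a : Fin n → Fin n) : Subgroup (GL (Fin n) F) where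
  carrier := {g | g.1.BlockTriangular a}
  mul_mem' := fun ha hb => BlockTriangular.mul ha hb
  one_mem' := blockTriangular_one
  inv_mem' := fun {g} hg => by
    have := g.invertible
    change (g⁻¹).1.BlockTriangular a
    rw [coe_units_inv]
    exact blockTriangular_inv_of_blockTriangular hg

/-- permutation matrices -/
def pm (F : Type*) [Field F] : Equiv.Perm (Fin n) →* GL (Fin n) F := permMatrixHom.toHomUnits

theorem pm_apply (σ : Equiv.Perm (Fin n)) (i j : Fin n) :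
    (pm F σ).1 i j = if i = σ j then 1 else 0 := by
  simp [pm, permMatrixHom, PEquiv.toMatrix_apply, Equiv.symm_apply_eq, Equiv.Perm.inv_def]

theorem pm_mulVec (σ : Equiv.Perm (Fin n)) (x : Fin n → F) (j : Fin n) :
    ((pm F σ).1 *ᵥ x) (σ j) = x j := by
  simp [mulVec, dotProduct, pm_apply]

theorem bruhat (g : GL (Fin n) F) :
    ∃ x ∈ PP F id, ∃ y ∈ PP F id, ∃ σ, g = x * pm F σ * y := by
  have : ∀ j : Fin n, ∃ s : Fin n, (∃ u : Fin n → F, (u j = 1 ∧ ∀ l, j < l → u l = 0) ∧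
      ∀ i, s < i → (g.1 *ᵥ u) i = 0) ∧ ∀ u : Fin n → F, (u j = 1 ∧ ∀ l, j < l → u l = 0) →
        (∀ i, s < i → (g.1 *ᵥ u) i = 0) → (g.1 *ᵥ u) s ≠ 0 := fun j => by
    classical
    have h : ∃ m, m ≤ n ∧ ∃ u : Fin n → F, (u j = 1 ∧ ∀ l, j < l → u l = 0) ∧
        ∀ i : Fin n, m ≤ i → (g.1 *ᵥ u) i = 0 :=
      ⟨n, le_rfl, Pi.single j 1, ⟨by simp, fun l h => by simp [h.ne']⟩, fun i h => by omega⟩
    obtain ⟨h1, u, h2, h3⟩ := Nat.find_spec h
    have h4 := fun m => Nat.find_min h (m := m)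
    generalize Nat.find h = m at *
    rcases m with _ | m
    · have : u = 0 := by
        rw [← one_mulVec u, ← g.inv_mul, ← mulVec_mulVec,
          show g.1 *ᵥ u = 0 from funext fun i => h3 i (by omega), mulVec_zero]
      simp [this] at h2
    · refine ⟨⟨m, h1⟩, ⟨u, h2, h3⟩, fun v h5 h6 h7 => h4 m (by omega) ⟨by omega, v, h5, fun i h => ?_⟩⟩
      rcases h.eq_or_lt with h | h
      · rwa [show i = ⟨m, h1⟩ from Fin.ext h.symm]
      · exact h6 i h
  choose s h1 h2 using this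
  choose u h1 h3 using h1
  have h4 : ∀ j j', j < j' → s j ≠ s j' := fun j j' h e => by
    have := h2 j (u j) (h1 j) (h3 j)
    refine h2 j' (u j' - ((g.1 *ᵥ u j') (s j) / (g.1 *ᵥ u j) (s j)) • u j)
      ⟨by simp [h1, (h1 j).2 _ h], fun l hl => by simp [(h1 j').2 _ hl, (h1 j).2 _ (h.trans hl)]⟩
      (fun i hi => by simp [mulVec_sub, mulVec_smul, h3 j' i hi, h3 j i (e ▸ hi)]) ?_
    simp [mulVec_sub, mulVec_smul, ← e, this]
  let σ := Equiv.ofBijective s (Finite.injective_iff_bijective.1 fun j j' e => by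
    rcases lt_trichotomy j j' with h | h | h
    exacts [(h4 _ _ h e).elim, h, (h4 _ _ h e.symm).elim])
  have hσ : ∀ k, s (σ.symm k) = k := σ.apply_symm_apply
  have t1 : (of fun i k => (g.1 *ᵥ u (σ.symm k)) i).BlockTriangular id :=
    fun i k h => h3 _ _ (by rwa [hσ])
  have t2 : (of fun l j => u j l).BlockTriangular id := fun l j h => (h1 j).2 l h
  refine ⟨.mkOfDetNeZero _ (show det _ ≠ 0 by
      rw [det_of_isUpperTriangular t1, prod_ne_zero_iff]
      exact fun k _ => by simpa [hσ] using h2 _ _ (h1 (σ.symm k)) (h3 _)), t1,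
    (GeneralLinearGroup.mkOfDetNeZero _ (show det _ ≠ 0 by
      rw [det_of_isUpperTriangular t2]; simp [h1]))⁻¹, inv_mem (s := PP F id) t2, σ, ?_⟩
  rw [eq_mul_inv_iff_mul_eq]
  ext i j
  simp [mul_apply, pm_apply, mulVec, dotProduct]

theorem PP_iff {g : GL (Fin n) F} (hg : g ∈ PP F a) (s : ℕ) (x : Fin n → F) :
    (∀ i, s ≤ a i → (g.1 *ᵥ x) i = 0) ↔ ∀ i, s ≤ a i → x i = 0 := by
  have key : ∀ g ∈ PP F a, ∀ x : Fin n → F, (∀ i, s ≤ a i → x i = 0) →
      ∀ i, s ≤ a i → (g.1 *ᵥ x) i = 0 := fun g hg x h i hi => by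
    refine show ∑ j, g.1 i j * x j = 0 from sum_eq_zero fun j _ => ?_
    by_cases hj : s ≤ a j
    · rw [h j hj, mul_zero]
    · rw [hg (show a j < a i by omega), zero_mul]
  exact ⟨fun h => by simpa using key _ (inv_mem hg) _ h, key g hg x⟩

theorem card_supp [Finite F] (p : Fin n → Prop) [DecidablePred p] :
    Nat.card {x : Fin n → F // ∀ i, ¬ p i → x i = 0} = Nat.card F ^ #{i | p i} := by
  rw [← Fintype.card_subtype, ← Nat.card_eq_fintype_card, ← Nat.card_fun]
  exact Nat.card_congr ⟨fun x i => x.1 i, fun y => ⟨fun i => if h : p i then y ⟨i, h⟩ else 0,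
    fun i h => dif_neg h⟩, fun x => Subtype.ext (funext fun i => by
      by_cases h : p i <;> simp [h, x.2 i]), fun y => funext fun i => dif_pos i.2⟩

theorem MM_eq_of [Finite F] {σ τ : Equiv.Perm (Fin n)} {x y : GL (Fin n) F} (hx : x ∈ PP F a)
    (hy : y ∈ PP F b) (h : pm F τ = x * pm F σ * y) : MM a b σ = MM a b τ := by
  have c : ∀ (ρ : Equiv.Perm (Fin n)) (s t : ℕ), Nat.card {v : Fin n → F //
      (∀ i, s ≤ a i → ((pm F ρ).1 *ᵥ v) i = 0) ∧ ∀ i, t ≤ b i → v i = 0} =
        Nat.card F ^ #{j | a (ρ j) < s ∧ b j < t} := fun ρ s t => by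
    rw [← card_supp]
    refine Nat.card_congr (Equiv.subtypeEquivRight fun v => ?_)
    rw [ρ.surjective.forall]
    simp only [pm_mulVec, not_and_or, not_lt, or_imp, forall_and]
  have R : ∀ s t : ℕ, #{j | a (σ j) < s ∧ b j < t} = #{j | a (τ j) < s ∧ b j < t} := fun s t => by
    refine Nat.pow_right_injective (Finite.one_lt_card (α := F)) ?_
    refine (c σ s t).symm.trans (.trans (Nat.card_congr (Equiv.subtypeEquiv
      (GeneralLinearGroup.toLin y).toLinearEquiv.toEquiv fun v => ?_)).symm (c τ s t))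
    rw [h, Units.val_mul, Units.val_mul, ← mulVec_mulVec, ← mulVec_mulVec, PP_iff hx,
      ← PP_iff hy t v]
    rfl
  have E : ∀ (ρ : Equiv.Perm (Fin n)) (s t : Fin n), MM a b ρ s t + #{j | a (ρ j) < s.1 ∧ b j < t.1 + 1}
      + #{j | a (ρ j) < s.1 + 1 ∧ b j < t.1} =
      #{j | a (ρ j) < s.1 + 1 ∧ b j < t.1 + 1} + #{j | a (ρ j) < s.1 ∧ b j < t.1} := fun ρ s t => by
    simp only [MM, Finsupp.equivFunOnFinite_symm_apply_apply, card_filter, ← sum_add_distrib,
      Fin.ext_iff]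
    exact sum_congr rfl fun j _ => by split_ifs <;> omega
  ext s t
  have h1 := E σ s t
  have h2 := E τ s t
  simp only [R] at h1
  omega

theorem pm_mem {σ : Equiv.Perm (Fin n)} (h : ∀ i, a (σ i) = a i) : pm F σ ∈ PP F a :=
  fun i j hij => by rw [pm_apply, if_neg]; rintro rfl; simp [h] at hij

theorem inner_GL [Fintype F] [DecidableEq F] (ha : Monotone a) (hb : Monotone b) :
    (Nat.card (GL (Fin n) F) : ℂ)⁻¹ * ∑ g, fixedPointCharacter (PP F a) g *
      fixedPointCharacter (PP F b) g = Nat.card (Set.range (MM a b)) := by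
  have le : ∀ {c : Fin n → Fin n}, Monotone c → PP F id ≤ PP F c :=
    fun hc g hg i j h => hg (hc.reflect_lt h)
  choose x hx y hy σ e using bruhat (n := n) (F := F)
  rw [inner_perm _ _ fun g => MM a b (σ g)]
  · refine congrArg (fun s : Set _ => (Nat.card s : ℂ))
      (Set.Subset.antisymm (Set.range_comp_subset_range σ (MM a b)) ?_)
    rintro _ ⟨τ, rfl⟩
    exact ⟨pm F τ, MM_eq_of (le ha (hx _)) (le hb (hy _)) (e _)⟩
  · refine fun g g' => ⟨fun h => ?_, fun ⟨u, hu, v, hv, h⟩ => ?_⟩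
    · obtain ⟨u, hu, v, hv, h⟩ := MM_eq_iff.1 h
      refine ⟨x g' * pm F u * (x g)⁻¹, mul_mem (mul_mem (le ha (hx _)) (pm_mem hu))
        (inv_mem (le ha (hx _))), (y g)⁻¹ * pm F v * y g', mul_mem (mul_mem (inv_mem (le hb (hy _)))
        (pm_mem hv)) (le hb (hy _)), ?_⟩
      conv_lhs => rw [e g', h]
      conv_rhs => enter [1, 2]; rw [e g]
      simp [mul_assoc]
    · refine MM_eq_of (x := (x g')⁻¹ * u * x g) (y := y g * v * (y g')⁻¹)
        (mul_mem (mul_mem (inv_mem (le ha (hx _))) hu) (le ha (hx _)))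
        (mul_mem (mul_mem (le hb (hy _)) hv) (inv_mem (le hb (hy _)))) ?_
      rw [e g, e g'] at h
      calc _ = (x g')⁻¹ * (x g' * pm F (σ g') * y g') * (y g')⁻¹ := by group
        _ = _ := by rw [h]; group

end H22.GC
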