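import Cfsg.Agent.H12.Lin
import Cfsg.Agent.H22.GLc2

/-! Generation of special linear groups from a Jordan block and a corner transvection. -/

set_option autoImplicit false

namespace H22.RG

open Module H12 Matrix

variable {F : Type*} [Field F] {n : ℕ}

/-- standard basis vectors indexed by natural numbers -/
def e (j : ℕ) : Fin n → F := fun k => if k.val = j then 1 else 0

/-- coordinate functionals indexed by natural numbers -/
def f (j : ℕ) : Dual F (Fin n → F) := if h : j < n then LinearMap.proj ⟨j, h⟩ else 0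

theorem f_apply {j : ℕ} (h : j < n) (x : Fin n → F) : f j x = x ⟨j, h⟩ := by simp [f, h]

theorem f_e {i : ℕ} (h : i < n) (j : ℕ) :
    f i (e j : Fin n → F) = if i = j then 1 else 0 := by rw [f_apply h]; rfl

theorem e_ge {j : ℕ} (h : n ≤ j) : (e j : Fin n → F) = 0 :=
  funext fun k => if_neg (by omega)

theorem e_fin (k : Fin n) : (e k : Fin n → F) = Pi.basisFun F _ k := by
  ext l; simp [e, Pi.single_apply, Fin.ext_iff]

theorem ext_e {W : Type*} [AddCommGroup W] [Module F W] {φ ψ : (Fin n → F) →ₗ[F] W}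
    (h : ∀ j < n, φ (e j) = ψ (e j)) : φ = ψ :=
  (Pi.basisFun F _).ext fun k => by rw [← e_fin]; exact h k k.2

/-- the lower Jordan block -/
def Jm (n : ℕ) (F : Type*) [Field F] : Matrix (Fin n) (Fin n) F :=
  fun i j => if i.val = j.val ∨ i.val = j.val + 1 then 1 else 0

/-- acts as a Jordan block -/
def IsJ (w : (Fin n → F) ≃ₗ[F] (Fin n → F)) : Prop := ∀ j, w (e j) = e j + e (j + 1)

theorem Jm_e (j : ℕ) : Jm n F *ᵥ e j = e j + e (j + 1) := by
  by_cases h : j < n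
  · rw [show (e j : Fin n → F) = _ from e_fin ⟨j, h⟩]
    ext k
    simp only [Pi.basisFun_apply, mulVec_single_one, col_apply, Jm, Pi.add_apply, e,
      Pi.single_apply, Fin.ext_iff]
    split_ifs <;> first | omega | simp
  · rw [e_ge (by omega), e_ge (by omega)]; simp

theorem IsJ.eq {w : (Fin n → F) ≃ₗ[F] (Fin n → F)} (h : IsJ w) (x : Fin n → F) :
    w x = Jm n F *ᵥ x :=
  DFunLike.congr_fun (ext_e (φ := w.toLinearMap) (ψ := toLin' (Jm n F))
    fun j _ => (h j).trans (Jm_e j).symm) x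

theorem Jm_pow (k j : ℕ) : (Jm n F - 1) ^ k *ᵥ e j = e (j + k) := by
  induction k with
  | zero => simp
  | succ k ih => rw [pow_succ', ← mulVec_mulVec, ih, sub_mulVec, Jm_e]; simp [add_assoc]

theorem Jm_nil : (Jm n F - 1) ^ n = 0 :=
  toLin'.injective (ext_e fun j _ => by
    rw [toLin'_apply, Jm_pow, e_ge (by omega)]; simp)

theorem Jm_reg (h : 0 < n) : (Jm n F - 1) ^ (n - 1) ≠ 0 := fun h0 => by
  have := congrFun (Jm_pow (F := F) (n := n) (n - 1) 0) ⟨n - 1, by omega⟩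
  simp [h0, e] at this

theorem Jm_det : (Jm n F).det = 1 := by
  have := det_add_nilp (ν := toLin' (Jm n F) - 1) ⟨n, pow_toLin_eq_zero.2 Jm_nil⟩ 1
  simpa using this

variable (F n) in
/-- two conjugate regular unipotent elements generate the special linear group -/
def Two : Prop := ∀ w : (Fin n → F) ≃ₗ[F] (Fin n → F), IsJ w → ∃ P ∈ SLV F (Fin n → F),
  ∀ X : Subgroup _, w ∈ X → P⁻¹ * w * P ∈ X → SLV F (Fin n → F) ≤ X

theorem Two.out (h : Two F n) (hn : 0 < n) : ∃ u g : SpecialLinearGroup (Fin n) F,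
    (IsNilpotent (u.1 - 1) ∧ (u.1 - 1) ^ (n - 1) ≠ 0) ∧
      Subgroup.closure ({u, g * u * g⁻¹} : Set (SpecialLinearGroup (Fin n) F)) = ⊤ := by
  have key : ∀ P ∈ SLV F (Fin n → F), ∃ g : SpecialLinearGroup (Fin n) F, g.toLin' = P :=
    fun P hP => ⟨⟨LinearMap.toMatrix' P.toLinearMap, by
      rw [LinearMap.det_toMatrix', mem_SLV.1 hP]⟩, LinearEquiv.ext fun x =>
        LinearMap.toMatrix'_mulVec _ x⟩
  let u : SpecialLinearGroup (Fin n) F := ⟨Jm n F, Jm_det⟩
  obtain ⟨P, hP, h1⟩ := h u.toLin' Jm_e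
  obtain ⟨g, rfl⟩ := key P hP
  refine ⟨u, g⁻¹, ⟨⟨n, Jm_nil⟩, Jm_reg hn⟩, eq_top_iff.2 fun x _ => ?_⟩
  obtain ⟨y, hy, e1⟩ := h1 ((Subgroup.closure {u, g⁻¹ * u * g⁻¹⁻¹}).map SpecialLinearGroup.toLin')
    ⟨u, Subgroup.subset_closure (by simp), rfl⟩
    ⟨_, Subgroup.subset_closure (Or.inr rfl), by simp⟩
    (show x.toLin' ∈ _ from mem_SLV.2 (by
      rw [SpecialLinearGroup.toLin'_to_linearMap, LinearMap.det_toLin', x.2]))
  rwa [← SpecialLinearGroup.toLin'_injective e1]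

variable {w : (Fin n → F) ≃ₗ[F] (Fin n → F)} {X : Subgroup ((Fin n → F) ≃ₗ[F] (Fin n → F))}

/-- transvections with centre `e 0` -/
def T (X : Subgroup ((Fin n → F) ≃ₗ[F] (Fin n → F))) : AddSubgroup (Dual F (Fin n → F)) where
  carrier := {ψ | ψ (e 0) = 0 ∧ Tr X (e 0) ψ}
  zero_mem' := ⟨rfl, tr_zero_right⟩
  add_mem' := fun ha hb => ⟨by simp [ha.1, hb.1], ha.2.add_right hb.2 ha.1⟩
  neg_mem' := fun ha => ⟨by simp [ha.1], ha.2.neg_right ha.1⟩

/-- the corner root elements -/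
def A (X : Subgroup ((Fin n → F) ≃ₗ[F] (Fin n → F))) : AddSubgroup F :=
  (T X).comap (LinearMap.toSpanSingleton F _ (f (n - 1))).toAddMonoidHom

theorem mem_A {r : F} : r ∈ A X ↔ r • f (n - 1) ∈ T X := Iff.rfl

theorem mem_A_of (hn : 2 ≤ n) {r : F} {g : (Fin n → F) ≃ₗ[F] (Fin n → F)} (hg : g ∈ X)
    (h : ∀ x, g x = x + (r * f (n - 1) x) • e 0) : r ∈ A X :=
  ⟨by simp [f_e (show n - 1 < n by omega), show n - 1 ≠ 0 by omega], g, hg, h⟩

theorem T_conj {g : (Fin n → F) ≃ₗ[F] (Fin n → F)} (hg : g ∈ X) {a : F} (ha : a • g (e 0) = e 0)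
    {ψ χ : Dual F (Fin n → F)} (h : ψ ∈ T X) (hχ : ∀ x, χ x = a * ψ (g x)) : χ ∈ T X := by
  refine ⟨by rw [hχ, ← smul_eq_mul, ← map_smul, ha, h.1], ?_⟩
  have := h.2.conj' (X.inv_mem hg) (w := a • e 0) (ψ := ψ ∘ₗ g.toLinearMap)
    (g.injective (by rw [apply_inv_apply, map_smul, ha]))
    fun x => congrArg ψ (apply_inv_apply g x)
  rw [tr_smul] at this
  exact (LinearMap.ext hχ : χ = a • (ψ ∘ₗ g.toLinearMap)) ▸ this

theorem IsJ.sum (hw : IsJ w) (m : ℕ) :
    w (∑ j ∈ Finset.range m, (-1 : F) ^ j • e j) = e 0 - (-1 : F) ^ m • e m := by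
  induction m with
  | zero => simp
  | succ m ih => rw [Finset.sum_range_succ, map_add, ih, map_smul, hw, pow_succ]; module

theorem T_step (hw : IsJ w) (hX : w ∈ X) {r : F} (hr : r ∈ A X) {ψ χ : Dual F (Fin n → F)}
    (h : ψ ∈ T X) (h1 : ψ (e 1) = 0) (hχ : ∀ x, χ x = r * ψ (w x)) : χ ∈ T X := by
  rcases Nat.eq_zero_or_pos n with rfl | hn
  · rw [Subsingleton.elim χ 0]; exact zero_mem _
  set z := ∑ j ∈ Finset.range n, (-1 : F) ^ j • (e j : Fin n → F)
  have hz : w z = e 0 := by rw [hw.sum, e_ge le_rfl]; simp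
  have h0 : ψ (w (e 0)) = 0 := by rw [hw, map_add, h.1, h1, add_zero]
  have h2 := hr.2.comm (h.2.conj' (X.inv_mem hX) (w := z) (ψ := ψ ∘ₗ w.toLinearMap)
    (by rw [← hz, inv_apply_apply]) fun x => congrArg ψ (apply_inv_apply w x)) hr.1
    (by simp [hz, h.1]) h0
  have h3 : f (n - 1) z = (-1) ^ (n - 1) := by
    simp [z, f_e (show n - 1 < n by omega), show n - 1 < n by omega]
  rw [tr_smul] at h2
  have h4 : (-1 : F) ^ (n - 1) • χ ∈ T X := ⟨by simp [hχ, h0], by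
    convert h2 using 1; exact LinearMap.ext fun x => by simp [hχ, h3]; ring⟩
  rcases neg_one_pow_eq_or F (n - 1) with h5 | h5 <;> rw [h5] at h4
  · simpa using h4
  · convert neg_mem h4 using 1; exact LinearMap.ext fun x => by simp

theorem IsJ.f_w (hw : IsJ w) {j : ℕ} (hj : j + 1 < n) (x : Fin n → F) :
    f (j + 1) (w x) = f (j + 1) x + f j x :=
  DFunLike.congr_fun (ext_e (φ := f (j + 1) ∘ₗ w.toLinearMap) (ψ := f (j + 1) + f j)
    fun k _ => by simp [hw k, f_e hj, f_e (show j < n by omega)]) x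

theorem T_down (hw : IsJ w) (hX : w ∈ X) {r s : F} (hr : r ∈ A X) {j : ℕ} (hj : j + 2 < n)
    (h : s • f (j + 2) ∈ T X) : (r * s) • (f (j + 2) + f (j + 1)) ∈ T X :=
  T_step hw hX hr h (by simp [f_e hj]) fun x => by simp [hw.f_w hj]; ring

theorem T_one (hw : IsJ w) (hX : w ∈ X) (h1 : 1 ∈ A X) {s : F} (hs : s ∈ A X) :
    ∀ k j, j + 2 + k = n → s • f (j + 1) ∈ T X
  | 0, j, h => by rwa [show j + 1 = n - 1 by omega]
  | k + 1, j, h => by
    have h2 := T_one hw hX h1 hs k (j + 1) (by omega)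
    simpa using sub_mem (T_down hw hX h1 (by omega) h2) h2

theorem gen (hw : IsJ w) (hX : w ∈ X) (hA : ∀ r, r ∈ A X) : SLV F (Fin n → F) ≤ X := by
  let S : Submodule F (Fin n → F) :=
    { carrier := {v | ∀ ψ : Dual F (Fin n → F), ψ v = 0 → Tr X v ψ}
      zero_mem' := fun _ _ => tr_zero_left
      smul_mem' := fun c v hv ψ h => by
        by_cases hc : c = 0
        · rw [hc, zero_smul]; exact tr_zero_left
        · exact (tr_smul c).2 (hv _ (by simpa [hc] using h))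
      add_mem' := fun {a b} ha hb ψ h => by
        by_cases hab : a ∈ (⊥ : Submodule F _) ⊔ Submodule.span F {b}
        · obtain ⟨c, hc⟩ := mem_sup_span_singleton.1 hab
          obtain rfl : a = c • b := sub_eq_zero.1 hc
          rw [show c • b + b = (c + 1) • b by module] at h ⊢
          by_cases hc : c + 1 = 0
          · rw [hc, zero_smul]; exact tr_zero_left
          · exact (tr_smul _).2 (hb _ (by simpa [hc] using h))
        · obtain ⟨φ, -, h1, h2⟩ := exists_dual_one_zero hab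
          obtain ⟨g, hg, e1⟩ := hb φ h2
          have e2 : g a = a + b := by rw [e1, h1, one_smul]
          exact (ha (ψ ∘ₗ g.toLinearMap) (by simpa [e2] using h)).conj' hg e2 fun _ => rfl }
  have h0 : e 0 ∈ S := fun ψ h => by
    have : ψ = ∑ j ∈ Finset.range n, ψ (e j) • f j := ext_e fun k hk => by
      rw [LinearMap.sum_apply, Finset.sum_eq_single k]
      · simp [f_e hk]
      · intro j hj hjk; simp [f_e (Finset.mem_range.1 hj), hjk]
      · simp [hk]
    rw [this]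
    refine (sum_mem (S := T X) fun j hj => ?_).2
    rcases j with _ | j
    · rw [h, zero_smul]; exact zero_mem _
    · exact T_one hw hX (hA 1) (hA _) (n - (j + 2)) j (by simp at hj; omega)
  have h1 : ∀ j, e j ∈ S := fun j => by
    induction j with
    | zero => exact h0
    | succ j ih =>
      have : w (e j) ∈ S := fun ψ h => (ih (ψ ∘ₗ w.toLinearMap) h).conj' hX rfl fun _ => rfl
      simpa [hw j] using S.sub_mem this ih
  refine SLV_le_of_tr fun v => show v ∈ S from ?_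
  rw [← (Pi.basisFun F _).sum_repr v]
  exact S.sum_mem fun k _ => S.smul_mem _ (e_fin (F := F) k ▸ h1 k)

theorem exists_gen [Finite F] : ∃ s : F, s ≠ 0 ∧ ∀ x, x ≠ 0 → ∃ k, s ^ k = x := by
  obtain ⟨g, hg⟩ := IsCyclic.exists_monoid_generator (α := Fˣ)
  exact ⟨g, g.ne_zero, fun x hx => let ⟨k, hk⟩ := hg (Units.mk0 x hx)
    ⟨k, by simpa using congrArg Units.val hk⟩⟩

theorem pow_card_sub [Finite F] {s : F} (hs : s ≠ 0) : ∃ m, s ^ (m + 1) = 1 ∧ m + 2 = Nat.card F := by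
  have := Fintype.ofFinite F
  have h := Fintype.one_lt_card (α := F)
  exact ⟨Fintype.card F - 2, by
    rw [show Fintype.card F - 2 + 1 = Fintype.card F - 1 by omega,
      FiniteField.pow_card_sub_one_eq_one s hs], by rw [Nat.card_eq_fintype_card]; omega⟩

/-- an additive subgroup closed under a twisted multiplication -/
theorem all_of_mul [Finite F] {B : AddSubgroup F} {κ s : F} (hκ : κ ≠ 0) (hs : s ≠ 0)
    (hg : ∀ x, x ≠ 0 → ∃ k, s ^ k = x) (h : ∀ a ∈ B, ∀ b ∈ B, κ * a * b ∈ B) (h1 : s / κ ∈ B)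
    (r : F) : r ∈ B := by
  have h2 : ∀ k, s ^ (k + 1) / κ ∈ B := fun k => by
    induction k with
    | zero => simpa using h1
    | succ k ih => convert h _ h1 _ ih using 1; field_simp; ring
  by_cases hr : r = 0
  · rw [hr]; exact zero_mem _
  obtain ⟨k, hk⟩ := hg (r * κ) (mul_ne_zero hr hκ)
  obtain ⟨m, hm, -⟩ := pow_card_sub hs
  convert h2 (k + m) using 1
  rw [add_assoc, pow_add, hm, hk]; field_simp

theorem exists_g (P : (Fin n → F) ≃ₗ[F] (Fin n → F)) (G : End F (Fin n → F))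
    (h : ∀ j < n, w (P (e j)) = P (w (G (e j)))) (hX : w ∈ X) (hP : P⁻¹ * w * P ∈ X) :
    ∃ g ∈ X, ∀ x, g x = G x := by
  refine ⟨_, X.mul_mem (X.inv_mem hX) hP, fun x => ?_⟩
  have : w (P x) = P (w (G x)) := DFunLike.congr_fun (ext_e (φ := w.toLinearMap ∘ₗ P.toLinearMap)
    (ψ := P.toLinearMap ∘ₗ w.toLinearMap ∘ₗ G) h) x
  simp only [LinearEquiv.mul_apply, this, inv_apply_apply]

theorem toLin_mem (P : SpecialLinearGroup (Fin n) F) : P.toLin' ∈ SLV F (Fin n → F) :=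
  mem_SLV.2 (by rw [SpecialLinearGroup.toLin'_to_linearMap, LinearMap.det_toLin', P.2])

theorem two_of_g (P G : Matrix (Fin n) (Fin n) F) (hP : P.det = 1)
    (h : Jm n F * P = P * (Jm n F * G))
    (H : ∀ w X, IsJ w → w ∈ X → ∀ g ∈ X, (∀ x, g x = G *ᵥ x) → ∀ r, r ∈ A X) : Two F n :=
  fun w hw => ⟨_, toLin_mem ⟨P, hP⟩, fun X h1 h2 => by
    obtain ⟨g, hg, e1⟩ := exists_g _ (toLin' G) (fun j _ => by
      rw [hw.eq, hw.eq]
      change _ *ᵥ P *ᵥ _ = P *ᵥ _ *ᵥ G *ᵥ _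
      simp [h]) h1 h2
    exact gen hw h1 (H w X hw h1 g hg e1)⟩

theorem two_of_u (P U : Matrix (Fin n) (Fin n) F) (hP : P.det = 1) (h : P * Jm n F = U * P)
    (H : ∀ w X, IsJ w → w ∈ X → ∀ g ∈ X, (∀ x, g x = U *ᵥ x) → ∀ r, r ∈ A X) : Two F n :=
  fun w hw => ⟨_, inv_mem (toLin_mem ⟨P, hP⟩), fun X h1 h2 => gen hw h1 (H w X hw h1 _ h2 fun x => by
    obtain ⟨y, rfl⟩ := (SpecialLinearGroup.toLin' ⟨P, hP⟩).surjective x
    rw [inv_inv, LinearEquiv.mul_apply, LinearEquiv.mul_apply, inv_apply_apply, hw.eq]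
    change P *ᵥ _ *ᵥ y = U *ᵥ P *ᵥ y
    simp [h])⟩

end H22.RG
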