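import Cfsg.Agent.H22.MU5
import Cfsg.Agent.H22.RG1
import Cfsg.Agent.H22.UF

/-! Generation of symplectic and unitary groups by three conjugate regular unipotent elements: the general part. -/

set_option autoImplicit false

namespace H22.GS

open Module H12 Subgroup

variable {F V : Type*} [Field F] [AddCommGroup V] [Module F V] {T : FormType F} {C : CForm T V}
  {G X : Subgroup (V ≃ₗ[F] V)} {u g k : V ≃ₗ[F] V} {e : ℕ → V} {v d y z : V} {a s t r δ β : F} {N m : ℕ}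

theorem rf_tv (h : Rf C d 0 a g) (x : V) : g x = x - (a * C.B d x) • d := by simp [h x]

theorem rf_tv_inv (h : Rf C d 0 a g) (hd : C.B d d = 0) : Rf C d 0 (-a) g⁻¹ := by
  simpa using h.inv hd (by simp)

theorem rf_shift (h : Rf C v (s • v) a g) : Rf C v 0 (a - (s - T.σ s * T.σ T.ε)) g := fun x => by
  rw [h x]
  simp only [map_smul, smul_eq_mul, map_mul, C.σ_B x v, map_zero]
  module

theorem rq_shift (h : Rq C X v (s • v) a) : Rq C X v 0 (a - (s - T.σ s * T.σ T.ε)) :=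
  let ⟨g, hg, e⟩ := h; ⟨g, hg, rf_shift e⟩

theorem rf_two (h : Rf C (d + s • v) 0 a g) (h' : Rf C d 0 a k) (ha : a * T.ε + T.σ a = 0)
    (hd : C.B d d = 0) (hv : C.B v d = 0) :
    Rf C v (-(a * T.σ s) • d) (a * (s * T.σ s)) (g * k⁻¹) := fun x => by
  have e1 : T.σ (C.B x (-(a * T.σ s) • d)) = a * s * C.B d x := by
    rw [map_smul, smul_eq_mul, map_mul, map_neg, map_mul, T.σσ, C.σ_B]
    linear_combination (-s * T.σ T.ε * C.B d x) * ha + a * s * C.εσε d x
  rw [LinearEquiv.mul_apply, rf_tv h, rf_tv (rf_tv_inv h' hd), e1]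
  simp only [C.B_add_left, C.B_smul_left, map_sub, map_smul, hd, hv, smul_eq_mul]
  module

theorem rq_two (h : Rq C X (d + s • v) 0 a) (h' : Rq C X d 0 a) (ha : a * T.ε + T.σ a = 0)
    (hd : C.B d d = 0) (hv : C.B v d = 0) : Rq C X v (-(a * T.σ s) • d) (a * (s * T.σ s)) :=
  let ⟨_, hg, e⟩ := h; let ⟨_, hk, e'⟩ := h'; ⟨_, mul_mem hg (inv_mem hk), rf_two e e' ha hd hv⟩

theorem rq_neg (h : Rq C X (-d) 0 a) : Rq C X d 0 a := by
  simpa using Rq.smul_zero (c := (-1 : F)) (v := d) (by simpa using h)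

theorem rq_mu (hX : X ≤ C.isom) (h : Rq C X d 0 a) (h' : Rq C X v y r) (hv : C.B v v = 0) (hd : C.B v d = 0)
    (hy : C.B v y = 0) : Rq C X v (-(a * C.B d y) • d) (-T.σ (C.B y (-(a * C.B d y) • d))) := by
  obtain ⟨k, hk, e⟩ := h
  have := h'.comm hk (hX hk) (by rw [rf_tv e, C.B_swap_zero hd, mul_zero, zero_smul, sub_zero]) hv hy
  rwa [rf_tv e, sub_sub_cancel_left, ← neg_smul] at this

theorem li3 {x₁ x₂ x₃ : V} (h1 : C.B x₂ x₁ = 0) (h2 : C.B x₂ x₂ = 0) (h3 : C.B x₂ x₃ ≠ 0) (h4 : C.B y x₁ ≠ 0)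
    (h5 : C.B y x₂ = 0) : LinearIndependent F ![x₁, x₂, x₃] := by
  refine Fintype.linearIndependent_iff.2 fun c h => ?_
  simp only [Fin.sum_univ_three, Matrix.cons_val_zero, Matrix.cons_val_one, Matrix.cons_val] at h
  have a2 : c 2 = 0 := by simpa [h1, h2, h3] using congrArg (C.B x₂) h
  have a0 : c 0 = 0 := by simpa [h4, h5, a2] using congrArg (C.B y) h
  have a1 : c 1 = 0 := by simpa [a0, a2, show x₂ ≠ 0 from fun e => h3 (by simp [e])] using h
  intro i; fin_cases i <;> assumption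

theorem witt3 [FiniteDimensional F V] (hC : C.Nondeg) {x₁ x₂ x₃ y₁ y₂ y₃ : V} (hx : LinearIndependent F ![x₁, x₂, x₃])
    (hy : LinearIndependent F ![y₁, y₂, y₃]) (n1 : C.N y₁ = C.N x₁) (n2 : C.N y₂ = C.N x₂) (n3 : C.N y₃ = C.N x₃)
    (h1 : C.B y₁ y₂ = C.B x₁ x₂) (h2 : C.B y₁ y₃ = C.B x₁ x₃) (h3 : C.B y₂ y₃ = C.B x₂ x₃) :
    ∃ g ∈ C.isom, g x₁ = y₁ ∧ g x₂ = y₂ ∧ g x₃ = y₃ := by
  obtain ⟨g, hg, e⟩ := hC.witt_family _ _ hx hy (fun i j => by
    fin_cases i <;> fin_cases j <;> simp [C.B_self, n1, n2, n3, h1, h2, h3, C.symm y₁ y₂, C.symm y₁ y₃, C.symm y₂ y₃,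
      C.symm x₁ x₂, C.symm x₁ x₃, C.symm x₂ x₃]) fun i => by fin_cases i <;> assumption
  exact ⟨g, hg, e 0, e 1, e 2⟩

variable (C N m δ e u) in
/-- a cyclic basis for a regular unipotent isometry -/
structure Dat : Prop where
  ue : ∀ j, u (e j) = e j + e (j + 1)
  mem : u ∈ C.isom
  top : ∀ j, N ≤ j → e j = 0
  span : Submodule.span F (Set.range e) = ⊤
  iso : ∀ j < m, C.N (e j) = 0
  adj : ∀ j, j + 1 < m → C.B (e j) (e (j + 1)) = 0
  del : ∀ j, j + 1 = m → C.B (e j) (e m) = δ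
  anti : ∀ i j, i + j + 1 = N → C.B (e i) (e j) ≠ 0
  two : 2 ≤ m
  le : 2 * m ≤ N

namespace Dat

variable (h : Dat C u e δ N m)
include h

theorem rc (i j : ℕ) : C.B (e (i + 1)) (e j) = -C.B (e i) (e (j + 1)) - C.B (e (i + 1)) (e (j + 1)) := by
  have := CForm.isom_B h.mem (e i) (e j)
  simp only [h.ue, map_add, LinearMap.add_apply] at this
  linear_combination this

theorem ind (P : F → Prop) (h0 : P 0) (h1 : ∀ x y, P x → P y → P (-x - y)) {i l : ℕ}
    (h2 : ∀ j, l ≤ j → P (C.B (e i) (e (j + 1)))) (j : ℕ) (hj : l ≤ j) : P (C.B (e (i + 1)) (e j)) := by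
  by_cases h3 : N ≤ j
  · rwa [h.top j h3, map_zero]
  obtain ⟨n, hn⟩ : ∃ n, N = j + n := ⟨N - j, by omega⟩
  clear h3
  induction n generalizing j with
  | zero => rwa [h.top j hn.le, map_zero]
  | succ n ih => rw [h.rc]; exact h1 _ _ (h2 j hj) (ih _ (by omega) (by omega))

theorem van (i j : ℕ) (hj : N ≤ i + j) : C.B (e i) (e j) = 0 := by
  induction i generalizing j with
  | zero => rw [h.top j (by omega), map_zero]
  | succ i ih => exact h.ind (· = 0) rfl (by simp +contextual) (l := N - (i + 1)) (fun j hj => ih _ (by omega)) j (by omega)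

theorem nil (n j : ℕ) : ((u.toLinearMap - 1) ^ n) (e j) = e (j + n) := by
  induction n with
  | zero => rfl
  | succ n ih => rw [pow_succ', End.mul_apply, ih]; simp [h.ue, add_assoc]

theorem pow_eq : (u.toLinearMap - 1) ^ N = 0 :=
  LinearMap.ext_on_range h.span fun j => by rw [h.nil, h.top _ (by omega)]; rfl

theorem pow_ne : (u.toLinearMap - 1) ^ (N - 1) ≠ 0 := fun e0 => h.anti (N - 1) 0 (by have := h.two; have := h.le; omega) (by
  rw [← zero_add (N - 1), ← h.nil, e0]; simp)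

theorem congr {W : Type*} [AddCommGroup W] [Module F W] {C' : CForm T W} (φ : V ≃ₗ[F] W) (hφ : C.IsIsomTo C' φ) :
    Dat C' (H11.linEquivConj φ u) (φ ∘ e) δ N m where
  ue j := by simp [h.ue]
  mem := (H11.linEquivConj_mem_isom φ hφ _).2 h.mem
  top j hj := by simp [h.top j hj]
  span := by
    rw [Set.range_comp, ← φ.coe_coe, ← Submodule.map_span, h.span, Submodule.map_top, φ.range]
  iso j hj := (hφ.2 _).trans (h.iso j hj)
  adj j hj := (hφ.1 _ _).trans (h.adj j hj)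
  del j hj := (hφ.1 _ _).trans (h.del j hj)
  anti i j hj := (hφ.1 _ _).trans_ne (h.anti i j hj)
  two := h.two
  le := h.le

theorem exists_v (β : F) : ∃ (v : V) (κ : F), v = κ • e (N - 1) ∧ C.B v (e 0) = β :=
  have := h.anti (N - 1) 0 (by have := h.two; have := h.le; omega)
  ⟨_, T.σ (β / C.B (e (N - 1)) (e 0)), rfl, by rw [C.B_smul_left, T.σσ, div_mul_cancel₀ _ this]⟩

variable {κ : F} (hv : v = κ • e (N - 1))
include hv

theorem ve (j : ℕ) : C.B v (e (j + 1)) = 0 := by rw [hv, C.B_smul_left, h.van _ _ (by omega), mul_zero]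

theorem vv : C.B v v = 0 := by
  have := h.two; have := h.le
  nth_rewrite 2 [hv]
  rw [map_smul, show N - 1 = N - 2 + 1 by omega, h.ve hv, smul_zero]

theorem uv : u v = v := by rw [hv, map_smul, h.ue, h.top (N - 1 + 1) (by omega), add_zero]

theorem third [FiniteDimensional F V] (hC : C.Nondeg) (hN : C.N v = 0) (hβ : C.B v (e 0) = β) (h0 : β ≠ 0) (ht : t ≠ 0)
    (hs : s * T.σ s * δ = β) : ∃ x₁ x₂ x₃ : V, ∃ g ∈ C.isom, C.B x₁ x₂ = 0 ∧ C.B x₁ x₃ = 0 ∧ C.N x₂ = 0 ∧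
      C.B x₂ x₃ ≠ 0 ∧ ∀ k : V ≃ₗ[F] V, k x₁ = g x₁ → k x₂ = g x₂ → k x₃ = g x₃ → (k * u * k⁻¹) v = e 0 ∧
        (k * u * k⁻¹) (e 1 + (1 - t) • v) = e 0 + e 1 := by
  have m2 := h.two
  have ml := h.le
  obtain ⟨l, rfl⟩ : ∃ l, m = l + 2 := ⟨m - 2, by omega⟩
  have s0 : s ≠ 0 := by rintro rfl; exact h0 (by rw [← hs]; simp)
  have b1 := h.adj l (by omega)
  have b2 := C.B_self_of_zero (h.iso (l + 1) (by omega))
  have b3 := h.del (l + 1) rfl
  have b4 : C.B (e l) (e (l + 2)) = -δ := by have := h.rc l (l + 1); rw [b2, b3] at this; linear_combination this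
  have c1 : C.B ((t * s) • e l) (s • e (l + 1)) = 0 := by simp [C.B_smul_left, b1]
  have c2 : C.B ((t * s) • e l) (s • (e (l + 1) + e (l + 2))) = -(T.σ t * β) := by
    simp only [C.B_smul_left, map_smul, map_add, b1, b4, smul_eq_mul, map_mul, ← hs]; ring
  have c3 : C.B (s • e (l + 1)) (s • (e (l + 1) + e (l + 2))) = β := by
    simp only [C.B_smul_left, map_smul, map_add, b2, b3, smul_eq_mul, ← hs]; ring
  have n2 := C.N_smul_of_zero (h.iso (l + 1) (by omega)) s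
  obtain ⟨g, hg, g1, g2, g3⟩ := witt3 hC (x₁ := (t * s) • e l) (x₂ := s • e (l + 1)) (x₃ := s • (e (l + 1) + e (l + 2)))
    (y₁ := e 1 - t • v) (y₂ := v) (y₃ := e 0)
    (li3 (y := e (N - 1 - l)) (C.B_swap_zero c1) (C.B_self_of_zero n2) (c3 ▸ h0)
      (by simpa [ht, s0] using h.anti _ l (by omega)) (by simp [h.van (N - 1 - l) (l + 1) (by omega)]))
    (li3 (y := e (N - 3 + 1)) (by simp [h.ve hv 0, h.vv hv]) (h.vv hv) (hβ ▸ h0)
      (by simpa [C.B_swap_zero (h.ve hv _)] using h.anti _ 1 (by omega)) (C.B_swap_zero (h.ve hv _)))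
    (by rw [C.N_sub, h.iso 1 (by omega), C.N_smul_of_zero hN, C.N_smul_of_zero (h.iso l (by omega)), map_smul,
      C.B_swap_zero (h.ve hv 0)]; simp) (hN.trans n2.symm)
    (by rw [← h.ue, ← map_smul, CForm.isom_N h.mem, n2, h.iso 0 (by omega)])
    (by rw [c1, C.B_sub_left, C.B_smul_left, h.vv hv, C.B_swap_zero (h.ve hv 0)]; simp)
    (by rw [c2, C.B_sub_left, C.B_smul_left, hβ, C.B_swap_zero (h.adj 0 (by omega)), zero_sub]) (hβ.trans c3.symm)
  refine ⟨(t * s) • e l + t • s • e (l + 1), _, _, g, hg, ?_, ?_, n2, c3 ▸ h0, fun k k1 k2 k3 => ?_⟩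
  · rw [C.B_add_left, c1, C.B_smul_left, C.B_self_of_zero n2, mul_zero, add_zero]
  · rw [C.B_add_left, c2, C.B_smul_left, c3, neg_add_cancel]
  have a1 : (k * u * k⁻¹) v = e 0 := by
    rw [← g2, ← k2, LinearEquiv.mul_apply, inv_apply_apply, LinearEquiv.mul_apply, map_smul, h.ue, k3, g3]
  have a2 : (k * u * k⁻¹) (e 1 - t • v) = e 1 := by
    have k0 : k ((t * s) • e l) = e 1 - t • v := by
      rw [map_add, map_add, map_smul k t, map_smul g t, k2, add_left_inj] at k1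
      rw [k1, g1]
    rw [← k0, LinearEquiv.mul_apply, inv_apply_apply, LinearEquiv.mul_apply, map_smul, h.ue, smul_add, map_add, k0,
      mul_smul, map_smul, k2, g2, sub_add_cancel]
  refine ⟨a1, ?_⟩
  rw [show e 1 + (1 - t) • v = v + (e 1 - t • v) by module, map_add, a1, a2]

variable (hX : X ≤ C.isom) (hu : u ∈ X)
include hX hu

theorem up {hv' : C.B v v = 0} (h1 : t • e 1 ∈ hS X hv') (j : ℕ) : t • e (j + 1) ∈ hS X hv' := by
  induction j with
  | zero => exact h1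
  | succ j ih =>
    obtain ⟨a, r, b⟩ := ih
    have := b.conj hu (hX hu)
    rw [h.uv hv, map_smul, h.ue, smul_add] at this
    simpa using sub_mem (show _ ∈ hS X hv' from ⟨by simp [h.ve hv], r, this⟩) ⟨a, r, b⟩

theorem mult {hv' : C.B v v = 0} {ζ : F} (hd : Rq C X (e 1 + ζ • v) 0 a) (h1 : t • e 1 ∈ hS X hv') :
    (a * δ * t) • e 1 ∈ hS X hv' := by
  have k1 : ∀ j t, t • e 1 ∈ hS X hv' → (a * C.B (e 1) (e (j + 1)) * t) • e 1 ∈ hS X hv' := fun j t h1 => by
    obtain ⟨b, r, c⟩ := h.up hv hX hu h1 j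
    have := rq_mu hX hd c hv' (by simp [h.ve hv 0, hv']) b
    have := sub_mem (smul_mem_hS (-(a * C.B (e 1 + ζ • v) (t • e (j + 1))) * ζ))
      (show _ ∈ hS X hv' from ⟨by simp [h.ve hv 0, hv'], _, this⟩)
    convert this using 1
    simp only [C.B_add_left, C.B_smul_left, map_smul, h.ve hv, smul_eq_mul]
    module
  have k2 : ∀ i j, 1 ≤ j → ∀ t, t • e 1 ∈ hS X hv' → (a * C.B (e (i + 1)) (e j) * t) • e 1 ∈ hS X hv' := fun i => by
    induction i with
    | zero => rintro (_ | j) hj; exacts [by omega, k1 j]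
    | succ i ih =>
      refine h.ind (fun x => ∀ t, t • e 1 ∈ hS X hv' → (a * x * t) • e 1 ∈ hS X hv') (by simp)
        (fun x y b c t d => ?_) fun j hj => ih _ (by omega)
      convert sub_mem (neg_mem (b t d)) (c t d) using 1
      module
  have := h.two
  have := k2 (m - 2) m (by omega) t h1
  rwa [h.del _ (by omega)] at this

theorem full {hv' : C.B v v = 0} (h0 : C.B v (e 0) ≠ 0) (h1 : ∀ t : F, t • e 1 ∈ hS X hv') (hy : C.B v y = 0) :
    ∃ r, Rq C X v y r := by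
  have : ∀ y, ∀ t : F, ∃ c : F, t • y - c • e 0 ∈ hS X hv' := fun y => by
    refine Submodule.span_induction (p := fun y _ => ∀ t : F, ∃ c : F, t • y - c • e 0 ∈ hS X hv') ?_
      (fun t => ⟨0, by simp⟩) (fun x y _ _ a b t => ?_) (fun s x _ a t => by rw [smul_smul]; exact a _)
      (h.span ▸ Submodule.mem_top (x := y))
    · rintro _ ⟨_ | j, rfl⟩ t
      exacts [⟨t, by simp⟩, ⟨0, by simpa using h.up hv hX hu (h1 t) j⟩]
    · obtain ⟨c, a⟩ := a t
      obtain ⟨d, b⟩ := b t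
      exact ⟨c + d, by convert add_mem a b using 1; module⟩
  obtain ⟨c, a, b⟩ := this y 1
  obtain rfl : c = 0 := by simpa [hy, h0] using a
  simpa using b

theorem start (hβ : C.B v (e 0) = β) (hn : a * β * T.σ (a * β) = 1) (hT : Rq C X v 0 a) (hk : k ∈ X) (k1 : k v = e 0)
    (k2 : k (e 1 + (1 - t) • v) = e 0 + e 1) :
    Rq C X (e 0) 0 a ∧ Rq C X (e 1 + -(a * β) • v) 0 a ∧ Rq C X (e 1 + (1 - t) • v) 0 a := by
  have m2 := h.two
  have cj : ∀ {d g}, Rq C X d 0 a → g ∈ X → Rq C X (g d) 0 a := fun a b => by simpa using a.conj b (hX b)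
  have a0 := k1 ▸ cj hT hk
  have a1 := h.ue 0 ▸ cj a0 hu
  refine ⟨a0, ?_, by simpa only [← k2, inv_apply_apply] using cj a1 (inv_mem hk)⟩
  obtain ⟨g, hg, eg⟩ := hT
  have a2 := cj a1 hg
  rw [rf_tv eg, map_add, hβ, h.ve hv, add_zero] at a2
  obtain ⟨w, hw, ew⟩ := a2
  have b0 := C.B_self_of_zero (h.iso 0 (by omega))
  have b1 := C.B_swap_zero (h.adj 0 (by omega))
  have a3 := cj a0 (inv_mem hw)
  rw [rf_tv (rf_tv_inv ew (by
    have := CForm.isom_B (hX hg) (u (e 0)) (u (e 0))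
    rwa [CForm.isom_B h.mem, b0, h.ue, rf_tv eg, map_add (C.B v), hβ, h.ve hv, add_zero] at this)),
    C.B_sub_left, C.B_add_left, b0, b1, C.B_smul_left, hβ] at a3
  refine rq_neg ?_
  convert a3 using 1
  rw [show -a * (0 + 0 - T.σ (a * β) * β) = 1 by linear_combination hn]
  module

end Dat

end H22.GS
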