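import Cfsg.Agent.H22.GS1

/-! The model of a regular unipotent isometry with prescribed data. -/

set_option autoImplicit false

namespace H22.GS

open Module H12 Matrix

variable {F V : Type*} [Field F] [AddCommGroup V] [Module F V] {T : FormType F} {δ : F} {N m : ℕ}

variable (T δ m) in
/-- the diagonals of the Gram matrix -/
def bb : ℕ → ℕ → F
  | 0, i => if i = m then -(δ + T.ε * T.σ δ) else 0
  | 1, i => if i + 1 = m then δ else 0
  | k + 2, i => -bb k (i + 1) - bb (k + 1) (i + 1)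

variable (T δ m) in
/-- the Gram matrix -/
def bm (i j : ℕ) : F := if i ≤ j then bb T δ m (j - i) i else T.ε * T.σ (bb T δ m (i - j) j)

variable (T δ m N) in
/-- admissible parameters -/
def Par : Prop := T.ε * T.σ T.ε = 1 ∧ 2 ≤ m ∧
  (N = 2 * m + 1 ∧ δ + T.ε * T.σ δ ≠ 0 ∨ N = 2 * m ∧ δ + T.ε * T.σ δ = 0 ∧ δ ≠ 0)

variable (h : Par T δ N m)
include h

theorem bb_van : ∀ k i, N ≤ 2 * i + k → bb T δ m k i = 0
  | 0, i, a => by
    obtain ⟨-, -, ⟨b, -⟩ | ⟨-, b, -⟩⟩ := h
    · rw [bb, if_neg (by omega)]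
    · simp [bb, b]
  | 1, i, a => by rw [bb, if_neg (by have := h.2.2; omega)]
  | k + 2, i, a => by rw [bb, bb_van k _ (by omega), bb_van (k + 1) _ (by omega), neg_zero, sub_zero]

theorem bb_anti : ∀ k i, 2 * i + k + 1 = N → bb T δ m k i ≠ 0
  | 0, i, a => by
    obtain ⟨-, -, ⟨b, c⟩ | ⟨b, -⟩⟩ := h
    · rwa [bb, if_pos (by omega), neg_ne_zero]
    · omega
  | 1, i, a => by
    obtain ⟨-, -, ⟨b, c⟩ | ⟨b, -, c⟩⟩ := h
    · omega
    · rwa [bb, if_pos (by omega)]
  | k + 2, i, a => by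
    rw [bb, bb_van h (k + 1) _ (by omega), sub_zero, neg_ne_zero]
    exact bb_anti k _ (by omega)

theorem bm_symm (i j : ℕ) : bm T δ m j i = T.ε * T.σ (bm T δ m i j) := by
  have := h.1
  rcases lt_trichotomy i j with a | rfl | a
  · rw [bm, bm, if_neg (by omega), if_pos a.le]
  · simp only [bm, le_refl, if_true, Nat.sub_self, bb]
    split_ifs
    · simp only [map_neg, map_add, map_mul, T.σσ]; linear_combination δ * this
    · simp
  · rw [bm, bm, if_pos a.le, if_neg (by omega), map_mul, T.σσ, ← mul_assoc, this, one_mul]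

theorem bm_van {i j : ℕ} (a : N ≤ i + j) : bm T δ m i j = 0 := by
  unfold bm
  split_ifs <;> rw [bb_van h _ _ (by omega)]
  simp

theorem bm_anti {i j : ℕ} (a : i + j + 1 = N) : bm T δ m i j ≠ 0 := by
  unfold bm
  split_ifs
  exacts [bb_anti h _ _ (by omega), mul_ne_zero T.ε_ne (T.σ_ne_zero (bb_anti h _ _ (by omega)))]

theorem bm_inv (i j : ℕ) : bm T δ m (i + 1) j + bm T δ m i (j + 1) + bm T δ m (i + 1) (j + 1) = 0 := by
  wlog a : i ≤ j generalizing i j
  · have := congrArg (fun x => T.ε * T.σ x) (this j i (by omega))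
    simp only [map_add, mul_add, ← bm_symm h, map_zero, mul_zero] at this
    linear_combination this
  obtain ⟨k, rfl⟩ := Nat.exists_eq_add_of_le a
  rcases k with _ | k
  · simp only [bm, add_zero, le_refl, if_true, Nat.sub_self, Nat.le_add_right, Nat.add_sub_cancel_left, bb,
      show ¬ i + 1 ≤ i by omega, if_false]
    split_ifs
    exacts [by ring, by simp]
  · rw [bm, bm, bm, if_pos (by omega), if_pos (by omega), if_pos (by omega), show i + (k + 1) - (i + 1) = k by omega,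
      show i + (k + 1) + 1 - i = k + 2 by omega, show i + (k + 1) + 1 - (i + 1) = k + 1 by omega, bb]
    ring

omit h in
variable (T δ m N) in
/-- the form of the model -/
noncomputable def mB : (Fin N → F) →ₛₗ[T.σ] (Fin N → F) →ₗ[F] F :=
  toLinearMapₛₗ₂' F T.σ (RingHom.id F) (of fun i j => bm T δ m i j)

omit h in
theorem mB_apply (x y : Fin N → F) : mB T δ N m x y = ∑ i, ∑ j, T.σ (x i) * (y j * bm T δ m i j) := by
  simp [mB, toLinearMapₛₗ₂'_apply]

theorem mB_right (x : Fin N → F) (j : ℕ) : mB T δ N m x (RG.e j) = ∑ i, T.σ (x i) * bm T δ m i j := by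
  rw [mB_apply]
  refine Finset.sum_congr rfl fun i _ => ?_
  by_cases a : j < N
  · rw [Finset.sum_eq_single ⟨j, a⟩ (fun k _ b => by simp [RG.e, show k.val ≠ j from fun e => b (Fin.ext e)]) (by simp)]
    simp [RG.e]
  · simp [RG.e_ge (not_lt.1 a), bm_van h (show N ≤ i + j by omega)]

theorem mB_e (i j : ℕ) : mB T δ N m (RG.e i) (RG.e j) = bm T δ m i j := by
  rw [mB_right h]
  by_cases a : i < N
  · rw [Finset.sum_eq_single ⟨i, a⟩ (fun k _ b => by simp [RG.e, show k.val ≠ i from fun e => b (Fin.ext e)]) (by simp)]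
    simp [RG.e]
  · simp [RG.e_ge (not_lt.1 a), bm_van h (show N ≤ i + j by omega)]

theorem mB_symm (x y : Fin N → F) : mB T δ N m y x = T.ε * T.σ (mB T δ N m x y) := by
  rw [mB_apply, mB_apply, Finset.sum_comm]
  simp only [map_sum, map_mul, Finset.mul_sum, T.σσ]
  exact Finset.sum_congr rfl fun i _ => Finset.sum_congr rfl fun j _ => by rw [bm_symm h]; ring

omit h in
theorem span_e : Submodule.span F (Set.range (RG.e : ℕ → Fin N → F)) = ⊤ :=
  top_le_iff.1 ((Pi.basisFun F (Fin N)).span_eq.ge.trans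
    (Submodule.span_mono (by rintro _ ⟨k, rfl⟩; exact ⟨k, RG.e_fin k⟩)))

theorem model {C : CForm T (Fin N → F)} (hB : C.B = mB T δ N m)
    (h1 : ∀ g : _ ≃ₗ[F] _, (∀ x y, C.B (g x) (g y) = C.B x y) → g ∈ C.isom) (h2 : ∀ x, C.B x x = 0 → C.N x = 0) :
    C.Nondeg ∧ ∃ u e, Dat C u e δ N m := by
  refine ⟨fun x hx => ?_, SpecialLinearGroup.toLin' ⟨RG.Jm N F, RG.Jm_det⟩, RG.e, RG.Jm_e, h1 _ fun x y => ?_,
    fun j => RG.e_ge, span_e, fun j hj => h2 _ ?_, fun j hj => ?_, fun j hj => ?_, fun i j hj => ?_, h.2.1,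
    by have := h.2.2; omega⟩
  · suffices H : ∀ n, ∀ i : Fin N, i.val = n → x i = 0 from funext fun i => H _ i rfl
    intro n
    induction n using Nat.strong_induction_on with
    | _ n ih =>
      intro i hi
      have := hx (RG.e (N - 1 - n))
      rw [hB, mB_right h, Finset.sum_eq_single i (fun k _ b => ?_) (by simp)] at this
      · exact T.σ_eq_zero.1 ((mul_eq_zero.1 this).resolve_right (bm_anti h (by omega)))
      rcases lt_or_gt_of_ne (show k.val ≠ n from fun e => b (Fin.ext (e.trans hi.symm))) with a | a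
      · rw [ih _ a k rfl, map_zero, zero_mul]
      · rw [bm_van h (by omega), mul_zero]
  · refine DFunLike.congr_fun (DFunLike.congr_fun (?_ : (C.B.comp (toLin' (RG.Jm N F))).compl₂ (toLin' (RG.Jm N F)) = C.B) x) y
    refine LinearMap.ext_on_range span_e fun i => LinearMap.ext_on_range span_e fun j => ?_
    simp only [LinearMap.compl₂_apply, LinearMap.comp_apply, toLin'_apply, RG.Jm_e, map_add, LinearMap.add_apply, hB, mB_e h]
    linear_combination bm_inv h i j
  · rw [hB, mB_e h, bm, if_pos le_rfl, Nat.sub_self, bb, if_neg hj.ne]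
  · rw [hB, mB_e h, bm, if_pos (by omega), Nat.add_sub_cancel_left, bb, if_neg hj.ne]
  · rw [hB, mB_e h, bm, if_pos (by omega), show m - j = 1 by omega, bb, if_pos hj]
  · rw [hB, mB_e h]; exact bm_anti h hj

omit h
variable [FiniteDimensional F V]

theorem exists_alt {C : CForm (altType F) V} (hC : C.Nondeg) (hd : finrank F V = 2 * m) (hm : 2 ≤ m) (h0 : δ ≠ 0) :
    ∃ u e, Dat C u e δ (2 * m) m := by
  have h : Par (altType F) δ (2 * m) m := ⟨by simp [altType], hm, .inr ⟨rfl, by simp [altType], h0⟩⟩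
  have hA : (toBilin' (of fun i j : Fin (2 * m) => bm (altType F) δ m i j)).IsAlt :=
    isAlt_toBilin' (fun k l => by simpa [altType] using bm_symm h l k) fun k => by simp [bm, bb, altType]
  obtain ⟨a, u, e, b⟩ := model h (C := CForm.ofAlt _ hA) rfl (fun g hg => ⟨hg, fun _ => rfl⟩) fun _ _ => rfl
  obtain ⟨φ, hφ⟩ := alt_iso a hC (by simp [hd])
  exact ⟨_, _, b.congr φ hφ⟩

theorem exists_herm {σ : F →+* F} {hσ2 : ∀ a, σ (σ a) = a} {C : CForm (hermType σ hσ2) V} (hσ : σ ≠ RingHom.id F)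
    (hN : ∀ a, σ a = a → ∃ b, b * σ b = a) (hC : C.Nondeg) (hd : finrank F V = 2 * m + 1) (hm : 2 ≤ m)
    (h0 : δ + σ δ ≠ 0) : ∃ u e, Dat C u e δ (2 * m + 1) m := by
  have h : Par (hermType σ hσ2) δ (2 * m + 1) m := ⟨by simp [hermType], hm, .inl ⟨rfl, by simpa [hermType] using h0⟩⟩
  obtain ⟨a, u, e, b⟩ := model h (C := CForm.ofHerm σ hσ hσ2 (mB (hermType σ hσ2) δ _ m)
    ⟨fun x y => ((mB_symm h x y).trans (one_mul _)).symm⟩) rfl (fun g hg => herm_mem_isom hg) fun _ a => a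
  obtain ⟨φ, hφ⟩ := herm_iso hσ hN a hC (by simp [hd])
  exact ⟨_, _, b.congr φ hφ⟩

end H22.GS
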