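import Cfsg.Agent.H22.GS2

/-! Three conjugate regular unipotent generators: assembly and the unitary case. -/

set_option autoImplicit false

namespace H22.GS

open Module H12 Subgroup

variable {F V : Type*} [Field F] [AddCommGroup V] [Module F V] {T : FormType F} {C : CForm T V}
  {G X : Subgroup (V ≃ₗ[F] V)} {u g k : V ≃ₗ[F] V} {e : ℕ → V} {v d y z : V} {a s t r δ β : F} {N m : ℕ}

theorem sq_of_two [Finite F] (h2 : (2 : F) = 0) (x : F) : ∃ r, x = r * r := by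
  have := Fintype.ofFinite F
  have := CharTwo.of_one_ne_zero_of_two_eq_zero (R := F) one_ne_zero h2
  exact FiniteField.isSquare_of_char_two (ringChar.eq F 2) x

theorem all_of_sq [Finite F] {S : AddSubgroup V} (hs : ∀ x, x ≠ 0 → ∃ k, s ^ k = x) (h0 : t ≠ 0) (h1 : t • y ∈ S)
    (h2 : ∀ t : F, t • y ∈ S → (-(s * s) * t) • y ∈ S) (x : F) : x • y ∈ S := by
  have a1 : ∀ k : ℕ, (s ^ k * s ^ k * t) • y ∈ S := fun k => by
    induction k with
    | zero => simpa using h1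
    | succ k ih => convert neg_mem (h2 _ ih) using 1; rw [← neg_smul]; congr 1; ring
  have a2 : ∀ r : F, (r * r * t) • y ∈ S := fun r => by
    by_cases hr : r = 0
    · simp [hr]
    · obtain ⟨k, rfl⟩ := hs r hr; exact a1 k
  by_cases h : (2 : F) = 0
  · obtain ⟨r, hr⟩ := sq_of_two h (x / t)
    simpa [← hr, h0] using a2 r
  · convert sub_mem (a2 ((x / t + 1) / 2)) (a2 ((x / t - 1) / 2)) using 1
    rw [← sub_smul]; congr 1; field_simp; ring

variable (G N) in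
/-- three conjugate regular unipotent elements generate -/
def Three : Prop := ∃ u ∈ G, ∃ g ∈ G, ∃ k ∈ G, (u.toLinearMap - 1) ^ N = 0 ∧ (u.toLinearMap - 1) ^ (N - 1) ≠ 0 ∧
  ∀ X ≤ G, u ∈ X → g * u * g⁻¹ ∈ X → k * u * k⁻¹ ∈ X → G ≤ X

theorem Three.out (h : Three G N) {H : Type*} [Group H] (φ : H →* V ≃ₗ[F] V) (hφ : Function.Injective φ)
    (hr : φ.range = G) : ∃ u g k : H, (((φ u).toLinearMap - 1) ^ N = 0 ∧ ((φ u).toLinearMap - 1) ^ (N - 1) ≠ 0) ∧
      closure ({u, g * u * g⁻¹, k * u * k⁻¹} : Set H) = ⊤ := by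
  subst hr
  obtain ⟨_, ⟨u, rfl⟩, _, ⟨g, rfl⟩, _, ⟨k, rfl⟩, a, b, c⟩ := h
  refine ⟨u, g, k, ⟨a, b⟩, top_le_iff.1 fun x _ => ?_⟩
  obtain ⟨y, hy, e⟩ := c ((closure {u, g * u * g⁻¹, k * u * k⁻¹}).map φ) (map_le_range _ _)
    (mem_map_of_mem _ (subset_closure (by simp))) (by simpa using mem_map_of_mem φ (Subgroup.subset_closure (a := g * u * g⁻¹) (by simp)))
    (by simpa using mem_map_of_mem φ (Subgroup.subset_closure (a := k * u * k⁻¹) (by simp))) ⟨x, rfl⟩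
  exact hφ e ▸ hy

namespace Dat

variable (h : Dat C u e δ N m) {κ : F} (hv : v = κ • e (N - 1))
include h hv

theorem second (hG : RootG C G) (hN : C.N v = 0) (hN' : C.N (e (N - 2)) = 0) (c : F) :
    ∃ k ∈ G, Rf C v 0 (c - T.σ c * T.σ T.ε) (k * u * k⁻¹ * u⁻¹) := by
  have m2 := h.two
  have ml := h.le
  have a1 : C.B v ((c * κ) • e (N - 2)) = 0 := by rw [map_smul, show N - 2 = N - 3 + 1 by omega, h.ve hv, smul_zero]
  have a2 := C.N_smul_of_zero hN' (c * κ)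
  obtain ⟨k, hk, ek⟩ := hG.rho v _ hN a2 a1
  have a3 : u ((c * κ) • e (N - 2)) = (c * κ) • e (N - 2) + c • v := by
    rw [map_smul, h.ue, smul_add, hv, smul_smul, show N - 2 + 1 = N - 1 by omega]
  generalize (c * κ) • e (N - 2) = y at *
  have a4 := C.B_self_of_zero a2
  have a5 := C.B_swap_zero a1
  have a6 := h.vv hv
  have b := Rf.mul ek ((Rf.conj ek h.mem ((h.uv hv).trans (one_smul F v).symm)).inv a6 (by simp [a3, a1, a6])) a6 a1
    (by simp [a3, a1, a6])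
  refine ⟨k, hk, ?_⟩
  convert rf_shift (s := -c) (by simpa [a3, a1, a4, a5, a6, C.B_smul_left] using b) using 1
  · rw [map_neg]; ring
  · group

variable (hX : X ≤ C.isom) (hu : u ∈ X)
include hX hu

theorem core {hv' : C.B v v = 0} (hβ : C.B v (e 0) = β) (hn : a * β * T.σ (a * β) = 1) (ha : a * T.ε + T.σ a = 0)
    (hT : Rq C X v 0 a) (hk : k ∈ X) (k1 : k v = e 0) (k2 : k (e 1 + (1 - t) • v) = e 0 + e 1) :
    (a * T.σ (1 - t + a * β)) • e 1 ∈ hS X hv' ∧ ∀ t : F, t • e 1 ∈ hS X hv' → (a * δ * t) • e 1 ∈ hS X hv' := by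
  obtain ⟨-, a1, a2⟩ := h.start hv hX hu hβ hn hT hk k1 k2
  have b1 := h.ve hv 0
  refine ⟨?_, fun t => h.mult hv hX hu a1⟩
  have := rq_two (s := 1 - t + a * β) (v := v) (by convert a2 using 1; module) a1 ha
    (by simp [C.B_smul_left, b1, C.B_swap_zero b1, hv', C.B_self_of_zero (h.iso 1 h.two)]) (by simp [b1, hv'])
  convert sub_mem (smul_mem_hS (a * T.σ (1 - t + a * β) * (a * β)))
    (show _ ∈ hS X hv' from ⟨by simp [b1, hv'], _, this⟩) using 1
  module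

omit hu hX in
theorem comm_all (hf : ∀ y, C.B v y = 0 → ∃ r, Rq C X v y r) (c : F) : Rq C X v 0 (c - T.σ c * T.σ T.ε) := by
  have m2 := h.two
  have ml := h.le
  have a0 := h.anti 1 (N - 3 + 1) (by omega)
  have a1 : C.B v ((T.σ c / C.B (e 1) (e (N - 3 + 1))) • e (N - 3 + 1)) = 0 := by rw [map_smul, h.ve hv, smul_zero]
  obtain ⟨_, b1⟩ := hf _ (h.ve hv 0)
  obtain ⟨_, b2⟩ := hf _ a1
  have := rq_comm2 b2 b1 (h.vv hv) a1 (h.ve hv 0)
  rwa [C.σ_B _ (e (0 + 1)), map_smul, smul_eq_mul, zero_add, div_mul_cancel₀ _ a0, T.σσ, mul_comm] at this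

omit hX hu in
theorem assemble (hG : RootG C G) (hX : X ≤ G) (hN : C.N v = 0) (h0 : C.B v (e 0) ≠ 0) (hk : k ∈ X) (k1 : k v = e 0)
    (hf : ∀ y, C.B v y = 0 → ∃ r, Rq C X v y r) (h2 : ∀ a, Rq C G v 0 a → Rq C X v 0 a) : G ≤ X := by
  have a := q1_of_rho hG.le hX hN (p := (C.B v (e 0))⁻¹ • e 0) (by simp [h0]) hf h2
  exact hG.fin X v (e 0) hN (h.iso 0 (by have := h.two; omega)) h0 a (k1 ▸ a.conj hG.le hk (hX hk))

end Dat

theorem Dat.det [FiniteDimensional F V] (h : Dat C u e δ N m) : u ∈ SLV F V := by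
  have := det_add_nilp ⟨_, h.pow_eq⟩ 1
  rw [map_one, add_sub_cancel, one_pow] at this
  exact mem_SLV.2 this

theorem three_herm [Finite F] [Finite V] {σ : F →+* F} {hσ2 : ∀ a, σ (σ a) = a} {C : CForm (hermType σ hσ2) V} {q : ℕ}
    (H : HU C q) (hd : finrank F V = 2 * m + 1) (hm : 2 ≤ m) : Three (C.isom ⊓ SLV F V) (2 * m + 1) := by
  obtain ⟨s, s0, hs⟩ := RG.exists_gen (F := F)
  obtain ⟨x, hx⟩ := exists_ne_of_ne_id H.ne
  obtain ⟨θ, hθ⟩ := exists_trace H.ne hσ2 (map_one σ)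
  obtain ⟨c, c0, hc⟩ : ∃ c : F, c ≠ 0 ∧ σ c = -c := ⟨x - σ x, sub_ne_zero.2 hx.symm, by simp [hσ2]⟩
  have s1 : σ s ≠ 0 := by simpa using s0
  have key : ∀ r, σ r = -r → θ * r - σ (θ * r) * σ 1 = r := fun r hr => by
    rw [map_mul, hr, map_one]; linear_combination r * hθ
  obtain ⟨u, e, h⟩ := exists_herm (δ := s * s / c) H.ne H.norm H.nd hd hm fun e0 => hx (by
    have a1 : σ s * σ s = s * s := by
      rw [map_div₀, map_mul, hc] at e0; field_simp at e0; linear_combination -e0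
    have a2 : ∀ y, σ y * σ y = y * y := fun y => by
      by_cases hy : y = 0
      · simp [hy]
      · obtain ⟨k, rfl⟩ := hs y hy; rw [map_pow, ← mul_pow, a1, mul_pow]
    have a3 := a2 (x + 1)
    rw [map_add, map_one] at a3
    exact sub_eq_zero.1 (mul_self_eq_zero.1 (by linear_combination (1 + x) * a2 x - x * a3)))
  have hG := rootG_herm H.ne H.norm H.nd (by omega)
  obtain ⟨v, κ, hv, hβ⟩ := h.exists_v (s / σ s / c)
  have hv' := h.vv hv
  have hN : C.N v = 0 := (herm_B_self v).symm.trans hv'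
  have β0 : s / σ s / c ≠ 0 := by simp [s0, c0]
  obtain ⟨x₁, x₂, x₃, g, hg, a1, a2, a3, a4, a5⟩ := h.third hv (s := s⁻¹) (t := 1) H.nd hN hβ β0 one_ne_zero
    (by rw [herm_sigma, map_inv₀]; field_simp)
  obtain ⟨g', -, b1, b2, b3, b4⟩ := det_non H (by omega) a1 a2 (by rw [a3, zero_mul]; simp [a4]) hg
  obtain ⟨k1, k2⟩ := a5 (g * g') (by simp [b1]) (by simp [b2]) (by simp [b3])
  obtain ⟨k, hk, ek⟩ := h.second hv hG hN ((herm_B_self _).symm.trans (h.van _ _ (by omega))) (θ * -c)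
  refine ⟨u, ⟨h.mem, h.det⟩, _, b4, k, hk, h.pow_eq, h.pow_ne, fun X hX hu c1 c2 => ?_⟩
  have hX' := hX.trans hG.le
  obtain ⟨d1, d2⟩ := h.core hv hX' hu (hv' := hv') (a := -c) hβ
    (by rw [herm_sigma]; simp only [map_mul, map_neg, map_div₀, hc, hσ2]; field_simp) (by simp [hermType, hc])
    ⟨_, mul_mem c2 (inv_mem hu), (key (-c) (by simp [hc])) ▸ ek⟩ c1 k1 k2
  have hf := fun y => h.full (y := y) hv hX' hu (hβ ▸ β0) (all_of_sq hs (by simp [c0, s0]) d1 fun t ht => by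
    convert d2 t ht using 2; field_simp)
  refine h.assemble hv hG hX hN (hβ ▸ β0) c1 k1 hf fun r hr => key r ?_ ▸ h.comm_all hv hf (θ * r)
  have := (hr.tvOk hG.le hN (p := (s / σ s / c)⁻¹ • e 0) (by rw [map_smul, hβ, smul_eq_mul, inv_mul_cancel₀ β0])).1
  simpa [hermType, add_eq_zero_iff_eq_neg'] using this

end H22.GS
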