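import Cfsg.Agent.H22.GS3

/-! Three conjugate regular unipotent generators: the symplectic case. -/

set_option autoImplicit false

namespace H22.GS

open Module H12 Subgroup

variable {F V : Type*} [Field F] [AddCommGroup V] [Module F V] {C : CForm (altType F) V}
  {X : Subgroup (V ≃ₗ[F] V)} {u g k : V ≃ₗ[F] V} {e : ℕ → V} {v d y z f : V} {s t δ : F} {N m : ℕ}

theorem aσ (x : F) : (altType F).σ x = x := rfl

theorem aε : (altType F).ε = -1 := rfl

theorem cj (hX : X ≤ C.isom) (h : Rq C X d 0 s) (hg : g ∈ X) : Rq C X (g d) 0 s := by simpa using h.conj hg (hX hg)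

theorem rq_sq (hX : X ≤ C.isom) (hf : ∀ y, C.B v y = 0 → ∃ r, Rq C X v y r) (h : Rq C X d 0 (-1)) (hd : C.B v d = 0)
    (hy : C.B v y = 0) (h0 : C.B d y ≠ 0) (μ : F) : Rq C X v (μ • d) (μ * μ) := by
  obtain ⟨r, hr⟩ := hf ((μ / C.B d y) • y) (by simp [hy])
  convert rq_mu hX h hr (H11.alt_B_self v) hd (by simp [hy]) using 1
  · simp [h0]
  · simp only [map_smul, C.B_smul_left, smul_eq_mul, aσ, H11.alt_B_swap d y]; field_simp

theorem two_all [Finite F] (h2 : (2 : F) = 0) (hX : X ≤ C.isom) (hf : ∀ y, C.B v y = 0 → ∃ r, Rq C X v y r)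
    (hT : Rq C X v 0 (-1)) (h0 : Rq C X f 0 (-1)) (h1 : C.B v f = 1) (hz : C.B v z = 0) (h3 : ∀ μ : F, Rq C X v (μ • z) 0)
    (hy : C.B v y = 0) (h4 : C.B z y ≠ 0) (r : F) : Rq C X v 0 r := by
  obtain ⟨μ, rfl⟩ := sq_of_two h2 r
  obtain ⟨ρ, hρ, eρ⟩ := h3 1
  obtain ⟨τ, hτ, eτ⟩ := hT
  obtain ⟨w, hw, ew⟩ := cj hX (cj hX h0 hρ) hτ
  have a := cj hX h0 hw
  rw [show w f = z + (1 - C.B f z) • v by
    simp only [ew f, eτ, eρ, map_zero, map_add, map_sub, map_smul, LinearMap.add_apply, LinearMap.sub_apply, smul_eq_mul,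
      C.B_smul_left, aσ, h1, hz, H11.alt_B_self, H11.alt_B_swap f z, LinearMap.zero_apply]
    linear_combination (norm := module) h2 • (f - C.B f z • (f + z + (1 - C.B f z) • v))] at a
  have := rq_shift (s := μ * (1 - C.B f z)) (by
    convert (rq_sq hX hf a (by simp [hz, H11.alt_B_self]) hy (by simpa [C.B_smul_left, hy] using h4) μ).div (h3 μ)
      (H11.alt_B_self v) (by simp [hz, H11.alt_B_self]) (by simp [hz]) using 1
    module)
  convert this using 1
  simp only [map_add, map_sub, map_smul, C.B_smul_left, smul_eq_mul, C.B_swap_zero hz, aσ, aε]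
  linear_combination (μ * (1 - C.B f z)) * h2

namespace Dat

variable [FiniteDimensional F V] (h : Dat C u e δ N m) {κ : F} (hv : v = κ • e (N - 1)) (hC : C.Nondeg)
include h hv hC

theorem second2 (hκ : κ ≠ 0) (μ : F) : ∃ k ∈ C.isom,
    Rf C v 0 (μ * μ * C.B (e (N - 2)) (e (N - 3)) - μ / κ) (k * u * k⁻¹ * u⁻¹) := by
  have m2 := h.two
  have ml := h.le
  have a1 : C.B v (e (N - 2)) = 0 := by rw [show N - 2 = N - 3 + 1 by omega, h.ve hv]
  have a2 : C.B v (μ • e (N - 3)) = 0 := by rw [map_smul, show N - 3 = N - 4 + 1 by omega, h.ve hv, smul_zero]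
  have a3 : u (μ • e (N - 3)) = μ • e (N - 3) + μ • e (N - 2) := by
    rw [map_smul, h.ue, smul_add, show N - 3 + 1 = N - 2 by omega]
  have a4 : u (e (N - 2)) = (1 : F) • (e (N - 2) + κ⁻¹ • v) := by
    rw [h.ue, hv, smul_smul, inv_mul_cancel₀ hκ, one_smul, one_smul, show N - 2 + 1 = N - 1 by omega]
  have a5 : C.B v v = 0 := H11.alt_B_self v
  obtain ⟨ρ, hρ, eρ⟩ := (rootG_alt hC).rho v _ (H11.alt_N _) (H11.alt_N _) a2
  obtain ⟨τ, hτ, eτ⟩ := rq_alt (C := C) (e (N - 2)) (μ * κ)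
  have b1 := (rf_two (by simpa using Rf.conj eτ h.mem a4) eτ (by simp [aσ, aε]) (H11.alt_B_self _) a1).inv a5 (by simp [a1])
  have b2 := (Rf.conj eρ h.mem ((h.uv hv).trans (one_smul F v).symm)).inv a5 (by simp [a3, a1, a2])
  refine ⟨_, mul_mem hρ hτ, ?_⟩
  convert (Rf.mul eρ b1 a5 a2 (by simp [a1])).mul b2 a5 (by simp [a1, a2]) (by simp [a3, a1, a2]) using 1
  · simp [a3, aσ, hκ]
  · simp only [a3, aσ, H11.alt_B_self, one_smul, map_add, map_neg, map_smul, C.B_smul_left, LinearMap.neg_apply,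
      LinearMap.add_apply, smul_eq_mul, H11.alt_B_swap (e (N - 2)) (e (N - 3))]
    field_simp
    ring
  · group

theorem three (hβ : C.B v (e 0) = 1) (ht : t ≠ 0) (hs : s * s * δ = 1) (hk : k ∈ C.isom)
    (ek : Rf C v 0 (-1) (k * u * k⁻¹ * u⁻¹)) (H : ∀ X ≤ C.isom, u ∈ X → Rq C X v 0 (-1) → Rq C X (e 0) 0 (-1) →
      Rq C X (e 1 + v) 0 (-1) → t • e 1 ∈ hS X (h.vv hv) → (∀ t : F, t • e 1 ∈ hS X (h.vv hv) → (-δ * t) • e 1 ∈ hS X (h.vv hv)) →
      (∀ t : F, t • e 1 ∈ hS X (h.vv hv)) ∧ ((∀ y, C.B v y = 0 → ∃ r, Rq C X v y r) → ∀ r, Rq C X v 0 r)) :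
    Three C.isom N := by
  obtain ⟨x₁, x₂, x₃, g, hg, -, -, -, -, a5⟩ := h.third hv hC (H11.alt_N v) hβ one_ne_zero ht hs
  obtain ⟨k1, k2⟩ := a5 g rfl rfl rfl
  refine ⟨u, h.mem, g, hg, k, hk, h.pow_eq, h.pow_ne, fun X hX hu c1 c2 => ?_⟩
  have hT : Rq C X v 0 (-1) := ⟨_, mul_mem c2 (inv_mem hu), ek⟩
  obtain ⟨b1, b2, -⟩ := h.start hv hX hu hβ (by simp) hT c1 k1 k2
  obtain ⟨d1, d2⟩ := h.core hv hX hu (hv' := h.vv hv) hβ (by simp) (by simp [aε]) hT c1 k1 k2
  obtain ⟨f1, f2⟩ := H X hX hu hT b1 (by simpa using b2) (by simpa [aσ] using d1) (by simpa using d2)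
  have hf := fun y => h.full (y := y) hv hX hu (hβ ▸ one_ne_zero) f1
  exact h.assemble hv (rootG_alt hC) hX (H11.alt_N v) (hβ ▸ one_ne_zero) c1 k1 hf fun r _ => f2 hf r

omit hC [FiniteDimensional F V] in
theorem sq1 (hX : X ≤ C.isom) (hu : u ∈ X) (hf : ∀ y, C.B v y = 0 → ∃ r, Rq C X v y r) (hd : Rq C X (e 1 + v) 0 (-1))
    (μ : F) : Rq C X v (μ • (e 1 + v)) (μ * μ) ∧ Rq C X v (μ • (e 1 + e 2 + v)) (μ * μ) := by
  have m2 := h.two
  have ml := h.le
  have a := rq_sq hX hf hd (by simp [h.ve hv 0, h.vv hv]) (h.ve hv (N - 3))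
    (by simpa [h.ve hv] using h.anti 1 (N - 3 + 1) (by omega)) μ
  exact ⟨a, by simpa only [h.uv hv, map_smul, map_add, h.ue] using a.conj hu (hX hu)⟩

end Dat

theorem three_alt [Finite F] [FiniteDimensional F V] (hC : C.Nondeg) (hd : finrank F V = 2 * m) (hm : 2 ≤ m)
    (h22 : ¬ (m = 2 ∧ Nat.card F = 2)) : Three C.isom (2 * m) := by
  obtain ⟨s, s0, hs⟩ := RG.exists_gen (F := F)
  by_cases hx : (2 : F) = 0 ∧ m = 2
  · obtain ⟨h2, rfl⟩ := hx
    have s1 : s * s + s ≠ 0 := fun e0 => h22 ⟨rfl, by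
      obtain rfl : s = 1 := mul_left_cancel₀ s0 (by linear_combination e0 - s * h2)
      exact (Nat.card_eq_two_iff' 0).2 ⟨1, one_ne_zero, fun y hy => by obtain ⟨k, rfl⟩ := hs y hy; simp⟩⟩
    obtain ⟨r, hr⟩ := sq_of_two h2 (s * s + s)
    obtain ⟨δ, hδ⟩ : ∃ δ, (s * s + s) * δ = 1 := ⟨_, mul_inv_cancel₀ s1⟩
    have δ0 : δ ≠ 0 := right_ne_zero_of_mul_eq_one hδ
    obtain ⟨u, e, h⟩ := exists_alt hC hd hm δ0
    obtain ⟨v, κ, hv, hβ⟩ := h.exists_v 1
    have b1 : C.B (e 1) (e 2) = δ := h.del 1 rfl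
    have b2 : κ * δ = 1 := by
      have := h.rc 0 2
      rw [h.van (0 + 1) (2 + 1) le_rfl, b1] at this
      rw [← hβ, hv, C.B_smul_left, aσ, H11.alt_B_swap, this, sub_zero]
    have κ0 : κ ≠ 0 := left_ne_zero_of_mul_eq_one b2
    obtain ⟨k, hk, ek⟩ := h.second2 hv hC κ0 s
    refine h.three hv hC (t := s) hβ s0 (hr ▸ hδ) hk (by
      convert ek using 1
      rw [H11.alt_B_swap, b1, eq_inv_of_mul_eq_one_left b2, div_inv_eq_mul]
      linear_combination hδ) fun X hX hu c1 c2 c3 c4 c5 => ⟨fun t => ?_, fun hf => ?_⟩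
    · have b3 := h.ve hv 0
      have d1 := rq_two (s := δ) (v := v) (by
        convert cj hX (cj hX c3 hu) hu using 1
        simp only [map_add, h.ue, h.uv hv]
        rw [hv, smul_smul, mul_comm δ, b2]
        linear_combination (norm := module) -(h2 • e 2)) c3 (by simp [aε]) (H11.alt_B_self _) (by simp [b3, h.vv hv])
      obtain ⟨n, hn, -⟩ := RG.pow_card_sub (neg_ne_zero.2 δ0)
      have d2 : ∀ t : F, t • e 1 ∈ hS X (h.vv hv) → ∀ n : ℕ, ((-δ) ^ n * t) • e 1 ∈ hS X (h.vv hv) := fun t ht n => by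
        induction n with
        | zero => simpa using ht
        | succ n ih => simpa only [pow_succ', mul_assoc] using c5 _ ih
      have d3 : (-δ) ^ n = -(s * s + s) := by
        rw [pow_succ] at hn; linear_combination (-(s * s + s)) * hn - (-δ) ^ n * hδ
      have d4 : ∀ k : ℕ, s ^ k • e 1 ∈ hS X (h.vv hv) ∧ s ^ (k + 1) • e 1 ∈ hS X (h.vv hv) := fun k => by
        induction k with
        | zero =>
          refine ⟨?_, by simpa using c4⟩
          convert d2 _ (show (-δ) • e 1 ∈ _ from by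
            convert sub_mem (smul_mem_hS δ) (show _ ∈ hS X (h.vv hv) from ⟨by simp [b3, h.vv hv], _, d1⟩) using 1
            rw [aσ]; module) n using 2
          rw [← pow_succ, hn, pow_zero]
        | succ k ih =>
          refine ⟨ih.2, ?_⟩
          convert neg_mem (add_mem (d2 _ ih.1 n) ih.2) using 1
          rw [d3]; module
      by_cases ht : t = 0
      · simp [ht]
      · obtain ⟨k, rfl⟩ := hs t ht; exact (d4 k).1
    · have b3 := h.ve hv 0
      have b4 := h.ve hv 1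
      have b5 := h.vv hv
      refine two_all h2 hX hf c1 c2 hβ (z := s • (e 1 + v) + (s + 1) • (e 1 + e 2 + v)) (by simp [b3, b4, b5])
        (fun μ => ?_) b4 ?_
      · convert (h.sq1 hv hX hu hf c3 (μ * s)).1.mul (h.sq1 hv hX hu hf c3 (μ * (s + 1))).2 b5 (by simp [b3, b5])
          (by simp [b3, b4, b5]) using 1
        · module
        · simp only [map_smul, map_add, C.B_smul_left, LinearMap.add_apply, smul_eq_mul, aσ, H11.alt_B_self,
            C.B_swap_zero b3, C.B_swap_zero b4, H11.alt_B_swap (e 1) (e 2), b1, b3, b4]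
          linear_combination (μ * μ) * hδ - μ * μ * (s * s + s) * h2
      · simp only [C.B_smul_left, C.B_add_left, aσ, H11.alt_B_self, b1, b4]
        exact fun e0 => δ0 (by linear_combination e0 - s * δ * h2)
  obtain ⟨u, e, h⟩ := exists_alt hC hd hm (mul_ne_zero s0 s0)
  obtain ⟨v, κ, hv, hβ⟩ := h.exists_v 1
  by_cases h2 : (2 : F) = 0
  · have hm3 : 3 ≤ m := by by_contra a; exact hx ⟨h2, by omega⟩
    have κ0 : κ ≠ 0 := by rintro rfl; simp [hv] at hβ
    obtain ⟨k, hk, ek⟩ := h.second2 hv hC κ0 κ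
    refine h.three hv hC (s := s⁻¹) hβ one_ne_zero (by field_simp) hk (by simpa [κ0, h.van _ _ (show 2 * m ≤ 2 * m - 2 + (2 * m - 3) by omega)] using ek)
      fun X hX hu c1 c2 c3 c4 c5 => ⟨all_of_sq hs one_ne_zero c4 c5, fun hf => ?_⟩
    have b3 := h.ve hv 0
    have b4 := h.ve hv 1
    have b5 := h.vv hv
    refine two_all h2 hX hf c1 c2 hβ b4 (fun μ => ?_) (h.ve hv (2 * m - 4)) (h.anti _ _ (by omega))
    convert (h.sq1 hv hX hu hf c3 μ).2.div (h.sq1 hv hX hu hf c3 μ).1 b5 (by simp [b3, b4, b5]) (by simp [b3, b5]) using 1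
    · module
    · rw [show μ • (e 1 + e 2 + v) - μ • (e 1 + v) = μ • e 2 by module]
      simp [C.B_smul_left, b4, h.adj 1 (by omega)]
  · obtain ⟨k, hk, ek⟩ := h.second hv (rootG_alt hC) (H11.alt_N _) (H11.alt_N _) (-1 / 2)
    refine h.three hv hC (s := s⁻¹) hβ one_ne_zero (by field_simp) hk (by convert ek using 1; rw [aσ, aσ, aε]; field_simp; ring)
      fun X hX hu c1 c2 c3 c4 c5 => ⟨all_of_sq hs one_ne_zero c4 c5, fun hf r => ?_⟩
    convert h.comm_all hv hf (r / 2) using 1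
    rw [aσ, aσ, aε]; field_simp; ring

end H22.GS
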