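import Cfsg.Agent.H4.ClassTwo
import Cfsg.Agent.H5.Integral
import Cfsg.Agent.H5.Kernel
import Cfsg.Agent.H6.Char

/-! `p`-groups whose nonlinear irreducible characters of equal degree have equal kernels. -/

set_option autoImplicit false

open Cfsg H5 Subgroup
open scoped commutatorElement

namespace H22.GalP

/-- Nonlinear irreducible characters of the same degree have the same kernel. -/
def K (G : Type*) [Group G] : Prop :=
  ∀ χ ψ : G → ℂ, IsIrrCharacter G χ → IsIrrCharacter G ψ → χ 1 ≠ 1 → χ 1 = ψ 1 →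
    charKer χ = charKer ψ

variable {G : Type*} [Group G] [Finite G] {χ : G → ℂ}

theorem cm (x y : G) : ⁅x, y⁆ ∈ commutator G :=
  commutator_mem_commutator (mem_top x) (mem_top y)

theorem K.quot (h : K G) (N : Subgroup G) [N.Normal] : K (G ⧸ N) := fun χ ψ hχ hψ h1 h2 => by
  have e := h _ _ hχ.inflate hψ.inflate h1 h2
  ext x
  obtain ⟨g, rfl⟩ := QuotientGroup.mk_surjective x
  have := SetLike.ext_iff.1 e g
  rw [hχ.inflate.mem_charKer_iff, hψ.inflate.mem_charKer_iff] at this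
  rw [hχ.mem_charKer_iff, hψ.mem_charKer_iff]
  exact this

theorem K.ker_le (h : K G) (hχ : IsIrrCharacter G χ) (h1 : χ 1 ≠ 1) :
    charKer χ ≤ commutator G := fun g hg => by
  by_contra hn
  obtain ⟨ψ, hψ, h2, h3⟩ := exists_irr_le_charKer_not_mem (commutator G) hn
  have h4 := hψ.apply_one_eq_one_iff.2 h2
  have h5 := hχ.mul_linear hψ.isCharacter h4
  have h6 := h _ _ hχ h5 h1 (by simp [h4])
  have h7 := h5.mem_charKer_iff.1 (h6 ▸ hg)
  rw [Pi.mul_apply, Pi.mul_apply, hχ.mem_charKer_iff.1 hg] at h7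
  exact h3 (hψ.mem_charKer_iff.2 (mul_right_cancel₀ hχ.apply_one_ne_zero h7))

omit [Finite G] in
theorem vanish (hχ : IsIrrCharacter G χ) {g x : G} (hc : ⁅x, g⁆ ∈ charCenter χ)
    (hk : ⁅x, g⁆ ∉ charKer χ) : χ g = 0 := by
  by_contra h0
  obtain ⟨c, hc⟩ := hc
  have h1 := hc g
  rw [commutatorElement_def, inv_mul_cancel_right, hχ.isClassFunction g x] at h1
  have h2 : (c : ℂ) = 1 := mul_right_cancel₀ h0 (h1.symm.trans (one_mul _).symm)
  exact hk fun y => by rw [hc, h2, one_mul]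

theorem mem_cc (hχ : IsIrrCharacter G χ) {z : G} :
    z ∈ charCenter χ ↔ ∀ g, ⁅z, g⁆ ∈ charKer χ := by
  refine ⟨fun h g => hχ.isCharacter.commutator_mem_charKer h g, fun h => ?_⟩
  have := hχ.charKer_normal
  obtain ⟨ψ, hψ, e⟩ := hχ.exists_quotient (charKer χ) le_rfl
  have h1 : (z : G ⧸ charKer χ) ∈ center _ := by
    rw [mem_center_iff]
    intro y
    obtain ⟨y, rfl⟩ := QuotientGroup.mk_surjective y
    rw [eq_comm, ← commutatorElement_eq_one_iff_mul_comm, ← QuotientGroup.mk'_apply,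
      ← QuotientGroup.mk'_apply, ← map_commutatorElement]
    exact (QuotientGroup.eq_one_iff _).2 (h y)
  obtain ⟨c, hc⟩ := hψ.center_le_charCenter h1
  exact ⟨c, fun x => by rw [← e, ← e, QuotientGroup.mk_mul, hc]⟩

theorem vanish_off (hχ : IsIrrCharacter G χ) (h : commutator G ≤ charCenter χ) {g : G}
    (hg : g ∉ charCenter χ) : χ g = 0 := by
  rw [mem_cc hχ] at hg
  push Not at hg
  obtain ⟨x, hx⟩ := hg
  refine vanish hχ (x := x) (h (cm _ _)) fun e => hx ?_
  rw [← commutatorElement_inv]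
  exact inv_mem e

theorem deg_sq (hχ : IsIrrCharacter G χ) (h : commutator G ≤ charCenter χ) {d : ℕ}
    (hd : χ 1 = d) : d ^ 2 * Nat.card (charCenter χ) = Nat.card G := by
  classical
  have := Fintype.ofFinite G
  have h1 := hχ.sum_norm_sq
  rw [← Finset.sum_filter_of_ne (p := (· ∈ charCenter χ)) fun g _ hg => by
    by_contra e
    rw [vanish_off hχ h e] at hg
    simp at hg, Finset.sum_congr rfl (g := fun _ => (d : ℝ) ^ 2) fun g hg => by
    rw [hχ.isCharacter.mem_charCenter_iff.mp (Finset.mem_filter.mp hg).2, hd, Complex.natCast_re],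
    Finset.sum_const, nsmul_eq_mul, ← Fintype.card_subtype, ← Nat.card_eq_fintype_card] at h1
  rw [mul_comm]
  exact_mod_cast h1

theorem cyc (hχ : IsIrrCharacter G χ) :
    ∃ z ∈ charCenter χ, ∀ w ∈ charCenter χ, ∃ m ∈ charKer χ, ∃ k : ℕ, w = m * z ^ k := by
  obtain ⟨f, hf⟩ := hχ.exists_centerHom (charCenter χ) le_rfl
  have : Finite f.range := Finite.of_surjective _ f.rangeRestrict_surjective
  obtain ⟨⟨_, z, rfl⟩, hz⟩ := IsCyclic.exists_monoid_generator (α := f.range)
  refine ⟨z, z.2, fun w hw => ?_⟩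
  obtain ⟨k, hk⟩ := hz ⟨_, ⟨w, hw⟩, rfl⟩
  have hk' : f z ^ k = f ⟨w, hw⟩ := congrArg Subtype.val hk
  refine ⟨w * (z ^ k)⁻¹, fun x => ?_, k, by simp⟩
  have := hf (⟨w, hw⟩ * (z ^ k)⁻¹) x
  rw [map_mul, map_inv, map_pow, hk', mul_inv_cancel, Units.val_one, one_mul] at this
  exact this

theorem deg_le (hχ : IsIrrCharacter G χ) (A : Subgroup G)
    (h : ∀ a ∈ A, ∀ b ∈ A, ⁅a, b⁆ ∈ charKer χ) {d : ℕ} (hd : χ 1 = d) : d ≤ A.index := by
  have := Fintype.ofFinite G
  have := Fintype.ofFinite A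
  obtain ⟨θ, hθ, h1⟩ := hχ.exists_irr_below A
  have h2 : θ 1 = 1 := hθ.apply_one_eq_one_iff.2 (le_trans (by
    rw [_root_.commutator, commutator_le]
    intro a _ b _
    exact charKer_comp χ A.subtype (h a a.2 b b.2))
    ((hχ.isCharacter.restrict A).charKer_le_of_constituent hθ h1))
  rw [← classInner_indFun_right _ _ hχ.isClassFunction,
    H6.inner_char_comm hχ.isCharacter hθ.isCharacter.ind] at h1
  have h3 := H6.degree_le_of_constituent hθ.isCharacter.ind hχ h1
  rw [indFun_apply_one, h2, mul_one, hd] at h3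
  have := (Complex.le_def.1 h3).1
  simpa using this

variable {p : ℕ} [hp : Fact p.Prime]

theorem K.exists_char (h : K G) (hG : IsPGroup p G) (M : Subgroup G) [M.Normal]
    (hM : M ≤ commutator G) (hc : Nat.card (commutator G) = Nat.card M * p) :
    ∃ χ, IsIrrCharacter G χ ∧ χ 1 ≠ 1 ∧ charKer χ = M ∧ commutator G ≤ charCenter χ := by
  have h1 : ¬ commutator G ≤ M := fun e => by
    have := card_le_of_le e
    have h2 := Nat.card_pos (α := M)
    have := hp.out.two_le
    nlinarith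
  obtain ⟨g, hg, hgM⟩ := SetLike.not_le_iff_exists.1 h1
  obtain ⟨χ, hχ, h2, h3⟩ := exists_irr_le_charKer_not_mem M hgM
  have h4 : χ 1 ≠ 1 := fun e => h3 (hχ.apply_one_eq_one_iff.1 e hg)
  have h5 : charKer χ = M := by
    by_contra e
    have a1 := H4.card_mul_le_of_lt hG (lt_of_le_of_ne h2 (Ne.symm e))
    have a2 := H4.card_lt_of_lt (lt_of_le_of_ne (h.ker_le hχ h4) fun e => h3 (e ▸ hg))
    omega
  refine ⟨χ, hχ, h4, h5, fun z hz => (mem_cc hχ).2 fun g => ?_⟩
  rw [h5]
  exact H4.commutator_le_of_card_mul hG hM hc.le (commutator_mem_commutator hz (mem_top g))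

omit [Finite G] hp in
theorem comm_mul_left {m x y : G} (hm : m ∈ center G) : ⁅m * x, y⁆ = ⁅x, y⁆ := by
  rw [commutatorElement_mul_left_eq_conj_mul,
    commutatorElement_eq_one_iff_mul_comm.2 (mem_center_iff.1 hm y).symm, mul_one,
    ← mem_center_iff.1 hm, mul_inv_cancel_right]

omit [Finite G] in
theorem eq_one_of_pow {u : G} {a : ℕ} (h1 : u ^ p = 1) (h2 : u ^ a = 1) (ha : ¬ p ∣ a) :
    u = 1 := by
  rw [← orderOf_eq_one_iff]
  exact Nat.eq_one_of_dvd_coprimes ((Nat.Prime.coprime_iff_not_dvd hp.out).2 ha)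
    (orderOf_dvd_of_pow_eq_one h1) (orderOf_dvd_of_pow_eq_one h2)

omit [Finite G] hp in
theorem normal_of_le_center {M : Subgroup G} (h : M ≤ center G) : M.Normal :=
  ⟨fun x hx g => by rwa [mem_center_iff.1 (h hx) g, mul_inv_cancel_right]⟩

theorem caseA2 (h : K G) (hG : IsPGroup p G) (hc : Nat.card (commutator G) = p ^ 2)
    (hZ : commutator G ≤ center G) (x y : G) : ⁅x, y⁆ ^ p = 1 := by
  by_contra hne
  have hcom : ∀ a b c : G, Commute c ⁅a, b⁆ := fun a b c => mem_center_iff.1 (hZ (cm a b)) c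
  have hpp : ∀ u ∈ commutator G, u ^ p ^ 2 = 1 := fun u hu => by
    have := pow_card_eq_one' (x := (⟨u, hu⟩ : commutator G))
    rw [hc] at this
    exact congrArg Subtype.val this
  have ho : orderOf ⁅x, y⁆ = p ^ 2 := orderOf_eq_prime_pow (by rwa [pow_one]) (hpp _ (cm x y))
  have htop : zpowers ⁅x, y⁆ = commutator G :=
    eq_of_le_of_card_ge (zpowers_le.2 (cm x y)) (by rw [hc, Nat.card_zpowers, ho])
  have hM : zpowers (⁅x, y⁆ ^ p) ≤ commutator G := zpowers_le.2 (pow_mem (cm x y) p)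
  have hoM : orderOf (⁅x, y⁆ ^ p) = p :=
    orderOf_eq_prime (by rw [← pow_mul, ← sq]; exact hpp _ (cm x y)) hne
  have := normal_of_le_center (hM.trans hZ)
  obtain ⟨χ, hχ, -, hk, -⟩ := h.exists_char hG _ hM (by rw [hc, Nat.card_zpowers, hoM, sq])
  have hpow : ∀ g : G, g ^ p ∈ charCenter χ := fun g => (mem_cc hχ).2 fun g' => by
    rw [hk, H4.commutator_pow_left (hcom _ _ _)]
    obtain ⟨k, hk⟩ := mem_zpowers_iff.1 (htop ▸ cm g g')
    rw [← hk, ← zpow_natCast (⁅x, y⁆ ^ k), ← zpow_mul, mul_comm, zpow_mul, zpow_natCast]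
    exact zpow_mem (mem_zpowers _) k
  obtain ⟨z, hz, hcyc⟩ := cyc hχ
  have hzp : ∀ g : G, ⁅z, g⁆ ^ p = 1 := fun g => by
    have := (mem_cc hχ).1 hz g
    rw [hk] at this
    exact orderOf_dvd_iff_pow_eq_one.1 (hoM ▸ orderOf_dvd_of_mem_zpowers this)
  have key : ∀ g g' : G, ∃ a : ℕ, ∀ u : G, ⁅g ^ p, u⁆ = ⁅z, u⁆ ^ a := fun g g' => by
    obtain ⟨m, hm, a, e⟩ := hcyc _ (hpow g)
    refine ⟨a, fun u => ?_⟩
    rw [e, comm_mul_left (hZ (hM (hk ▸ hm))), H4.commutator_pow_left (hcom _ _ _)]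
  obtain ⟨a, ha⟩ := key x y
  obtain ⟨b, hb⟩ := key y x
  have h1 : ¬ p ∣ a := by
    rintro ⟨c, rfl⟩
    have := ha y
    rw [H4.commutator_pow_left (hcom _ _ _), pow_mul, hzp, one_pow] at this
    exact hne this
  have h2 : ⁅z, x⁆ = 1 := eq_one_of_pow (hzp x) (by
    rw [← ha x, commutatorElement_eq_one_iff_commute]
    exact (Commute.refl x).pow_left p) h1
  have h3 := hb x
  rw [h2, one_pow, H4.commutator_pow_left (hcom _ _ _), ← commutatorElement_inv, inv_pow,
    inv_eq_one] at h3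
  exact hne h3

theorem caseA1 (h : K G) (hG : IsPGroup p G) (hc : Nat.card (commutator G) = p ^ 2)
    (hZ : commutator G ≤ center G) : False := by
  have hcom : ∀ a b c : G, Commute c ⁅a, b⁆ := fun a b c => mem_center_iff.1 (hZ (cm a b)) c
  have hpow : ∀ g : G, g ^ p ∈ center G := fun g => mem_center_iff.2 fun u => by
    rw [eq_comm, ← commutatorElement_eq_one_iff_mul_comm, H4.commutator_pow_left (hcom _ _ _)]
    exact caseA2 h hG hc hZ g u
  have key : ∀ x y : G, ⁅x, y⁆ ≠ 1 → ∃ χ, IsIrrCharacter G χ ∧ χ 1 ≠ 1 ∧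
      charKer χ = zpowers ⁅x, y⁆ ∧ ∃ d : ℕ, χ 1 = d ∧
        (d ^ 2 * Nat.card (center G) = Nat.card G ∨
          d ^ 2 * (Nat.card (center G) * p) = Nat.card G) := fun x y hne => by
    have hM : zpowers ⁅x, y⁆ ≤ commutator G := zpowers_le.2 (cm x y)
    have := normal_of_le_center (hM.trans hZ)
    obtain ⟨χ, hχ, h1, hk, hle⟩ := h.exists_char hG _ hM (by
      rw [hc, Nat.card_zpowers, orderOf_eq_prime (caseA2 h hG hc hZ x y) hne, sq])
    obtain ⟨d, -, hd⟩ := hχ.exists_apply_one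
    refine ⟨χ, hχ, h1, hk, d, hd, ?_⟩
    obtain ⟨z, hz, hcyc⟩ := cyc hχ
    have e : charCenter χ = center G ⊔ zpowers z := by
      refine le_antisymm (fun w hw => ?_) (sup_le hχ.center_le_charCenter (zpowers_le.2 hz))
      obtain ⟨m, hm, k, rfl⟩ := hcyc w hw
      exact mul_mem_sup (hZ (hM (hk ▸ hm))) (pow_mem (mem_zpowers z) k)
    rw [← deg_sq hχ hle hd, e]
    by_cases hzc : z ∈ center G
    · left
      rw [sup_eq_left.2 (zpowers_le.2 hzc)]
    · right
      rw [H4.card_sup_zpowers hzc (hpow z)]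
  have ex : ∀ M : Subgroup G, Nat.card M ≤ p → ∃ x y : G, ⁅x, y⁆ ∉ M := fun M hM => by
    by_contra! e
    have h1 : commutator G ≤ M := by
      rw [_root_.commutator, commutator_le]
      exact fun a _ b _ => e a b
    have := card_le_of_le h1
    have := hp.out.two_le
    nlinarith
  obtain ⟨x, y, h1⟩ := ex ⊥ (by rw [card_bot]; exact hp.out.one_le)
  rw [mem_bot] at h1
  obtain ⟨u, v, h2⟩ := ex (zpowers ⁅x, y⁆) (by
    rw [Nat.card_zpowers, orderOf_eq_prime (caseA2 h hG hc hZ x y) h1])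
  obtain ⟨χ, hχ, a1, a2, d, a3, a4⟩ := key x y h1
  obtain ⟨ψ, hψ, -, b2, e, b3, b4⟩ := key u v fun e => h2 (e ▸ one_mem _)
  have irr : ∀ s t : ℕ, s ^ 2 * Nat.card (center G) = Nat.card G →
      t ^ 2 * (Nat.card (center G) * p) = Nat.card G → False := fun s t hs ht => by
    have h0 := Nat.card_pos (α := G)
    have h3 : s ^ 2 = t ^ 2 * p :=
      Nat.eq_of_mul_eq_mul_right (Nat.card_pos (α := center G)) (by rw [hs, ← ht]; ring)
    have ht0 : t ≠ 0 := by
      rintro rfl
      simp at ht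
      omega
    have hs0 : s ≠ 0 := by
      rintro rfl
      simp at hs
      omega
    have := congrArg (fun n => n.factorization p) h3
    simp only [Nat.factorization_mul (pow_ne_zero 2 ht0) hp.out.ne_zero, Nat.factorization_pow,
      Finsupp.add_apply, Finsupp.smul_apply, hp.out.factorization_self, smul_eq_mul] at this
    omega
  have hde : d = e := by
    have c0 := Nat.card_pos (α := center G)
    rcases a4 with a4 | a4 <;> rcases b4 with b4 | b4
    · exact Nat.pow_left_injective two_ne_zero (Nat.eq_of_mul_eq_mul_right c0 (a4.trans b4.symm))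
    · exact (irr _ _ a4 b4).elim
    · exact (irr _ _ b4 a4).elim
    · exact Nat.pow_left_injective two_ne_zero
        (Nat.eq_of_mul_eq_mul_right (Nat.mul_pos c0 hp.out.pos) (a4.trans b4.symm))
  have := h χ ψ hχ hψ a1 (by rw [a3, b3, hde])
  rw [a2, b2] at this
  exact h2 (this ▸ mem_zpowers _)

theorem caseB (h : K G) (hG : IsPGroup p G) (hc : Nat.card (commutator G) = p ^ 2) :
    commutator G ≤ center G := by
  by_contra hZ
  have := hG.isNilpotent
  have p2 := hp.out.two_le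
  obtain ⟨M, hMn, -, hM, hcM⟩ := H4.exists_normal_index_prime hG (M := ⊥) (N := commutator G)
    (bot_lt_iff_ne_bot.2 fun e => hZ (e ▸ bot_le))
  have hMp : Nat.card M = p := Nat.eq_of_mul_eq_mul_right hp.out.pos (by rw [hcM, hc, sq])
  have hMZ : M ≤ center G := H4.le_center_of_card_le_prime hG hMp.le
  have hMe : ∀ u ∈ M, u ^ p = 1 := fun u hu => by
    have := pow_card_eq_one' (x := (⟨u, hu⟩ : M))
    rw [hMp] at this
    exact congrArg Subtype.val this
  obtain ⟨χ, hχ, h1, hk, hle⟩ := h.exists_char hG M hM hcM.symm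
  obtain ⟨d, hd0, hdd, hd⟩ := hχ.exists_apply_one_dvd
  obtain ⟨z, hz, hcyc⟩ := cyc hχ
  have hzM : ∀ g : G, ⁅z, g⁆ ∈ M := fun g => hk ▸ (mem_cc hχ).1 hz g
  obtain ⟨w, hw, hwZ⟩ := SetLike.not_le_iff_exists.1 hZ
  obtain ⟨m, hm, k, rfl⟩ := hcyc w (hle hw)
  rw [hk] at hm
  have hk1 : ¬ p ∣ k := by
    rintro ⟨c, rfl⟩
    refine hwZ (mem_center_iff.2 fun g => ?_)
    rw [eq_comm, ← commutatorElement_eq_one_iff_mul_comm, comm_mul_left (hMZ hm),
      H4.commutator_pow_left (mem_center_iff.1 (hMZ (hzM g)) z), pow_mul, hMe _ (hzM g), one_pow]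
  have hzG : z ∈ commutator G := by
    obtain ⟨n, hn⟩ := IsPGroup.iff_orderOf.1 hG z
    obtain ⟨j, hj⟩ := exists_pow_eq_self_of_coprime (x := z) (n := k)
      (hn ▸ ((Nat.Prime.coprime_iff_not_dvd hp.out).2 hk1).symm.pow_right n)
    rw [← hj]
    exact pow_mem ((mul_mem_cancel_left (hM hm)).1 hw) j
  have hZG : charCenter χ = commutator G := by
    refine le_antisymm (fun u hu => ?_) hle
    obtain ⟨m, hm, k, rfl⟩ := hcyc u hu
    exact mul_mem (hM (hk ▸ hm)) (pow_mem hzG k)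
  have hdeg := deg_sq hχ hle hd
  rw [hZG, hc] at hdeg
  let f : G →* M := MonoidHom.mk' (fun g => ⟨⁅z, g⁆, hzM g⟩) fun a b => Subtype.ext (by
    change ⁅z, a * b⁆ = ⁅z, a⁆ * ⁅z, b⁆
    rw [commutatorElement_mul_right_eq_mul_conj, mul_assoc, mul_assoc,
      ← mem_center_iff.1 (hMZ (hzM b)) a⁻¹, mul_inv_cancel_left])
  have hC : f.ker ≤ centralizer (commutator G) := fun g hg => mem_centralizer_iff.2 fun u hu => by
    obtain ⟨m, hm, k, rfl⟩ := hcyc u (hle hu)
    have : ⁅z, g⁆ = 1 := congrArg Subtype.val hg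
    rw [← commutatorElement_eq_one_iff_mul_comm, comm_mul_left (hMZ (hk ▸ hm)),
      commutatorElement_eq_one_iff_commute]
    exact (commutatorElement_eq_one_iff_commute.1 this).pow_left k
  have hi : f.ker.index ≤ p := by
    rw [index_ker, ← hMp]
    exact card_le_card_group _
  have h3 : ⁅⁅f.ker, f.ker⁆, (⊤ : Subgroup G)⁆ = ⊥ := by
    have a : ⁅⁅f.ker, (⊤ : Subgroup G)⁆, f.ker⁆ = ⊥ := by
      rw [commutator_comm, commutator_eq_bot_iff_le_centralizer]
      exact hC.trans (centralizer_le (commutator_mono le_top le_top))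
    exact commutator_commutator_eq_bot_of_rotate a (by rwa [commutator_comm ⊤])
  have h4 : ∀ a ∈ f.ker, ∀ b ∈ f.ker, ⁅a, b⁆ ∈ charKer χ := fun a ha b hb => by
    rw [hk]
    by_contra e
    have hcen : ⁅a, b⁆ ∈ center G := by
      rw [commutator_eq_bot_iff_le_centralizer, coe_top, centralizer_univ] at h3
      exact h3 (commutator_mem_commutator ha hb)
    have a1 := H4.card_mul_le_of_lt hG (M := M) (N := commutator G ⊓ center G)
      (lt_of_le_of_ne (le_inf hM hMZ) fun e' => e (e' ▸ ⟨cm a b, hcen⟩))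
    have a2 := H4.card_lt_of_lt (M := commutator G ⊓ center G) (N := commutator G)
      (lt_of_le_of_ne inf_le_left fun e' => hZ (e' ▸ inf_le_right))
    omega
  have hdp : d ≤ p := (deg_le hχ _ h4 hd).trans hi
  obtain ⟨n, hn⟩ := IsPGroup.iff_card.1 hG
  have deg : ∀ ψ, IsIrrCharacter G ψ → ψ 1 ≠ 1 → ψ 1 = p := fun ψ hψ h1 => by
    obtain ⟨e, -, he1, he⟩ := hψ.exists_apply_one_dvd
    have b1 := hψ.apply_one_sq_le_index M (hMZ.trans hψ.center_le_charCenter)
    rw [he, Complex.natCast_re] at b1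
    have b2 : e ^ 2 ≤ M.index := by exact_mod_cast b1
    have b3 := M.card_mul_index
    rw [hMp, ← hdeg] at b3
    rw [hn] at he1
    obtain ⟨j, -, rfl⟩ := (Nat.dvd_prime_pow hp.out).1 he1
    have b4 : p * (p ^ j) ^ 2 ≤ p ^ 2 * p ^ 2 :=
      (Nat.mul_le_mul_left p b2).trans (b3 ▸ Nat.mul_le_mul_right _ (Nat.pow_le_pow_left hdp 2))
    rw [← pow_mul, ← pow_succ', ← pow_add, Nat.pow_le_pow_iff_right p2] at b4
    have : j = 1 := by
      have : j ≠ 0 := by
        rintro rfl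
        exact h1 (by simpa using he)
      omega
    rw [he, this, pow_one]
  obtain ⟨g, hg1⟩ := (ne_bot_iff_exists_ne_one (H := M)).1 fun e => by
    rw [e, card_bot] at hMp
    omega
  obtain ⟨ψ, hψ, h5⟩ := exists_irr_not_mem_charKer (g := g.1) fun e => hg1 (Subtype.ext e)
  have h6 : ψ 1 ≠ 1 := fun e => h5 (hψ.apply_one_eq_one_iff.1 e (hM g.2))
  have := h χ ψ hχ hψ h1 (by rw [deg χ hχ h1, deg ψ hψ h6])
  exact h5 (this ▸ hk ▸ g.2)

theorem card_commutator (h : K G) (hG : IsPGroup p G) (hne : commutator G ≠ ⊥) :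
    Nat.card (commutator G) = p := by
  obtain ⟨k, hk⟩ := H4.exists_card_eq_pow hG (commutator G)
  have p2 := hp.out.two_le
  by_contra hn
  have hk2 : 2 ≤ k := by
    by_contra! e
    interval_cases k
    · exact hne (card_eq_one.1 hk)
    · exact hn (by rw [hk, pow_one])
  obtain ⟨N, hN, hle, hc⟩ := H4.exists_normal_card_pow hG (N := commutator G) (k - 2)
    (hk ▸ Nat.pow_le_pow_right hp.out.pos (by omega))
  have h1 : Nat.card (commutator (G ⧸ N)) = p ^ 2 := by
    have e : commutator (G ⧸ N) = (commutator G).map (QuotientGroup.mk' N) := by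
      rw [_root_.commutator, _root_.commutator, map_commutator,
        map_top_of_surjective _ (QuotientGroup.mk'_surjective N)]
    have e2 := H4.card_mul_relIndex hle
    rw [e, ← relIndex_ker, QuotientGroup.ker_mk']
    rw [hc, hk] at e2
    refine Nat.eq_of_mul_eq_mul_left (Nat.pow_pos hp.out.pos (n := k - 2)) ?_
    rw [e2, ← pow_add, Nat.sub_add_cancel hk2]
  exact caseA1 (h.quot N) (hG.to_quotient N) h1 (caseB (h.quot N) (hG.to_quotient N) h1)

theorem isCyclic_center (h : K G) (hG : IsPGroup p G) (hc : Nat.card (commutator G) = p) :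
    IsCyclic (center G) := by
  obtain ⟨χ, hχ, -, hk, -⟩ := h.exists_char hG ⊥ bot_le (by rw [hc, card_bot, one_mul])
  obtain ⟨z, hz, hcyc⟩ := cyc hχ
  rw [hχ.charCenter_eq_center hk] at hz hcyc
  refine ⟨⟨z, hz⟩, fun w => ?_⟩
  obtain ⟨m, hm, k, e⟩ := hcyc w w.2
  rw [hk, mem_bot] at hm
  exact ⟨k, Subtype.ext (by simp [e, hm])⟩

theorem exists_hom (hG : IsPGroup p G) (hcy : IsCyclic (center G))
    (hc : Nat.card (commutator G) = p) (hχ : IsIrrCharacter G χ) (h1 : χ 1 ≠ 1) :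
    ∃ f : center G →* ℂˣ, Function.Injective f ∧ (∀ z : center G, χ z = f z * χ 1) ∧
      ∀ g ∉ center G, χ g = 0 := by
  have hZ : commutator G ≤ center G := H4.le_center_of_card_le_prime hG hc.le
  have := hχ.charKer_normal
  have hk : charKer χ = ⊥ := by
    by_contra hne
    obtain ⟨x, hx, hxc, ho⟩ := H4.exists_mem_center_orderOf_eq hG hne
    refine h1 (hχ.apply_one_eq_one_iff.2 fun y hy => ?_)
    have hyp : y ^ p = 1 := by
      have := pow_card_eq_one' (x := (⟨y, hy⟩ : commutator G))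
      rw [hc] at this
      exact congrArg Subtype.val this
    classical
    have := Fintype.ofFinite (center G)
    have a1 := IsCyclic.card_pow_eq_one_le (α := center G) hp.out.pos
    have a2 : ((zpowers (⟨x, hxc⟩ : center G) : Set (center G)).toFinset) ⊆
        Finset.univ.filter fun a : center G => a ^ p = 1 := fun a ha => by
      rw [Set.mem_toFinset] at ha
      rw [Finset.mem_filter, ← orderOf_dvd_iff_pow_eq_one, ← ho, ← orderOf_mk x hxc]
      exact ⟨Finset.mem_univ _, orderOf_dvd_of_mem_zpowers ha⟩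
    have a3 := Finset.eq_of_subset_of_card_le a2 (by
      rw [Set.toFinset_card, ← Nat.card_eq_fintype_card, SetLike.coe_sort_coe, Nat.card_zpowers,
        orderOf_mk, ho]
      exact a1)
    have a4 : (⟨y, hZ hy⟩ : center G) ∈ Finset.univ.filter fun a : center G => a ^ p = 1 :=
      Finset.mem_filter.2 ⟨Finset.mem_univ _, Subtype.ext hyp⟩
    rw [← a3, Set.mem_toFinset] at a4
    obtain ⟨k, hk⟩ := a4
    have : x ^ k = y := congrArg Subtype.val hk
    exact this ▸ zpow_mem hx k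
  obtain ⟨f, hf⟩ := hχ.exists_centerHom (center G) hχ.center_le_charCenter
  refine ⟨f, (injective_iff_map_eq_one f).2 fun z hz => Subtype.ext ?_, fun z => ?_,
    fun g hg => vanish_off hχ (hZ.trans hχ.center_le_charCenter)
      (by rwa [hχ.charCenter_eq_center hk])⟩
  · change z.1 = 1
    rw [← mem_bot, ← hk]
    intro x
    rw [hf, hz, Units.val_one, one_mul]
  · rw [← hf, mul_one]

end H22.GalP
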