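import Mathlib

/-! Sims–Glauberman chains: `P ∩ P^g` of prime index in `P^g`. -/

set_option autoImplicit false
open Pointwise
open scoped commutatorElement

namespace H22.Glb

variable {G : Type*} [Group G]

/-- The subgroups `X a b = ⟨x_a, …, x_b⟩`. -/
structure Chain (φ : MulAut G) (p t : ℕ) (X : ℤ → ℤ → Subgroup G) : Prop where
  prime : p.Prime
  card : ∀ (a : ℤ) (k : ℕ), k ≤ t → Nat.card (X a (a + k - 1)) = p ^ k
  inf : ∀ a b c d : ℤ, a ≤ c → b ≤ d → d - a ≤ t → X a b ⊓ X c d = X c b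
  mono : ∀ a b c d : ℤ, a ≤ c → d ≤ b → X c d ≤ X a b
  shift : ∀ (a b : ℤ) (y : G), y ∈ X a b ↔ φ y ∈ X (a + 1) (b + 1)

theorem normal_of_card [Finite G] {p : ℕ} (hp : p.Prime) {A B : Subgroup G} (hAB : A ≤ B) {k : ℕ}
    (hA : Nat.card A = p ^ k) (hB : Nat.card B = p ^ (k + 1)) :
    (A.subgroupOf B).Normal ∧ (A.subgroupOf B).index = p := by
  have h1 : (A.subgroupOf B).index = p := by
    have := (A.subgroupOf B).card_mul_index
    rw [Nat.card_congr (Subgroup.subgroupOfEquivOfLe hAB).toEquiv, hA, hB, pow_succ] at this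
    exact Nat.eq_of_mul_eq_mul_left (pow_pos hp.pos _) this
  refine ⟨Subgroup.normal_of_index_eq_minFac_card ?_, h1⟩
  rw [h1, hB, hp.pow_minFac (Nat.succ_ne_zero _)]

theorem le_of_card [Finite G] {p : ℕ} (hp : p.Prime) {A B H : Subgroup G} (hAB : A ≤ B) {k : ℕ}
    (hA : Nat.card A = p ^ k) (hB : Nat.card B = p ^ (k + 1)) {w : G} (hw : w ∈ B) (hwA : w ∉ A)
    (hAH : A ≤ H) (hwH : w ∈ H) : B ≤ H := by
  have h1 : Nat.card (B ⊓ H : Subgroup G) ∣ p ^ (k + 1) :=
    hB ▸ Subgroup.card_dvd_of_le inf_le_left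
  obtain ⟨j, hj, hj2⟩ := (Nat.dvd_prime_pow hp).1 h1
  have h2 : A < B ⊓ H := lt_of_le_of_ne (le_inf hAB hAH) (fun h => hwA (h ▸ ⟨hw, hwH⟩))
  have h3 : Nat.card A < Nat.card (B ⊓ H : Subgroup G) := by
    refine lt_of_le_of_ne (Subgroup.card_le_of_le h2.le) (fun h => h2.ne ?_)
    exact Subgroup.eq_of_le_of_card_ge h2.le h.ge
  rw [hA, hj2, pow_lt_pow_iff_right₀ hp.one_lt] at h3
  have h4 : B ⊓ H = B := Subgroup.eq_of_le_of_card_ge inf_le_left (by
    rw [hB, hj2]; exact pow_le_pow_right₀ hp.one_lt.le h3)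
  exact inf_eq_left.1 h4

theorem comm_mem_of_card [Finite G] {p : ℕ} (hp : p.Prime) {A B : Subgroup G} (hAB : A ≤ B) {k : ℕ}
    (hA : Nat.card A = p ^ k) (hB : Nat.card B = p ^ (k + 1)) {u v : G} (hu : u ∈ B) (hv : v ∈ B) :
    ⁅u, v⁆ ∈ A := by
  obtain ⟨hn, hi⟩ := normal_of_card hp hAB hA hB
  have : Fact p.Prime := ⟨hp⟩
  have : IsCyclic (B ⧸ A.subgroupOf B) := isCyclic_of_prime_card (p := p) hi
  have h1 : ((⁅(⟨u, hu⟩ : B), (⟨v, hv⟩ : B)⁆ : B) : B ⧸ A.subgroupOf B) = 1 := by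
    rw [← QuotientGroup.mk'_apply, map_commutatorElement, commutatorElement_eq_one_iff_mul_comm]
    exact IsCyclic.isMulCommutative.is_comm.comm _ _
  exact Subgroup.mem_subgroupOf.1 ((QuotientGroup.eq_one_iff _).1 h1)

namespace Chain

variable {φ : MulAut G} {p t : ℕ} {X : ℤ → ℤ → Subgroup G}

theorem refl (h : Chain φ p t X) : Chain φ⁻¹ p t (fun a b => X (-b) (-a)) where
  prime := h.prime
  card a k hk := by
    have := h.card (-(a + k - 1)) k hk
    rwa [show -(a + k - 1) + k - 1 = -a by ring] at this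
  inf a b c d h1 h2 h3 := by
    rw [inf_comm]; exact h.inf _ _ _ _ (by omega) (by omega) (by omega)
  mono a b c d h1 h2 := h.mono _ _ _ _ (by omega) (by omega)
  shift a b y := by
    rw [h.shift (-(b + 1)) (-(a + 1)) (φ⁻¹ y)]
    simp

theorem card' (h : Chain φ p t X) (a b : ℤ) (k : ℕ) (hk : k ≤ t) (hb : b = a + k - 1) :
    Nat.card (X a b) = p ^ k := hb ▸ h.card a k hk

theorem bot (h : Chain φ p t X) {a b : ℤ} (hab : b < a) : X a b = ⊥ := by
  have h1 : X a (a - 1) = ⊥ := by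
    have := h.card' a (a - 1) 0 (Nat.zero_le _) (by simp)
    exact Subgroup.card_eq_one.1 (by simpa using this)
  exact le_bot_iff.1 (h1 ▸ h.mono _ _ _ _ le_rfl (by omega))

theorem shiftz (h : Chain φ p t X) (k a b : ℤ) (y : G) :
    y ∈ X a b ↔ (φ ^ k) y ∈ X (a + k) (b + k) := by
  induction k using Int.induction_on with
  | zero => simp
  | succ k ih =>
    rw [ih, h.shift, add_comm (k : ℤ) 1, zpow_add, zpow_one, MulAut.mul_apply]
    rw [show a + (1 + (k : ℤ)) = a + k + 1 by ring, show b + (1 + (k : ℤ)) = b + k + 1 by ring]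
  | pred k ih =>
    rw [ih, h.shift (a + (-(k : ℤ) - 1)), ← MulAut.mul_apply, ← zpow_one_add]
    rw [show 1 + (-(k : ℤ) - 1) = -k by ring, show a + (-(k : ℤ) - 1) + 1 = a + -k by ring,
      show b + (-(k : ℤ) - 1) + 1 = b + -k by ring]

variable [Finite G]

theorem max_l (h : Chain φ p t X) {a b : ℤ} (hab : a ≤ b) (ht : b - a < t) {w : G}
    (hw : w ∈ X a b) (hw' : w ∉ X (a + 1) b) {H : Subgroup G} (hH : X (a + 1) b ≤ H)
    (hwH : w ∈ H) : X a b ≤ H := by
  obtain ⟨k, hk⟩ := Int.eq_ofNat_of_zero_le (show 0 ≤ b - a by omega)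
  exact le_of_card h.prime (h.mono _ _ _ _ (by omega) le_rfl)
    (h.card' _ _ k (by omega) (by omega)) (h.card' _ _ (k + 1) (by omega) (by push_cast; omega))
    hw hw' hH hwH

theorem max_r (h : Chain φ p t X) {a b : ℤ} (hab : a ≤ b) (ht : b - a < t) {w : G}
    (hw : w ∈ X a b) (hw' : w ∉ X a (b - 1)) {H : Subgroup G} (hH : X a (b - 1) ≤ H)
    (hwH : w ∈ H) : X a b ≤ H := by
  obtain ⟨k, hk⟩ := Int.eq_ofNat_of_zero_le (show 0 ≤ b - a by omega)
  exact le_of_card h.prime (h.mono _ _ _ _ le_rfl (by omega))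
    (h.card' _ _ k (by omega) (by omega)) (h.card' _ _ (k + 1) (by omega) (by push_cast; omega))
    hw hw' hH hwH

theorem comm (h : Chain φ p t X) {a b : ℤ} (hab : a ≤ b) (ht : b - a < t) {u v : G}
    (hu : u ∈ X a b) (hv : v ∈ X a b) : ⁅u, v⁆ ∈ X (a + 1) (b - 1) := by
  obtain ⟨k, hk⟩ := Int.eq_ofNat_of_zero_le (show 0 ≤ b - a by omega)
  rw [← h.inf a (b - 1) (a + 1) b (by omega) (by omega) (by omega)]
  have hB := h.card' a b (k + 1) (by omega) (by push_cast; omega)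
  exact ⟨comm_mem_of_card h.prime (h.mono _ _ _ _ le_rfl (by omega))
      (h.card' _ _ k (by omega) (by omega)) hB hu hv,
    comm_mem_of_card h.prime (h.mono _ _ _ _ (by omega) le_rfl)
      (h.card' _ _ k (by omega) (by omega)) hB hu hv⟩

theorem exists_ne (h : Chain φ p t X) (ht : 1 ≤ t) (a : ℤ) : ∃ w ∈ X a a, w ≠ 1 := by
  by_contra hc
  push Not at hc
  have h1 : X a a = ⊥ := (Subgroup.eq_bot_iff_forall _).2 hc
  have := h.card' a a 1 ht (by simp)
  rw [h1, Subgroup.card_bot, pow_one] at this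
  exact h.prime.one_lt.ne this

theorem not_mem (h : Chain φ p t X) {a b : ℤ} (ht : b - a ≤ t) {w : G} (hw : w ∈ X a a)
    (hw1 : w ≠ 1) (hab : a ≤ b) : w ∉ X (a + 1) b := by
  intro h2
  have : w ∈ X a a ⊓ X (a + 1) b := ⟨hw, h2⟩
  rw [h.inf _ _ _ _ (by omega) hab ht, h.bot (by omega)] at this
  exact hw1 this

theorem not_mem' (h : Chain φ p t X) {a b : ℤ} (ht : b - a ≤ t) {w : G} (hw : w ∈ X b b)
    (hw1 : w ≠ 1) (hab : a ≤ b) : w ∉ X a (b - 1) := by
  intro h2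
  have : w ∈ X a (b - 1) ⊓ X b b := ⟨h2, hw⟩
  rw [h.inf _ _ _ _ hab (by omega) ht, h.bot (by omega)] at this
  exact hw1 this

theorem gen (h : Chain φ p t X) {a b : ℤ} (ht : b - a < t) {H : Subgroup G}
    (hH : ∀ i, a ≤ i → i ≤ b → X i i ≤ H) : X a b ≤ H := by
  by_cases hab : b < a
  · rw [h.bot hab]; exact bot_le
  obtain ⟨k, hk⟩ := Int.eq_ofNat_of_zero_le (show 0 ≤ b - a by omega)
  induction k generalizing a with
  | zero =>
    have : a = b := by omega
    subst this; exact hH _ le_rfl le_rfl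
  | succ k ih =>
    obtain ⟨w, hw, hw1⟩ := h.exists_ne (by omega) a
    exact h.max_l (by omega) ht (h.mono _ _ _ _ le_rfl (by omega) hw)
      (h.not_mem (by omega) hw hw1 (by omega))
      (ih (by omega) (fun i h1 h2 => hH i (by omega) h2) (by omega) (by push_cast at hk; omega))
      (hH a le_rfl (by omega) hw)

end Chain

/-- `x_i` and `x_{i+k}` commute. -/
def Cm (X : ℤ → ℤ → Subgroup G) (k : ℤ) : Prop :=
  ∀ i : ℤ, ∀ u ∈ X i i, ∀ v ∈ X (i + k) (i + k), Commute u v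

namespace Chain

variable {φ : MulAut G} {p t : ℕ} {X : ℤ → ℤ → Subgroup G}

theorem cm_of (h : Chain φ p t X) {k i : ℤ}
    (hc : ∀ u ∈ X i i, ∀ v ∈ X (i + k) (i + k), Commute u v) : Cm X k := by
  intro j u hu v hv
  rw [h.shiftz (i - j)] at hu hv
  have := hc _ (by simpa using hu) _ (by
    rwa [show j + k + (i - j) = i + k by ring] at hv)
  exact (φ ^ (i - j)).injective (by simpa only [map_mul] using this.eq)

theorem cm_refl {k : ℤ} : Cm (fun a b => X (-b) (-a)) k ↔ Cm X k := by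
  constructor
  · intro h i u hu v hv
    refine (h (-(i + k)) v (by simpa using hv) u ?_).symm
    simpa using hu
  · intro h i u hu v hv
    refine (h (-(i + k)) v hv u ?_).symm
    simpa using hu

variable [Finite G]

theorem cm_zero (h : Chain φ p t X) (ht : 1 ≤ t) : Cm X 0 := by
  intro i u hu v hv
  rw [add_zero] at hv
  have := h.comm le_rfl (by omega) hu hv
  rw [h.bot (by omega)] at this
  exact commutatorElement_eq_one_iff_commute.1 this

theorem commute (h : Chain φ p t X) {l : ℤ} (hC : ∀ k, 0 ≤ k → k < l → Cm X k)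
    {a b c d : ℤ} (hab : b - a < t) (hcd : d - c < t) (h1 : d - a < l) (h2 : b - c < l)
    {u v : G} (hu : u ∈ X a b) (hv : v ∈ X c d) : Commute u v := by
  have key : X a b ≤ Subgroup.centralizer (X c d : Set G) := by
    refine h.gen hab (fun i hi1 hi2 => ?_)
    rw [← Subgroup.le_centralizer_iff]
    refine h.gen hcd (fun j hj1 hj2 y hy => ?_)
    rw [Subgroup.mem_centralizer_iff]
    intro x hx
    rcases le_total i j with hij | hij
    · exact (hC (j - i) (by omega) (by omega) i x hx y (by simpa using hy)).eq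
    · exact (hC (i - j) (by omega) (by omega) j y hy x (by simpa using hx)).symm.eq
  exact (Subgroup.mem_centralizer_iff.1 (key hu) v hv).symm

theorem mu (h : Chain φ p t X) {l : ℤ} (hC : ∀ k, 0 ≤ k → k < l → Cm X k) (hl : ¬ Cm X l)
    (hlt : l < t) {i m : ℤ} {x y : G} (hx : x ∈ X i i) (hy : y ∈ X (i + l) (i + l)) (hm : 1 ≤ m)
    (hw : ⁅x, y⁆ ∈ X (i + m) (i + l - 1)) (hw' : ⁅x, y⁆ ∉ X (i + m + 1) (i + l - 1)) :
    (t : ℤ) ≤ m + l := by
  by_contra hc
  have hml : m < l := by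
    by_contra h2
    rw [h.bot (by omega)] at hw
    exact hw' (by rw [Subgroup.mem_bot.1 hw]; exact one_mem _)
  refine hl (h.cm_of (i := i + m) (fun u hu c hcm => ?_))
  have hz : ⁅c, x⁆ ∈ X (i + 1) (i + m + l - 1) :=
    h.comm (by omega) (by omega) (h.mono _ _ _ _ (by omega) le_rfl hcm)
      (h.mono _ _ _ _ le_rfl (by omega) hx)
  have h1 : Commute ⁅c, x⁆ y := h.commute hC (by omega) (by omega) (by omega) (by omega) hz hy
  have h2 : Commute c y := h.commute hC (by omega) (by omega) (by omega) (by omega) hcm hy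
  have h3 : Commute ⁅c, x⁆ ⁅x, y⁆ :=
    h.commute hC (by omega) (by omega) (by omega) (by omega) hz hw
  have h4 : Commute ⁅x, y⁆ c := by
    have e1 : c * ⁅x, y⁆ * c⁻¹ = ⁅⁅c, x⁆ * x, c * y * c⁻¹⁆ := by
      simp only [commutatorElement_def]; group
    have e2 : c * y * c⁻¹ = y := by rw [h2.eq]; group
    have e3 : ⁅⁅c, x⁆ * x, y⁆ = ⁅c, x⁆ * ⁅x, y⁆ * ⁅c, x⁆⁻¹ * ⁅⁅c, x⁆, y⁆ := by
      generalize ⁅c, x⁆ = z
      simp only [commutatorElement_def]; group
    rw [e2, e3, commutatorElement_eq_one_iff_commute.2 h1, h3.eq] at e1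
    have e4 : c * ⁅x, y⁆ * c⁻¹ = ⁅x, y⁆ := by rw [e1]; group
    exact (mul_inv_eq_iff_eq_mul.1 e4).symm
  have h5 : X (i + m) (i + l - 1) ≤ Subgroup.centralizer {c} := by
    refine h.max_l (by omega) (by omega) hw hw' (fun v hv => ?_) ?_
    · rw [Subgroup.mem_centralizer_singleton_iff]
      exact (h.commute hC (by omega) (by omega) (by omega) (by omega) hv hcm).eq
    · rw [Subgroup.mem_centralizer_singleton_iff]; exact h4.eq
  exact Subgroup.mem_centralizer_singleton_iff.1 (h5 (h.mono _ _ _ _ le_rfl (by omega) hu))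

theorem mu' (h : Chain φ p t X) {l : ℤ} (hC : ∀ k, 0 ≤ k → k < l → Cm X k) (hl : ¬ Cm X l)
    (hl0 : 0 ≤ l) (hlt : l < t) {i : ℤ} {x y : G} (hx : x ∈ X i i) (hy : y ∈ X (i + l) (i + l)) :
    ⁅x, y⁆ ∈ X (i + t - l) (i + l - 1) := by
  have h0 : ⁅x, y⁆ ∈ X (i + 1) (i + l - 1) :=
    h.comm (by omega) (by omega) (h.mono _ _ _ _ le_rfl (by omega) hx)
      (h.mono _ _ _ _ (by omega) le_rfl hy)
  have key : ∀ m : ℕ, (m : ℤ) + 1 ≤ t - l → ⁅x, y⁆ ∈ X (i + (m + 1)) (i + l - 1) := by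
    intro m
    induction m with
    | zero => intro _; simpa using h0
    | succ m ih =>
      intro hm
      push_cast at hm ⊢
      by_contra hc
      have := h.mu hC hl hlt hx hy (m := m + 1) (by omega) (ih (by omega))
        (by rwa [show i + ((m : ℤ) + 1) + 1 = i + (m + 1 + 1) by ring])
      omega
  obtain ⟨m, hm⟩ := Int.eq_ofNat_of_zero_le (show 0 ≤ t - l - 1 by omega)
  have := key m (by omega)
  rwa [show i + ((m : ℤ) + 1) = i + t - l by omega] at this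

theorem mu_nu (h : Chain φ p t X) {l : ℤ} (hC : ∀ k, 0 ≤ k → k < l → Cm X k) (hl : ¬ Cm X l)
    (hl0 : 0 ≤ l) (hlt : l < t) {i : ℤ} {x y : G} (hx : x ∈ X i i) (hy : y ∈ X (i + l) (i + l)) :
    ⁅x, y⁆ ∈ X (i + t - l) (i + 2 * l - t) := by
  have h1 := h.mu' hC hl hl0 hlt hx hy
  have h2 := h.refl.mu' (fun k a b => cm_refl.2 (hC k a b)) (fun a => hl (cm_refl.1 a)) hl0 hlt
    (i := -(i + l)) (x := y) (y := x) (by simpa using hy) (by simpa using hx)
  rw [← commutatorElement_inv, inv_mem_iff] at h2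
  rw [← h.inf (-(-(i + l) + l - 1)) (i + 2 * l - t) (i + t - l) (i + l - 1) (by omega) (by omega)
    (by omega)]
  exact ⟨by rwa [show -(-(i + l) + t - l) = i + 2 * l - t by ring] at h2, h1⟩

theorem bounds (h : Chain φ p t X) (ht : 1 ≤ t) (n : ℕ)
    (hZ : ∀ y ∈ X 0 (t - 1), (∀ i : ℤ, 0 ≤ i → i < t + n → ∀ v ∈ X i i, Commute y v) → y = 1) :
    ((∀ k : ℤ, 0 ≤ k → k < t → Cm X k) ∧ t ≤ n) ∨
      ∃ l : ℤ, 0 < l ∧ l < t ∧ (∀ k, 0 ≤ k → k < l → Cm X k) ∧ ¬ Cm X l ∧ 2 * l ≤ t + n ∧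
        2 * (t : ℤ) ≤ 3 * l := by
  have up : ∀ l : ℤ, 0 < l → l ≤ t → (∀ k, 0 ≤ k → k < l → Cm X k) → 2 * l ≤ t + n := by
    intro l hl0 hl hC
    by_contra hc
    obtain ⟨w, hw, hw1⟩ := h.exists_ne ht (l - 1)
    exact hw1 (hZ w (h.mono _ _ _ _ (by omega) (by omega) hw) (fun i h1 h2 v hv =>
      h.commute hC (by omega) (by omega) (by omega) (by omega) hw hv))
  by_cases hA : ∀ k : ℤ, 0 ≤ k → k < t → Cm X k
  · have := up t (by omega) le_rfl hA
    exact Or.inl ⟨hA, by omega⟩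
  right
  have hex : ∃ k : ℕ, ¬ Cm X k ∧ (k : ℤ) < t := by
    push Not at hA
    obtain ⟨k, h1, h2, h3⟩ := hA
    lift k to ℕ using h1
    exact ⟨k, h3, h2⟩
  classical
  have h1 := Nat.find_spec hex
  have hC : ∀ k : ℤ, 0 ≤ k → k < (Nat.find hex : ℕ) → Cm X k := by
    intro k h2 h3
    lift k to ℕ using h2
    have := Nat.find_min hex (m := k) (by omega)
    by_contra hc
    exact this ⟨hc, by omega⟩
  generalize Nat.find hex = l at h1 hC
  have hl0 : 0 < (l : ℤ) := by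
    rcases Nat.eq_zero_or_pos l with rfl | h0
    · exact absurd (h.cm_zero ht) h1.1
    · omega
  refine ⟨l, hl0, h1.2, hC, h1.1, up l hl0 h1.2.le hC, ?_⟩
  by_contra hc
  refine h1.1 (fun i u hu v hv => ?_)
  have := h.mu_nu hC h1.1 hl0.le h1.2 hu hv
  rw [h.bot (by omega)] at this
  exact commutatorElement_eq_one_iff_commute.1 this

end Chain

end H22.Glb
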