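import Cfsg.Agent.H22.Glb1

/-! Existence of the Sims–Glauberman chain. -/

set_option autoImplicit false
open Pointwise
open scoped commutatorElement

namespace H22.Glb

variable {G : Type*} [Group G]

/-- `P_a ∩ … ∩ P_b` with `P_i = φ^i P`. -/
def I (φ : MulAut G) (P : Subgroup G) (a b : ℤ) : Subgroup G where
  carrier := {y | ∀ i : ℤ, a ≤ i → i ≤ b → (φ ^ (-i)) y ∈ P}
  mul_mem' hx hy i h1 h2 := by rw [map_mul]; exact P.mul_mem (hx i h1 h2) (hy i h1 h2)
  one_mem' i _ _ := by rw [map_one]; exact P.one_mem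
  inv_mem' hx i h1 h2 := by rw [map_inv]; exact P.inv_mem (hx i h1 h2)

variable {φ : MulAut G} {P : Subgroup G}

theorem mem_I {a b : ℤ} {y : G} :
    y ∈ I φ P a b ↔ ∀ i : ℤ, a ≤ i → i ≤ b → (φ ^ (-i)) y ∈ P := Iff.rfl

theorem I_shift (k a b : ℤ) (y : G) : y ∈ I φ P a b ↔ (φ ^ k) y ∈ I φ P (a + k) (b + k) := by
  simp only [mem_I, ← MulAut.mul_apply, ← zpow_add]
  constructor
  · intro h i h1 h2
    have := h (i - k) (by omega) (by omega)
    rwa [show -(i - k) = -i + k by ring] at this
  · intro h i h1 h2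
    have := h (i + k) (by omega) (by omega)
    rwa [show -(i + k) + k = -i by ring] at this

theorem I_mono {a b c d : ℤ} (h1 : c ≤ a) (h2 : b ≤ d) : I φ P c d ≤ I φ P a b :=
  fun _ hy i h3 h4 => hy i (by omega) (by omega)

theorem I_inf {a b c d : ℤ} (h1 : a ≤ c) (h2 : b ≤ d) (h3 : c ≤ b + 1) :
    I φ P a b ⊓ I φ P c d = I φ P a d := by
  refine le_antisymm (fun y hy i h4 h5 => ?_) (le_inf (I_mono le_rfl h2) (I_mono h1 le_rfl))
  by_cases h : i ≤ b
  · exact hy.1 i h4 h
  · exact hy.2 i (by omega) h5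

theorem I_zero : I φ P 0 0 = P := by
  ext y
  refine ⟨fun h => by simpa using h 0 le_rfl le_rfl, fun h i h1 h2 => ?_⟩
  obtain rfl : i = 0 := by omega
  simpa using h

theorem I_card (k a b : ℤ) : Nat.card (I φ P (a + k) (b + k)) = Nat.card (I φ P a b) := by
  have : I φ P (a + k) (b + k) = (I φ P a b).map (φ ^ k).toMonoidHom := by
    ext y
    rw [Subgroup.mem_map_equiv, I_shift k a b, MulEquiv.apply_symm_apply]
  rw [this, Subgroup.card_map_of_injective (φ ^ k).injective]

theorem I_card' (a : ℤ) (j : ℕ) : Nat.card (I φ P a (a + j)) = Nat.card (I φ P 0 j) := by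
  have := I_card (φ := φ) (P := P) a 0 j
  rwa [zero_add, add_comm] at this

variable [Finite G] {p : ℕ}

/-- The hypotheses. -/
structure Hyp (φ : MulAut G) (P : Subgroup G) (p : ℕ) : Prop where
  prime : p.Prime
  normal : ((I φ P 0 1).subgroupOf (I φ P 1 1)).Normal
  idx : (I φ P 0 1).relIndex (I φ P 1 1) = p
  triv : ∀ Q : Subgroup G, Q ≤ P → (Q.subgroupOf P).Normal → (∀ y ∈ Q, φ y ∈ Q) → Q = ⊥

namespace Hyp

theorem pow_mem (h : Hyp φ P p) {y : G} (hy : y ∈ P) : y ^ p ∈ I φ P (-1) 0 := by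
  have h1 : φ y ∈ I φ P 1 1 := by
    have := (I_shift (φ := φ) (P := P) 1 0 0 y).1 (by rw [I_zero]; exact hy)
    simpa using this
  have := h.normal
  have h2 := Subgroup.pow_index_mem ((I φ P 0 1).subgroupOf (I φ P 1 1)) ⟨φ y, h1⟩
  have h3 : ((I φ P 0 1).subgroupOf (I φ P 1 1)).index = p := h.idx
  rw [h3, Subgroup.mem_subgroupOf] at h2
  rw [I_shift 1]
  simpa using h2

theorem isPGroup (h : Hyp φ P p) : IsPGroup p P := by
  set S : Set G := {y | y ∈ P ∧ (orderOf y).Coprime p}
  have hS : ∀ y ∈ S, φ y ∈ S := by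
    rintro y ⟨hy, hc⟩
    refine ⟨?_, by rwa [MulEquiv.orderOf_eq]⟩
    have h1 : y ∈ I φ P (-1) 0 := by
      have h2 : y ∈ Subgroup.zpowers (y ^ p) := by
        rw [mem_zpowers_pow_iff]; exact hc.symm
      exact Subgroup.zpowers_le.2 (h.pow_mem hy) h2
    simpa using h1 (-1) le_rfl (by omega)
  have hle : Subgroup.closure S ≤ P := (Subgroup.closure_le _).2 fun y hy => hy.1
  have hbot := h.triv (Subgroup.closure S) hle ?_ ?_
  · have : Fact p.Prime := ⟨h.prime⟩
    refine (IsPGroup.iff_card).2 ?_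
    refine ⟨_, (Nat.eq_prime_pow_of_unique_prime_dvd Nat.card_pos.ne' (fun {q} hq hqd => ?_))⟩
    by_contra hne
    have : Fact q.Prime := ⟨hq⟩
    obtain ⟨y, hy⟩ := exists_prime_orderOf_dvd_card' q hqd
    have h1 : (y : G) ∈ Subgroup.closure S := Subgroup.subset_closure ⟨y.2, by
      rw [Subgroup.orderOf_coe, hy]; exact (Nat.coprime_primes hq h.prime).2 hne⟩
    rw [hbot, Subgroup.mem_bot] at h1
    rw [show y = 1 from Subtype.ext h1, orderOf_one] at hy
    exact hq.one_lt.ne hy
  · refine (Subgroup.normal_subgroupOf_iff hle).2 (fun y x hy hx => ?_)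
    induction hy using Subgroup.closure_induction with
    | mem y hy =>
      refine Subgroup.subset_closure ⟨P.mul_mem (P.mul_mem hx hy.1) (P.inv_mem hx), ?_⟩
      have : orderOf (x * y * x⁻¹) = orderOf y := (MulAut.conj x).orderOf_eq y
      rw [this]; exact hy.2
    | one => simp
    | mul y z _ _ h1 h2 =>
      have : x * (y * z) * x⁻¹ = x * y * x⁻¹ * (x * z * x⁻¹) := by group
      rw [this]; exact mul_mem h1 h2
    | inv y _ h1 =>
      have : x * y⁻¹ * x⁻¹ = (x * y * x⁻¹)⁻¹ := by group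
      rw [this]; exact inv_mem h1
  · intro y hy
    induction hy using Subgroup.closure_induction with
    | mem y hy => exact Subgroup.subset_closure (hS y hy)
    | one => simp
    | mul y z _ _ h1 h2 => rw [map_mul]; exact mul_mem h1 h2
    | inv y _ h1 => rw [map_inv]; exact inv_mem h1

theorem step (h : Hyp φ P p) (j : ℕ) :
    Nat.card (I φ P 0 (j + 1 : ℕ)) = Nat.card (I φ P 0 j) ∨
      Nat.card (I φ P 0 (j + 1 : ℕ)) * p = Nat.card (I φ P 0 j) := by
  have := h.normal
  have h1 : (I φ P 0 1).relIndex (I φ P 1 (1 + j)) ∣ p := by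
    have h2 := Subgroup.relIndex_dvd_index_of_normal ((I φ P 0 1).subgroupOf (I φ P 1 1))
      ((I φ P 1 (1 + j)).subgroupOf (I φ P 1 1))
    rw [Subgroup.relIndex_subgroupOf (I_mono le_rfl (by omega))] at h2
    exact h.idx ▸ h2
  have h3 := ((I φ P 0 1).subgroupOf (I φ P 1 (1 + j))).card_mul_index
  rw [← Subgroup.inf_subgroupOf_right,
    Nat.card_congr (Subgroup.subgroupOfEquivOfLe inf_le_right).toEquiv,
    Subgroup.inf_subgroupOf_right, I_inf (by omega) (by omega) (by omega), I_card' 1 j] at h3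
  rw [show ((j + 1 : ℕ) : ℤ) = 1 + j by push_cast; ring]
  rcases (Nat.dvd_prime h.prime).1 h1 with h4 | h4
  · left; rw [← h3]; exact (by rw [show ((I φ P 0 1).subgroupOf _).index = 1 from h4, mul_one])
  · right; rw [← h3, show ((I φ P 0 1).subgroupOf _).index = p from h4]

theorem step0 (h : Hyp φ P p) : Nat.card (I φ P 0 1) * p = Nat.card (I φ P 0 0) := by
  have h3 := ((I φ P 0 1).subgroupOf (I φ P 1 1)).card_mul_index
  rw [Nat.card_congr (Subgroup.subgroupOfEquivOfLe (I_mono (by omega) le_rfl)).toEquiv,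
    show ((I φ P 0 1).subgroupOf _).index = p from h.idx] at h3
  rw [h3]
  simpa using I_card (φ := φ) (P := P) 1 0 0

theorem exists_chain (h : Hyp φ P p) : ∃ t : ℕ, 1 ≤ t ∧
    Chain φ p t (fun a b => I φ P (b - t + 1) a) := by
  classical
  have hp := h.prime
  have : Fact p.Prime := ⟨hp⟩
  set c : ℕ → ℕ := fun j => Nat.card (I φ P 0 j) with hc
  have cpos : ∀ j, 0 < c j := fun j => Nat.card_pos
  have hex : ∃ t, c (t + 1) = c t := by
    by_contra hne
    push Not at hne
    have : ∀ j, c j + j ≤ c 0 := by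
      intro j
      induction j with
      | zero => simp
      | succ j ih =>
        have h1 : c (j + 1) ≤ c j := Subgroup.card_le_of_le (I_mono le_rfl (by omega))
        have := hne j
        omega
    have := this (c 0)
    have := cpos (c 0)
    omega
  have ht := Nat.find_spec hex
  have hlt : ∀ j < Nat.find hex, c (j + 1) * p = c j := fun j hj =>
    (h.step j).resolve_left (Nat.find_min hex hj)
  generalize Nat.find hex = t at ht hlt
  have ht1 : 1 ≤ t := by
    rcases Nat.eq_zero_or_pos t with rfl | h0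
    · have h1 : c 1 * p = c 0 := h.step0
      have := cpos 1
      have := hp.one_lt
      simp only [zero_add] at ht
      nlinarith
    · exact h0
  obtain ⟨e, he⟩ : ∃ e, c t = p ^ e := by
    have : IsPGroup p (I φ P 0 t) :=
      h.isPGroup.to_le ((I_mono le_rfl (by omega)).trans (I_zero (φ := φ) (P := P)).le)
    exact IsPGroup.iff_card.1 this
  have hcj : ∀ k j : ℕ, j + k = t → c j = p ^ (e + k) := by
    intro k
    induction k with
    | zero => intro j hj; simp only [add_zero] at hj ⊢; rw [hj, he]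
    | succ k ih => intro j hj; rw [← hlt j (by omega), ih (j + 1) (by omega), ← add_assoc, pow_succ]
  have hcard : ∀ (a b : ℤ) (k : ℕ), k ≤ t → b = a + t - k → Nat.card (I φ P a b) = p ^ (e + k) := by
    intro a b k hk hb
    obtain ⟨j, hj⟩ := Nat.exists_eq_add_of_le' hk
    rw [show b = a + j by omega, I_card', ← hcj k j hj.symm]
  have hQ : ∀ a : ℤ, I φ P (a - 1) (a - 1 + t) = I φ P a (a + t) := by
    intro a
    have h1 : Nat.card (I φ P (a - 1) (a + t)) = p ^ e := by
      have := I_card' (φ := φ) (P := P) (a - 1) (t + 1)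
      rw [show a - 1 + ((t + 1 : ℕ) : ℤ) = a + t by push_cast; ring] at this
      rw [this, ← he]; exact ht
    rw [← Subgroup.eq_of_le_of_card_ge (I_mono (c := a - 1) (d := a + t) le_rfl (by omega))
        (by rw [h1, hcard _ _ 0 (by omega) (by simp)]; simp),
      Subgroup.eq_of_le_of_card_ge (I_mono (a := a) (b := a + t) (by omega) le_rfl)
        (by rw [h1, hcard _ _ 0 (by omega) (by simp)]; simp)]
  have hQ' : ∀ a : ℤ, I φ P a (a + t) = I φ P 0 t := by
    intro a
    induction a using Int.induction_on with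
    | zero => simp
    | succ k ih => rw [← hQ, add_sub_cancel_right, ih]
    | pred k ih => rw [hQ, ih]
  have hN : ∀ k : ℕ, k + 1 ≤ t → ∀ a : ℤ,
      I φ P a (a + t - (k + 1 : ℕ)) ≤ Subgroup.normalizer (I φ P 0 t : Set G) := by
    intro k
    induction k with
    | zero =>
      intro hk a
      rw [← hQ' a, ← Subgroup.normal_subgroupOf_iff_le_normalizer (I_mono le_rfl (by omega))]
      exact (normal_of_card hp (I_mono le_rfl (by omega)) (hcard _ _ 0 (by omega) (by simp))
        (hcard _ _ 1 (by omega) (by simp))).1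
    | succ k ih =>
      intro hk a
      obtain ⟨w, hw, hw'⟩ : ∃ w ∈ I φ P (a - 1) (a - 1 + t - (k + 1 : ℕ)),
          w ∉ I φ P a (a + t - (k + 1 : ℕ)) := by
        by_contra hne
        push Not at hne
        have h1 : I φ P (a - 1) (a - 1 + t - (k + 1 : ℕ)) ≤ I φ P (a - 1) (a + t - (k + 1 : ℕ)) := by
          rw [← I_inf (b := a - 1 + t - (k + 1 : ℕ)) (c := a) (d := a + t - (k + 1 : ℕ))
            (by omega) (by omega) (by omega)]
          exact le_inf le_rfl hne
        have h2 := Subgroup.card_le_of_le h1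
        rw [hcard _ _ (k + 1) (by omega) rfl, hcard _ _ k (by omega) (by push_cast; ring),
          pow_le_pow_iff_right₀ hp.one_lt] at h2
        omega
      exact le_of_card hp (I_mono le_rfl (by omega)) (hcard _ _ (k + 1) (by omega) rfl)
        (hcard _ _ (k + 1 + 1) hk rfl) (I_mono (by omega) (by omega) hw) hw'
        (ih (by omega) a) (ih (by omega) (a - 1) hw)
  have hle : I φ P 0 t ≤ P := (I_mono le_rfl (by omega)).trans (I_zero (φ := φ) (P := P)).le
  have hbot : I φ P 0 t = ⊥ := by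
    refine h.triv _ hle ?_ (fun y hy => ?_)
    · rw [Subgroup.normal_subgroupOf_iff_le_normalizer hle]
      have := hN (t - 1) (by omega) 0
      rwa [show (0 : ℤ) + t - (t - 1 + 1 : ℕ) = 0 by omega, I_zero] at this
    · rw [← hQ' 1]
      have := (I_shift 1 _ _ _).1 hy
      simpa [add_comm] using this
  have he0 : e = 0 := by
    have : c t = 1 := by simp only [hc, hbot, Subgroup.card_bot]
    rw [this] at he
    exact (Nat.pow_eq_one.1 he.symm).resolve_left hp.one_lt.ne'
  subst he0
  refine ⟨t, ht1, hp, fun a k hk => ?_, fun a b c d h1 h2 h3 => ?_, fun a b c d h1 h2 => ?_,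
    fun a b y => ?_⟩
  · simpa using hcard _ _ k hk (by ring)
  · exact I_inf (by omega) h1 (by omega)
  · exact I_mono (by omega) h1
  · have := I_shift (φ := φ) (P := P) 1 (b - t + 1) a y
    rwa [zpow_one, show b - t + 1 + 1 = b + 1 - t + 1 by ring] at this

end Hyp

omit [Finite G] in
theorem I_self (i : ℤ) : I φ P i i = (φ ^ i) • P := by
  ext y
  rw [Subgroup.mem_pointwise_smul_iff_inv_smul_mem, ← zpow_neg]
  refine ⟨fun h => h i le_rfl le_rfl, fun h j h1 h2 => ?_⟩
  obtain rfl : j = i := by omega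
  exact h

theorem hyp_of (hp : p.Prime) (hN : ((P ⊓ φ • P).subgroupOf (φ • P)).Normal)
    (hidx : (P ⊓ φ • P).relIndex (φ • P) = p)
    (h1 : ∀ Q : Subgroup G, Q ≤ P → (Q.subgroupOf P).Normal → φ • Q = Q → Q = ⊥) :
    Hyp φ P p := by
  have e1 : I φ P 1 1 = φ • P := by rw [I_self, zpow_one]
  have e2 : I φ P 0 1 = P ⊓ φ • P := by
    rw [← e1, ← I_inf (b := 0) (c := 1) (by omega) (by omega) (by omega), I_zero]
  refine ⟨hp, by rwa [e1, e2], by rwa [e1, e2], fun Q h2 h3 h4 => h1 Q h2 h3 ?_⟩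
  refine Subgroup.eq_of_le_of_card_ge ?_ ?_
  · rintro _ ⟨y, hy, rfl⟩; exact h4 y hy
  · exact (Subgroup.card_map_of_injective (f := φ.toMonoidHom) φ.injective).ge

end H22.Glb
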