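import Cfsg.Agent.H22.Glb2
import Cfsg.Agent.H9.CoxA
import Cfsg.Agent.H1.Core

/-! Small recognition lemmas (C₂², S₄, S₄ × C₂) and the odd part over a dihedral quotient. -/

set_option autoImplicit false
open Pointwise
open scoped commutatorElement

namespace H22.Glb

variable {K : Type*} [Group K]

/-- The homomorphism `C₂ → K` given by an element of square one. -/
def z2 (z : K) (hz : z * z = 1) : Multiplicative (ZMod 2) →* K :=
  MonoidHom.mk' (fun c => z ^ c.toAdd.val) (fun a b => by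
    rw [toAdd_mul, ZMod.val_add, ← pow_eq_pow_mod _ (by rw [pow_two, hz]), pow_add])

theorem z2_cases (z : K) (hz : z * z = 1) (c : Multiplicative (ZMod 2)) :
    c = 1 ∨ z2 z hz c = z := by
  have : ∀ c : Multiplicative (ZMod 2), c = 1 ∨ c.toAdd.val = 1 := by decide
  rcases this c with h | h
  · exact Or.inl h
  · right; change z ^ c.toAdd.val = z; rw [h, pow_one]

theorem z2_gen (z : K) (hz : z * z = 1) : z2 z hz (Multiplicative.ofAdd 1) = z :=
  (z2_cases z hz _).resolve_left (by decide)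

theorem z2_comm (z : K) (hz : z * z = 1) {w : K} (h : Commute w z) (c : Multiplicative (ZMod 2)) :
    Commute w (z2 z hz c) := h.pow_right _

theorem iso_v4 {a u : K} (ha : a * a = 1) (hu : u * u = 1) (hc : Commute a u) (h1 : a ≠ 1)
    (h2 : u ≠ 1) (h3 : a * u ≠ 1) (hgen : ∀ L : Subgroup K, a ∈ L → u ∈ L → L = ⊤) :
    Nonempty (K ≃* Multiplicative (ZMod 2) × Multiplicative (ZMod 2)) := by
  let ψ := (z2 a ha).noncommCoprod (z2 u hu) (fun c d => (z2_comm a ha (z2_comm u hu hc d).symm c).symm)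
  refine ⟨(MulEquiv.ofBijective ψ ⟨(injective_iff_map_eq_one _).2 ?_, ?_⟩).symm⟩
  · rintro ⟨c, d⟩ h
    change z2 a ha c * z2 u hu d = 1 at h
    rcases z2_cases a ha c with rfl | hc' <;> rcases z2_cases u hu d with rfl | hd'
    · rfl
    · rw [hd', map_one, one_mul] at h; exact absurd h h2
    · rw [hc', map_one, mul_one] at h; exact absurd h h1
    · rw [hc', hd'] at h; exact absurd h h3
  · refine MonoidHom.range_eq_top.1 (hgen _ ⟨(Multiplicative.ofAdd 1, 1), ?_⟩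
      ⟨(1, Multiplicative.ofAdd 1), ?_⟩)
    · change z2 a ha _ * z2 u hu 1 = a
      rw [z2_gen, map_one, mul_one]
    · change z2 a ha 1 * z2 u hu _ = u
      rw [z2_gen, map_one, one_mul]

theorem s4_ker : ∀ σ : Equiv.Perm (Fin 4), σ ≠ 1 → ∃ τ ρ : Equiv.Perm (Fin 4),
    ρ * (σ * τ * σ⁻¹ * τ⁻¹) * ρ⁻¹ = Equiv.swap 0 1 * Equiv.swap 2 3 := by
  decide +kernel

/-- The relations of `S₄ = ⟨u, v⟩ : ⟨a, b⟩`. -/
structure S4Rel (a b u v : K) : Prop where
  aa : a * a = 1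
  bb : b * b = 1
  uu : u * u = 1
  vv : v * v = 1
  uv : u * v = v * u
  au : a * u = u * a
  av : a * v * a = u * v
  bv : b * v = v * b
  bu : b * u * b = u * v

namespace S4Rel

variable {a b u v : K}

theorem map {K' : Type*} [Group K'] (f : K →* K') (h : S4Rel a b u v) :
    S4Rel (f a) (f b) (f u) (f v) := by
  obtain ⟨h1, h2, h3, h4, h5, h6, h7, h8, h9⟩ := h
  constructor <;> simp only [← map_mul, *, map_one]

theorem ia (h : S4Rel a b u v) : a⁻¹ = a := inv_eq_of_mul_eq_one_right h.aa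
theorem ib (h : S4Rel a b u v) : b⁻¹ = b := inv_eq_of_mul_eq_one_right h.bb

theorem ru (h : S4Rel a b u v) : a * b * u * (a * b)⁻¹ = v := by
  have e : a * b * u * (a * b)⁻¹ = a * (b * u * b) * a := by rw [mul_inv_rev, h.ia, h.ib]; group
  rw [e, h.bu, ← mul_assoc, h.au, mul_assoc u, mul_assoc u, h.av, ← mul_assoc, h.uu, one_mul]

theorem rv (h : S4Rel a b u v) : a * b * v * (a * b)⁻¹ = u * v := by
  have e : a * b * v * (a * b)⁻¹ = a * (b * v * b) * a := by rw [mul_inv_rev, h.ia, h.ib]; group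
  rw [e, h.bv, mul_assoc v, h.bb, mul_one, h.av]

theorem ruv (h : S4Rel a b u v) : a * b * (u * v) * (a * b)⁻¹ = u := by
  have e : a * b * (u * v) * (a * b)⁻¹ =
    a * b * u * (a * b)⁻¹ * (a * b * v * (a * b)⁻¹) := by group
  rw [e, h.ru, h.rv, h.uv, ← mul_assoc, h.vv, one_mul]

theorem cu (h : S4Rel a b u v) : Commute ((a * b) ^ 3) u := by
  have e : (a * b) ^ 3 * u = a * b * (a * b * (a * b * u * (a * b)⁻¹) * (a * b)⁻¹) * (a * b)⁻¹ *
      (a * b) ^ 3 := by generalize a * b = r; rw [pow_succ, pow_two]; group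
  rw [h.ru, h.rv, h.ruv] at e
  exact e

theorem cv (h : S4Rel a b u v) : Commute ((a * b) ^ 3) v := by
  have e : (a * b) ^ 3 * v = a * b * (a * b * (a * b * v * (a * b)⁻¹) * (a * b)⁻¹) * (a * b)⁻¹ *
      (a * b) ^ 3 := by generalize a * b = r; rw [pow_succ, pow_two]; group
  rw [h.rv, h.ruv, h.ru] at e
  exact e

theorem braid {x y : K} (hx : x * x = 1) (hy : y * y = 1) (h : (x * y) ^ 3 = 1) :
    x * y * x = y * x * y := by
  have e : x * y * x = (x * y) ^ 3 * y⁻¹ * x⁻¹ * y⁻¹ := by rw [pow_succ, pow_two]; group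
  rw [e, h, inv_eq_of_mul_eq_one_right hx, inv_eq_of_mul_eq_one_right hy, one_mul]

theorem hom (h : S4Rel a b u v) (hr : (a * b) ^ 3 = 1) : ∃ ψ : Equiv.Perm (Fin 4) →* K,
    a ∈ ψ.range ∧ b ∈ ψ.range ∧ u ∈ ψ.range ∧ v ∈ ψ.range ∧
    ψ (Equiv.swap 0 1 * Equiv.swap 2 3) = u ∧
    ∀ z : K, Commute a z → Commute b z → Commute u z → ∀ σ, Commute (ψ σ) z := by
  have h3 : a * u * (a * u) = 1 := by
    rw [← mul_assoc, mul_assoc a u, ← h.au, ← mul_assoc, h.aa, one_mul, h.uu]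
  have h4 : (a * u * b) ^ 3 = 1 := by
    have e : (a * u * b) ^ 3 = u * (a * b * u * (a * b)⁻¹) *
        (a * b * (a * b * u * (a * b)⁻¹) * (a * b)⁻¹) * (a * b) ^ 3 := by
      rw [h.au, mul_assoc u a b]; generalize a * b = r; rw [pow_succ, pow_two]; group
    rw [e, hr, h.ru, h.rv, mul_one, mul_assoc u v, ← mul_assoc v, ← h.uv, mul_assoc, h.vv, mul_one,
      h.uu]
  obtain ⟨ψ, hψ⟩ := H9.CoxA.exists_hom (n := 3) ![a, b, a * u]
    (fun i => by fin_cases i; exacts [h.aa, h.bb, h3])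
    (fun i j hij => by
      fin_cases i <;> fin_cases j <;> simp at hij
      · exact braid h.aa h.bb hr
      · exact (braid h3 h.bb h4).symm)
    (fun i j hij => by
      fin_cases i <;> fin_cases j <;> simp at hij
      change a * (a * u) = a * u * a
      rw [mul_assoc, ← h.au])
  have e0 : ψ (Equiv.swap 0 1) = a := hψ 0
  have e1 : ψ (Equiv.swap 1 2) = b := hψ 1
  have e2 : ψ (Equiv.swap 2 3) = a * u := hψ 2
  have e3 : ψ (Equiv.swap 0 1 * Equiv.swap 2 3) = u := by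
    rw [map_mul, e0, e2, ← mul_assoc, h.aa, one_mul]
  have ma : a ∈ ψ.range := ⟨_, e0⟩
  have mb : b ∈ ψ.range := ⟨_, e1⟩
  have mu : u ∈ ψ.range := ⟨_, e3⟩
  refine ⟨ψ, ma, mb, mu, h.ru ▸ mul_mem (mul_mem (mul_mem ma mb) mu) (inv_mem (mul_mem ma mb)), e3,
    fun z za zb zu σ => ?_⟩
  have : (Subgroup.centralizer {z}).comap ψ = ⊤ := by
    rw [eq_top_iff, ← Subgroup.toSubmonoid_le, Subgroup.top_toSubmonoid,
      ← Equiv.Perm.mclosure_swap_castSucc_succ 3, Submonoid.closure_le]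
    rintro _ ⟨i, rfl⟩
    change ψ _ ∈ Subgroup.centralizer {z}
    rw [hψ, Subgroup.mem_centralizer_singleton_iff]
    fin_cases i
    exacts [za.eq, zb.eq, (za.mul_left zu).eq]
  have h5 : ψ σ ∈ Subgroup.centralizer {z} := by
    rw [← Subgroup.mem_comap, this]; trivial
  exact Subgroup.mem_centralizer_singleton_iff.1 h5

theorem iso_s4 (h : S4Rel a b u v) (hr : (a * b) ^ 3 = 1) (hu : u ≠ 1)
    (hgen : ∀ L : Subgroup K, a ∈ L → b ∈ L → u ∈ L → v ∈ L → L = ⊤) :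
    Nonempty (K ≃* Equiv.Perm (Fin 4)) := by
  obtain ⟨ψ, ma, mb, mu, mv, e, -⟩ := h.hom hr
  refine ⟨(MulEquiv.ofBijective ψ ⟨(injective_iff_map_eq_one _).2 (fun σ hσ => ?_),
    MonoidHom.range_eq_top.1 (hgen _ ma mb mu mv)⟩).symm⟩
  by_contra hne
  obtain ⟨τ, ρ, h1⟩ := s4_ker σ hne
  rw [← h1] at e
  simp [hσ] at e
  exact hu e.symm

theorem iso_s4c2 (h : S4Rel a b u v) (hr : (a * b) ^ 3 = 1) (hu : u ≠ 1) {z : K} (hz : z * z = 1)
    (hz1 : z ≠ 1) (za : Commute a z) (zb : Commute b z) (zu : Commute u z)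
    (hgen : ∀ L : Subgroup K, a ∈ L → b ∈ L → u ∈ L → v ∈ L → z ∈ L → L = ⊤) :
    Nonempty (K ≃* Equiv.Perm (Fin 4) × Multiplicative (ZMod 2)) := by
  obtain ⟨ψ, ma, mb, mu, mv, e, hc⟩ := h.hom hr
  let χ := ψ.noncommCoprod (z2 z hz) (fun σ c => z2_comm z hz (hc z za zb zu σ) c)
  have hle : ψ.range ≤ χ.range := by
    rintro _ ⟨σ, rfl⟩
    exact ⟨(σ, 1), by change ψ σ * z2 z hz 1 = _; rw [map_one, mul_one]⟩
  refine ⟨(MulEquiv.ofBijective χ ⟨(injective_iff_map_eq_one _).2 ?_,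
    MonoidHom.range_eq_top.1 (hgen _ (hle ma) (hle mb) (hle mu) (hle mv)
      ⟨(1, Multiplicative.ofAdd 1), ?_⟩)⟩).symm⟩
  · rintro ⟨σ, c⟩ hσ
    change ψ σ * z2 z hz c = 1 at hσ
    by_cases hne : σ = 1
    · subst hne
      rcases z2_cases z hz c with rfl | hc'
      · rfl
      · rw [hc', map_one, one_mul] at hσ; exact absurd hσ hz1
    obtain ⟨τ, ρ, h1⟩ := s4_ker σ hne
    have h2 : Commute (ψ τ) (ψ σ) := by
      rw [eq_inv_of_mul_eq_one_left hσ]
      exact (z2_comm z hz (hc z za zb zu τ) c).inv_right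
    rw [← h1] at e
    simp only [map_mul, map_inv, ← h2.eq] at e
    exact absurd (by rw [← e]; group) hu
  · change ψ 1 * z2 z hz _ = z
    rw [z2_gen, map_one, one_mul]

end S4Rel

open DihedralGroup in
theorem oddpart [Finite K] {n : ℕ} (hn : Odd n) (π : K →* DihedralGroup n)
    (hM : ∀ m, π m = 1 → m * m = 1) {c : K} {i : ZMod n} (hc : π c = r i)
    (hcm : ∀ m, π m = 1 → Commute c m) :
    π (c ^ n) = 1 ∧ (c : K ⧸ Cfsg.pPrimeCore 2 K) = (c ^ n : K) := by
  have hrn : ∀ (x : K) (j : ZMod n), π x = r j → π (x ^ n) = 1 := by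
    intro x j hx
    rw [map_pow, hx, r_pow]; simp
  let C : Subgroup K := (Subgroup.zpowers (r (1 : ZMod n))).comap π ⊓
    Subgroup.centralizer (π.ker : Set K)
  have hCn : C.Normal := by
    have : (Subgroup.zpowers (r (1 : ZMod n))).Normal := by
      refine ⟨fun x hx g => ?_⟩
      obtain ⟨k, rfl⟩ := hx
      refine ⟨match g with | r _ => k | sr _ => -k, ?_⟩
      cases g <;> simp
    infer_instance
  have hcomm : ∀ x ∈ C, ∀ y ∈ C, x * y = y * x := by
    intro x hx y hy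
    let f : C →* Subgroup.zpowers (r (1 : ZMod n)) :=
      (π.comp C.subtype).codRestrict _ (fun x => x.2.1)
    have := (MonoidHom.isMulCommutative_of_isCyclic_of_ker_le_center f (fun m hm => by
      rw [Subgroup.mem_center_iff]
      intro g
      have h1 : π m = 1 := congrArg Subtype.val hm
      exact Subtype.ext (Subgroup.mem_centralizer_iff.1 g.2.2 m h1).symm)).is_comm.comm
        ⟨x, hx⟩ ⟨y, hy⟩
    exact congrArg Subtype.val this
  let O : Subgroup K :=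
    { carrier := {x | x ∈ C ∧ x ^ n = 1}
      mul_mem' := fun {x y} hx hy => ⟨mul_mem hx.1 hy.1, by
        rw [Commute.mul_pow (hcomm x hx.1 y hy.1), hx.2, hy.2, one_mul]⟩
      one_mem' := ⟨one_mem _, one_pow _⟩
      inv_mem' := fun {x} hx => ⟨inv_mem hx.1, by rw [inv_pow, hx.2, inv_one]⟩ }
  have hO : O ≤ Cfsg.pPrimeCore 2 K := by
    refine H1.le_pPrimeCore ⟨fun x hx g => ⟨hCn.conj_mem x hx.1 g, by
      rw [conj_pow, hx.2]; group⟩⟩ ?_
    rw [Nat.coprime_comm, Nat.prime_two.coprime_iff_not_dvd]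
    intro h2
    obtain ⟨x, hx⟩ := exists_prime_orderOf_dvd_card' 2 h2
    have : orderOf x ∣ n := by
      rw [← Subgroup.orderOf_coe]; exact orderOf_dvd_of_pow_eq_one x.2.2
    rw [hx] at this
    exact (Nat.not_even_iff_odd.2 hn) (even_iff_two_dvd.2 this)
  have hcC : c ∈ C := by
    have : NeZero n := ⟨hn.pos.ne'⟩
    refine ⟨⟨(i.val : ℤ), ?_⟩, Subgroup.mem_centralizer_iff.2 fun m hm => (hcm m hm).symm.eq⟩
    simp [hc]
  refine ⟨hrn c i hc, QuotientGroup.eq.2 (hO ⟨mul_mem (inv_mem hcC) (pow_mem hcC n), ?_⟩)⟩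
  obtain ⟨k, hk⟩ := hn
  have e : c⁻¹ * c ^ n = c ^ (2 * k) := by rw [hk, pow_succ']; group
  rw [e, ← pow_mul, mul_comm, pow_mul, pow_mul, pow_two, hM _ (hrn c i hc), one_pow]

end H22.Glb
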