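import Cfsg.Agent.H22.Glb3

/-! Chains for `p = 2`. -/

set_option autoImplicit false
open Pointwise
open scoped commutatorElement

namespace H22.Glb

variable {G : Type*} [Group G] [Finite G]

namespace Chain

variable {φ : MulAut G} {t : ℕ} {X : ℤ → ℤ → Subgroup G}

theorem two_l (h : Chain φ 2 t X) {a b : ℤ} (hab : a ≤ b) (ht : b - a < t) {x w : G}
    (hx : x ∈ X a a) (hx1 : x ≠ 1) (hw : w ∈ X a b) : w ∈ X (a + 1) b ∨ x * w ∈ X (a + 1) b := by
  obtain ⟨k, hk⟩ := Int.eq_ofNat_of_zero_le (show 0 ≤ b - a by omega)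
  have h1 := (normal_of_card h.prime (h.mono a b (a + 1) b (by omega) le_rfl)
    (h.card' _ _ k (by omega) (by omega)) (h.card' _ _ (k + 1) (by omega) (by push_cast; omega))).2
  have h2 := Subgroup.mul_mem_iff_of_index_two h1 (a := ⟨x, h.mono _ _ _ _ le_rfl hab hx⟩)
    (b := ⟨w, hw⟩)
  simp only [Subgroup.mem_subgroupOf, Subgroup.coe_mul] at h2
  have h3 := h.not_mem ht.le hx hx1 hab
  tauto

theorem two_r (h : Chain φ 2 t X) {a b : ℤ} (hab : a ≤ b) (ht : b - a < t) {x w : G}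
    (hx : x ∈ X b b) (hx1 : x ≠ 1) (hw : w ∈ X a b) : w ∈ X a (b - 1) ∨ x * w ∈ X a (b - 1) := by
  have := h.refl.two_l (a := -b) (b := -a) (by omega) (by omega) (x := x) (w := w)
    (by simpa using hx) hx1 (by simpa using hw)
  simpa [sub_eq_neg_add] using this

theorem two_self (h : Chain φ 2 t X) (ht : 1 ≤ t) {a : ℤ} {x w : G}
    (hx : x ∈ X a a) (hx1 : x ≠ 1) (hw : w ∈ X a a) : w = 1 ∨ w = x := by
  have key : ∀ w ∈ X a a, w = 1 ∨ x * w = 1 := by
    intro w hw
    have := h.two_l le_rfl (by omega) hx hx1 hw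
    rwa [h.bot (by omega)] at this
  rcases key w hw with h1 | h1
  · exact Or.inl h1
  · exact Or.inr (mul_left_cancel (h1.trans ((key x hx).resolve_left hx1).symm))

theorem sq_self (h : Chain φ 2 t X) (ht : 1 ≤ t) {a : ℤ} {x : G} (hx : x ∈ X a a) : x * x = 1 := by
  by_cases hx1 : x = 1
  · simp [hx1]
  rcases h.two_self ht hx hx1 (mul_mem hx hx) with h1 | h1
  · exact h1
  · exact absurd (mul_eq_left.1 h1) hx1

theorem sq (h : Chain φ 2 t X) (ht : 1 ≤ t) {l : ℤ} (hC : ∀ k, 0 ≤ k → k < l → Cm X k)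
    {a b : ℤ} (hab : b - a < t) (hl : b - a < l) {w : G} (hw : w ∈ X a b) : w * w = 1 := by
  let E : Subgroup G :=
    { carrier := {u | u ∈ X a b ∧ u * u = 1}
      mul_mem' := fun {u v} hu hv => ⟨mul_mem hu.1 hv.1, by
        have := h.commute hC hab hab hl hl hu.1 hv.1
        rw [mul_assoc, ← mul_assoc v, ← this.eq, mul_assoc, hv.2, mul_one, hu.2]⟩
      one_mem' := ⟨one_mem _, mul_one _⟩
      inv_mem' := fun {u} hu => ⟨inv_mem hu.1, by rw [← mul_inv_rev, hu.2, inv_one]⟩ }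
  exact (h.gen (H := E) hab (fun i h1 h2 u hu =>
    ⟨h.mono _ _ _ _ h1 h2 hu, h.sq_self ht hu⟩) hw).2

theorem cm_two (h : Chain φ 2 t X) (ht : 1 ≤ t) {i k : ℤ} {x y : G} (hx : x ∈ X i i) (hx1 : x ≠ 1)
    (hy : y ∈ X (i + k) (i + k)) (hy1 : y ≠ 1) (hc : Commute x y) : Cm X k := by
  refine h.cm_of (i := i) (fun u hu v hv => ?_)
  rcases h.two_self ht hx hx1 hu with rfl | rfl
  · exact Commute.one_left _
  rcases h.two_self ht hy hy1 hv with rfl | rfl
  · exact Commute.one_right _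
  exact hc

theorem le_of_mem (h : Chain φ 2 t X) (ht : 1 ≤ t) {a b : ℤ} (hab : b - a < t) (x : ℤ → G)
    (hx : ∀ i, x i ∈ X i i) (hx1 : ∀ i, x i ≠ 1) {L : Subgroup G}
    (hL : ∀ i, a ≤ i → i ≤ b → x i ∈ L) : X a b ≤ L := by
  refine h.gen hab (fun i h1 h2 w hw => ?_)
  rcases h.two_self ht (hx i) (hx1 i) hw with rfl | rfl
  exacts [one_mem _, hL i h1 h2]

/-- the case `t = 6`: `x₆` normalizes `X 1 4`. -/
theorem six (h : Chain φ 2 6 X) (hC : ∀ k, 0 ≤ k → k < 4 → Cm X k) (hl : ¬ Cm X 4) {y : G}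
    (hy : y ∈ X 6 6) : y ∈ Subgroup.normalizer (X 1 4 : Set G) := by
  by_cases hy1 : y = 1
  · rw [hy1]; exact one_mem _
  have key : X 1 4 ≤ (X 1 4).comap (MulAut.conj y).toMonoidHom := by
    refine h.gen (by omega) (fun i h1 h2 x hx => ?_)
    change y * x * y⁻¹ ∈ X 1 4
    have e : y * x * y⁻¹ = ⁅y, x⁆ * x := by rw [commutatorElement_def]; group
    rw [e]
    refine mul_mem ?_ (h.mono _ _ _ _ h1 h2 hx)
    by_cases hx1 : x = 1
    · simp [hx1]
    obtain rfl | rfl | hi : i = 1 ∨ i = 2 ∨ 3 ≤ i := by omega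
    · have h3 : ⁅y, x⁆ ∈ X 2 5 := h.comm (a := 1) (b := 6) (by omega) (by omega)
        (h.mono _ _ _ _ (by omega) le_rfl hy) (h.mono _ _ _ _ le_rfl (by omega) hx)
      by_contra hc
      have h4 : ⁅y, x⁆ ∉ X 2 (5 - 1) := fun h5 => hc (h.mono _ _ _ _ (by omega) (by omega) h5)
      have h5 := h.sq (by omega) hC (by omega) (by omega) h3
      have h6 := h.sq_self (by omega) hx
      have h7 : ⁅y, x⁆ * x * (⁅y, x⁆ * x) = 1 := by
        rw [← e]
        calc y * x * y⁻¹ * (y * x * y⁻¹) = y * (x * x) * y⁻¹ := by group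
          _ = 1 := by rw [h6]; group
      have h8 : ⁅y, x⁆ * x = x * ⁅y, x⁆ := by
        rw [← inv_eq_of_mul_eq_one_right h7, mul_inv_rev, inv_eq_of_mul_eq_one_right h5,
          inv_eq_of_mul_eq_one_right h6]
      have h9 : X 2 5 ≤ Subgroup.centralizer {x} :=
        h.max_r (by omega) (by omega) h3 h4 (fun v hv =>
          Subgroup.mem_centralizer_singleton_iff.2
            (h.commute hC (by omega) (by omega) (by omega) (by omega) hv hx).eq)
          (Subgroup.mem_centralizer_singleton_iff.2 h8)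
      exact hl (h.cm_of (i := 1) (fun u hu v hv => by
        rcases h.two_self (by omega) hx hx1 hu with rfl | rfl
        · exact Commute.one_left _
        · exact (Subgroup.mem_centralizer_singleton_iff.1
            (h9 (h.mono _ _ _ _ (by omega) (by omega) hv))).symm))
    · have := h.mu_nu hC hl (by omega) (by omega) hx (y := y) hy
      rw [← commutatorElement_inv]
      exact inv_mem (h.mono _ _ _ _ (by omega) (by omega) this)
    · rw [commutatorElement_eq_one_iff_commute.2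
        (h.commute hC (by omega) (by omega) (by omega) (by omega) hy hx)]
      exact one_mem _
  rw [Subgroup.mem_normalizer_iff]
  refine fun x => ⟨fun hx => key hx, fun hx => ?_⟩
  have h1 : y * (y * x * y⁻¹) * y⁻¹ ∈ X 1 4 := key hx
  have h2 := h.sq_self (by omega) hy
  have e : y * (y * x * y⁻¹) * y⁻¹ = (y * y) * x * (y * y)⁻¹ := by group
  rwa [e, h2, one_mul, inv_one, mul_one] at h1

/-- elements of `M = X 1 (t-1)` centralized by `x₀ x_t`. -/
theorem fix (h : Chain φ 2 t X) (ht : 2 ≤ t) (hC : ∀ k : ℤ, 0 ≤ k → k < t - 1 → Cm X k)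
    (hl : ¬ Cm X (t - 1)) (x : ℤ → G) (hx : ∀ i, x i ∈ X i i) (hx1 : ∀ i, x i ≠ 1)
    (hw : ⁅x 0, x (t - 1)⁆ ∉ X 2 (t - 1)) {m : G} (hm : m ∈ X 1 (t - 1))
    (hc : Commute (x 0 * x t) m) : m ∈ X 2 (t - 2) := by
  have h0 := h.sq_self (by omega) (hx 0)
  have e : ⁅x 0, m⁆ = ⁅x t, m⁆ := by
    have h1 := h.sq_self (by omega) (hx t)
    have h2 : x 0 * x t * m * (x 0 * x t)⁻¹ = m := by rw [hc.eq]; group
    calc ⁅x 0, m⁆ = x 0 * (x 0 * x t * m * (x 0 * x t)⁻¹) * (x 0)⁻¹ * m⁻¹ := by rw [h2]; rfl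
      _ = (x 0 * x 0) * x t * m * (x t)⁻¹ * (x 0 * x 0)⁻¹ * m⁻¹ := by group
      _ = ⁅x t, m⁆ := by rw [h0, commutatorElement_def]; group
  have h3 : ⁅x t, m⁆ ∈ X 2 (t - 1) := h.comm (a := 1) (b := t) (by omega) (by omega)
    (h.mono _ _ _ _ (by omega) le_rfl (hx t)) (h.mono _ _ _ _ le_rfl (by omega) hm)
  have h4 : m ∈ X 1 (t - 1 - 1) := by
    rcases h.two_r (by omega) (by omega) (hx (t - 1)) (hx1 _) hm with h5 | h5
    · exact h5
    exfalso
    have h6 := h.commute hC (by omega) (by omega) (by omega) (by omega) (hx 0) h5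
    have h7 := h.commute hC (by omega) (by omega) (by omega) (by omega) (hx (t - 1)) h5
    have h8 := h.sq_self (by omega) (hx (t - 1))
    have e2 : m = x (t - 1) * (x (t - 1) * m) := by rw [← mul_assoc, h8, one_mul]
    apply hw
    rw [← e, e2] at h3
    generalize x (t - 1) * m = z at h3 h6 h7
    have e3 : ⁅x 0, x (t - 1) * z⁆ = ⁅x 0, x (t - 1)⁆ * (x (t - 1) * ⁅x 0, z⁆ * (x (t - 1))⁻¹) := by
      simp only [commutatorElement_def]; group
    rwa [e3, commutatorElement_eq_one_iff_commute.2 h6, mul_one, mul_inv_cancel, mul_one] at h3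
  by_cases htt : t = 2
  · subst htt
    rw [h.bot (by omega)] at h4
    rw [Subgroup.mem_bot.1 h4]; exact one_mem _
  have h5 : Commute (x t) m := by
    rw [← commutatorElement_eq_one_iff_commute, ← e, commutatorElement_eq_one_iff_commute]
    exact h.commute hC (by omega) (by omega) (by omega) (by omega) (hx 0) h4
  rw [show (t : ℤ) - 2 = t - 1 - 1 by ring]
  by_contra hc
  have h9 : X 1 (t - 1 - 1) ≤ Subgroup.centralizer {x t} :=
    h.max_l (by omega) (by omega) h4 hc (fun v hv =>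
      Subgroup.mem_centralizer_singleton_iff.2
        (h.commute hC (by omega) (by omega) (by omega) (by omega) hv (hx t)).eq)
      (Subgroup.mem_centralizer_singleton_iff.2 h5.symm.eq)
  exact hl (h.cm_two (i := 1) (by omega) (hx 1) (hx1 1) (y := x t) (by simpa using hx t) (hx1 t)
    (Subgroup.mem_centralizer_singleton_iff.1 (h9 (h.mono _ _ _ _ le_rfl (by omega) (hx 1)))))

end Chain

end H22.Glb
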