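import Cfsg.Agent.H22.Glb4

/-! Glauberman's theorem on `H/O₂(H)` dihedral. -/

set_option autoImplicit false
open Pointwise
open scoped commutatorElement

namespace H22.Glb

open DihedralGroup in
theorem dih {K : Type*} [Group K] [Finite K] {n : ℕ} (hn : 2 ≤ n) (π : K →* DihedralGroup n)
    (hs : Function.Surjective π) (hker : π.ker = Cfsg.pCore 2 K) (P : Subgroup K)
    (hP : IsPGroup 2 P) (hi : ¬ 2 ∣ P.index) : Odd n ∧ ∃ (j : ZMod n) (k : K),
      (∀ x, x ∈ P ↔ π x = 1 ∨ π x = sr j) ∧ (∀ x, k⁻¹ * x * k ∈ P ↔ π x = 1 ∨ π x = sr (j - 1)) := by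
  have : NeZero n := ⟨by omega⟩
  have hk2 : IsPGroup 2 π.ker := hker ▸ H1.pCore_isPGroup
  have hodd : Odd n := by
    by_contra hne
    obtain ⟨m, hm⟩ := Nat.not_odd_iff_even.1 hne
    have hmm : (m : ZMod n) + m = 0 := by rw [← Nat.cast_add, ← hm, ZMod.natCast_self]
    have hz : IsPGroup 2 (Subgroup.zpowers (r (m : ZMod n))) := by
      refine IsPGroup.of_card (n := 1) ?_
      rw [Nat.card_zpowers, pow_one]
      refine orderOf_eq_prime (by rw [sq, r_mul_r, hmm, r_zero]) (fun h => ?_)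
      have := (ZMod.natCast_eq_zero_iff m n).1 (r.inj h)
      have := Nat.le_of_dvd (by omega) this
      omega
    have hN : (Subgroup.zpowers (r (m : ZMod n))).Normal := by
      refine ⟨fun x hx g => ?_⟩
      obtain ⟨k, rfl⟩ := hx
      refine ⟨match g with | r _ => k | sr _ => -k, ?_⟩
      cases g <;> simp
    have h1 := H1.le_pCore (hN.comap π) (hz.comap_of_ker_isPGroup π hk2)
    obtain ⟨x, hx⟩ := hs (r m)
    have h2 : π x = 1 := by
      rw [← MonoidHom.mem_ker, hker]; exact h1 (by rw [Subgroup.mem_comap, hx]; simp)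
    rw [hx] at h2
    have := (ZMod.natCast_eq_zero_iff m n).1 (r.inj h2)
    have := Nat.le_of_dvd (by omega) this
    omega
  have hkP : π.ker ≤ P := hk2.le_sylow_of_normal (hP.toSylow hi)
  have hr : ∀ x ∈ P, ∀ i, π x = r i → π x = 1 := by
    intro x hx i hxi
    obtain ⟨e, he⟩ := hP ⟨x, hx⟩
    have h1 : π x ^ 2 ^ e = 1 := by rw [← map_pow, show x ^ 2 ^ e = 1 from congrArg Subtype.val he, map_one]
    have h2 : π x ^ n = 1 := by rw [hxi]; simp
    have := (pow_gcd_eq_one.2 ⟨h1, h2⟩)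
    rwa [Nat.Coprime.gcd_eq_one (Nat.Coprime.pow_left _ (Nat.coprime_two_left.2 hodd)), pow_one]
      at this
  obtain ⟨s, hsP, j, hj⟩ : ∃ s ∈ P, ∃ j, π s = sr j := by
    by_contra hc
    push Not at hc
    have h1 : P = π.ker := le_antisymm (fun x hx => by
      rcases h : π x with i | i
      · exact hr x hx i h
      · exact absurd h (hc x hx i)) hkP
    rw [h1, Subgroup.index_ker, MonoidHom.range_eq_top.2 hs, Subgroup.card_top, nat_card] at hi
    exact hi (dvd_mul_right _ _)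
  have hmem : ∀ x, x ∈ P ↔ π x = 1 ∨ π x = sr j := by
    intro x
    constructor
    · intro hx
      rcases h : π x with i | i
      · exact Or.inl (h ▸ hr x hx i h)
      · have := hr (s * x) (mul_mem hsP hx) (i - j) (by rw [map_mul, hj, h, sr_mul_sr])
        rw [map_mul, hj, h, sr_mul_sr] at this
        exact Or.inr (by rw [sub_eq_zero.1 (r.inj this)])
    · rintro (h | h)
      · exact hkP h
      · have : s⁻¹ * x ∈ P := hkP (by rw [MonoidHom.mem_ker, map_mul, map_inv, hj, h]; simp)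
        simpa using mul_mem hsP this
  obtain ⟨m, hm⟩ := hodd
  obtain ⟨k, hk⟩ := hs (r ((m + 1 : ℕ) : ZMod n))
  have h2 : ((m + 1 : ℕ) : ZMod n) + (m + 1 : ℕ) = 1 := by
    rw [← Nat.cast_add, show m + 1 + (m + 1) = n + 1 by omega]; simp
  refine ⟨⟨m, hm⟩, j, k, hmem, fun x => ?_⟩
  rw [hmem, map_mul, map_mul, map_inv, hk]
  generalize ((m + 1 : ℕ) : ZMod n) = a at h2
  rcases π x with i | i
  · simp only [inv_r, r_mul_r, one_def, reduceCtorEq, or_false, r.injEq]
    constructor <;> intro h <;> linear_combination h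
  · simp only [inv_r, r_mul_sr, sr_mul_r, one_def, reduceCtorEq, false_or, sr.injEq]
    constructor <;> intro h
    · linear_combination h - h2
    · linear_combination h + h2

variable {G : Type*} [Group G] [Finite G]

/-- The configuration in `G`. -/
structure Conf (H P M : Subgroup G) (y k : G) (n : ℕ) : Prop where
  odd : Odd n
  kH : k ∈ H
  two : IsPGroup 2 P
  sup : P ⊔ MulAut.conj (k * y) • P = H
  inf : P ⊓ MulAut.conj (k * y) • P = M
  idx : M.relIndex (MulAut.conj (k * y) • P) = 2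
  norm : H ≤ Subgroup.normalizer (M : Set G)
  yP : MulAut.conj y • P = P
  y2 : y ^ 2 ∈ P ⊔ Subgroup.centralizer (P : Set G)
  yQ : ∀ Q : Subgroup G, Q ≤ P → (Q.subgroupOf H).Normal → MulAut.conj y • Q = Q → Q = ⊥
  pw : ∀ a ∈ P, a ∉ M → ∀ b ∈ MulAut.conj (k * y) • P, b ∉ M → (a * b) ^ n ∈ M
  od : (∀ m ∈ M, m * m = 1) → ∀ a ∈ P, a ∉ M → ∀ b ∈ MulAut.conj (k * y) • P, b ∉ M → ∀ j : ℕ,
    (∀ m ∈ M, Commute ((a * b) ^ j) m) → ∀ c : H, (c : G) = (a * b) ^ j →
      (c : H ⧸ Cfsg.pPrimeCore 2 H) = (c ^ n : H)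

open DihedralGroup in
theorem conf (H : Subgroup G) (n : ℕ) (hn : 2 ≤ n)
    (hdih : Nonempty (↥H ⧸ Cfsg.pCore 2 ↥H ≃* DihedralGroup n))
    (P : Subgroup G) (hPH : P ≤ H) (hP : IsPGroup 2 P) (hPsyl : ¬ 2 ∣ P.relIndex H) (y : G)
    (hy2 : y ^ 2 ∈ P ⊔ Subgroup.centralizer (P : Set G)) (hyN : MulAut.conj y • P = P)
    (hyQ : ∀ Q : Subgroup G, Q ≤ P → (Q.subgroupOf H).Normal → MulAut.conj y • Q = Q → Q = ⊥) :
    ∃ k, Conf H P ((Cfsg.pCore 2 H).map H.subtype) y k n := by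
  obtain ⟨e⟩ := hdih
  have : Fact (1 < n) := ⟨hn⟩
  let π : H →* DihedralGroup n := e.toMonoidHom.comp (QuotientGroup.mk' _)
  have hs : Function.Surjective π := e.surjective.comp (QuotientGroup.mk'_surjective _)
  have hker : π.ker = Cfsg.pCore 2 H := by
    ext x; simp [π, MonoidHom.mem_ker]
  obtain ⟨hodd, j, k, h1, h2⟩ := dih hn π hs hker (P.subgroupOf H)
    (hP.of_equiv (Subgroup.subgroupOfEquivOfLe hPH).symm) hPsyl
  simp only [Subgroup.mem_subgroupOf] at h1 h2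
  have hM : ∀ x : H, (x : G) ∈ (Cfsg.pCore 2 H).map H.subtype ↔ π x = 1 := by
    intro x
    rw [← MonoidHom.mem_ker, hker]
    exact Subgroup.mem_map_iff_mem H.subtype_injective
  have hMH : (Cfsg.pCore 2 H).map H.subtype ≤ H := Subgroup.map_subtype_le _
  have hP' : ∀ x : G, x ∈ MulAut.conj ((k : G) * y) • P ↔ (k : G)⁻¹ * x * k ∈ P := by
    intro x
    rw [map_mul, mul_smul, hyN, Subgroup.mem_pointwise_smul_iff_inv_smul_mem]
    simp
  have hP'H : MulAut.conj ((k : G) * y) • P ≤ H := by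
    intro x hx
    have := mul_mem (mul_mem k.2 (hPH ((hP' x).1 hx))) (inv_mem k.2)
    simpa [mul_assoc] using this
  have h3 : ∀ x : H, (x : G) ∈ MulAut.conj ((k : G) * y) • P ↔ π x = 1 ∨ π x = sr (j - 1) :=
    fun x => (hP' x).trans (h2 x)
  have hne : (sr j : DihedralGroup n) ≠ sr (j - 1) := fun h => by
    have := sr.inj h
    exact one_ne_zero (by linear_combination this : (1 : ZMod n) = 0)
  have hrot : ∀ a ∈ P, a ∉ (Cfsg.pCore 2 H).map H.subtype →
      ∀ b ∈ MulAut.conj ((k : G) * y) • P, b ∉ (Cfsg.pCore 2 H).map H.subtype →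
      ∀ i : ℕ, ∀ c : H, (c : G) = (a * b) ^ i → π c = r (-1 * (i : ZMod n)) := by
    intro a ha ha' b hb hb' i c hc
    have e1 := ((h1 ⟨a, hPH ha⟩).1 ha).resolve_left (fun h => ha' ((hM _).2 h))
    have e2 := ((h3 ⟨b, hP'H hb⟩).1 hb).resolve_left (fun h => hb' ((hM _).2 h))
    have : c = (⟨a, hPH ha⟩ * ⟨b, hP'H hb⟩) ^ i := Subtype.ext hc
    rw [this, map_pow, map_mul, e1, e2, sr_mul_sr, r_pow, sub_sub_cancel_left]
  refine ⟨k, hodd, k.2, hP, ?_, ?_, ?_, H1.le_normalizer_pCoreOf H, hyN, hy2, hyQ, ?_, ?_⟩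
  · refine le_antisymm (sup_le hPH hP'H) (fun x hx => ?_)
    obtain ⟨s, hs1⟩ := hs (sr j)
    obtain ⟨s', hs2⟩ := hs (sr (j - 1))
    set L := P ⊔ MulAut.conj ((k : G) * y) • P
    have m1 : (s : G) ∈ L := Subgroup.mem_sup_left ((h1 s).2 (Or.inr hs1))
    have m2 : (s' : G) ∈ L := Subgroup.mem_sup_right ((h3 s').2 (Or.inr hs2))
    have key : ∀ (z : H) (i : ZMod n), π z = r i → (z : G) ∈ L := by
      intro z i hz
      have h4 : π (((s' * s) ^ i.val)⁻¹ * z) = 1 := by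
        rw [map_mul, map_inv, map_pow, map_mul, hs1, hs2, hz]; simp
      have h5 := mul_mem (pow_mem (mul_mem m2 m1) i.val)
        (Subgroup.mem_sup_left ((h1 _).2 (Or.inl h4)) : _ ∈ L)
      simpa using h5
    rcases h : π ⟨x, hx⟩ with i | i
    · exact key _ i h
    · have := mul_mem (inv_mem m1) (key (s * ⟨x, hx⟩) (i - j) (by rw [map_mul, hs1, h, sr_mul_sr]))
      simpa using this
  · ext x
    constructor
    · rintro ⟨ha, hb⟩
      rcases (h1 ⟨x, hPH ha⟩).1 ha with h | h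
      · exact (hM _).2 h
      · rcases (h3 ⟨x, hPH ha⟩).1 hb with h' | h'
        · exact (hM _).2 h'
        · exact absurd (h.symm.trans h') hne
    · intro hx
      have := (hM ⟨x, hMH hx⟩).1 hx
      exact ⟨(h1 _).2 (Or.inl this), (h3 _).2 (Or.inl this)⟩
  · obtain ⟨s', hs2⟩ := hs (sr (j - 1))
    refine Subgroup.index_eq_two_iff.2 ⟨⟨s', (h3 s').2 (Or.inr hs2)⟩, fun b => ?_⟩
    simp only [Subgroup.mem_subgroupOf, Subgroup.coe_mul]
    have e1 := hM (⟨b, hP'H b.2⟩ * s')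
    have e2 := hM ⟨b, hP'H b.2⟩
    simp only [Subgroup.coe_mul] at e1 e2
    rw [e1, e2, map_mul, hs2]
    have hs1 : (sr (j - 1) : DihedralGroup n) ≠ 1 := by rw [one_def]; simp only [ne_eq, reduceCtorEq, not_false_eq_true]
    rcases (h3 ⟨b, hP'H b.2⟩).1 b.2 with h | h <;> rw [h] <;> simp [hs1]
  · intro a ha ha' b hb hb'
    have := hrot a ha ha' b hb hb' n ((⟨a, hPH ha⟩ * ⟨b, hP'H hb⟩) ^ n) rfl
    exact (hM ((⟨a, hPH ha⟩ * ⟨b, hP'H hb⟩) ^ n)).2 (by rw [this]; simp)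
  · intro hsq a ha ha' b hb hb' i hc c hci
    refine (oddpart hodd π (fun m hm => Subtype.ext (hsq _ ((hM m).2 hm)))
      (hrot a ha ha' b hb hb' i c hci) (fun m hm => Subtype.ext ?_)).2
    have := (hc _ ((hM m).2 hm)).eq
    rwa [← hci] at this

namespace Conf

variable {H P M : Subgroup G} {y k : G} {n : ℕ}

theorem PH (h : Conf H P M y k n) : P ≤ H := h.sup ▸ le_sup_left

theorem hyp (h : Conf H P M y k n) : Hyp (MulAut.conj (k * y)) P 2 := by
  have hP'H : MulAut.conj (k * y) • P ≤ H := h.sup ▸ le_sup_right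
  have hMP' : M ≤ MulAut.conj (k * y) • P := h.inf ▸ inf_le_right
  refine hyp_of Nat.prime_two ?_ (by rw [h.inf, h.idx]) (fun Q h1 h2 h3 => ?_)
  · rw [h.inf, Subgroup.normal_subgroupOf_iff_le_normalizer hMP']
    exact hP'H.trans h.norm
  have h4 := (Subgroup.normal_subgroupOf_iff_le_normalizer h1).1 h2
  have h5 : H ≤ Subgroup.normalizer (Q : Set G) := by
    rw [← h.sup]
    refine sup_le h4 ?_
    rw [← h3, Subgroup.coe_pointwise_smul]
    rintro _ ⟨x, hx, rfl⟩
    have := Subgroup.map_equiv_normalizer_eq Q (MulAut.conj (k * y))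
    exact this.le ⟨x, h4 hx, rfl⟩
  refine h.yQ Q h1 ((Subgroup.normal_subgroupOf_iff_le_normalizer (h1.trans h.PH)).2 h5) ?_
  have h6 : MulAut.conj k⁻¹ • Q = Q := by
    ext x
    rw [Subgroup.mem_pointwise_smul_iff_inv_smul_mem]
    simpa using (Subgroup.mem_normalizer_iff.1 (h5 h.kH) x).symm
  rw [← h6]
  conv_rhs => rw [← h3]
  rw [h6, ← mul_smul, ← map_mul, inv_mul_cancel_left]

theorem cent (h : Conf H P M y k n) {z : G} (hz : z ∈ P)
    (hc : ∀ i : ℤ, 0 ≤ i → i ≤ 2 → ∀ u ∈ (MulAut.conj (k * y) ^ i) • P, Commute z u) : z = 1 := by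
  let Q : Subgroup G := P ⊓ Subgroup.centralizer (H : Set G) ⊓
    Subgroup.centralizer ((MulAut.conj y • H : Subgroup G) : Set G)
  have hy : ∀ u ∈ P, y * u * y⁻¹ ∈ P := fun u hu => h.yP.le ⟨u, hu, rfl⟩
  have hQ : Q = ⊥ := by
    refine h.yQ Q (inf_le_left.trans inf_le_left) ?_ ?_
    · rw [Subgroup.normal_subgroupOf_iff (inf_le_left.trans (inf_le_left.trans h.PH))]
      intro w u hw hu
      rw [Subgroup.mem_centralizer_iff.1 hw.1.2 u hu]; simpa using hw
    refine Subgroup.eq_of_le_of_card_ge ?_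
      (Subgroup.card_map_of_injective (f := (MulAut.conj y).toMonoidHom) (MulAut.conj y).injective).ge
    rintro _ ⟨w, hw, rfl⟩
    change y * w * y⁻¹ ∈ Q
    refine ⟨⟨hy w hw.1.1, Subgroup.mem_centralizer_iff.2 fun u hu => ?_⟩,
      Subgroup.mem_centralizer_iff.2 ?_⟩
    · have h1 : y ^ 2 ∈ Subgroup.centralizer {w} := by
        refine (sup_le (fun v hv => ?_) (fun v hv => ?_) : _ ≤ Subgroup.centralizer {w}) h.y2
        · exact Subgroup.mem_centralizer_singleton_iff.2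
            (Subgroup.mem_centralizer_iff.1 hw.1.2 v (h.PH hv))
        · exact Subgroup.mem_centralizer_singleton_iff.2
            (Subgroup.mem_centralizer_iff.1 hv w hw.1.1).symm
      have h2 := Subgroup.mem_centralizer_singleton_iff.1 h1
      have h3 : y * u * y⁻¹ * w = w * (y * u * y⁻¹) :=
        Subgroup.mem_centralizer_iff.1 hw.2 _ ⟨u, hu, rfl⟩
      have e : y * w * y⁻¹ = y⁻¹ * w * y := by
        calc y * w * y⁻¹ = y⁻¹ * (y ^ 2 * w) * y⁻¹ := by group
          _ = y⁻¹ * w * y := by rw [h2]; group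
      rw [e]
      calc u * (y⁻¹ * w * y) = y⁻¹ * (y * u * y⁻¹ * w) * y := by group
        _ = y⁻¹ * w * y * u := by rw [h3]; group
    · rintro _ ⟨u, hu, rfl⟩
      have h3 := Subgroup.mem_centralizer_iff.1 hw.1.2 u hu
      change y * u * y⁻¹ * (y * w * y⁻¹) = y * w * y⁻¹ * (y * u * y⁻¹)
      calc _ = y * (u * w) * y⁻¹ := by group
        _ = _ := by rw [h3]; group
  have c1 : H ≤ Subgroup.centralizer {z} := by
    rw [← h.sup]
    exact sup_le (fun u hu => Subgroup.mem_centralizer_singleton_iff.2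
      (hc 0 le_rfl (by omega) u (by simpa using hu)).symm.eq) (fun u hu =>
        Subgroup.mem_centralizer_singleton_iff.2
          (hc 1 (by omega) (by omega) u (by simpa using hu)).symm.eq)
  have c2 : MulAut.conj y • H ≤ Subgroup.centralizer {z} := by
    rw [← h.sup, Subgroup.smul_sup, h.yP]
    refine sup_le (h.PH.trans c1) ?_
    rintro _ ⟨u, hu, rfl⟩
    have h1 : k * (y * u * y⁻¹) * k⁻¹ ∈ Subgroup.centralizer {z} := by
      refine Subgroup.mem_centralizer_singleton_iff.2 (hc 2 (by omega) le_rfl _ ?_).symm.eq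
      rw [zpow_two, mul_smul]
      exact ⟨u, hu, by simp [mul_assoc]⟩
    have h2 := mul_mem (mul_mem (inv_mem (c1 h.kH)) h1) (c1 h.kH)
    simpa [mul_assoc] using h2
  have : z ∈ Q := ⟨⟨hz, Subgroup.mem_centralizer_iff.2 fun u hu =>
    Subgroup.mem_centralizer_singleton_iff.1 (c1 hu)⟩, Subgroup.mem_centralizer_iff.2 fun u hu =>
    Subgroup.mem_centralizer_singleton_iff.1 (c2 hu)⟩
  rwa [hQ, Subgroup.mem_bot] at this

theorem inj (h : Conf H P M y k n) {c : H} (hc : (c : G) ∈ P)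
    (h1 : (c : H ⧸ Cfsg.pPrimeCore 2 H) = 1) : c = 1 := by
  rw [QuotientGroup.eq_one_iff] at h1
  obtain ⟨e, he⟩ := h.two ⟨c, hc⟩
  have h2 : c ^ 2 ^ e = 1 := Subtype.ext (congrArg Subtype.val he :)
  have h3 : c ^ Nat.card (Cfsg.pPrimeCore 2 H) = 1 :=
    congrArg Subtype.val (pow_card_eq_one' (x := (⟨c, h1⟩ : Cfsg.pPrimeCore 2 H)))
  have := pow_gcd_eq_one.2 ⟨h3, h2⟩
  rwa [Nat.Coprime.gcd_eq_one (Nat.Coprime.pow_right _ H1.pPrimeCore_coprime), pow_one] at this

end Conf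

end H22.Glb
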