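import Mathlib

/-! Local fusion graphs of symmetric groups have diameter two. -/

set_option autoImplicit false

namespace H22.LF

open Finset Function

variable {α : Type*} [DecidableEq α] {S S' : Finset α} {x y z x' y' z' : α → α} {u a b c d e f g h w : α}

/-- an involution of `S` -/
def Inv (S : Finset α) (x : α → α) : Prop := ∀ u ∈ S, x u ∈ S ∧ x (x u) = u

/-- the cycle through `u` has odd length -/
def Od (σ : α → α) (u : α) : Prop := ∃ R, Odd R ∧ σ^[R] u = u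

/-- a common neighbour -/
def Cn (S : Finset α) (x y : α → α) : Prop := ∃ z, Inv S z ∧ (∀ u ∈ S, Od (x ∘ z) u) ∧ ∀ u ∈ S, Od (y ∘ z) u

/-- a point on an alternating square -/
def C4 (x y : α → α) (u : α) : Prop := x u ≠ u ∧ y u ≠ u ∧ x u ≠ y u ∧ x (y u) = y (x u)

/-- the excess of fixed points -/
def ex (x y : α → α) (u : α) : ℤ := (if x u = u then 1 else 0) - if y u = u then 1 else 0

/-- modification by transpositions -/
def sw : List (α × α) → (α → α) → α → α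
  | [], z, u => z u
  | p :: l, z, u => if u = p.1 then p.2 else if u = p.2 then p.1 else sw l z u

omit [DecidableEq α] in
theorem od1 {σ : α → α} (h : σ u = u) : Od σ u := ⟨1, odd_one, h⟩

omit [DecidableEq α] in
theorem od3 {σ : α → α} (h : σ (σ (σ u)) = u) : Od σ u := ⟨3, by decide, h⟩

omit [DecidableEq α] in
theorem Od.next {σ : α → α} (h : Od σ u) : Od σ (σ u) :=
  let ⟨R, a, b⟩ := h; ⟨R, a, by rw [← iterate_succ_apply, iterate_succ_apply', b]⟩

omit [DecidableEq α] in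
theorem od_sub {σ : α → α} (h1 : Inv S' x') (h2 : Inv S' z') (h3 : ∀ u ∈ S', Od (x' ∘ z') u)
    (h4 : ∀ u ∈ S', σ u = x' (z' u) ∨ σ^[3] u = x' (z' u) ∨ σ^[5] u = x' (z' u)) (u : α) (hu : u ∈ S') : Od σ u := by
  have : ∀ n, (x' ∘ z')^[n] u ∈ S' ∧ ∃ r, r % 2 = n % 2 ∧ σ^[r] u = (x' ∘ z')^[n] u := fun n => by
    induction n with
    | zero => exact ⟨hu, 0, rfl, rfl⟩
    | succ n ih =>
      obtain ⟨a, r, b, c⟩ := ih
      rw [iterate_succ_apply']
      refine ⟨(h1 _ (h2 _ a).1).1, ?_⟩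
      rcases h4 _ a with e | e | e
      exacts [⟨1 + r, by omega, by rw [iterate_add_apply, c]; exact e⟩, ⟨3 + r, by omega, by rw [iterate_add_apply, c]; exact e⟩,
        ⟨5 + r, by omega, by rw [iterate_add_apply, c]; exact e⟩]
  obtain ⟨R, a, b⟩ := h3 u hu
  obtain ⟨-, r, c, d⟩ := this R
  exact ⟨r, Nat.odd_iff.2 (c.trans (Nat.odd_iff.1 a)), d.trans b⟩

omit [DecidableEq α] in
theorem Cn.symm (h : Cn S x y) : Cn S y x := let ⟨z, a, b, c⟩ := h; ⟨z, a, c, b⟩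

theorem Inv.sdiff {T : Finset α} (h : Inv S x) (hT : ∀ u ∈ T, x u ∈ T) : Inv (S \ T) x := fun u hu =>
  have := mem_sdiff.1 hu
  ⟨mem_sdiff.2 ⟨(h u this.1).1, fun e => this.2 ((h u this.1).2 ▸ hT _ e)⟩, (h u this.1).2⟩

theorem glue {T : Finset α} (hx : Inv (S \ T) x) (hy : Inv (S \ T) y) (h : Cn (S \ T) x y) (hT : T ⊆ S) (h' : Cn T x y)
    (h1 : Inv T x) (h2 : Inv T y) : Cn S x y := by
  obtain ⟨z, a1, a2, a3⟩ := h
  obtain ⟨z', b1, b2, b3⟩ := h'
  have k : ∀ {x : α → α}, Inv (S \ T) x → Inv T x → (∀ u ∈ S \ T, Od (x ∘ z) u) → (∀ u ∈ T, Od (x ∘ z') u) →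
      ∀ u ∈ S, Od (x ∘ fun u => if u ∈ T then z' u else z u) u := fun p q r s u hu => by
    by_cases c : u ∈ T
    · exact od_sub q b1 s (fun u hu => .inl (by simp [hu])) u c
    · exact od_sub p a1 r (fun u hu => .inl (by simp [(mem_sdiff.1 hu).2])) u (mem_sdiff.2 ⟨hu, c⟩)
  refine ⟨_, fun u hu => ?_, k hx h1 a2 b2, k hy h2 a3 b3⟩
  by_cases c : u ∈ T
  · simp [c, b1 u c, hT (b1 u c).1]
  · have := a1 u (mem_sdiff.2 ⟨hu, c⟩)
    simp [c, this.2, mem_sdiff.1 this.1]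

theorem red3 (hx : Inv S x) (ha : a ∈ S) (hb : b ∈ S) (ya : y a = a) (xa : x a = b) (xb : x b = a) (yb : y b = c)
    (yc : y c = b) (ab : a ≠ b) (hc : c ∈ S \ {a, b}) (hy : Inv (S \ {a, b}) (update y c c))
    (h : Cn (S \ {a, b}) x (update y c c)) : Cn S x y := by
  obtain ⟨z, a1, a2, a3⟩ := h
  have k : ∀ u ∈ S \ {a, b}, sw [(a, b)] z u = z u := fun u hu => by simp at hu; simp [sw, hu]
  have k1 := od_sub (σ := x ∘ sw [(a, b)] z) (hx.sdiff (by simp [xa, xb])) a1 a2 fun u hu => .inl (by simp [k u hu])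
  have k2 := od_sub (σ := y ∘ sw [(a, b)] z) hy a1 a3 fun u hu => by
    by_cases e : z u = c
    · exact .inr (.inl (by simp at hu; simp [hu, e, yc, sw, ab.symm, ya, yb]))
    · exact .inl (by simp [k u hu, e])
  have k3 := (k2 _ (a1 c hc).1).next
  simp only [comp_apply, k _ (a1 c hc).1, (a1 c hc).2, yc] at k3
  refine ⟨sw [(a, b)] z, fun u hu => ?_, fun u hu => ?_, fun u hu => ?_⟩ <;> by_cases e : u ∈ S \ {a, b}
  · simp [k u e, k _ (a1 u e).1, a1 u e, (mem_sdiff.1 (a1 u e).1).1]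
  · obtain rfl | rfl : u = a ∨ u = b := by simpa [hu, or_iff_not_imp_left] using e
    all_goals simp [sw, *, ab.symm]
  · exact k1 u e
  · obtain rfl | rfl : u = a ∨ u = b := by simpa [hu, or_iff_not_imp_left] using e
    all_goals exact od1 (by simp [sw, *, ab.symm])
  · exact k2 u e
  · obtain rfl | rfl : u = a ∨ u = b := by simpa [hu, or_iff_not_imp_left] using e
    exacts [by simpa [sw, ab.symm, ya] using k3.next, k3]

theorem red5 (hy : Inv S y) (hS : {b, c, d, e} ⊆ S) (xa : x a = b) (xb : x b = a) (yb : y b = c) (yc : y c = b)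
    (xc : x c = d) (xd : x d = c) (yd : y d = e) (ye : y e = d) (xe : x e = f) (xf : x f = e) (nd : [a, b, c, d, e, f].Nodup)
    (ha : a ∈ S \ {b, c, d, e}) (hf : f ∈ S \ {b, c, d, e}) (hx : Inv (S \ {b, c, d, e}) (sw [(a, f)] x))
    (h : Cn (S \ {b, c, d, e}) (sw [(a, f)] x) y) : Cn S x y := by
  obtain ⟨z, a1, a2, a3⟩ := h
  have nd' := List.nodup_reverse.2 nd
  simp [insert_subset_iff] at nd nd' hS
  have k : ∀ u ∈ S \ {b, c, d, e}, sw [(b, c), (d, e)] z u = z u := fun u hu => by simp at hu; simp [sw, hu]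
  have k1 := od_sub (σ := y ∘ sw [(b, c), (d, e)] z) (hy.sdiff (by simp [*])) a1 a3 fun u hu => .inl (by simp [k u hu])
  have k2 := od_sub (σ := x ∘ sw [(b, c), (d, e)] z) hx a1 a2 fun u hu => by
    by_cases e1 : z u = a
    · exact .inr (.inl (by simp at hu; simp [sw, *]))
    by_cases e2 : z u = f
    · exact .inr (.inl (by simp at hu; simp [sw, *]))
    · exact .inl (by simp at hu; simp [hu, sw, e1, e2])
  have k3 := (k2 _ (a1 a ha).1).next
  have k4 := (k2 _ (a1 f hf).1).next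
  simp only [comp_apply, k _ (a1 a ha).1, (a1 a ha).2, k _ (a1 f hf).1, (a1 f hf).2, xa, xf] at k3 k4
  refine ⟨sw [(b, c), (d, e)] z, fun u hu => ?_, fun u hu => ?_, fun u hu => ?_⟩ <;> by_cases e1 : u ∈ S \ {b, c, d, e}
  · simp [k u e1, k _ (a1 u e1).1, a1 u e1, (mem_sdiff.1 (a1 u e1).1).1]
  · obtain rfl | rfl | rfl | rfl : u = b ∨ u = c ∨ u = d ∨ u = e := by simpa [hu, or_iff_not_imp_left] using e1
    all_goals simp [sw, *]
  · exact k2 u e1
  · obtain rfl | rfl | rfl | rfl : u = b ∨ u = c ∨ u = d ∨ u = e := by simpa [hu, or_iff_not_imp_left] using e1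
    exacts [k3, by simpa [sw, *] using k4.next, by simpa [sw, *] using k3.next, k4]
  · exact k1 u e1
  · obtain rfl | rfl | rfl | rfl : u = b ∨ u = c ∨ u = d ∨ u = e := by simpa [hu, or_iff_not_imp_left] using e1
    all_goals exact od1 (by simp [sw, *])

theorem absorb (hx : Inv (S \ {a, b, c, d}) x) (hy : Inv (S \ {a, b, c, d}) y) (hS : {a, b, c, d} ⊆ S) (xa : x a = b)
    (xb : x b = a) (xc : x c = d) (xd : x d = c) (yb : y b = c) (yc : y c = b) (yd : y d = a) (ya : y a = d)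
    (nd : [a, b, c, d].Nodup) (hw : w ∈ S \ {a, b, c, d}) (h : Cn (S \ {a, b, c, d}) x y) : Cn S x y := by
  obtain ⟨z, a1, a2, a3⟩ := h
  have nd' := List.nodup_reverse.2 nd
  obtain ⟨v, hv⟩ : ∃ v, z w = v := ⟨_, rfl⟩
  obtain ⟨v1, v2⟩ := hv ▸ a1 w hw
  have w1 := mem_sdiff.1 hw
  have w2 := mem_sdiff.1 v1
  have w3 : a ≠ w ∧ b ≠ w ∧ c ≠ w ∧ d ≠ w ∧ a ≠ v ∧ b ≠ v ∧ c ≠ v ∧ d ≠ v := by
    refine ⟨?_, ?_, ?_, ?_, ?_, ?_, ?_, ?_⟩ <;> rintro rfl <;> simp at w1 w2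
  simp [insert_subset_iff] at nd nd' hS w1 w2
  by_cases e0 : v = w
  · subst e0
    have k : ∀ u ∈ S \ {a, b, c, d}, u ≠ v → sw [(a, b), (c, v), (d, d)] z u = z u := fun u hu e => by
      simp at hu; simp [sw, hu, e]
    have k1 := od_sub (σ := x ∘ sw [(a, b), (c, v), (d, d)] z) hx a1 a2 fun u hu => by
      by_cases e : u = v
      · exact .inr (.inl (by simp [sw, *]))
      · exact .inl (by simp [k u hu e])
    have k2 := od_sub (σ := y ∘ sw [(a, b), (c, v), (d, d)] z) hy a1 a3 fun u hu => by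
      by_cases e : u = v
      · exact .inr (.inr (by simp [sw, *]))
      · exact .inl (by simp [k u hu e])
    refine ⟨sw [(a, b), (c, v), (d, d)] z, fun u hu => ?_, fun u hu => ?_, fun u hu => ?_⟩ <;>
      by_cases e1 : u ∈ S \ {a, b, c, d}
    · by_cases e : u = v
      · simp [sw, *]
      · simp [k u e1 e, k _ (a1 u e1).1 fun e' => e (by rw [← (a1 u e1).2, e', hv]), a1 u e1, (mem_sdiff.1 (a1 u e1).1).1]
    · obtain rfl | rfl | rfl | rfl : u = a ∨ u = b ∨ u = c ∨ u = d := by simpa [hu, or_iff_not_imp_left] using e1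
      all_goals simp [sw, *]
    · exact k1 u e1
    · obtain rfl | rfl | rfl | rfl : u = a ∨ u = b ∨ u = c ∨ u = d := by simpa [hu, or_iff_not_imp_left] using e1
      exacts [od1 (by simp [sw, *]), od1 (by simp [sw, *]), by simpa [sw, *] using (k1 _ hw).next.next,
        by simpa [sw, *] using (k1 _ hw).next]
    · exact k2 u e1
    · obtain rfl | rfl | rfl | rfl : u = a ∨ u = b ∨ u = c ∨ u = d := by simpa [hu, or_iff_not_imp_left] using e1
      exacts [by simpa [sw, *] using (k2 _ hw).next.next.next, by simpa [sw, *] using (k2 _ hw).next,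
        by simpa [sw, *] using (k2 _ hw).next.next.next.next, by simpa [sw, *] using (k2 _ hw).next.next]
  have e0' := Ne.symm e0
  have k : ∀ u ∈ S \ {a, b, c, d}, u ≠ w → u ≠ v → sw [(a, c), (d, w), (v, b)] z u = z u := fun u hu e e' => by
    simp at hu; simp [sw, hu, e, e']
  have k0 : ∀ {x : α → α}, Inv (S \ {a, b, c, d}) x → (∀ u ∈ S \ {a, b, c, d}, Od (x ∘ z) u) →
      (x ∘ sw [(a, c), (d, w), (v, b)] z)^[3] w = x v → (x ∘ sw [(a, c), (d, w), (v, b)] z)^[3] v = x w →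
      ∀ u ∈ S \ {a, b, c, d}, Od (x ∘ sw [(a, c), (d, w), (v, b)] z) u := fun p q r s => od_sub p a1 q fun u hu => by
    by_cases e : u = w
    · exact .inr (.inl (by rw [e, r, hv]))
    by_cases e' : u = v
    · exact .inr (.inl (by rw [e', s, v2]))
    · exact .inl (by simp [k u hu e e'])
  have k1 := k0 hx a2 (by simp [sw, *]) (by simp [sw, *])
  have k2 := k0 hy a3 (by simp [sw, *]) (by simp [sw, *])
  refine ⟨sw [(a, c), (d, w), (v, b)] z, fun u hu => ?_, fun u hu => ?_, fun u hu => ?_⟩ <;>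
    by_cases e1 : u ∈ S \ {a, b, c, d}
  · by_cases e : u = w
    · simp [sw, *]
    by_cases e' : u = v
    · simp [sw, *]
    · simp [k u e1 e e', k _ (a1 u e1).1 (fun e'' => e' (by rw [← (a1 u e1).2, e'', hv])) fun e'' =>
        e (by rw [← (a1 u e1).2, e'', v2]), a1 u e1, (mem_sdiff.1 (a1 u e1).1).1]
  · obtain rfl | rfl | rfl | rfl : u = a ∨ u = b ∨ u = c ∨ u = d := by simpa [hu, or_iff_not_imp_left] using e1
    all_goals simp [sw, *]
  · exact k1 u e1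
  · obtain rfl | rfl | rfl | rfl : u = a ∨ u = b ∨ u = c ∨ u = d := by simpa [hu, or_iff_not_imp_left] using e1
    exacts [by simpa [sw, *] using (k1 _ v1).next, by simpa [sw, *] using (k1 _ hw).next.next,
      by simpa [sw, *] using (k1 _ hw).next, by simpa [sw, *] using (k1 _ v1).next.next]
  · exact k2 u e1
  · obtain rfl | rfl | rfl | rfl : u = a ∨ u = b ∨ u = c ∨ u = d := by simpa [hu, or_iff_not_imp_left] using e1
    exacts [by simpa [sw, *] using (k2 _ hw).next, by simpa [sw, *] using (k2 _ hw).next.next,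
      by simpa [sw, *] using (k2 _ v1).next, by simpa [sw, *] using (k2 _ v1).next.next]

theorem two4 (xa : x a = b) (xb : x b = a) (xc : x c = d) (xd : x d = c) (xe : x e = f) (xf : x f = e) (xg : x g = h)
    (xh : x h = g) (yb : y b = c) (yc : y c = b) (yd : y d = a) (ya : y a = d) (yf : y f = g) (yg : y g = f) (yh : y h = e)
    (ye : y e = h) (nd : [a, b, c, d, e, f, g, h].Nodup) : Cn {a, b, c, d, e, f, g, h} x y := by
  have nd' := List.nodup_reverse.2 nd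
  simp at nd nd'
  refine ⟨sw [(a, b), (c, e), (d, h), (f, g)] id, fun u hu => ?_, fun u hu => ?_, fun u hu => ?_⟩ <;>
    simp only [mem_insert, mem_singleton] at hu <;> rcases hu with rfl | rfl | rfl | rfl | rfl | rfl | rfl | rfl <;>
    first | exact od3 (by simp [sw, *]) | simp [sw, *]

theorem cyc8 (xa : x a = b) (xb : x b = a) (xc : x c = d) (xd : x d = c) (xe : x e = f) (xf : x f = e) (xg : x g = h)
    (xh : x h = g) (yb : y b = c) (yc : y c = b) (yd : y d = e) (ye : y e = d) (yf : y f = g) (yg : y g = f) (yh : y h = a)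
    (ya : y a = h) (nd : [a, b, c, d, e, f, g, h].Nodup) : Cn {a, b, c, d, e, f, g, h} x y := by
  have nd' := List.nodup_reverse.2 nd
  simp at nd nd'
  refine ⟨sw [(a, b), (d, e), (c, g), (f, h)] id, fun u hu => ?_, fun u hu => ?_, fun u hu => ?_⟩ <;>
    simp only [mem_insert, mem_singleton] at hu <;> rcases hu with rfl | rfl | rfl | rfl | rfl | rfl | rfl | rfl <;>
    first | exact od3 (by simp [sw, *]) | simp [sw, *]

theorem pair (xa : x a = b) (xb : x b = a) (xc : x c = c) (xd : x d = d) (ya : y a = a) (yb : y b = b) (yc : y c = d)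
    (yd : y d = c) (nd : [a, b, c, d].Nodup) : Cn {a, b, c, d} x y := by
  have nd' := List.nodup_reverse.2 nd
  simp at nd nd'
  refine ⟨sw [(a, d)] id, fun u hu => ?_, fun u hu => ?_, fun u hu => ?_⟩ <;>
    simp only [mem_insert, mem_singleton] at hu <;> rcases hu with rfl | rfl | rfl | rfl <;>
    first | exact od3 (by simp [sw, *]) | simp [sw, *]

omit [DecidableEq α] in
theorem C4.out (h : C4 x y u) (hx : Inv S x) (hy : Inv S y) (hu : u ∈ S) : ∃ b ∈ S, ∃ c ∈ S, ∃ d ∈ S, x u = b ∧ x b = u ∧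
    x c = d ∧ x d = c ∧ y b = c ∧ y c = b ∧ y d = u ∧ y u = d ∧ [u, b, c, d].Nodup := by
  obtain ⟨a1, a2, a3, a4⟩ := h
  have b1 := hx u hu
  have b2 := hy u hu
  have b3 := hy _ b1.1
  have b4 := hx _ b2.1
  refine ⟨_, b1.1, _, b3.1, _, b2.1, rfl, b1.2, a4 ▸ b4.2, a4, rfl, b3.2, b2.2, rfl, ?_⟩
  simp only [List.nodup_cons, List.mem_cons, List.not_mem_nil, or_false, not_or, not_false_eq_true, List.nodup_nil, and_true]
  refine ⟨⟨a1.symm, fun e => a3 ?_, a2.symm⟩, ⟨fun e => a2 ?_, a3⟩, fun e => a1 ?_⟩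
  exacts [by rw [← b3.2, ← e], by rw [← b4.2, a4, ← e, b1.2], by rw [← b3.2, e, b2.2]]

theorem sum_sd {T : Finset α} (hT : T ⊆ S) (h : ∑ u ∈ S, ex x y u = 0) (h' : ∑ u ∈ T, ex x y u = 0) :
    ∑ u ∈ S \ T, ex x y u = 0 := by have := sum_sdiff (f := ex x y) hT; omega

theorem ex_symm (h : ∑ u ∈ S, ex x y u = 0) : ∑ u ∈ S, ex y x u = 0 := by
  rw [← neg_eq_zero, ← sum_neg_distrib] at h; simpa [ex] using h

theorem eq4 (h : #S = 4) (hT : {a, b, c, d} ⊆ S) (nd : [a, b, c, d].Nodup) : S = {a, b, c, d} :=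
  (eq_of_subset_of_card_le hT (by simp at nd; simp [*])).symm

/-- the claim -/
def Cl (S : Finset α) : Prop := ∀ ⦃x y : α → α⦄, Inv S x → Inv S y → ∑ u ∈ S, ex x y u = 0 →
  ¬ (#S = 4 ∧ ∀ u ∈ S, C4 x y u) → Cn S x y

section
variable (ih : ∀ T ⊆ S, ∀ a ∈ T, Cl (S \ T)) (hx : Inv S x) (hy : Inv S y) (h0 : ∑ u ∈ S, ex x y u = 0)
include ih hx hy h0

theorem step1 (hE : ¬ (#S = 4 ∧ ∀ u ∈ S, C4 x y u)) (ha : a ∈ S) (c1 : C4 x y a) : Cn S x y := by
  obtain ⟨b, hb, c, hc, d, hd, xa, xb, xc, xd, yb, yc, yd, ya, nd⟩ := c1.out hx hy ha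
  have hT : {a, b, c, d} ⊆ S := by simp [insert_subset_iff, *]
  have hx' := hx.sdiff (T := {a, b, c, d}) (by simp [*])
  have hy' := hy.sdiff (T := {a, b, c, d}) (by simp [*])
  have nd' := List.nodup_reverse.2 nd
  obtain ⟨e, he⟩ : (S \ {a, b, c, d}).Nonempty := nonempty_iff_ne_empty.2 fun e0 => hE (by
    rw [(sdiff_eq_empty_iff_subset.1 e0).antisymm hT]
    simp at nd nd'; simp [C4, nd, nd', xa, xb, xc, xd, yb, yc, yd, ya])
  by_cases c2 : #(S \ {a, b, c, d}) = 4 ∧ ∀ u ∈ S \ {a, b, c, d}, C4 x y u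
  · obtain ⟨f, hf, g, hg, h, hh, xe, xf, xg, xh, yf, yg, yh, ye, nd2⟩ := (c2.2 e he).out hx' hy' he
    rw [← union_sdiff_of_subset hT, eq4 c2.1 (by simp only [insert_subset_iff, singleton_subset_iff]; exact ⟨he, hf, hg, hh⟩) nd2]
    simp only [insert_union, singleton_union]
    exact two4 xa xb xc xd xe xf xg xh yb yc yd ya yf yg yh ye (List.nodup_append.2 ⟨nd, nd2, fun p hp q hq e0 => by
      have : p ∈ S \ {a, b, c, d} := by simp at hq; rcases hq with rfl | rfl | rfl | rfl <;> exact e0 ▸ ‹_›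
      exact (mem_sdiff.1 this).2 (by simpa using hp)⟩ : ([a, b, c, d] ++ [e, f, g, h]).Nodup)
  · exact absorb hx' hy' hT xa xb xc xd yb yc yd ya nd he (ih _ hT _ (mem_insert_self _ _) hx' hy'
      (sum_sd hT h0 (by simp at nd nd'; simp [ex, filter_insert, filter_singleton, nd, nd', xa, xb, xc, xd, yb, yc, yd, ya])) c2)

theorem step2 (c1 : ∀ a ∈ S, ¬ C4 x y a) {T : Finset α} (p : T ⊆ S) (q : a ∈ T) (r : Inv T x) (s : Inv T y)
    (t : ∑ u ∈ T, ex x y u = 0) (v : Cn T x y) : Cn S x y :=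
  have a1 := hx.sdiff fun u hu => (r u hu).1
  have a2 := hy.sdiff fun u hu => (s u hu).1
  glue a1 a2 (ih _ p _ q a1 a2 (sum_sd p h0 t) fun h => let ⟨u, hu⟩ := card_pos.1 (h.1 ▸ four_pos : 0 < #(S \ T))
    c1 u (mem_sdiff.1 hu).1 (h.2 u hu)) p v r s

theorem step3 (ha : a ∈ S) (ya : y a = a) (ab : a ≠ x a) (e : y (x a) ≠ x a) : Cn S x y := by
  have a1 := hx a ha
  have a2 := hy _ a1.1
  have a3 : y (x a) ≠ a := fun e => ab (by rw [← a2.2, e, ya])
  have hc : y (x a) ∈ S \ {a, x a} := by simp [a2.1, a3, e]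
  have hT : {a, x a} ⊆ S := by simp [insert_subset_iff, ha, a1.1]
  have hy' : Inv (S \ {a, x a}) (update y (y (x a)) (y (x a))) := fun u hu => by
    by_cases e1 : u = y (x a)
    · simp [e1, hc]
    · simp at hu
      have b := hy u hu.1
      have b1 : y u ≠ y (x a) := fun e => hu.2.2 (by rw [← b.2, e, a2.2])
      have b2 : y u ≠ a := fun e => hu.2.1 (by rw [← b.2, e, ya])
      have b3 : y u ≠ x a := fun e => e1 (by rw [← b.2, e])
      simp [*]
  refine red3 hx ha a1.1 ya rfl a1.2 rfl a2.2 ab hc hy' (ih _ hT _ (mem_insert_self _ _) (hx.sdiff (by simp [a1.2])) hy' ?_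
    fun h => (h.2 _ hc).2.1 (by simp))
  have b1 := sum_sdiff (f := ex x y) hT
  rw [← add_sum_erase _ _ hc] at b1 ⊢
  rw [sum_congr rfl (g := ex x y) fun u hu => by simp [ex, (mem_erase.1 hu).1]]
  rw [h0, sum_pair ab] at b1
  generalize ∑ u ∈ _, ex x y u = N at b1 ⊢
  simp [ex, ya, ab, ab.symm, a1.2, a2.2, e, e.symm] at b1 ⊢
  omega

omit h0 in
theorem step5 (c1 : ∀ a ∈ S, ¬ C4 x y a) (c2 : ∀ a ∈ S, x a ≠ y a) (c3 : ∀ a ∈ S, y a ≠ a) (c4 : ∀ a ∈ S, x a ≠ a)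
    (ha : a ∈ S) : Cn S x y := by
  obtain ⟨b, xa⟩ : ∃ b, x a = b := ⟨_, rfl⟩
  obtain ⟨hb, xb⟩ := xa ▸ hx a ha
  obtain ⟨c, yb⟩ : ∃ c, y b = c := ⟨_, rfl⟩
  obtain ⟨hc, yc⟩ := yb ▸ hy b hb
  obtain ⟨d, xc⟩ : ∃ d, x c = d := ⟨_, rfl⟩
  obtain ⟨hd, xd⟩ := xc ▸ hx c hc
  obtain ⟨e, yd⟩ : ∃ e, y d = e := ⟨_, rfl⟩
  obtain ⟨he, ye⟩ := yd ▸ hy d hd
  obtain ⟨f, xe⟩ : ∃ f, x e = f := ⟨_, rfl⟩
  obtain ⟨hf, xf⟩ := xe ▸ hx e he
  have nd : [a, b, c, d, e, f].Nodup := by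
    have ab : a ≠ b := xa ▸ (c4 a ha).symm
    have bc : b ≠ c := yb ▸ (c3 b hb).symm
    have cd : c ≠ d := xc ▸ (c4 c hc).symm
    have de : d ≠ e := yd ▸ (c3 d hd).symm
    have ef : e ≠ f := xe ▸ (c4 e he).symm
    have ac : a ≠ c := xb ▸ yb ▸ c2 b hb
    have bd : b ≠ d := yc ▸ xc ▸ (c2 c hc).symm
    have ce : c ≠ e := xd ▸ yd ▸ c2 d hd
    have df : d ≠ f := ye ▸ xe ▸ (c2 e he).symm
    have ad : a ≠ d := by rintro rfl; exact bc (xa.symm.trans xd)
    have be : b ≠ e := by rintro rfl; exact cd (yb.symm.trans ye)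
    have cf : c ≠ f := by rintro rfl; exact de (xc.symm.trans xf)
    have ae : a ≠ e := by rintro rfl; exact c1 a ha ⟨c4 a ha, c3 a ha, c2 a ha, by rw [ye, xd, xa, yb]⟩
    have bf : b ≠ f := by rintro rfl; exact ae (xb.symm.trans xf)
    have af : a ≠ f := by rintro rfl; exact be (xa.symm.trans xf)
    simp [ab, bc, cd, de, ef, ac, bd, ce, df, ad, be, cf, ae, bf, af]
  have hT : {b, c, d, e} ⊆ S := by simp [insert_subset_iff, hb, hc, hd, he]
  have nd' := List.nodup_reverse.2 nd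
  have ha' : a ∈ S \ {b, c, d, e} := by simp at nd; simp [nd, ha]
  have hf' : f ∈ S \ {b, c, d, e} := by simp at nd'; simp [nd', hf]
  have hy' := hy.sdiff (T := {b, c, d, e}) (by simp [yb, yc, yd, ye])
  have hx' : Inv (S \ {b, c, d, e}) (sw [(a, f)] x) := fun u hu => by
    simp at nd nd'
    by_cases e1 : u = a
    · simp [sw, e1, hf', nd']
    by_cases e2 : u = f
    · simp [sw, e2, ha', nd']
    simp at hu
    have p := hx u hu.1
    have : x u ≠ a ∧ x u ≠ f ∧ x u ≠ b ∧ x u ≠ c ∧ x u ≠ d ∧ x u ≠ e := by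
      refine ⟨?_, ?_, ?_, ?_, ?_, ?_⟩ <;> intro e <;> rw [e] at p
      exacts [hu.2.1 (p.2.symm.trans xa), hu.2.2.2.2 (p.2.symm.trans xf), e1 (p.2.symm.trans xb), hu.2.2.2.1 (p.2.symm.trans xc),
        hu.2.2.1 (p.2.symm.trans xd), e2 (p.2.symm.trans xe)]
    simp [sw, e1, e2, this, p]
  by_cases c5 : #(S \ {b, c, d, e}) = 4 ∧ ∀ u ∈ S \ {b, c, d, e}, C4 (sw [(a, f)] x) y u
  · obtain ⟨f', -, g, hg, h, hh, xa', -, xg, xh, yf, yg, yh, ya, nd2⟩ := (c5.2 a ha').out hx' hy' ha'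
    obtain rfl : f = f' := by simpa [sw] using xa'
    have nd3 := List.nodup_reverse.2 nd2
    have e4 := eq4 c5.1 (by simp only [insert_subset_iff, singleton_subset_iff]; exact ⟨ha', hf', hg, hh⟩) nd2
    rw [show S = {a, b, c, d, e, f, g, h} by rw [← union_sdiff_of_subset hT, e4]; ext; simp; tauto]
    simp at nd nd2 nd3 hg hh
    refine cyc8 xa xb xc xd xe xf (by simpa [sw, nd3] using xg) (by simpa [sw, nd3] using xh) yb yc yd ye yf yg yh ya ?_
    simp [nd, nd2, nd3, hg, hh, eq_comm (b := g), eq_comm (b := h)]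
  refine red5 hy hT xa xb yb yc xc xd yd ye xe xf nd ha' hf' hx' (ih _ hT _ (mem_insert_self _ _) hx' hy'
    (sum_eq_zero fun u hu => ?_) c5)
  have := (mem_sdiff.1 hu).1
  simp at nd nd'
  by_cases e1 : u = a
  · simp [ex, sw, e1, nd', c3 a ha]
  by_cases e2 : u = f
  · simp [ex, sw, e2, nd, nd', c3 f hf]
  simp [ex, sw, e1, e2, c3 u this, c4 u this]

end

theorem fx (h0 : ∑ u ∈ S, ex x y u = 0) (c2 : ∀ a ∈ S, x a ≠ y a) (ha : a ∈ S) (ya : y a = a) : ∃ c ∈ S, x c = c := by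
  by_contra! h
  exact (sum_lt_sum (f := ex x y) (g := fun _ => 0) (fun u hu => by simp only [ex, h u hu]; split_ifs <;> simp_all)
    ⟨a, ha, by simp [ex, h a ha, ya]⟩).ne (by simpa using h0)

theorem main (S : Finset α) : Cl S := by
  induction S using Finset.strongInduction with | _ S ih => ?_
  intro x y hx hy h0 hE
  replace ih : ∀ T ⊆ S, ∀ a ∈ T, Cl (S \ T) := fun T a _ b => ih _ (sdiff_ssubset a ⟨_, b⟩)
  by_cases c1 : ∃ a ∈ S, C4 x y a
  · exact let ⟨a, ha, c⟩ := c1; step1 ih hx hy h0 hE ha c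
  replace c1 : ∀ a ∈ S, ¬ C4 x y a := fun a ha c => c1 ⟨a, ha, c⟩
  by_cases c2 : ∃ a ∈ S, x a = y a
  · obtain ⟨a, ha, e⟩ := c2
    have a1 := hx a ha
    have a2 : y (x a) = a := e ▸ (hy a ha).2
    have a3 : Inv {a, x a} x := by simp [Inv, a1.2]
    refine step2 ih hx hy h0 c1 (T := {a, x a}) (by simp [insert_subset_iff, ha, a1.1]) (mem_insert_self _ _) a3
      (by simp [Inv, ← e, a2]) (sum_eq_zero (by simp [ex, ← e, a1.2, a2])) ⟨x, a3, fun u hu => od1 (a3 u hu).2, fun u hu => od1 ?_⟩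
    simp at hu; rcases hu with rfl | rfl <;> simp [a1.2, a2, ← e]
  push Not at c2
  have c2' : ∀ a ∈ S, y a ≠ x a := fun a ha => (c2 a ha).symm
  by_cases c3 : ∃ a ∈ S, y a = a
  · obtain ⟨a, ha, ya⟩ := c3
    obtain ⟨c, hc, xc⟩ := fx h0 c2 ha ya
    have ab : a ≠ x a := fun e => c2 a ha (e.symm.trans ya.symm)
    have cd : c ≠ y c := fun e => c2 c hc (xc.trans e)
    by_cases e1 : y (x a) = x a
    swap
    · exact step3 ih hx hy h0 ha ya ab e1
    by_cases e2 : x (y c) = y c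
    swap
    · exact (step3 ih hy hx (ex_symm h0) hc xc cd e2).symm
    have a1 := hx a ha
    have a2 := hy c hc
    have nd : [a, x a, c, y c].Nodup := by
      have ac : a ≠ c := by rintro rfl; exact ab xc.symm
      have ad : a ≠ y c := fun e => ab (by rw [e, e2])
      have bc : x a ≠ c := fun e => cd (by rw [← e, e1])
      have bd : x a ≠ y c := fun e => ad (by rw [← a1.2, e, e2])
      simp [ab, cd, ac, ad, bc, bd]
    have nd' := List.nodup_reverse.2 nd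
    refine step2 ih hx hy h0 c1 (by simp [insert_subset_iff, ha, hc, a1, a2]) (mem_insert_self _ _) (by simp [Inv, a1, xc, e2])
      (by simp [Inv, a2, ya, e1]) ?_ (pair rfl a1.2 xc e2 ya e1 rfl a2.2 nd)
    simp at nd nd'; simp [ex, filter_insert, filter_singleton, nd, nd', a1, a2, xc, e2, ya, e1]
  rcases S.eq_empty_or_nonempty with rfl | ⟨a, ha⟩
  · exact ⟨id, by simp [Inv], by simp, by simp⟩
  exact step5 ih hx hy c1 c2 (fun a ha e => c3 ⟨a, ha, e⟩) (fun a ha e => c3 (fx (ex_symm h0) c2' ha e)) ha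

open Equiv

variable [Fintype α]

theorem odd_order {σ : Perm α} (h : ∀ u, Od σ u) : Odd (orderOf σ) := by
  choose R a b using h
  refine Odd.of_dvd_nat (n := ∏ u, R u) (prod_induction _ _ (fun _ _ => Odd.mul) odd_one fun u _ => a u)
    (orderOf_dvd_of_pow_eq_one (Perm.ext fun u => ?_))
  obtain ⟨k, hk⟩ := dvd_prod_of_mem R (mem_univ u)
  rw [hk, Perm.coe_pow]
  exact IsPeriodicPt.mul_const (b u) k

omit [DecidableEq α] [Fintype α] in
theorem not_odd {σ : Perm α} (h : σ (σ u) = u) (h' : σ u ≠ u) : ¬ Odd (orderOf σ) := fun ⟨k, hk⟩ => h' (by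
  have := congrArg (· u) (pow_orderOf_eq_one σ)
  rwa [hk, pow_succ', pow_mul, Perm.mul_apply, Perm.pow_apply_eq_self_of_apply_eq_self (show (σ ^ 2) u = u from h)] at this)

theorem common (hn : 5 ≤ Fintype.card α) {x y : Perm α} (hx : x * x = 1) (h : IsConj x y) :
    ∃ z, IsConj x z ∧ Odd (orderOf (x * z)) ∧ Odd (orderOf (y * z)) := by
  obtain ⟨g, rfl⟩ := isConj_iff.1 h
  have a1 : ∀ u, x (x u) = u := fun u => congrArg (· u) hx
  obtain ⟨z, b1, b2, b3⟩ := main univ (x := x) (y := ⇑(g * x * g⁻¹)) (by simp [Inv, a1]) (by simp [Inv, a1]) (by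
    simp only [ex, sum_sub_distrib, sub_eq_zero]
    exact Fintype.sum_equiv g _ _ fun u => by simp) fun h => by rw [card_univ] at h; omega
  have hz : Involutive z := fun u => (b1 u (mem_univ u)).2
  have c := odd_order (σ := x * hz.toPerm) fun u => b2 u (mem_univ u)
  refine ⟨hz.toPerm, ?_, c, odd_order fun u => b3 u (mem_univ u)⟩
  obtain ⟨k, hk⟩ := c
  have c1 : x * (x * hz.toPerm) * x⁻¹ = (x * hz.toPerm)⁻¹ := by
    rw [← mul_assoc, hx, one_mul, mul_inv_rev]; rfl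
  have c2 := pow_orderOf_eq_one (x * hz.toPerm)
  rw [hk] at c2
  refine isConj_iff.2 ⟨((x * hz.toPerm) ^ (k + 1))⁻¹, ?_⟩
  calc _ = ((x * hz.toPerm) ^ (k + 1))⁻¹ * (x * (x * hz.toPerm) * x⁻¹) ^ (k + 1) * x := by rw [conj_pow]; group
    _ = ((x * hz.toPerm) ^ (2 * k + 1))⁻¹ * (x * hz.toPerm)⁻¹ * x := by rw [c1]; generalize x * hz.toPerm = w; group
    _ = _ := by rw [c2, mul_inv_rev]; simp; rfl

theorem far (hn : 5 ≤ Fintype.card α) {t : Perm α} (ht : t * t = 1) (h1 : t ≠ 1) :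
    ∃ y a, IsConj t y ∧ t (y (t (y a))) = a ∧ t (y a) ≠ a ∧ y (t (y (t a))) = a ∧ y (t a) ≠ a := by
  have a1 : ∀ u, t (t u) = u := fun u => congrArg (· u) ht
  obtain ⟨a, ha⟩ : ∃ a, t a ≠ a := by by_contra! h; exact h1 (Perm.ext h)
  obtain ⟨b, ta⟩ : ∃ b, t a = b := ⟨_, rfl⟩
  have tb : t b = a := ta ▸ a1 a
  have k : ∀ T : Finset α, #T < 5 → ∃ c, c ∉ T := fun T hT => by
    by_contra! h
    rw [eq_univ_of_forall h, card_univ] at hT
    omega
  rw [ta] at ha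
  by_cases h : ∃ c, c ≠ a ∧ c ≠ b ∧ t c ≠ c
  · obtain ⟨c, ca, cb, tc⟩ := h
    have b1 : t c ≠ a := fun e => cb (by rw [← a1 c, e, ta])
    have b2 : t c ≠ b := fun e => ca (by rw [← a1 c, e, tb])
    refine ⟨swap b c * t * (swap b c)⁻¹, a, isConj_iff.2 ⟨_, rfl⟩, ?_⟩
    simp [swap_apply_of_ne_of_ne, *, ha.symm, ca.symm]
  push Not at h
  obtain ⟨c, hc⟩ := k {a, b} (card_le_two.trans_lt (by decide))
  obtain ⟨d, hd⟩ := k {a, b, c} (card_le_three.trans_lt (by decide))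
  simp at hc hd
  refine ⟨swap a c * swap b d * t * (swap a c * swap b d)⁻¹, a, isConj_iff.2 ⟨_, rfl⟩, ?_⟩
  simp [swap_apply_def, h c hc.1 hc.2, h d hd.1 hd.2.1, *, ha.symm, Ne.symm hc.1, Ne.symm hc.2, Ne.symm hd.1, Ne.symm hd.2.1, Ne.symm hd.2.2]

theorem s3265 (hn : 5 ≤ Fintype.card α) {t : Perm α} (ht : orderOf t = 2) :
    (SimpleGraph.fromRel fun x y : {x : Perm α // IsConj t x} => Odd (orderOf (x.1 * y.1))).Connected ∧
      (SimpleGraph.fromRel fun x y : {x : Perm α // IsConj t x} => Odd (orderOf (x.1 * y.1))).diam = 2 := by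
  set G := SimpleGraph.fromRel fun x y : {x : Perm α // IsConj t x} => Odd (orderOf (x.1 * y.1))
  have t2 : t * t = 1 := by rw [← sq, ← ht, pow_orderOf_eq_one]
  have k : ∀ x y, G.edist x y ≤ 2 := fun x y => by
    obtain ⟨z, a, b, c⟩ := common hn (x := x.1) (by obtain ⟨g, h⟩ := isConj_iff.1 x.2; rw [← h, conj_mul, t2]; simp)
      (x.2.symm.trans y.2)
    have : ∀ w : {x : Perm α // IsConj t x}, Odd (orderOf (w.1 * z)) → G.edist w ⟨z, x.2.trans a⟩ ≤ 1 := fun w hw => by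
      by_cases e : w = ⟨z, x.2.trans a⟩
      · simp [e]
      · exact (SimpleGraph.edist_eq_one_iff_adj.2 ((SimpleGraph.fromRel_adj _ _ _).2 ⟨e, .inl hw⟩)).le
    exact SimpleGraph.edist_triangle.trans (add_le_add (this x b) (SimpleGraph.edist_comm ▸ this y c))
  have : Nonempty {x : Perm α // IsConj t x} := ⟨⟨t, IsConj.refl t⟩⟩
  refine ⟨⟨fun x y => SimpleGraph.edist_ne_top_iff_reachable.1 ((k x y).trans_lt (ENat.natCast_lt_top 2)).ne⟩, ?_⟩
  obtain ⟨y, a, b, c1, c2, c3, c4⟩ := far hn t2 (by rintro rfl; simp at ht)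
  rw [SimpleGraph.diam, le_antisymm (SimpleGraph.ediam_le_of_edist_le k) (le_trans ?_
    (SimpleGraph.edist_le_ediam (u := ⟨t, IsConj.refl t⟩) (v := ⟨y, b⟩)))]
  · rfl
  rw [← one_add_one_eq_two]
  refine Order.add_one_le_of_lt (lt_of_le_of_ne (Order.one_le_iff_ne_zero.2 fun e => c2 ?_) fun e => ?_)
  · rw [← show t = y from congrArg Subtype.val (SimpleGraph.edist_eq_zero_iff.1 e)]
    exact congrArg (· a) t2
  · exact ((SimpleGraph.fromRel_adj _ _ _).1 (SimpleGraph.edist_eq_one_iff_adj.1 e.symm)).2.elim (not_odd c1 c2) (not_odd c3 c4)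

end H22.LF
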