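import Cfsg.Agent.H7.ME0

/-! Maximal subgroups of `E₇(2)`: the dichotomy for root involutions. -/

set_option autoImplicit false

namespace H22.ME

open H18.E7 (G)
open H7.ME Subgroup

attribute [local irreducible] X
variable {H N : Subgroup G} {e p g m : G}

theorem zz (f : Fs) : z * z = 1 := f.inv 125
theorem zD : z ∈ D := ⟨1, by simp⟩
theorem cjD (h : e ∈ D) (g : G) : g * e * g⁻¹ ∈ D := let ⟨k, q⟩ := h; ⟨g * k, by rw [q]; group⟩
theorem clD (h : e ∈ cl H) : e ∈ D := let ⟨k, _, q⟩ := h; ⟨k, q⟩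
theorem cjc (h : e ∈ cl H) (hm : m ∈ H) : m * e * m⁻¹ ∈ cl H := let ⟨k, a, q⟩ := h; ⟨m * k, mul_mem hm a, by rw [q]; group⟩
theorem cjc' (hm : m ∈ H) (h : m⁻¹ * e * m ∈ cl H) : e ∈ cl H := by simpa [mul_assoc] using cjc h hm
theorem zc : z ∈ cl H := ⟨1, one_mem _, by simp⟩
theorem Gd.le (h : Gd H N) : N ≤ H := h.inf ▸ inf_le_left
theorem Gd.leQ (h : Gd H N) : N ≤ Q := h.inf ▸ inf_le_right
theorem Gd.mem (h : Gd H N) (a : e ∈ H) (b : e ∈ Q) : e ∈ N := h.inf ▸ ⟨a, b⟩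
theorem Gd.zH (h : Gd H N) : z ∈ H := Gd.le h h.zN
theorem Gd.clH (h : Gd H N) (a : e ∈ cl H) : e ∈ H := by
  obtain ⟨m, hm, rfl⟩ := a
  exact mul_mem (mul_mem hm (Gd.zH h)) (inv_mem hm)
theorem dg125 : dg 125 = 2 ∧ dg 0 = -2 := by decide +kernel
/-- an opposite root involution -/
theorem opp (f : Fs) (hz : z ∈ H) (hp : Commute p z) (he : p * x0 * p⁻¹ ∈ H) : p * x0 * p⁻¹ ∈ cl H := by
  refine ⟨z * (p * x0 * p⁻¹), mul_mem hz he, ?_⟩
  have e : z = p * z * p⁻¹ := hp.mul_inv_cancel.symm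
  have k : z * x0 * z * (z * x0)⁻¹ = x0 := by rw [f.op.1, mul_assoc x0, mul_inv_cancel_right]
  conv_lhs => rw [← k]
  conv_rhs => rw [e]
  group

theorem di1 (f : Fs) (h : Gd H N) (hD : e ∈ D) (he : e ∈ N) : e ∈ cl H := by
  obtain ⟨p, hp, r, hr, rfl⟩ := f.pair e hD
  have h1 : 1 ≤ dg r := (f.inQ r hr).1 (by simpa [mul_assoc] using f.nQ _ hp.inv_left _ (Gd.leQ h he))
  obtain rfl | h2 | h2 | h2 | rfl := f.dgs r hr
  · exact (hp.mul_inv_cancel : p * z * p⁻¹ = z) ▸ zc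
  rotate_left
  · omega
  · omega
  · exact absurd h1 (by rw [dg125.2]; decide)
  obtain ⟨q, hq, l, hl, rfl⟩ := f.dec p hp
  obtain ⟨l1, l2⟩ := f.L0z l hl
  obtain ⟨a1, a2, a3, -⟩ := f.r1 r hr h2
  have k := f.cQ q hq _ (f.nQ l l1 _ ((f.inQ r hr).2 h1))
  rw [show q * l * X r * (q * l)⁻¹ = q * (l * X r * l⁻¹) * q⁻¹ by group] at he ⊢
  have n1 : l * X r * l⁻¹ ∈ N := k.elim (· ▸ he) fun k => (mul_mem_cancel_right h.zN).1 (k ▸ he)
  have c1 : l * X r * l⁻¹ * z ∈ cl H := ⟨(x0 * (l * X r * l⁻¹)) ^ 2, pow_mem (mul_mem h.x0H (Gd.le h n1)) 2, by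
    have e1 : x0 * (l * X r * l⁻¹) = l * (x0 * X r) * l⁻¹ := by rw [← mul_assoc, ← mul_assoc, ← l2.eq]; group
    have e2 : l * X r * l⁻¹ * z = l * (X r * z) * l⁻¹ := by rw [mul_assoc _ l⁻¹, l1.inv_left.eq]; group
    rw [e1, conj_pow, e2, ← a3]
    conv_rhs => rw [← l1.mul_inv_cancel]
    group⟩
  obtain ⟨m, hm, e⟩ := h.nd _ (mul_mem n1 h.zN) (fun e => a1 (by
    exact mul_left_cancel ((mul_inv_eq_iff_eq_mul.1 (mul_right_cancel (e.trans (zz f).symm))).trans l1.eq.symm)))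
    fun e => f.ne1 r hr (by simpa using e)
  rw [mul_assoc _ z, zz f, mul_one] at e
  exact k.elim (fun k => by rw [k, ← e]; exact cjc c1 (Gd.le h hm)) fun k => by rw [k]; exact c1

theorem di2' (f : Fs) (h : Gd H N) (hD : e ∈ D) (he : e ∈ H) : e ∈ cl H ∨ Commute e z := by
  obtain ⟨p, hp, r, hr, rfl⟩ := f.pair e hD
  obtain rfl | h2 | h2 | h2 | rfl := f.dgs r hr
  · exact .inl ((hp.mul_inv_cancel : p * z * p⁻¹ = z) ▸ zc)
  · exact .inl (di1 f h hD (Gd.mem h he (f.nQ p hp _ ((f.inQ r hr).2 h2.ge))))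
  · exact .inr ((hp.mul_left (f.r0 r hr h2).1.symm).mul_left hp.inv_left)
  · obtain ⟨s, hs, s1, a1, -, n, t, ht, t1, a2, a3⟩ := f.rm r hr h2
    have e1 : p * X s * p⁻¹ = (z * (p * X r * p⁻¹)) ^ 2 := by
      rw [← a1, ← conj_pow, ← mul_assoc p, hp.eq, mul_assoc z, mul_assoc z]
    obtain ⟨m, hm, e2⟩ := di1 f h (cjD (f.XD s hs) p) (Gd.mem h (e1 ▸ pow_mem (mul_mem (Gd.zH h) he) 2)
      (f.nQ p hp _ ((f.inQ s hs).2 s1.ge)))
    have c : Commute (m⁻¹ * p * n⁻¹) z := mul_inv_eq_iff_eq_mul.1 (by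
      conv_lhs => rw [← a2]
      rw [show z = m⁻¹ * (m * z * m⁻¹) * m by group, ← e2]; group)
    refine .inl (cjc' hm (di1 f h (by simpa using cjD hD m⁻¹) (Gd.mem h (mul_mem (mul_mem (inv_mem hm) he) hm) ?_)))
    convert f.nQ _ c _ ((f.inQ t ht).2 t1.ge) using 1
    rw [← a3]; group
  · exact .inl (opp f (Gd.zH h) hp he)
theorem di2 (f : Fs) (h : Gd H N) (hD : e ∈ D) (he : e ∈ H) : e ∈ cl H ∨ ∀ c ∈ cl H, Commute e c := by
  refine or_iff_not_imp_left.2 ?_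
  rintro k _ ⟨m, hm, rfl⟩
  have := ((di2' f h (by simpa using cjD hD m⁻¹) (mul_mem (mul_mem (inv_mem hm) he) hm)).resolve_left
    fun q => k (cjc' hm q)).map (MulAut.conj m)
  simpa [mul_assoc] using this
theorem x0c (f : Fs) (h : Gd H N) : x0 ∈ cl H := by simpa using opp f (Gd.zH h) (.one_left _) (by simpa using h.x0H)
theorem di3 (f : Fs) (h : Gd H N) {y n : G} (k : ∀ c ∈ cl H, Commute y c) (hn : n ∈ N) : Commute y n := by
  have a := (k _ (x0c f h)).inv_left.mul_inv_cancel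
  have b := (k _ (cjc (x0c f h) (Gd.le h hn))).mul_inv_cancel
  have := f.semi _ (mul_mem (inv_mem (Gd.leQ h hn)) (f.nQ y (k z zc) n (Gd.leQ h hn))) (mul_inv_eq_iff_eq_mul.1 (by
    rw [show n⁻¹ * (y * n * y⁻¹) * x0 * (n⁻¹ * (y * n * y⁻¹))⁻¹ = n⁻¹ * (y * (n * (y⁻¹ * x0 * y⁻¹⁻¹) * n⁻¹) * y⁻¹) * n by group,
      a, b]; group))
  exact mul_inv_eq_iff_eq_mul.1 (inv_mul_eq_one.1 this).symm
theorem di (f : Fs) : DI := fun _ _ h => ⟨fun _ a b => di1 f h a b, fun _ a b => di2 f h a b, fun _ k _ a => di3 f h k a⟩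

theorem cb (f : Fs) : CB := fun H H' N N' A A' g h h' e hA hA' => by
  have sub : ∀ {A H : Subgroup G}, A ≤ H → ∀ c ∈ cl A, c ∈ cl H := fun k _ ⟨m, a, b⟩ => ⟨m, k a, b⟩
  rcases di2 f h (cjD zD g) ((e z).1 (Gd.zH h')) with ⟨m, hm, q⟩ | k
  · have c : Commute (m⁻¹ * g) z := mul_inv_eq_iff_eq_mul.1 (by
      rw [show m⁻¹ * g * z * (m⁻¹ * g)⁻¹ = m⁻¹ * (g * z * g⁻¹) * m by group, q]; group)
    refine .inl ⟨_, c, fun q => ?_⟩
    rw [← h.inf, ← h'.inf, mem_inf, mem_inf, e, show m⁻¹ * g * q * (m⁻¹ * g)⁻¹ = m⁻¹ * (g * q * g⁻¹) * m by group,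
      mul_mem_cancel_right hm, mul_mem_cancel_left (inv_mem hm)]
    refine and_congr_right fun _ => ⟨fun a => ?_, fun a => ?_⟩
    · convert f.nQ _ c _ a using 1; group
    · convert f.nQ _ c.inv_left _ a using 1; group
  have k1 : ∀ c' ∈ cl H', ∀ c ∈ cl H, Commute (g * c' * g⁻¹) c := by
    rintro _ ⟨m, hm, rfl⟩ c hc
    have := (k _ (cjc hc (inv_mem ((e m).1 hm)))).map (MulAut.conj (g * m * g⁻¹))
    simpa [mul_assoc] using this
  have k2 : ∀ x ∈ (N : Set G) ∪ cl A, ∀ c' ∈ cl H', Commute (g⁻¹ * x * g) c' := fun x hx c' hc => by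
    have := (hx.elim (di3 f h (k1 c' hc)) fun a => k1 c' hc x (sub hA x a)).symm.map (MulAut.conj g⁻¹)
    simpa [mul_assoc] using this
  refine .inr fun x hx y hy => ?_
  have k3 : Xg A N ≤ centralizer {g * y * g⁻¹} := (closure_le _).2 fun x hx => mem_centralizer_singleton_iff.2 (by
    have k4 : Xg A' N' ≤ centralizer {g⁻¹ * x * g} := (closure_le _).2 fun y hy => mem_centralizer_singleton_iff.2
      (hy.elim (di3 f h' (k2 x hx)) fun a => k2 x hx y (sub hA' y a)).symm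
    have := congrArg (g * · * g⁻¹) (mem_centralizer_singleton_iff.1 (k4 hy))
    simpa [mul_assoc] using this.symm)
  exact mem_centralizer_singleton_iff.1 (k3 hx)

theorem ph (f : Fs) : PH := fun H N h hQ g k => by
  have A : g * z * g⁻¹ ∉ cl H := fun ⟨m, hm, q⟩ => hQ fun y hy => Gd.mem h (by
    have c : Commute (m⁻¹ * g) z := mul_inv_eq_iff_eq_mul.1 (by
      rw [show m⁻¹ * g * z * (m⁻¹ * g)⁻¹ = m⁻¹ * (g * z * g⁻¹) * m by group, q]; group)
    convert mul_mem (mul_mem (inv_mem hm) (k _ (f.nQ _ c.inv_left y hy))) hm using 1; group) hy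
  have B : ∀ s < 126, 1 ≤ dg s → Commute (g * X s * g⁻¹) z := fun s hs h1 =>
    (di2' f h (cjD (f.XD s hs) g) (k _ ((f.inQ s hs).2 h1))).resolve_left fun ⟨m, hm, q⟩ => by
      obtain rfl | h2 | h2 | h2 | rfl := f.dgs s hs
      · exact A ⟨m, hm, q⟩
      rotate_left
      · omega
      · omega
      · exact absurd h1 (by rw [dg125.2]; decide)
      obtain ⟨-, -, -, n, a1, a2⟩ := f.r1 s hs h2
      have c : Commute (m⁻¹ * g * n⁻¹) z := mul_inv_eq_iff_eq_mul.1 (by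
        conv_lhs => rw [← a1]
        rw [show z = m⁻¹ * (m * z * m⁻¹) * m by group, ← q]; group)
      refine A (cjc' hm (di1 f h (by simpa using cjD (cjD zD g) m⁻¹)
        (Gd.mem h (mul_mem (mul_mem (inv_mem hm) (k z f.zQ)) hm) ?_)))
      convert f.nQ _ c _ ((f.inQ s hs).2 h1) using 1
      rw [← a2]; group
  have C : Q ≤ centralizer {g⁻¹ * z * g} := (closure_le _).2 (by
    rintro _ ⟨s, hs, h1, rfl⟩
    have := congrArg (g⁻¹ * · * g) (B s hs h1).eq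
    exact mem_centralizer_singleton_iff.2 (by simpa [mul_assoc] using this))
  obtain ⟨p, hp, r, hr, q⟩ := f.pair (g⁻¹ * z * g) (by simpa using cjD zD g⁻¹)
  rcases Nat.lt_succ_iff_lt_or_eq.1 hr with h1 | rfl
  · obtain ⟨s, hs, h2, h3⟩ := f.nc r h1
    have := congrArg (p⁻¹ * · * p) (mem_centralizer_singleton_iff.1 (C (f.nQ p hp _ ((f.inQ s hs).2 h2))))
    exact h3 ((commute_iff_eq _ _).2 (by simpa [q, mul_assoc] using this.symm))
  · refine A ?_
    rw [show g * z * g⁻¹ = g * (p * X 125 * p⁻¹) * g⁻¹ from congrArg (g * · * g⁻¹) hp.mul_inv_cancel.symm, ← q]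
    simpa [mul_assoc] using zc

theorem cjl {Γ : Type*} [Group Γ] {E : Set Γ} {m k : Γ} (h : ∀ e ∈ E, m * e * m⁻¹ ∈ E) (hk : k ∈ closure E) :
    m * k * m⁻¹ ∈ closure E :=
  (closure_le ((closure E).comap (MulAut.conj m).toMonoidHom)).2 (fun _ q => subset_closure (h _ q)) hk
theorem cjm {Γ : Type*} [Group Γ] {x y : Γ} (h : Commute x y) (g : Γ) : Commute (g * x * g⁻¹) (g * y * g⁻¹) := h.map (MulAut.conj g)
theorem l1 (f : Fs) (v : Fv) (h43 : P43) : L1 := fun H N a b h ha hb oa ob => by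
  have le0 : closure (cl H) ≤ H := (closure_le _).2 fun _ => Gd.clH h
  have n0 : ∀ m ∈ H, ∀ k ∈ closure (cl H), m * k * m⁻¹ ∈ closure (cl H) := fun m hm k hk =>
    cjl (fun _ q => cjc q hm) hk
  let E := cl (closure (cl H))
  -- the stabilizer of the class `E`
  let T : Subgroup G :=
    { carrier := {m | m ∈ H ∧ m * z * m⁻¹ ∈ E}
      one_mem' := ⟨one_mem _, by simpa using zc⟩
      mul_mem' := fun {x y} ⟨a, k, hk, b⟩ ⟨c, l, hl, d⟩ => ⟨mul_mem a c, x * l * x⁻¹ * k, mul_mem (n0 _ a _ hl) hk, by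
        rw [show x * y * z * (x * y)⁻¹ = x * (y * z * y⁻¹) * x⁻¹ by group, d,
          show x * (l * z * l⁻¹) * x⁻¹ = x * l * x⁻¹ * (x * z * x⁻¹) * (x * l * x⁻¹)⁻¹ by group, b]; group⟩
      inv_mem' := fun {x} ⟨a, k, hk, b⟩ => ⟨inv_mem a, x⁻¹ * k⁻¹ * x⁻¹⁻¹, n0 _ (inv_mem a) _ (inv_mem hk), by
        rw [show x⁻¹ * k⁻¹ * x⁻¹⁻¹ * z * (x⁻¹ * k⁻¹ * x⁻¹⁻¹)⁻¹ = x⁻¹ * k⁻¹ * (x * z * x⁻¹) * k * x by group, b]; group⟩ }
  have t0 : closure (cl H) ≤ T := fun k hk => ⟨le0 hk, k, hk, rfl⟩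
  have cT : cl T = E := Set.ext fun e => ⟨fun ⟨_, a, b⟩ => b ▸ a.2, fun ⟨k, a, b⟩ => ⟨k, t0 a, b⟩⟩
  have hT : Gd T N := ⟨h.zN, t0 (subset_closure (x0c f h)), le_antisymm (h.inf ▸ inf_le_inf_right _ fun _ q => q.1)
    (le_inf (fun n hn => ⟨Gd.le h hn, (f.Qz n (Gd.leQ h hn)).mul_inv_cancel.symm ▸ zc⟩) (Gd.leQ h)), h.nd⟩
  have EH : ∀ e ∈ E, e ∈ cl H := fun _ ⟨k, a, b⟩ => ⟨k, le0 a, b⟩
  have d2 : ∀ c ∈ cl H, c ∈ E ∨ ∀ e ∈ E, Commute c e := fun c hc => cT ▸ di2 f hT (clD hc) (t0 (subset_closure hc))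
  have cK : cl (closure E) = E := Set.ext fun e => ⟨fun ⟨k, a, b⟩ => ⟨k, closure_mono EH a, b⟩, fun ⟨k, a, b⟩ => by
    have : ∃ k1 ∈ closure E, ∃ k2 ∈ centralizer (closure E : Set G), k = k1 * k2 := by
      clear b
      induction a using closure_induction with
      | mem c hc => exact (d2 c hc).elim (fun q => ⟨c, subset_closure q, 1, one_mem _, by simp⟩) fun q =>
          ⟨1, one_mem _, c, by rw [centralizer_closure]; exact fun e he => (q e he).symm, by simp⟩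
      | one => exact ⟨1, one_mem _, 1, one_mem _, by simp⟩
      | mul x y _ _ p q =>
        obtain ⟨x1, a1, x2, a2, rfl⟩ := p
        obtain ⟨y1, b1, y2, b2, rfl⟩ := q
        exact ⟨_, mul_mem a1 b1, _, mul_mem a2 b2, by rw [mul_assoc, ← mul_assoc x2, ← a2 y1 b1]; group⟩
      | inv x _ p =>
        obtain ⟨x1, a1, x2, a2, rfl⟩ := p
        exact ⟨_, inv_mem a1, _, inv_mem a2, by rw [a2 x1 a1, mul_inv_rev]⟩
    obtain ⟨k1, a1, k2, a2, rfl⟩ := this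
    exact ⟨k1, a1, by rw [b, mul_assoc k1, ← a2 z (subset_closure zc)]; group⟩⟩
  have TE : ∀ m ∈ T, ∀ e ∈ E, m * e * m⁻¹ ∈ E := fun m hm e he => cT ▸ cjc (cT ▸ he) hm
  have x0E : x0 ∈ E := cT ▸ x0c f hT
  have cm : ∀ m ∈ H, m ∉ T → ∀ e ∈ E, ∀ e' ∈ E, Commute (m * e * m⁻¹) e' := fun m hm n e he =>
    (d2 _ (cjc (EH e he) hm)).resolve_left fun q => n (by
      obtain ⟨k, hk, rfl⟩ := he
      exact (mul_mem_cancel_right (t0 hk)).1 ⟨mul_mem hm (le0 hk), by convert q using 1; group⟩)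
  have t3 : (z * x0) ^ 3 = 1 := by
    rw [show (z * x0) ^ 3 = z * x0 * z * (x0 * z * x0) by simp [pow_succ, mul_assoc], ← f.op.1,
      show z * x0 * z * (z * x0 * z) = z * x0 * (z * z) * x0 * z by group, zz f, mul_one, mul_assoc z, show x0 * x0 = 1 from f.inv 0,
      mul_one, zz f]
  have ti : z * (z * x0) * z⁻¹ = (z * x0)⁻¹ := by
    rw [← mul_assoc, zz f, one_mul, mul_inv_rev, inv_eq_of_mul_eq_one_left (show x0 * x0 = 1 from f.inv 0)]
  have key : ∀ a ∈ H, (orderOf a).Prime → 12 ≤ orderOf a → a ∈ T := fun a ha pa h12 => by_contra fun n => by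
    have n' : ∀ i : ℕ, 0 < i → i < 12 → a ^ i ∉ T := fun i i0 i1 q => n (by
      obtain ⟨m, e⟩ := exists_pow_eq_self_of_coprime ((Nat.coprime_of_lt_prime i0.ne' (i1.trans_le h12) pa).symm)
      exact e ▸ pow_mem q m)
    have c : ∀ i j : Fin 12, i ≠ j → ∀ e ∈ E, ∀ e' ∈ E, Commute (a ^ i.1 * e * (a ^ i.1)⁻¹) (a ^ j.1 * e' * (a ^ j.1)⁻¹) := by
      have c : ∀ i j : Fin 12, j < i → ∀ e ∈ E, ∀ e' ∈ E, Commute (a ^ i.1 * e * (a ^ i.1)⁻¹) (a ^ j.1 * e' * (a ^ j.1)⁻¹) :=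
        fun i j l e he e' he' => by
          have := cjm (cm _ (pow_mem ha (i.1 - j.1)) (n' _ (by omega) (by omega)) e he e' he') (a ^ j.1)
          rw [show a ^ i.1 = a ^ j.1 * a ^ (i.1 - j.1) by rw [← pow_add, Nat.add_sub_cancel' l.le]]
          simpa only [mul_assoc, mul_inv_rev] using this
      exact fun i j l e he e' he' => l.lt_or_gt.elim (fun l => (c j i l e' he' e he).symm) fun l => c i j l e he e' he'
    let t : Fin 12 → G := fun i => a ^ i.1 * (z * x0) * (a ^ i.1)⁻¹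
    have c1 : ∀ i j, i ≠ j → ∀ e ∈ E, Commute (t i) (a ^ j.1 * e * (a ^ j.1)⁻¹) := fun i j l e he => by
      simpa [t, mul_assoc] using (c i j l z zc e he).mul_left (c i j l x0 x0E e he)
    have c2 : Pairwise fun i j => ∀ x y, x ∈ zpowers (t i) → y ∈ zpowers (t j) → Commute x y := by
      rintro i j l _ _ ⟨m, rfl⟩ ⟨k, rfl⟩
      refine Commute.zpow_zpow ?_ m k
      simpa [t, mul_assoc] using (c1 i j l z zc).mul_right (c1 i j l x0 x0E)
    have o : ∀ i, orderOf (t i) = 3 := fun i => orderOf_eq_prime (by rw [conj_pow, t3]; simp) fun e => f.op.2 (by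
      rw [← inv_eq_of_mul_eq_one_right (conj_eq_one_iff.1 e)]; exact (Commute.refl z).inv_right)
    have inj := injective_noncommPiCoprod_of_iSupIndep (hcomm := c2) fun j => disjoint_def.2 fun {x} hx hx' => by
      have k1 : Commute x (a ^ j.1 * z * (a ^ j.1)⁻¹) := mem_centralizer_singleton_iff.1 ((iSup₂_le fun i l =>
        (zpowers_le.2 (mem_centralizer_singleton_iff.2 (c1 i j l z zc).eq) : zpowers (t i) ≤ centralizer {_})) hx')
      obtain ⟨m, rfl⟩ := mem_zpowers_iff.1 hx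
      have k2 : a ^ j.1 * z * (a ^ j.1)⁻¹ * t j * (a ^ j.1 * z * (a ^ j.1)⁻¹)⁻¹ = (t j)⁻¹ := by
        simp only [t]; rw [mul_inv_rev (a ^ j.1 * (z * x0)), mul_inv_rev (a ^ j.1), ← ti]; group
      have k3 : (t j ^ m) ^ 2 = 1 := by
        rw [pow_two]; nth_rw 1 [← k1.symm.mul_inv_cancel]; rw [← conj_zpow, k2, inv_zpow, inv_mul_cancel]
      have k4 : (t j ^ m) ^ 3 = 1 := by rw [← zpow_natCast, ← zpow_mul, mul_comm, zpow_mul, zpow_natCast, ← o j, pow_orderOf_eq_one, one_zpow]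
      rwa [pow_succ, k3, one_mul] at k4
    have := card_dvd_of_injective _ inj
    simp only [Nat.card_pi, Nat.card_zpowers, o, H18.E7.cardG] at this
    exact absurd this (by decide)
  have nm : ∀ a ∈ T, a ∈ normalizer (closure E : Set G) := fun a ha => mem_normalizer_fintype fun k hk =>
    cjl (TE a ha) hk
  have dv : ∀ a ∈ T, (orderOf a).Prime → (∀ e ∈ E, ¬ Commute e a) → orderOf a ∣ Nat.card (closure E) := fun a ha pa n => by
    have := Fact.mk pa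
    let _ : MulAction (zpowers a) E :=
      { smul := fun g e => ⟨g * e * (g : G)⁻¹, TE _ (zpowers_le.2 ha g.2) _ e.2⟩
        one_smul := fun e => Subtype.ext (show (1 : G) * e * 1⁻¹ = e by simp)
        mul_smul := fun g k e => Subtype.ext (show (g : G) * k * e * ((g : G) * k)⁻¹ = g * (k * e * (k : G)⁻¹) * (g : G)⁻¹ by group) }
    have d : orderOf a ∣ Nat.card E := by_contra fun q =>
      let ⟨e, he⟩ := (IsPGroup.of_card (G := zpowers a) (n := 1) (by simp)).nonempty_fixed_point_of_prime_not_dvd_card E q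
      n e e.2 (mul_inv_eq_iff_eq_mul.1 (congrArg Subtype.val (he ⟨a, mem_zpowers a⟩))).symm
    let _ : MulAction (closure E) G := MulAction.compHom G (MulAut.conj.comp (closure E).subtype)
    refine d.trans (Dvd.dvd.trans (dvd_of_eq ?_) (MulAction.stabilizer (closure E) z).index_dvd_card)
    rw [MulAction.index_stabilizer, ← Nat.card_coe_set_eq]
    exact Nat.card_congr (Equiv.setCongr (cK.symm.trans (Set.ext fun e => ⟨fun ⟨k, a, b⟩ => ⟨⟨k, a⟩, b.symm⟩,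
      fun ⟨k, b⟩ => ⟨k, k.2, b.symm⟩⟩)))
  have aT := key a ha (oa ▸ by norm_num) (by omega)
  have bT := key b hb (ob ▸ by norm_num) (by omega)
  refine ⟨closure E, (closure_mono EH).trans le0, subset_closure zc, subset_closure x0E, by rw [cK], nm a aT, nm b bT,
    oa ▸ dv a aT (oa ▸ by norm_num) ?_, ob ▸ dv b bT (ob ▸ by norm_num) ?_, fun e a b => by rw [cK, ← cT]; exact di1 f hT a b⟩
  · rintro _ ⟨k, -, rfl⟩ q
    refine (h43 (k⁻¹ * a * k) (by rw [← oa]; simpa using (MulAut.conj k⁻¹).orderOf_eq a)).2 ?_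
    simpa [mul_assoc] using q.symm.map (MulAut.conj k⁻¹)
  · rintro _ ⟨k, -, rfl⟩ q
    have := v.b127 b ob _ q
    rw [conj_pow, conj_eq_one_iff, show 127 = 2 * 63 + 1 from rfl, pow_succ, pow_mul, pow_two, zz f, one_pow, one_mul] at this
    exact f.ne1 125 (by decide) this

end H22.ME
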