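import Cfsg.Agent.H26.O7B
import Cfsg.Agent.S0480
import Cfsg.Agent.S0822
import Cfsg.Agent.S0301
import Cfsg.Agent.S0247
import Cfsg.Agent.H5.Burnside

/-! S5815: the 3-transposition groups in `Ω₇(q)`. -/

set_option autoImplicit false

open H12 Cfsg Subgroup H26.O7 Matrix
namespace H22.O7
universe u

theorem tt1 : TT1.{u} := fun G _ _ _ D hna hD hp => by
  have := H9.TG.ofClass hD
  have hZ : center G = ⊥ := (IsSimpleGroup.eq_bot_or_eq_top_of_normal _ inferInstance).resolve_right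
    fun k => hna ⟨⟨fun x y => mem_center_iff.1 (k ▸ mem_top y) x⟩⟩
  have hc : commutator G = ⊤ := (IsSimpleGroup.eq_bot_or_eq_top_of_normal _ inferInstance).resolve_left fun k =>
    hna ⟨⟨fun x y => commutatorElement_eq_one_iff_mul_comm.1 (mem_bot.1
      (k ▸ commutator_mem_commutator (mem_top x) (mem_top y)))⟩⟩
  have e : commutator G ≃* G := (MulEquiv.subgroupCongr hc).trans topEquiv
  have hP := H9.prim_of_simple (H9.Tr.ofClass hD) e.isSimpleGroup fun k =>
    hna ⟨⟨fun x y => by simpa using congrArg e (k.1.1 (e.symm x) (e.symm y))⟩⟩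
  have pf : H9.FQ.PF D := fun a b c h => by
    simp only [H9.FQ.Pl, H9.TQ.adj_iff, H9.TQ.coe_t] at h
    have := hp a a.2 b b.2 c c.2
    tauto
  have := hP.nontrivial
  obtain ⟨d⟩ : Nonempty D := inferInstance
  by_cases hw : H9.FQ.WT (H9.FQ.Dc d)
  swap
  · exact (H9.T_not_perfect hZ (hP.T5_of_not_wt hw) (by omega) hc).elim
  by_cases hv : H9.FQ.VT (H9.FQ.Dc d)
  · rcases pf.classify hP hv hw with ⟨n, h1, h⟩ | ⟨n, h1, h⟩
    exacts [(H9.T_not_perfect hZ h (by omega) hc).elim, (H9.o2_not_perfect h (by omega) hc).elim]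
  obtain ⟨n, h⟩ := pf.sp hP hv
  obtain ⟨m, -, e, -⟩ := H9.ident_sp hZ h
  exact ⟨m, ⟨e⟩⟩

theorem nc23 {G : Type*} [Group G] [Finite G] [IsSimpleGroup G] (hna : ¬ IsMulCommutative G) (a b : ℕ)
    (h : Nat.card G ∣ 2 ^ a * 3 ^ b) : False :=
  hna ⟨⟨IsSimpleGroup.comm_iff_isSolvable.2
    (H5.isSolvable_of_card_dvd_prime_pow_mul Nat.prime_two Nat.prime_three h)⟩⟩

theorem big2 (k : ℕ) : ∃ E : Subgroup (symplecticGroup (Fin (4 + k)) (ZMod 2)), (∀ e ∈ E, e * e = 1) ∧
    64 < Nat.card E := by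
  have sq : ∀ g : symplecticGroup (Fin (4 + k)) (ZMod 2), (∃ S, g.1 = fromBlocks 1 S 0 1) → g * g = 1 := by
    rintro g ⟨S, e⟩
    refine Subtype.ext ?_
    rw [Submonoid.coe_mul, e, fromBlocks_multiply, OneMemClass.coe_one, ← fromBlocks_one]
    congr 1 <;> simp
    ext; exact CharTwo.add_self_eq_zero _
  let A : (Fin 7 → ZMod 2) → Matrix (Fin 4) (Fin 4) (ZMod 2) := fun c =>
    !![c 0, c 1, c 2, c 3; c 1, c 4, 0, 0; c 2, 0, c 5, 0; c 3, 0, 0, c 6]
  let S := fun c => reindex finSumFinEquiv finSumFinEquiv (fromBlocks (A c) 0 0 (0 : Matrix (Fin k) (Fin k) _))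
  have hS : ∀ c, (S c)ᵀ = S c := fun c => by
    have : (A c)ᵀ = A c := by ext i j; fin_cases i <;> fin_cases j <;> rfl
    simp only [S, transpose_reindex, fromBlocks_transpose, this, transpose_zero]
  refine ⟨{ carrier := {g | ∃ S, g.1 = fromBlocks 1 S 0 1}
            one_mem' := ⟨0, fromBlocks_one.symm⟩
            mul_mem' := ?_
            inv_mem' := fun {g} h => by rwa [inv_eq_of_mul_eq_one_right (sq g h)] }, sq, ?_⟩
  · rintro a b ⟨S, e⟩ ⟨T, e'⟩
    exact ⟨T + S, by rw [Submonoid.coe_mul, e, e', fromBlocks_multiply]; simp⟩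
  refine lt_of_lt_of_le (by simp : 64 < Nat.card (Fin 7 → ZMod 2)) (Nat.card_le_card_of_injective
    (fun c => ⟨⟨fromBlocks 1 (S c) 0 1, SymplecticGroup.mem_iff.2 ?_⟩, S c, rfl⟩) fun c d e => ?_)
  · simp [J, fromBlocks_multiply, fromBlocks_transpose, hS]
  · have e1 : fromBlocks 1 (S c) 0 1 = fromBlocks 1 (S d) 0 1 := congrArg (·.1.1) e
    have e2 := (fromBlocks_inj.1 ((reindex _ _).injective (fromBlocks_inj.1 e1).2.1)).1
    have k := fun i j => congrFun (congrFun e2 i) j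
    ext i
    fin_cases i
    exacts [k 0 0, k 0 1, k 0 2, k 0 3, k 1 1, k 2 2, k 3 3]

theorem tt2 : TT2.{u} := fun F _ G _ _ _ R m hna ⟨e⟩ => by
  have c := (Nat.card_congr e.toEquiv).trans (H11.card_sp (F := ZMod 2) m)
  obtain rfl | rfl | rfl | rfl | ⟨k, rfl⟩ : m = 0 ∨ m = 1 ∨ m = 2 ∨ m = 3 ∨ ∃ k, m = 4 + k := by
    by_cases h : 4 ≤ m
    · exact .inr (.inr (.inr (.inr (Nat.exists_eq_add_of_le h))))
    · omega
  · exact (nc23 hna 0 0 (by simp [c])).elim
  · exact (nc23 hna 1 1 (by simp [c])).elim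
  · obtain ⟨e'⟩ := Cfsg.Agent.S0247.result (F := ZMod 2) rfl
    have := (e.trans e').symm.isSimpleGroup
    have i := alternatingGroup.index_eq_two (α := Fin 6)
    rcases IsSimpleGroup.eq_bot_or_eq_top_of_normal (alternatingGroup (Fin 6)) inferInstance with h | h <;>
      rw [h] at i <;> simp [Fintype.card_perm, Nat.factorial] at i
  · exact ⟨e.trans (H11.quotCenterEquivOfBot (by rw [← card_eq_one, H11.card_center_sp]; rfl)).symm⟩
  · obtain ⟨E, h1, h2⟩ := big2 k
    exact absurd ((e2 F _ (R.comp e.symm.toMonoidHom e.symm.injective)).2.2 E h1).1 h2.not_ge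

theorem mcomm {κ K : Type*} [Fintype κ] [Subsingleton κ] [CommRing K] (A B : Matrix κ κ K) : A * B = B * A := by
  ext i j
  simp only [mul_apply]
  exact Finset.sum_congr rfl fun k _ => by rw [Subsingleton.elim i k, Subsingleton.elim j k, mul_comm]

theorem tt3 (bc : BC.{u, u}) (sp4 : SP4.{u}) : TT3.{u} := fun F _ _ H P h h3 D hD => by
  obtain ⟨hi, hs, hna, -⟩ := (bc F (AlgebraicClosure F)).2 H P h
  have h2 := h.two
  have cO : Nat.card (Geo.omegaGL (quadFormOdd 3 F)) = 4585351680 := by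
    have := H11.card_pomegaOdd (F := F) h2 (m := 3) (by norm_num)
    rw [Nat.card_congr (H11.quotCenterEquivOfBot (H11.center_omegaOdd h2 (by norm_num))).toEquiv, h3] at this
    rw [Geo.omegaGL, card_map_of_injective (subtype_injective _)]
    simp only [Finset.prod_range_succ, Finset.prod_range_zero] at this
    omega
  have lt := h.core.le.trans_lt h.mx.1
  have dv := cO ▸ card_dvd_of_le lt.le
  have k4 : ¬ Nonempty (P ≃* PSp 2 (ZMod 3)) := fun ⟨e⟩ => by
    obtain ⟨R, hR, -⟩ := (bc F (AlgebraicClosure F)).1 P h.rp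
    obtain ⟨p, hp⟩ := CharP.exists F
    have : Fact p.Prime := ⟨CharP.char_is_prime F p⟩
    exact sp4 (ZMod 3) (by decide) _ p (R.comp e.symm.toMonoidHom e.symm.injective) fun W hW =>
      hi R hR W fun g x hx => by simpa [Rp.comp] using hW (e g) x hx
  rcases Cfsg.Agent.S0480.result (by by_contra! k; exact hna ⟨⟨k⟩⟩) hD with k | ⟨K, _, _, n, h4, ⟨e⟩⟩ | ⟨m, ⟨e⟩⟩ |
    ⟨-, k⟩ | ⟨-, k⟩
  · exact k
  · exfalso
    by_cases n1 : n ≤ 1
    · have : Subsingleton (Fin n) := Fin.subsingleton_iff_le_one.2 n1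
      refine hna ⟨⟨fun x y => e.injective ?_⟩⟩
      rw [map_mul, map_mul]
      induction e x using QuotientGroup.induction_on
      induction e y using QuotientGroup.induction_on
      exact congrArg QuotientGroup.mk (Subtype.ext (Subtype.ext (mcomm _ _)))
    have c := H11.card_psu (F := K) (q := 2) (n := n) h4 (by omega)
    rw [← Nat.card_congr e.toEquiv] at c
    obtain rfl | rfl | rfl | n5 : n = 2 ∨ n = 3 ∨ n = 4 ∨ 5 ≤ n := by omega
    · exact nc23 hna 1 2 ⟨3, by simp [Finset.prod_range_succ] at c; omega⟩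
    · exact nc23 hna 3 4 ⟨9, by simp [Finset.prod_range_succ, show Even 2 by decide] at c; omega⟩
    · exact k4 ⟨e.trans (Cfsg.Agent.S0822.result h4 rfl).some⟩
    · have : 11 ∣ Nat.gcd n 3 * (3 * Nat.card P) := c ▸ Dvd.dvd.mul_left (Dvd.dvd.trans (by decide)
        (Finset.dvd_prod_of_mem _ (Finset.mem_range.2 (n5 : 4 < n)))) _
      exact absurd (this.trans (mul_dvd_mul (Nat.gcd_dvd_right n 3) (mul_dvd_mul_left 3 dv))) (by norm_num)
  · exfalso
    obtain rfl | m1 := Nat.eq_zero_or_pos m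
    · have : Subsingleton (Unit ⊕ (Fin 0 ⊕ Fin 0)) := ⟨by decide⟩
      refine hna ⟨⟨fun x y => e.injective ?_⟩⟩
      rw [map_mul, map_mul]
      induction e x using QuotientGroup.induction_on
      induction e y using QuotientGroup.induction_on
      exact congrArg QuotientGroup.mk (Subtype.ext (Subtype.ext (Units.ext (mcomm _ _))))
    have c := H11.card_pomegaOdd (F := ZMod 3) (by decide) m1
    rw [← Nat.card_congr e.toEquiv, ZMod.card] at c
    obtain rfl | rfl | rfl | m4 : m = 1 ∨ m = 2 ∨ m = 3 ∨ 4 ≤ m := by omega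
    · exact nc23 hna 3 1 ⟨2, by simp at c; omega⟩
    · exact k4 ⟨e.trans (Cfsg.Agent.S0301.result (by decide)).some⟩
    · simp only [Finset.prod_range_succ, Finset.prod_range_zero] at c
      exact lt.ne (eq_of_le_of_card_ge lt.le (by rw [cO]; omega))
    · have : 41 ∣ 2 * Nat.card P := c ▸ Dvd.dvd.mul_left (Dvd.dvd.trans (by decide)
        (Finset.dvd_prod_of_mem _ (Finset.mem_range.2 (m4 : 3 < m)))) _
      exact absurd (this.trans (mul_dvd_mul_left 2 dv)) (by norm_num)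
  · exact absurd (k ▸ dv) (by norm_num)
  · exact absurd (k ▸ dv) (by norm_num)

end H22.O7
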