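/-
Normalizers and centralizers of the subgroups `Ω₈⁺(4)` of `E₈(2)`.
-/
import Cfsg.Agent.H14.O80

set_option autoImplicit false
set_option linter.unusedSectionVars false

namespace H22.O8
open Cfsg Cfsg.Lie H14 H14.O8 H14.RootSys H14.PreSt H14.St Subgroup
open MulAut (conj)

section abstract
variable {G : Type*} [Group G]

theorem frat {p k : ℕ} [hp : Fact p.Prime] {A M : Subgroup G} [Finite M] (hA : A ≤ M) (hc : Nat.card A = p ^ k)
    (hd : ¬ p ^ (k + 1) ∣ Nat.card M) {g : G} (hg : g ∈ normalizer (M : Set G)) :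
    ∃ m ∈ M, m⁻¹ * g ∈ normalizer (A : Set G) := by
  have h0 : Nat.card M ≠ 0 := Nat.card_pos.ne'
  have hk : (Nat.card M).factorization p = k := by
    have a := (hp.out.pow_dvd_iff_le_factorization h0).1 (hc ▸ card_dvd_of_le hA)
    have b := mt (hp.out.pow_dvd_iff_le_factorization h0).2 hd
    omega
  have hB : A.map (conj g).toMonoidHom ≤ M := by
    rintro _ ⟨a, ha, rfl⟩
    exact (mem_normalizer_iff.1 hg a).1 (hA ha)
  have c1 : Nat.card (A.subgroupOf M) = p ^ (Nat.card M).factorization p := by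
    rw [hk, ← hc]; exact Nat.card_congr (subgroupOfEquivOfLe hA).toEquiv
  have c2 : Nat.card ((A.map (conj g).toMonoidHom).subgroupOf M) = p ^ (Nat.card M).factorization p := by
    rw [hk, ← hc, Nat.card_congr (subgroupOfEquivOfLe hB).toEquiv, card_map_of_injective (MulEquiv.injective _)]
  obtain ⟨m, hm⟩ := MulAction.exists_smul_eq M (Sylow.ofCard _ c1) (Sylow.ofCard _ c2)
  have key : ∀ x : M, (m : G)⁻¹ * x * m ∈ A ↔ g⁻¹ * x * g ∈ A := fun x => by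
    have := SetLike.ext_iff.1 (congrArg Sylow.toSubgroup hm) x
    rw [Sylow.coe_subgroup_smul, mem_pointwise_smul_iff_inv_smul_mem, Sylow.coe_ofCard, Sylow.coe_ofCard, mem_subgroupOf,
      mem_subgroupOf, mem_map_equiv] at this
    simpa [mul_assoc] using this
  refine ⟨m, m.2, mem_normalizer_iff.2 fun a => ⟨fun ha => ?_, fun ha => ?_⟩⟩
  · have := (key ⟨g * a * g⁻¹, (mem_normalizer_iff.1 hg a).1 (hA ha)⟩).2 (by simpa [mul_assoc] using ha)
    simpa [mul_assoc] using this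
  · have h1 : g * a * g⁻¹ ∈ M := by
      simpa [mul_assoc] using mul_mem (mul_mem m.2 (hA ha)) (inv_mem m.2)
    simpa [mul_assoc] using (key ⟨_, h1⟩).1 (by simpa [mul_assoc] using ha)

theorem relIndex_eq {M N L : Subgroup G} (hM : M ≤ N) (hN : N ≤ normalizer (M : Set G)) (hL : L ≤ N)
    (h : ∀ g ∈ N, ∃ m ∈ M, m⁻¹ * g ∈ L) : M.relIndex N = M.relIndex L := by
  have := (normal_subgroupOf_iff_le_normalizer hM).2 hN
  have e : L.subgroupOf N ⊔ M.subgroupOf N = ⊤ := by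
    rw [eq_top_iff]
    rintro ⟨g, hg⟩ -
    obtain ⟨m, hm, h1⟩ := h g hg
    have : (⟨g, hg⟩ : N) = ⟨m, hM hm⟩ * ⟨m⁻¹ * g, hL h1⟩ := Subtype.ext (by simp)
    rw [this]
    exact mul_mem (mem_sup_right hm) (mem_sup_left h1)
  rw [← relIndex_subgroupOf hL, ← relIndex_sup_right (L.subgroupOf N) (M.subgroupOf N), e, relIndex_top_right]; rfl

theorem relIndex_pair {W : Type*} [Group W] {T : Subgroup (G × W)} {M : Subgroup G} {V : Subgroup W}
    (h : ∀ x ∈ T, x.1 ∈ M ↔ x.2 ∈ V) :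
    M.relIndex (T.map (MonoidHom.fst G W)) = V.relIndex (T.map (MonoidHom.snd G W)) := by
  rw [← relIndex_comap, ← relIndex_comap, relIndex, relIndex]
  congr 1
  ext x
  exact h x x.2

end abstract

variable {K G : Type} [Field K] [Group G] (X : Su K G)

theorem A_le (T : X.TT) (j : Fin 2) : X.A ≤ X.M j := inf_le_inf_right _ (T.le j)

/-- the centralizers -/
theorem cm (T : X.TT) (N : X.NN) : X.CM := fun j hz => by
  rw [eq_bot_iff]
  rintro g ⟨h1, h2⟩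
  have h3 : g ∈ X.M j := A_le X T j ⟨N.cent (centralizer_le (A_le X T j) h1), h2⟩
  have : (⟨g, h3⟩ : X.M j) ∈ center (X.M j) := mem_center_iff.2 fun m => Subtype.ext (h1 m m.2)
  rw [hz] at this
  exact congrArg Subtype.val (mem_bot.1 this)

variable {X}

theorem mem_M (w6 : W6) (T : X.TT) (j : Fin 2) {n : G} {v : Equiv.Perm I} (h : (n, v) ∈ X.S.NW) (hn : n ∈ X.F.fix) :
    n ∈ X.M j ↔ v ∈ R.WA (Ξ j) :=
  ⟨fun a => (w6.cl j).mem_WA (H11.cok_good goodE8) X.F.sep h (mem_sup_left a.1), fun a =>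
    ⟨sup_le le_rfl (T.le j) (NW.mem_of_WA (neg_mem_of_refl (w6.cl j).refl) h a), hn⟩⟩

theorem ρ_WA (w6 : W6) (j : Fin 2) {r : I} (h : r ∈ Ξ j) : ρ r ∈ R.WA (Ξ j) :=
  mul_mem (refl_mem_WA h) (refl_mem_WA ((w6.w_mem j r).2 h))

theorem map_mem (w6 : W6) (w8 : W8) (T : X.TT) (N : X.NN) (j : Fin 2) {n : G} {v : Equiv.Perm I} (h : (n, v) ∈ X.S.NW)
    (hn : n ∈ X.F.fix) (h1 : n ∈ normalizer (X.M j : Set G)) {r : I} (hr : r ∈ Ξ j) : v r ∈ Ξ j := by
  obtain ⟨m, m1, m2⟩ := N.rep _ (ρ_C r)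
  have a := (mem_normalizer_iff.1 h1 m).1 ((mem_M w6 T j m2 m1).2 (ρ_WA w6 j hr))
  refine w8 j _ ?_
  rw [ρ_conj (N.nw n v h hn).1]
  exact (mem_M w6 T j (NW.mul (NW.mul h m2) (NW.inv h)) a.2).1 a

theorem mem_norm (j : Fin 2) {n : G} {v : Equiv.Perm I} (h : (n, v) ∈ X.S.NW) (hn : n ∈ X.F.fix) (hv : v ∈ stab (Ξ j)) :
    n ∈ normalizer (X.M j : Set G) :=
  mem_normalizer_iff.2 fun g => ⟨fun a => ⟨NW.conj_mem_U h (fun r hr => (hv r).2 hr) a.1,
    X.F.fix.mul_mem (X.F.fix.mul_mem hn a.2) (inv_mem hn)⟩, fun a => ⟨by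
      simpa [mul_assoc] using NW.conj_mem_U' h (fun r hr => ((inv_mem hv : v⁻¹ ∈ stab _) r).2 hr) a.1, by
      simpa [mul_assoc] using X.F.fix.mul_mem (X.F.fix.mul_mem (inv_mem hn) a.2) hn⟩⟩

variable (X)

/-- the normalizers -/
theorem nm (w6 : W6) (w7 : W7) (w8 : W8) (T : X.TT) (N : X.NN) : X.NM := fun j h5 => by
  have := X.fin
  have : Finite (X.M j) := Finite.of_injective _ (inclusion_injective (inf_le_right : X.M j ≤ X.F.fix))
  have : Fact (Nat.Prime 5) := ⟨by norm_num⟩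
  let P : Subgroup (G × Equiv.Perm I) := X.S.NW ⊓ (normalizer (X.M j : Set G) ⊓ X.F.fix).comap (MonoidHom.fst _ _)
  have e2 : P.map (MonoidHom.snd _ _) = C ⊓ stab (Ξ j) := by
    apply le_antisymm
    · rintro _ ⟨⟨n, v⟩, ⟨a, b, c⟩, rfl⟩
      refine ⟨(N.nw n v a c).1, fun r => ⟨fun hr => ?_, map_mem w6 w8 T N j a c b⟩⟩
      simpa using map_mem w6 w8 T N j (NW.inv a) (inv_mem c) (inv_mem b) hr
    · rintro v ⟨a, b⟩
      obtain ⟨n, n1, n2⟩ := N.rep v a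
      exact ⟨(n, v), ⟨n2, mem_norm j n2 n1 b, n1⟩, rfl⟩
  rw [← w7 j, ← e2, ← relIndex_pair (T := P) (M := X.M j) fun x hx => mem_M w6 T j hx.1 hx.2.2]
  refine relIndex_eq (le_inf le_normalizer inf_le_right) inf_le_left ?_ fun g hg => ?_
  · rintro _ ⟨x, hx, rfl⟩; exact hx.2
  · obtain ⟨m, hm, h1⟩ := frat (p := 5) (k := 4) (A_le X T j) T.card h5 hg.1
    have h2 : m⁻¹ * g ∈ X.F.fix := mul_mem (inv_mem hm.2) hg.2
    obtain ⟨v, -, hv⟩ := N.norm _ h2 h1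
    exact ⟨m, hm, (m⁻¹ * g, v), ⟨hv, (normalizer _).mul_mem (inv_mem (le_normalizer hm)) hg.1, h2⟩, rfl⟩

end H22.O8
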