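/-
Finite checks in the Weyl group of type `E₈`: the subsystems `D₄ D₄` and an element of order five.
-/
import Cfsg.Agent.H14.O80

set_option autoImplicit false
set_option linter.unusedSectionVars false
set_option maxRecDepth 100000

namespace H22.O8
open Cfsg Cfsg.Lie H14 H14.O8 H14.RootSys Matrix Subgroup

theorem κ_eq (r : I) : κ r = ![(kN r 0 : ZMod 5), kN r 1, kN r 2, kN r 3] := funext fun i => by
  rw [κ_val]; fin_cases i <;> rfl

theorem dot_κ (y : V) (r : I) : y ⬝ᵥ κ r = y 0 * kN r 0 + y 1 * kN r 1 + y 2 * kN r 2 + y 3 * kN r 3 := by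
  rw [κ_eq]; simp [dotProduct, Fin.sum_univ_four]

theorem ev5 (r : I) : (ev [2, 3, 1, 0, 2, 3, 1, 0] ^ 5) r = r := Fin.ext (by
  have : ev [2, 3, 1, 0, 2, 3, 1, 0] ^ 5 = ev (List.replicate 10 [2, 3, 1, 0]).flatten := by
    simp [H14.O8.ev, pow_succ, mul_assoc]
  rw [this, ev_val]
  exact Nat.eq_of_beq_eq_true (allI (p := fun r => Nat.beq (evN (List.replicate 10 [2, 3, 1, 0]).flatten r) r)
    (by decide +kernel) r))

theorem ev_κ (i : Fin 3) : κ (ev [2, 3, 1, 0, 2, 3, 1, 0] (rt (![33, 39, 175] i))) =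
    κ (rt (![33, 39, 175] i)) + ![![1, 0, 0, 1], ![0, 0, 1, 1], ![0, 1, 0, 3]] i := by
  rw [κ_eq, κ_eq, ev_val]; revert i; decide +kernel

/-- an element of order five -/
theorem w5 : W5 := by
  refine ⟨ev [2, 3, 1, 0, 2, 3, 1, 0], ev_C _, fun h => ?_, Equiv.ext ev5, ![1, 3, 1, 4], fun y h => ?_⟩
  · have := ev_κ 0
    rw [h, Equiv.Perm.one_apply, left_eq_add] at this
    revert this; decide
  · have k : ∀ i : Fin 3, y ⬝ᵥ ![![1, 0, 0, 1], ![0, 0, 1, 1], ![0, 1, 0, 3]] i = 0 := fun i => by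
      have := h (rt (![33, 39, 175] i))
      rwa [ev_κ, dotProduct_add, add_eq_left] at this
    have a := k 0
    have b := k 1
    have c := k 2
    have f : (5 : ZMod 5) = 0 := rfl
    simp only [dotProduct, Fin.sum_univ_four, cons_val] at a b c
    refine ⟨y 0, funext fun i => ?_⟩
    fin_cases i <;> simp
    · linear_combination c - 3 * a
    · linear_combination b - a
    · linear_combination a - y 0 * f

/-- the parity functionals -/
def fn (j k : Fin 2) : Fin chevE8.rank → ℤ :=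
  (![![![0, 0, 1, 0, 1, 0, 1, 0], ![0, 1, 0, 0, 0, 0, 0, 1]], ![![1, 0, 0, 0, 0, 0, 0, 0], ![0, 1, 1, 0, 1, 0, 1, 1]]] :
    Fin 2 → Fin 2 → Fin 8 → ℤ) j k

/-- their values on the roots -/
def pa (j k : Fin 2) (r : ℕ) : ℤ :=
  ![![tabE8.cf r 2 + tabE8.cf r 4 + tabE8.cf r 6, tabE8.cf r 1 + tabE8.cf r 7],
    ![tabE8.cf r 0, tabE8.cf r 1 + tabE8.cf r 2 + tabE8.cf r 4 + tabE8.cf r 6 + tabE8.cf r 7]] j k

theorem fn_cf (j k : Fin 2) (r : I) : fn j k ⬝ᵥ R.cf r = pa j k r := by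
  change ∑ i : Fin 8, fn j k i * tabE8.cf r i = _
  rw [Fin.sum_univ_eight]
  fin_cases j <;> fin_cases k <;> simp [fn, pa]

theorem mem_Ξ (j : Fin 2) (r : I) : r ∈ Ξ j ↔ ∀ k, pa j k r % 2 = 0 := by
  have : r ∈ Ξ j ↔ ∃ s : I4, (e j s).val = r ∨ wN (e j s) = r := by
    simp only [Ξ, Δ, Set.mem_union, Set.mem_range, Set.mem_image, exists_exists_eq_and, exists_or, ← w_val, Fin.val_inj]
  rw [this]
  clear this; revert j r; decide +kernel

theorem pa_add (j k : Fin 2) {r s t : I} {a : ℤ} (h : R.cf t = R.cf s + a • R.cf r) :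
    pa j k t = pa j k s + a * pa j k r := by
  rw [← fn_cf, ← fn_cf, ← fn_cf, h, dotProduct_add, dotProduct_smul, smul_eq_mul]

theorem pa_refl (j k : Fin 2) (r s : I) : pa j k (R.refl r s) = pa j k s - R.pair r s * pa j k r := by
  rw [pa_add j k (s := s) (r := r) (a := -R.pair r s) (by rw [cf_refl, neg_smul, sub_eq_add_neg])]; ring

theorem pa_refl' {j : Fin 2} (k : Fin 2) {r : I} (h : r ∈ Ξ j) (s : I) : pa j k (R.refl r s) % 2 = pa j k s % 2 := by
  obtain ⟨c, hc⟩ := Int.dvd_of_emod_eq_zero ((mem_Ξ j r).1 h k)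
  rw [pa_refl, hc, mul_left_comm, Int.sub_mul_emod_self_left]

theorem pa_WA {j : Fin 2} {v : Equiv.Perm I} (h : v ∈ R.WA (Ξ j)) (k : Fin 2) (s : I) : pa j k (v s) % 2 = pa j k s % 2 := by
  induction h using closure_induction generalizing s with
  | mem _ h => obtain ⟨r, hr, rfl⟩ := h; exact pa_refl' k hr s
  | one => rfl
  | mul _ _ _ _ a b => rw [Equiv.Perm.mul_apply, a, b]
  | inv v _ a => rw [← a (v⁻¹ s)]; simp

/-- complex reflections in the Weyl groups of the subsystems -/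
theorem w8 : W8 := fun j r h => by
  have k : ∀ (j : Fin 2) (r : I), (∀ k, pa j k r % 2 = 0) ∨ ∃ s ∈ [162, 141, 135, 130, 126, 123, 121, 120], ∃ k,
      pa j k (rf r (rf (wN r) s)) % 2 ≠ pa j k s % 2 := by decide +kernel
  refine (k j r).elim (mem_Ξ j r).2 fun ⟨s, hs, k, hk⟩ => (hk ?_).elim
  have e : (rt s).val = s := val_rt (by clear hk; revert s; decide)
  have := pa_WA h k (rt s)
  rwa [ρ_val, e] at this

theorem cf_e (j : Fin 2) (r : I4) : R.cf (e j r) = ∑ i : Fin 4, R4.cf r i • R.cf (q j i) := funext fun k => by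
  rw [Finset.sum_apply, Fin.sum_univ_four]
  change tabE8.cf (e j r) k = tabD4.cf r 0 * tabE8.cf (q j 0) k + tabD4.cf r 1 * tabE8.cf (q j 1) k +
    tabD4.cf r 2 * tabE8.cf (q j 2) k + tabD4.cf r 3 * tabE8.cf (q j 3) k
  revert j r k; decide +kernel

/-- the subsystems -/
theorem w6 : W6 where
  simple j i := Fin.ext (by
    have : R4.simple i = ⟨chevD4.simple i, okD4.simple_lt i i.2⟩ := Fin.ext (goodD4.simple i)
    rw [this]; clear this; revert j i; decide +kernel)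
  add j r s k h := by
    rw [cf_e, cf_e, cf_e, h, ← Finset.sum_add_distrib]
    exact Finset.sum_congr rfl fun i _ => add_smul _ _ _
  pair j r s := by rw [pair_val, goodD4.pair_eq okD4 rfl]; revert j r s; decide +kernel
  neg j r := Fin.ext (by
    have : R4.neg r = ⟨23 - r, Nat.lt_of_le_of_lt (Nat.sub_le _ _) (by decide)⟩ := rfl
    rw [neg_val, this]; clear this; revert j r; decide +kernel)
  orth j r s := by rw [pair_val, w_val]; revert j r s; decide +kernel
  cl j := ⟨fun r hr s hs => (mem_Ξ j _).2 fun k => (pa_refl' k hr s).trans ((mem_Ξ j s).1 hs k),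
    fun r hr s hs t h => (mem_Ξ j _).2 fun k => by
      have := pa_add j k (r := s) (a := 1) (h.trans (by rw [one_smul]))
      have := (mem_Ξ j r).1 hr k
      have := (mem_Ξ j s).1 hs k
      omega⟩
  w_mem j r := by rw [mem_Ξ, mem_Ξ, w_val]; revert j r; decide +kernel
  two j k := by
    refine ⟨(![![![0, 0, 0, 0], ![-1, -2, 0, -1], ![0, 0, 1, 1], ![0, 2, 0, 0], ![0, -2, -1, -1], ![0, 0, 0, 0], ![0, 0, -1, 1],
      ![1, 2, 2, 1]], ![![-1, -2, -1, -2], ![0, 0, 1, 1], ![0, 0, 1, 1], ![0, 2, 0, 0], ![0, -2, -1, -1], ![0, 0, 0, 0],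
      ![0, 0, -1, 1], ![0, 0, 1, -1]]] : Fin 2 → Fin 8 → Fin 4 → ℤ) j k,
      (![![![0, 0, 0, -2], ![1, 2, 2, 1], ![0, 0, -1, 1], ![0, 0, 0, 0], ![-2, -2, -1, -1], ![2, 0, 0, 0], ![0, 2, 1, 1],
      ![-1, -2, 0, -1]], ![![1, 2, 1, 0], ![1, 2, 2, 1], ![-1, -2, -2, -1], ![0, 0, 0, 0], ![-1, 0, 0, 1], ![2, 0, 0, 0],
      ![-1, 0, 0, -1], ![-1, -2, 0, -1]]] : Fin 2 → Fin 8 → Fin 4 → ℤ) j k, funext fun l => ?_⟩
    simp only [co_simple, Finset.sum_apply, Pi.add_apply, Pi.smul_apply, smul_eq_mul, co_val, w_val, Pi.single_apply]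
    revert j k l; decide +kernel
  span y h := funext fun i => by
    have k : ∀ i : Fin 4, κ (rt (![207, 29, 145, 71] i)) = Pi.single i 1 := fun i => by
      rw [κ_eq]; revert i; decide +kernel
    simpa [k] using h (rt (![207, 29, 145, 71] i))

end H22.O8
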