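/-
Elements of the Weyl group of type `E₈` fixing a root hyperplane of the torus `5⁴` pointwise.
-/
import Cfsg.Agent.H22.O8B

set_option autoImplicit false
set_option linter.unusedSectionVars false
set_option maxRecDepth 100000

namespace H22.O8
open Cfsg Cfsg.Lie H14 H14.O8 H14.RootSys Matrix Subgroup

/-- the statement for one root -/
def P3 (r : I) : Prop := ∀ v ∈ R.W, (∀ s (y : V), y ⬝ᵥ κ r = 0 → y ⬝ᵥ κ (v s) = y ⬝ᵥ κ s) →
  v = 1 ∨ v = R.refl r ∨ v = R.refl (w r) ∨ v = ρ r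

/-- the matrices of the generators -/
def Mg (k : Fin 5) : Matrix (Fin 4) (Fin 4) (ZMod 5) :=
  ![!![4, 0, 0, 0; 1, 1, 0, 0; 0, 0, 1, 0; 0, 0, 0, 1], !![1, 1, 0, 0; 0, 4, 0, 0; 0, 1, 1, 0; 0, 1, 0, 1],
    !![4, 2, 0, 4; 1, 0, 0, 3; 4, 1, 1, 2; 2, 3, 0, 2], !![2, 4, 2, 2; 3, 3, 1, 1; 0, 0, 1, 0; 0, 0, 0, 1],
    !![4, 3, 4, 4; 0, 1, 0, 0; 0, 0, 1, 0; 0, 0, 0, 1]] k

theorem κ_gl (k : Fin 5) (s : I) : κ (ρ (gl k) s) = Mg k *ᵥ κ s := funext fun i => by
  rw [κ_val, gl_val, mulVec, dot_κ]; revert k s i; decide +kernel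

theorem ρρ (a s : I) : ρ a (ρ a s) = s := by rw [← Equiv.Perm.mul_apply, ρ_mul_self]; rfl

theorem P3.gl (k : Fin 5) {r : I} (h : P3 (ρ (gl k) r)) : P3 r := fun v hv H => by
  have c := ρ_C (O8.gl k)
  have k1 : ∀ u : Equiv.Perm I, ρ (O8.gl k) * v * (ρ (O8.gl k))⁻¹ = ρ (O8.gl k) * u * (ρ (O8.gl k))⁻¹ → v = u := fun u e => by
    simpa using e
  have := h (ρ (O8.gl k) * v * (ρ (O8.gl k))⁻¹) (mul_mem (mul_mem c.1 hv) (inv_mem c.1)) fun s y hy => by
    rw [κ_gl, dotProduct_mulVec] at hy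
    rw [Equiv.Perm.mul_apply, Equiv.Perm.mul_apply, κ_gl, dotProduct_mulVec, H _ _ hy, ← dotProduct_mulVec, ← κ_gl]
    simp
  rw [(mem_C.1 c).2 r |>.symm, Aut.refl_conj (C_aut c), Aut.refl_conj (C_aut c), ρ_conj c] at this
  exact this.imp (fun e => k1 1 (by simpa using e)) fun e => e.imp (k1 _) fun e => e.imp (k1 _) (k1 _)

/-- eight independent roots -/
def bs (i : Fin 8) : I := rt (![4, 0, 3, 6, 7, 12, 18, 20] i)

theorem eq_of_pair {s t : I} (h : ∀ i, R.pair (bs i) s = R.pair (bs i) t) : s = t := by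
  have k : ∀ k l : Fin chevE8.rank, ∑ i : Fin 8, (!![0, 1, 0, -1, -1, 0, 0, 1; 1, 0, 1, -1, 1, -1, -1, -1; 1, 0, 1, 0, 0, -1, -1, -1;
      -2, 0, -1, 1, 0, 1, 1, 1; 1, 0, -1, 0, 0, 0, 0, 0; 0, -1, 1, 0, 0, 0, 1, -1; 0, 1, 0, -1, -1, 1, -1, 1;
      0, -1, 0, 1, 1, -1, 0, 0] : Matrix (Fin 8) (Fin 8) ℤ) k i * tabE8.co (bs i) l = if l = k then 1 else 0 := by
    decide +kernel
  have : R.wt s = R.wt t := funext fun l => by
    have e : ∀ x : Fin chevE8.rank → ℤ, x l = ∑ i : Fin 8, _ * (R.co (bs i) ⬝ᵥ x) := fun x => by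
      simp only [dotProduct, Finset.mul_sum, ← mul_assoc, co_val]
      rw [Finset.sum_comm]
      simp only [← Finset.sum_mul]
      rw [Finset.sum_congr rfl fun j _ => congrArg (· * x j) (k l j)]
      simp
    rw [e (R.wt s), e (R.wt t)]
    exact Finset.sum_congr rfl fun i _ => congrArg _ (h i)
  exact R.cf_inj (sub_eq_zero.1 (R.A_inj _ (by rw [mulVec_sub]; exact sub_eq_zero.2 this)))

theorem eq_of_bs {u v : Equiv.Perm I} (hu : u ∈ R.W) (hv : v ∈ R.W) (h : ∀ i, (v (bs i)).val = u (bs i)) : v = u := by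
  have a := R.W_le_Aut (mul_mem (inv_mem hu) hv)
  have b : ∀ i, (u⁻¹ * v) (bs i) = bs i := fun i => by rw [Equiv.Perm.mul_apply, Fin.ext (h i)]; simp
  refine (inv_mul_eq_one.1 (Equiv.ext fun s => eq_of_pair fun i => ?_)).symm
  rw [← b i, Aut.pair_eq a, b]; rfl

theorem P3.base : P3 (rt 130) := fun v hv H => by
  have k : ∀ (i : Fin 8) (t : I), (∀ l : Fin 3, let y : V := ![![1, 0, 4, 0], ![1, 0, 0, 4], ![2, 1, 0, 0]] l
      y 0 * kN t 0 + y 1 * kN t 1 + y 2 * kN t 2 + y 3 * kN t 3 =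
        y 0 * kN (bs i) 0 + y 1 * kN (bs i) 1 + y 2 * kN (bs i) 2 + y 3 * kN (bs i) 3) →
      t.val = bs i ∨ t.val = ![5, 11, 3, 6, 7, 12, 18, 20] i := by decide +kernel
  have a : ∀ i, (v (bs i)).val = bs i ∨ (v (bs i)).val = ![5, 11, 3, 6, 7, 12, 18, 20] i := fun i => k i _ fun l => by
    have := H (bs i) (![![1, 0, 4, 0], ![1, 0, 0, 4], ![2, 1, 0, 0]] l) (by rw [dot_κ]; revert l; decide +kernel)
    rwa [dot_κ, dot_κ] at this
  have b : ∀ u ∈ R.W, (∀ i : Fin 8, 2 ≤ i.val → (u (bs i)).val = bs i) → (v (bs 0)).val = u (bs 0) →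
      (v (bs 1)).val = u (bs 1) → v = u := fun u hu h h0 h1 => eq_of_bs hu hv fun i => by
    by_cases hi : 2 ≤ i.val
    · rw [h i hi]
      exact (a i).elim id fun e => e.trans (by clear e; revert i; decide +kernel)
    · have : i = 0 ∨ i = 1 := by revert i; decide
      rcases this with rfl | rfl <;> assumption
  rcases a 0 with h0 | h0 <;> rcases a 1 with h1 | h1
  · exact .inl (b 1 (one_mem _) (fun _ _ => rfl) h0 h1)
  · refine .inr (.inr (.inl (b _ (R.refl_mem_W _) (fun i => ?_) (h0.trans ?_) (h1.trans ?_))))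
    all_goals rw [refl_val, w_val]; (try revert i); decide +kernel
  · refine .inr (.inl (b _ (R.refl_mem_W _) (fun i => ?_) (h0.trans ?_) (h1.trans ?_)))
    all_goals rw [refl_val]; (try revert i); decide +kernel
  · refine .inr (.inr (.inr (b _ (ρ_C _).1 (fun i => ?_) (h0.trans ?_) (h1.trans ?_))))
    all_goals rw [ρ_val]; (try revert i); decide +kernel

/-- distance from the base root -/
def dep (r : ℕ) : ℕ := dig 4 0x454632366554444533464424424543555436543665634563626444456253533513432346654463354446445663567544565475556362203553554544555466456413374544463676556654265433545354453556554345426446463743333515254325655455645464456535535353224545556754126455 r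

/-- elements fixing a root hyperplane pointwise -/
theorem w3 : W3 := fun r => by
  have k : ∀ r : I, r.val = 130 ∨ ∃ k : Fin 5, dep (gN k r) < dep r := by decide +kernel
  change P3 r
  induction h : dep r using Nat.strong_induction_on generalizing r with
  | _ n ih =>
    rcases k r with e | ⟨k, hk⟩
    · exact (Fin.ext e : r = rt 130) ▸ P3.base
    · exact P3.gl k (ih _ (by rw [gl_val, ← h]; exact hk) _ rfl)

end H22.O8
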