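/-
Groups with a centralizer of `²F₄`-type: the octagon.
-/
import Cfsg.Agent.H22.RF5

set_option autoImplicit false

open Cfsg Subgroup H19 H3.TB MulAction
namespace H22.RF
variable {G : Type*} [Group G] {q : ℕ} {H S Q R Z Z1 Z2 E E1 E2 A B a b l : Subgroup G} {τ g k m x : G}

theorem conj_ne2 (h : x ≠ 1) (g : G) : g⁻¹ * x * g ≠ 1 := by simpa using conj_ne' h g⁻¹
def Fn (A B a : Subgroup G) : Subgroup G := ⨆ g, ⨆ _ : cj g A = a, cj g B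
theorem Fn_cj (h : N(A) ≤ N(B)) (g : G) : Fn A B (cj g A) = cj g B :=
  le_antisymm (iSup₂_le fun k e => by
    rw [cj_le_iff, cj_cj, cj_of_mem_norm (h (mem_norm_iff_cj.2 (by rw [cj_mul, ← e, cj_inv_cj])))])
    (le_iSup₂_of_le (f := fun k (_ : cj k A = cj g A) => cj k B) g rfl le_rfl)
def Cl (A : Subgroup G) : Set (Subgroup G) := Set.range fun g => cj g A
theorem Cl.mk (g : G) (A : Subgroup G) : cj g A ∈ Cl A := ⟨g, rfl⟩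
theorem Cl.self (A : Subgroup G) : A ∈ Cl A := ⟨1, cj_one A⟩
theorem Cl.cj (g : G) (h : a ∈ Cl A) : cj g a ∈ Cl A := let ⟨k, e⟩ := h; ⟨g * k, e ▸ cj_mul g k A⟩
theorem ncard_le [Finite G] {s : Set (Subgroup G)} {n : ℕ} (h : s ⊆ insert A {B | ∃ u ∈ S, cj u a = B}) (h1 : Q ≤ S)
    (h2 : Q ≤ N(a)) (h3 : #S = #Q * n) : s.ncard ≤ n + 1 := by
  refine (Set.ncard_le_ncard h).trans ((Set.ncard_insert_le _ _).trans (Nat.succ_le_succ ?_))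
  have : {B | ∃ u ∈ S, cj u a = B} = orbit (α := Vx G) S a :=
    Set.ext fun B => ⟨fun ⟨u, h1, h2⟩ => ⟨⟨u, h1⟩, h2⟩, fun ⟨u, h1⟩ => ⟨u, u.2, h1⟩⟩
  rw [this, ← Nat.eq_of_mul_eq_mul_left (card_pos Q) ((card_mul_relIndex h1).trans h3)]
  refine (relIndex_stab (Ω := Vx G) S a).ge.trans ?_
  exact relIndex_le_of_le_left (fun g hg => cj_of_mem_norm (h2 hg)) (relIndex_ne_zero' _ _)

namespace Sit
variable [Finite G] (h : Sit q H S Q R Z Z1 Z2 E E1 E2 τ)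
include h
theorem HnZ : N(H) ≤ N(Z) := h.HnE.trans h.EZ
theorem allN (hx : k * τ * k⁻¹ ∈ Z) : k ∈ N(Z) := (Subgroup.inv_mem_iff _).1 (h.HnZ (h.nH (by
  rw [cj_le_iff, inv_inv, cj_cent1]; exact h.HZ.trans (cent_le_cent1 hx))))
omit [Finite G] in
theorem HnZ' (hg : g ∈ H) : cj g Z = Z := cj_of_mem_cent (h.HZ hg)
omit [Finite G] in
theorem ZV (hg : g ∈ H) : Z ≤ cj g (Z ⊔ Z1) := (h.HnZ' hg).ge.trans (cj_mono g le_sup_left)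
variable (e1 : cj m E = E1) (e2 : cj m E1 = E)
include e1 e2
omit e2 in
theorem mZ : cj m Z = Z1 := h.sqE.cj h.sqE1 e1
omit e1 in
theorem mZ1 : cj m Z1 = Z := h.sqE1.cj h.sqE e2
theorem mV : cj m (Z ⊔ Z1) = Z ⊔ Z1 := by rw [cj_sup, h.mZ e1, h.mZ1 e2, sup_comm]
omit [Finite G] h in
theorem mW : cj m (E ⊓ E1) = E ⊓ E1 := by rw [cj_inf, e1, e2, inf_comm]
theorem allc (hx : x ∈ Z) (x1 : x ≠ 1) : ∃ k, k * τ * k⁻¹ = x := by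
  have a1 : m * x * m⁻¹ ∈ Z1 := h.mZ e1 ▸ conj_mem_cj.2 hx
  obtain ⟨u, -, u1⟩ := h.vtr _ a1 (conj_ne' x1 m) τ h.tZ
  obtain ⟨w, -, w1⟩ := h.vtr _ (h.mZ e1 ▸ conj_mem_cj.2 h.tZ) (conj_ne' h.t1 m) _ (h.mZ1 e2 ▸ conj_mem_cj.2 a1)
  rw [← h.HZ (h.SH (h.QS (h.EQ (h.Z1E a1)))) τ h.tZ] at u1
  rw [conj_mul, ← u1] at w1
  exact ⟨m⁻¹ * u⁻¹ * m⁻¹ * w * m, calc
    _ = m⁻¹ * u⁻¹ * m⁻¹ * (w * (m * τ * m⁻¹) * w⁻¹) * m * u * m := by group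
    _ = _ := by rw [w1]; group⟩
theorem tiZ (h1 : x ∈ Z) (h2 : x ∈ cj g Z) (x1 : x ≠ 1) : cj g Z = Z := by
  obtain ⟨k, rfl⟩ := h.allc e1 e2 h1 x1
  refine cj_of_mem_norm ((mul_mem_cancel_left (inv_mem (h.allN h1))).1 (h.HnZ (h.nH ?_)))
  rw [cj_mul, cj_le_iff, inv_inv, cj_cent1]
  exact (cj_mono g h.HZ).trans (cj_cent g Z ▸ cent_le_cent1 h2)
theorem tiP (ha : a ∈ Cl Z) (hb : b ∈ Cl Z) (h1 : x ∈ a) (h2 : x ∈ b) (x1 : x ≠ 1) : a = b := by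
  obtain ⟨g, rfl⟩ := ha
  obtain ⟨k, rfl⟩ := hb
  have := h.tiZ e1 e2 (g := k⁻¹ * g) (mem_cj.1 h2) (by rw [cj_mul, mem_cj_inv]; simpa [mul_assoc] using h1) (conj_ne2 x1 k)
  rwa [cj_mul, eq_comm, ← cj_eq_iff, eq_comm] at this
omit e1 e2 [Finite G] in
theorem cov0 (h1 : x ∈ Z ⊔ Z1) : x ∈ Z ∨ ∃ u ∈ S, x ∈ cj u Z1 := by
  have c := h.Z1E.trans (h.EQ.trans (h.QS.trans (h.SH.trans h.HZ)))
  obtain ⟨z, z1, v, v1, rfl⟩ := (mem_sup_of_norm (c.trans (cent_le_norm _))).1 h1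
  by_cases e : v = 1
  · exact .inl (by simpa [e])
  obtain ⟨u, u1, u2⟩ := h.vtr v v1 e z z1
  exact .inr ⟨u, u1, by rw [c v1 z z1, ← u2]; exact conj_mem_cj.2 v1⟩
omit e2 in
theorem Z1P (u : G) : cj u Z1 ∈ Cl Z := ⟨u * m, by rw [← h.mZ e1]; exact cj_mul _ _ _⟩
theorem pts (ha : a ∈ Cl Z) (e : a ≤ Z ⊔ Z1) : a = Z ∨ ∃ u ∈ S, a = cj u Z1 := by
  obtain ⟨g, rfl⟩ := id ha
  have t := conj_mem_cj (g := g).2 h.tZ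
  exact (h.cov0 (e t)).imp (fun c => h.tiP e1 e2 ha (Cl.self Z) t c (conj_ne' h.t1 g))
    fun ⟨u, u1, c⟩ => ⟨u, u1, h.tiP e1 e2 ha (h.Z1P e1 u) t c (conj_ne' h.t1 g)⟩
theorem pts' (ha : a ∈ Cl Z) (e : a ≤ Z ⊔ Z1) : ∃ n ∈ N(Z ⊔ Z1) ⊓ N(E ⊓ E1), cj n Z = a := by
  rcases h.pts e1 e2 ha e with rfl | ⟨u, u1, rfl⟩
  · exact ⟨1, one_mem _, cj_one _⟩
  · exact ⟨u * m, mul_mem ⟨h.SV u1, h.SW u1⟩ ⟨mem_norm_iff_cj.2 (h.mV e1 e2), mem_norm_iff_cj.2 (mW e1 e2)⟩,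
      by rw [cj_mul, h.mZ e1]⟩
theorem VnW : N(Z ⊔ Z1) ≤ N(E ⊓ E1) := fun n hn => by
  have k : ∀ g, cj g Z ≤ Z ⊔ Z1 → E ⊓ E1 ≤ cj g E := fun g e => by
    obtain ⟨n, n1, n2⟩ := h.pts' e1 e2 (Cl.mk g Z) e
    rw [← Fn_cj h.ZnE, ← n2, Fn_cj h.ZnE, ← cj_of_mem_norm n1.2]
    exact cj_mono n inf_le_left
  refine mem_norm_of_cj_le (le_inf (cj_le_iff.2 (k _ (cj_le_of_mem_norm (inv_mem hn) le_sup_left))) (cj_le_iff.2 ?_))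
  rw [← e1, cj_cj, e1]
  exact k _ (by rw [cj_mul, h.mZ e1]; exact cj_le_of_mem_norm (inv_mem hn) le_sup_right)
theorem ft (ha : a ∈ Cl Z) (hl : l ∈ Cl (Z ⊔ Z1)) (e : a ≤ l) : ∃ k, cj k Z = a ∧ cj k (Z ⊔ Z1) = l := by
  obtain ⟨g, rfl⟩ := hl
  obtain ⟨n, n1, n2⟩ := h.pts' e1 e2 (Cl.cj g⁻¹ ha) (le_cj_iff.1 e)
  exact ⟨g * n, by rw [cj_mul, n2, cj_cj_inv], by rw [cj_mul, cj_of_mem_norm n1.1]⟩
theorem ft2 (ha : a ∈ Cl Z) (hb : b ∈ Cl Z) (hl : l ∈ Cl (Z ⊔ Z1)) (e : a ≤ l) (e' : b ≤ l) (n : a ≠ b) :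
    ∃ k, cj k Z = a ∧ cj k (Z ⊔ Z1) = l ∧ cj k Z1 = b := by
  obtain ⟨g, rfl, rfl⟩ := h.ft e1 e2 ha hl e
  rcases h.pts e1 e2 (Cl.cj g⁻¹ hb) (le_cj_iff.1 e') with c | ⟨u, u1, c⟩
  · exact (n (by rw [← c, cj_cj_inv])).elim
  · exact ⟨g * u, by rw [cj_mul, h.HnZ' (h.SH u1)], by rw [cj_mul, cj_of_mem_norm (h.SV u1)],
      by rw [cj_mul, ← c, cj_cj_inv]⟩
theorem lns (hl : l ∈ Cl (Z ⊔ Z1)) (e : Z ≤ l) : ∃ k ∈ H, cj k (Z ⊔ Z1) = l := by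
  obtain ⟨n, n1, rfl⟩ := h.ft e1 e2 (Cl.self Z) hl e
  replace n1 := mem_norm_iff_cj.2 n1
  obtain ⟨k, k1, k2⟩ := h.sylH.sconj (h.sylH.Jnorm (h.ZH n1))
  exact ⟨k, k1, cj_eq_iff.2 (by
    rw [cj_cj, cj_of_mem_norm (h.nV (mul_mem (inv_mem (cent_le_norm _ (h.HZ k1))) n1)
      (mem_norm_iff_cj.2 (by rw [cj_mul, ← k2, cj_inv_cj]))).1])⟩
omit e2 in
theorem EfZ1 (k : G) : Fn Z E (cj k Z1) = cj k E1 := by rw [← h.mZ e1, cj_cj, Fn_cj h.ZnE, cj_mul, e1]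
theorem ft3 {w l' : Subgroup G} (p : Pth (Cl Z) (Cl (Z ⊔ Z1)) a l w l' b) : ∃ k, cj k Z = w ∧ cj k (Z ⊔ Z1) = l ∧
    cj k Z1 = a ∧ cj k Z2 = b ∧ Fn Z E b = cj k E2 ∧ Z2 ≤ E := by
  obtain ⟨g, rfl, rfl, rfl⟩ := h.ft2 e1 e2 p.hw p.ha p.hl p.wl p.al p.n1.symm
  obtain ⟨k, k1, k2⟩ := h.lns e1 e2 (Cl.cj g⁻¹ p.hl') (by simpa using cj_mono g⁻¹ p.wl')
  rcases h.pts e1 e2 (Cl.cj (g * k)⁻¹ p.hb) (by rw [cj_le_iff, inv_inv, cj_mul, k2, cj_cj_inv]; exact p.bl)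
    with c | ⟨u, u1, c⟩
  · exact (p.n3 (by rw [cj_eq_iff.1 c, inv_inv, cj_mul, h.HnZ' k1])).elim
  have ku := mul_mem k1 (h.SH u1)
  obtain ⟨r, r1, r2, r3⟩ := (h.ti _ ku fun n => p.n2 (by
    rw [← cj_of_mem_norm (h.nV (cent_le_norm _ (h.HZ ku)) n).1, cj_mul, cj_of_mem_norm (h.SV u1), k2, cj_cj_inv])).2
  have rS := h.RS r1
  rw [cj_eq_iff, inv_inv, cj_cj, mul_assoc, cj_mul] at c
  refine ⟨g * r, by rw [cj_mul, h.HnZ' (h.SH rS)], by rw [cj_mul, cj_of_mem_norm (h.SV rS)],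
    by rw [cj_mul, cj_of_mem_cent (h.RZ1 r1)], by rw [cj_mul, ← r2, c], by rw [c, cj_cj, h.EfZ1 e1, cj_mul, r3, cj_cj], ?_⟩
  rw [← cj_le_cj (g := r), ← r2, cj_of_mem_norm (h.HE (h.SH rS))]
  exact cj_le_of_mem_norm (h.HE ku) h.Z1E
theorem other (ha : a ∈ Cl Z) (hl : l ∈ Cl (Z ⊔ Z1)) (e : a ≤ l) : ∃ b ∈ Cl Z, b ≤ l ∧ b ≠ a := by
  obtain ⟨g, rfl, rfl⟩ := h.ft e1 e2 ha hl e
  obtain ⟨v, v1, v2⟩ := h.exZ1
  exact ⟨_, h.Z1P e1 g, cj_mono g le_sup_right, fun c => v2 (h.ZZ v (cj_inj.1 c ▸ v1) v1)⟩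

theorem ax : Ax (Cl Z) (Cl (Z ⊔ Z1)) (Fn Z E) (Fn (Z ⊔ Z1) (E ⊓ E1)) := by
  have fE := Fn_cj h.ZnE
  have fW := Fn_cj (h.VnW e1 e2)
  have VE := h.VW.trans inf_le_left
  have VE1 := h.VW.trans inf_le_right
  have p2 : ∀ {a l w l' b}, Pth (Cl Z) (Cl (Z ⊔ Z1)) a l w l' b → Fn Z E a ⊓ Fn Z E b ≤ w := fun p => by
    obtain ⟨k, rfl, -, rfl, -, c, -⟩ := h.ft3 e1 e2 p
    rw [c, h.EfZ1 e1, ← cj_inf, inf_comm]
    exact cj_mono k h.m2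
  have WE : ∀ {a l}, a ∈ Cl Z → l ∈ Cl (Z ⊔ Z1) → a ≤ l → Fn (Z ⊔ Z1) (E ⊓ E1) l ≤ Fn Z E a := fun ha hl e => by
    obtain ⟨g, rfl, rfl⟩ := h.ft e1 e2 ha hl e
    rw [fE, fW]; exact cj_mono g inf_le_left
  have WW : ∀ {a l l'}, a ∈ Cl Z → l ∈ Cl (Z ⊔ Z1) → l' ∈ Cl (Z ⊔ Z1) → a ≤ l → a ≤ l' → l ≠ l' →
      Fn (Z ⊔ Z1) (E ⊓ E1) l ⊓ Fn (Z ⊔ Z1) (E ⊓ E1) l' ≤ a := fun ha hl hl' c c' n => by
    obtain ⟨b, b1, b2, b3⟩ := h.other e1 e2 ha hl c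
    obtain ⟨d, d1, d2, d3⟩ := h.other e1 e2 ha hl' c'
    exact (inf_le_inf (WE b1 hl b2) (WE d1 hl' d2)).trans (p2 ⟨b1, hl, ha, hl', d1, b2, c, c', d2, b3, n, d3.symm⟩)
  refine ⟨fun g _ => Cl.cj g, fun g _ => Cl.cj g, ?_, ?_, ?_, h.tiP e1 e2, ?_, fun hl ha hb c c' n => ?_, ?_, ?_,
    fun ha hl e => ?_, WE, ?_, ?_, ?_, ?_, WW, ?_, fun ha hb hl c c' n => ?_, fun {a l w l' b k s} p s1 s2 hk c n d => ?_,
    p2, ?_, ?_⟩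
  · rintro g _ ⟨k, rfl⟩
    rw [cj_cj, fW, fW, cj_mul]
  · rintro _ ⟨g, rfl⟩ ⟨k, e⟩
    have := congrArg (fun A : Subgroup G => #A) e
    simp only [card_cj, h.cZ, h.cV] at this
    have := h.q2
    nlinarith
  · rintro _ ⟨g, rfl⟩
    exact ne_bot_of_mem (conj_mem_cj.2 h.tZ) (conj_ne' h.t1 g)
  · rintro _ x ⟨g, rfl⟩ hx -
    rcases h.cov0 (mem_cj.1 hx) with c | ⟨u, u1, c⟩
    · exact ⟨_, Cl.mk g Z, cj_mono g le_sup_left, mem_cj.2 c⟩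
    · exact ⟨_, Cl.cj g (h.Z1P e1 u), cj_mono g (cj_le_of_mem_norm (h.SV u1) le_sup_right), mem_cj.2 c⟩
  · obtain ⟨g, rfl, rfl, rfl⟩ := h.ft2 e1 e2 ha hb hl c c' n
    exact cj_sup _ _ _
  · rintro _ ⟨g, rfl⟩
    exact fE g ▸ ab_of_sq (sq_cj h.eE g)
  · rintro _ x ⟨g, rfl⟩
    exact fE g ▸ sq_cj h.eE g x
  · obtain ⟨g, rfl, rfl⟩ := h.ft e1 e2 ha hl e
    rw [fE]; exact cj_mono g VE
  · rintro _ ⟨g, rfl⟩ K hK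
    have k : ∀ k ∈ H, cj k (Z ⊔ Z1) ≤ cj g⁻¹ K := fun k k1 => cj_le_iff.1 (hK _ (Cl.cj g (Cl.mk k _))
      (cj_mono g (h.ZV k1)))
    obtain ⟨a, a1, b, b1, c⟩ := h.genW
    rw [fE, cj_le_iff]
    intro e he
    obtain ⟨d, d1, d2⟩ := h.spr e he
    have := cj_mono d c d2
    rw [cj_sup d _ (cj b _), cj_sup d _ (cj a _), cj_cj, cj_cj] at this
    exact sup_le (sup_le (k d d1) (k _ (mul_mem d1 a1))) (k _ (mul_mem d1 b1)) this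
  · rintro _ s ⟨g, rfl⟩ c d
    rw [← cj_norm, mem_cj] at c
    rw [← cj_cent, mem_cj]
    exact h.HZ (h.twoH c (by simpa using (two_of_sq d).e_conj g⁻¹))
  · rintro _ s ⟨g, rfl⟩ c d
    rw [← cj_cent, mem_cj] at c
    have t : PiE {2} (g⁻¹ * s * g) := by simpa using (two_of_sq d).e_conj g⁻¹
    obtain ⟨a, a1, a2⟩ := h.sylH.sle_cj (zpowers_le.2 (h.twoH (cent_le_norm _ c) t)) (piG_zpowers.2 t)
    obtain ⟨b, b1, b2⟩ := h.inv _ (mem_cj.1 (a2 (mem_zpowers _))) (by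
      calc _ = (g * a)⁻¹ * (s * s) * (g * a) := by group
        _ = 1 := by rw [d]; group)
    refine ⟨_, h.Z1P e1 (g * (a * b)), _, Cl.mk (g * (a * b)) _, ?_, cj_mono _ le_sup_right, ?_⟩
    · rw [cj_mul]; exact cj_mono g (h.ZV (mul_mem a1 b1))
    · rw [h.EfZ1 e1, cj_mul, cj_mul]; exact mem_cj.2 (mem_cj.2 b2)
  · rintro _ e ⟨g, rfl⟩ he
    rw [fE] at he
    obtain ⟨d, d1, d2⟩ := h.spr _ (mem_cj.1 he)
    exact ⟨_, Cl.mk (g * d) _, by rw [cj_mul]; exact cj_mono g (h.ZV d1),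
      by rw [fW, cj_mul]; exact mem_cj.2 d2⟩
  · rintro a _ ha ⟨g, rfl⟩ x ⟨x1, x2⟩
    replace x2 : x ∈ Fn _ _ (cj g _) := x2
    rw [fW, mem_cj] at x2
    rw [mem_cj]
    obtain ⟨k, c⟩ := Cl.cj g⁻¹ ha
    replace x1 : g⁻¹ * x * g ∈ cj k Z := by rw [show cj k Z = _ from c, mem_cj_inv]; simpa [mul_assoc] using x1
    generalize g⁻¹ * x * g = x at x1 x2
    by_cases x0 : x = 1
    · exact x0 ▸ one_mem _
    obtain ⟨t, ht⟩ := h.allc e1 e2 (mem_cj.1 x1) (conj_ne2 x0 k)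
    obtain ⟨y, y1, y2, y3, -⟩ := h.exy
    have e : k * t * τ * (k * t)⁻¹ = x := by
      rw [mul_assoc k, mul_inv_rev, mul_assoc k, ← mul_assoc (t * τ), ht]; group
    obtain ⟨n, n1, n2 | n2⟩ := h.CL h.cE h.eE y1 y2 (h.two (h.QS y3)) (e ▸ x2.1)
    · exact mem_sup_left (e ▸ n1 ▸ conj_mem_of_norm (h.EZ (mem_norm_iff_cj.2 n2)) h.tZ)
    have a1 : cj (n * m) Z = Z := cj_of_mem_norm (h.EZ (mem_norm_iff_cj.2 (by rw [cj_mul, e1, n2])))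
    have a2 : x ∈ cj n (Z ⊔ Z1) := e ▸ n1 ▸ conj_mem_cj.2 (mem_sup_left h.tZ)
    by_cases c : cj n (Z ⊔ Z1) = Z ⊔ Z1
    · exact c ▸ a2
    refine mem_sup_left (WW (Cl.self Z) (Cl.mk n _) (Cl.self _) ?_ le_sup_left c ⟨?_, ?_⟩)
    · rw [← h.mV e1 e2, cj_cj]; exact a1.ge.trans (cj_mono _ le_sup_left)
    · rw [fW]; exact cj_mono n h.VW a2
    · rw [← cj_one (Z ⊔ Z1), cj_one (Z ⊔ Z1), ← cj_one (Z ⊔ Z1)]
      simpa using (fW 1).ge (by simpa using x2)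
  · obtain ⟨g, rfl, rfl, rfl⟩ := h.ft2 e1 e2 ha hb hl c c' n
    rw [fE, fW, h.EfZ1 e1, cj_inf]
  · obtain ⟨g, rfl, rfl, rfl, rfl, -, zE⟩ := h.ft3 e1 e2 p
    obtain ⟨s, s0, rfl⟩ := mem_cj'.1 s1
    replace s1 := s0
    obtain ⟨e, he, c1⟩ := h.m1 s s1 fun c => s2 (by simp [c])
    have sC := ab_of_sq h.eE (zE s1)
    have t : PiE {2} (m * s * m⁻¹) := (two_of_sq (h.eE s (zE s1))).e_conj m
    have a1 : m * s * m⁻¹ ∈ N(Z) := by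
      rw [← h.mZ1 e2, ← cj_norm, conj_mem_cj]; exact cent_le_norm _ (cent_mono h.Z1E sC)
    have a2 : m * s * m⁻¹ ∈ S := h.HVS a1 (by
      rw [← h.mV e1 e2, ← cj_norm, conj_mem_cj]; exact cent_le_norm _ (cent_mono VE sC)) t
    obtain ⟨r, r1, r2⟩ := h.lns e1 e2 (Cl.cj (m * g⁻¹) hk) (by
      rw [← h.mZ1 e2, cj_mul]; exact cj_mono m (cj_le_iff.1 c))
    have a3 : m * s * m⁻¹ ∈ cj r S := mem_cj.2 (h.HVS (by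
      simpa using mul_mem (mul_mem (inv_mem (cent_le_norm _ (h.HZ r1))) a1) (cent_le_norm _ (h.HZ r1))) (by
      rw [← mem_cj, cj_norm, r2, ← cj_norm, mem_cj]; convert d using 1; group) (by simpa using t.e_conj r⁻¹))
    have a4 := (h.ti r r1 fun c => n (by
      rw [cj_of_mem_norm (h.nV (cent_le_norm _ (h.HZ r1)) c).1, ← h.mV e1 e2, cj_mul, cj_inj, eq_comm, cj_eq_iff,
        inv_inv] at r2
      exact r2)).1 _ a2 a3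
    have := h.QE (commutator_mem_commutator a4 (e2 ▸ conj_mem_cj.2 he))
    rw [← h.mZ1 e2, mem_cj] at this
    exact c1 (by convert this using 1; rw [commutatorElement_def]; group)
  · rintro _ ⟨g, rfl⟩
    obtain ⟨a, a1, b, b1, c, d⟩ := h.a14
    refine ⟨_, Cl.mk g Z, _, h.Z1P e1 g, cj_mono g le_sup_left, cj_mono g le_sup_right, _, fE g ▸ conj_mem_cj.2 a1, _,
      h.EfZ1 e1 g ▸ conj_mem_cj.2 b1, ?_, ?_⟩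
    · convert conj_mem_cj (g := g).2 c using 1; group
    · convert conj_ne' d g using 1; group
  · rintro _ ⟨g, rfl⟩ c
    rw [fW, cj_le_cj] at c
    have := card_le c
    rw [h.cV, h.cW] at this
    exact (Nat.pow_lt_pow_right h.q2 (by omega)).not_ge this

theorem hasT : HasT G 0 8 pA q (q ^ 2) := by
  obtain ⟨k, k1, k2, -⟩ := h.gen
  have k3 : cj k (Z ⊔ Z1) ≠ Z ⊔ Z1 := fun e => k2 (h.HV k1 (mem_norm_iff_cj.2 e))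
  obtain ⟨r, r1, r2, -⟩ := (h.ti k k1 k2).2
  have q2 := h.q2
  refine (h.ax e1 e2).hasT (S := S) (Cl.self Z) (Cl.self _) le_sup_left (fun u a v b c => h.ft e1 e2 a b c)
    ⟨_, Cl.mk k _, h.ZV k1, k3⟩ (h.other e1 e2 (Cl.self Z) (Cl.self _) le_sup_left)
    (ncard_le (A := Z ⊔ Z1) (a := Z ⊔ Z2) (fun l hl => ?_) h.QS ?_ (by rw [h.cS, h.cQ]; ring))
    (ncard_le (A := Z) (a := Z1) (fun a ha => ?_) h.RS (norms_of_cents h.RZ1) (by rw [h.cS, h.cR]; ring))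
    (le_inf (norms_of_cents (h.SH.trans h.HZ)) h.SV) (by rw [h.cS]; ring) h.syl.pi (fun n hn => ?_)
    (fun K k1 k2 k3 => ?_) (by nlinarith) q2
  · obtain ⟨t, t1, rfl⟩ := h.lns e1 e2 hl.1 hl.2
    refine or_iff_not_imp_left.2 fun c => ?_
    obtain ⟨r, r1, r2, -⟩ := (h.ti t t1 fun n => c (cj_of_mem_norm (h.nV (cent_le_norm _ (h.HZ t1)) n).1)).2
    exact ⟨r, h.RS r1, by rw [cj_sup, cj_sup, r2, h.HnZ' t1, h.HnZ' (h.SH (h.RS r1))]⟩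
  · refine norms_of_commg_le' ((commutator_mono le_rfl (sup_le h.ZE ?_)).trans (h.QE.trans le_sup_left))
    rw [← cj_le_cj (g := r), ← r2, cj_of_mem_norm (h.HE (h.SH (h.RS r1)))]
    exact cj_le_of_mem_norm (h.HE k1) h.Z1E
  · exact (h.pts e1 e2 ha.1 ha.2).imp_right fun ⟨u, a, b⟩ => ⟨u, a, b.symm⟩
  · exact mem_norm_of_cj_le fun s hs => h.HVS (cj_le_of_mem hn.1 (norms_of_cents (h.SH.trans h.HZ)) hs)
      (cj_le_of_mem hn.2 h.SV hs) ((h.syl.pi.J n).elt hs)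
  · have o : PiG {2}ᶜ K := .of_not_dvd (mt even_iff_two_dvd.2 (Nat.not_even_iff_odd.2 k3))
    have c := cents_symm ((h.syl.pi.of_le h.QS).cents_of_norms o (k2.trans (h.ZH.trans h.HnQ))
      (le_top.trans normalIn_top.norm))
    exact (h.syl.pi.of_le ((le_inf (c.trans (cent_le_cent1 (h.EQ (h.ZE h.tZ)))) c).trans
      (h.cQZ.trans (h.ZE.trans (h.EQ.trans h.QS))))).eq_bot o
end Sit

end H22.RF
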