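import Cfsg.Agent.H22.RG1

/-! Small-dimensional pairs of regular unipotent generators. -/

set_option autoImplicit false

namespace H22.RG

open Module H12 Matrix

variable {F : Type*} [Field F]

theorem mul_closed {m : ℕ} {w g : (Fin (m + 3) → F) ≃ₗ[F] (Fin (m + 3) → F)} {X : Subgroup _}
    (hw : IsJ w) (hX : w ∈ X) (hg : g ∈ X) {a κ : F} (c : ℤ) (ha : a • g (e 0) = e 0)
    (h : ∀ x, a * (f (m + 2) (g x) + f (m + 1) (g x)) =
      c * (f (m + 2) x + f (m + 1) x) + κ * f (m + 2) x) :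
    ∀ r ∈ A X, ∀ s ∈ A X, κ * r * s ∈ A X := fun r hr s hs => by
  have h1 := T_down hw hX hr (j := m) (by omega) hs
  have h2 := T_conj hg ha h1 (χ := c • ((r * s) • (f (m + 2) + f (m + 1))) + (κ * r * s) • f (m + 2))
    fun x => by simp; linear_combination (-r * s) * h x
  exact show (κ * r * s) • f (m + 2) ∈ T X by simpa using sub_mem h2 (zsmul_mem h1 c)

theorem pow_two_eig {V : Type*} [AddCommGroup V] [Module F V] {g : V ≃ₗ[F] V} {a z ρ : F} {v : V}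
    {φ : Dual F V} (h : ∀ x, g (g x) = (a + z) • g x - (a * z) • x + (ρ * φ x) • v)
    (hv : g v = a • v) (k : ℕ) (x : V) :
    (a - z) ^ 2 • (g ^ (k + 1)) x = ((a - z) * (a * z ^ (k + 1) - z * a ^ (k + 1))) • x +
      ((a - z) * (a ^ (k + 1) - z ^ (k + 1))) • g x +
      (ρ * φ x * ((k + 1) * a ^ k * (a - z) - (a ^ (k + 1) - z ^ (k + 1)))) • v := by
  induction k with
  | zero => simp; module
  | succ k ih =>
    rw [pow_succ' g, LinearEquiv.mul_apply, ← map_smul, ih, map_add, map_add, map_smul, map_smul,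
      map_smul, h, hv]
    push_cast
    module

variable [Finite F]

local macro "mat" : tactic =>
  `(tactic| (ext i j; fin_cases i <;> fin_cases j <;> simp [Jm, mul_apply, Fin.sum_univ_succ] <;>
    grind))

local macro "vec" h:term : tactic =>
  `(tactic| (intro x; ext i; fin_cases i <;>
    simp [$h:term, e, f, mulVec, dotProduct, Fin.sum_univ_succ, vecHead, vecTail] <;> grind))

local macro "sca" h:term : tactic =>
  `(tactic| (intro x; simp [$h:term, e, f, mulVec, dotProduct, Fin.sum_univ_succ] <;> grind))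

local macro "ve0" h:term : tactic =>
  `(tactic| (ext i; fin_cases i <;>
    simp [$h:term, e, mulVec, dotProduct, Fin.sum_univ_succ] <;> grind))

theorem two_o5 (h2 : (2 : F) ≠ 0) : Two F 5 := by
  obtain ⟨s, hs, hg⟩ := exists_gen (F := F)
  obtain ⟨M, hM⟩ : ∃ M, s / (-2) = 4 * M + 64 := ⟨(s / (-2) - 64) / 2 / 2, by grind⟩
  refine two_of_g !![1, -2, 0, 0, -M; 0, -1, -2, 0, -M; 0, 0, -1, -2, 0; 0, 0, 0, -1, -2;
    0, 0, 0, 0, -1] !![-1, 0, 0, -M, -4 * M - 32; 0, 1, 0, 0, 16 + M; 0, 0, 1, 0, -8; 0, 0, 0, 1, 4;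
    0, 0, 0, 0, -1] (by simp [det_succ_column_zero, Fin.sum_univ_succ]) (by mat)
    fun w X hw hX g h1 h3 => all_of_mul (neg_ne_zero.2 h2) hs hg
      (mul_closed hw hX h1 (a := -1) (-1) (by ve0 h3) (by sca h3)) ?_
  exact hM ▸ mem_A_of (by omega) (mul_mem h1 h1) (by vec h3)

theorem two_o4 (h2 : (2 : F) ≠ 0) (h3 : (3 : F) ≠ 0) : Two F 4 := by
  obtain ⟨s, hs, hg⟩ := exists_gen (F := F)
  obtain ⟨a, ha⟩ : ∃ a : F, 2 * a = 1 := ⟨2⁻¹, by grind⟩
  obtain ⟨M, hM⟩ : ∃ M, s / (-1) = M + 21 * a ^ 4 := ⟨s / (-1) - 21 * a ^ 4, by ring⟩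
  refine two_of_g !![1, 1, 3 * a, -3 * a ^ 2 - M; 0, 2, 3 * a, -M; 0, 0, 1, a ^ 2; 0, 0, 0, a]
    !![a, -2, M, 27 * a ^ 5 + 3 * a * M; 0, 2, 0, -1 - a ^ 3 - M; 0, 0, 2, 1; 0, 0, 0, a]
    (by simp [det_succ_column_zero, Fin.sum_univ_succ, ha]) (by mat)
    fun w X hw hX g h1 h4 => all_of_mul (neg_ne_zero.2 one_ne_zero) hs hg
      (mul_closed hw hX h1 (a := 2) 4 (by ve0 h4) (by sca h4)) ?_
  obtain ⟨k, hk, hq⟩ := pow_card_sub h2
  have h5 : (k + 1 : F) = -1 := by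
    have := Fintype.ofFinite F
    have := FiniteField.cast_card_eq_zero F
    rw [← Nat.card_eq_fintype_card, ← hq] at this
    push_cast at this
    grind
  have h6 : a ^ (k + 1) = 1 := by
    rw [← one_mul (a ^ _), ← congrArg (· * a ^ (k + 1)) hk, ← mul_pow, ha, one_pow]
  have h7 : a ^ k = 2 := by rw [pow_succ] at h6; grind
  refine hM ▸ mem_A_of (by omega) (pow_mem h1 (k + 1)) fun x => ?_
  have := pow_two_eig (g := g) (a := a) (z := 2) (ρ := 3 * a ^ 2 * M + 63 * a ^ 6) (v := e 0)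
    (φ := f 3) (by vec h4) (by ve0 h4) k x
  rw [h5, h6, h7, hk] at this
  refine smul_right_injective _ (pow_ne_zero 2 (show a - 2 ≠ 0 by grind)) (this.trans ?_)
  match_scalars <;> grind

theorem two_o3 (h2 : (2 : F) ≠ 0) {K s : F} (hK : K ≠ 0) (hs : s ≠ 0)
    (hg : ∀ x, x ≠ 0 → ∃ k, s ^ k = x)
    (H : ∀ B : AddSubgroup F, (∀ a ∈ B, ∀ b ∈ B, K * a * b ∈ B) → K ^ 2 + 12 ∈ B →
      (K ^ 2 + 12) ^ 4 ∈ B → s / K ∈ B) : Two F 3 := by
  refine two_of_g !![1, -2, 2 + K; 0, -1, K; 0, 0, -1]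
    !![-1, 2 + K, -K ^ 2 - 4; 0, 1, 2 - K; 0, 0, -1] (by simp [det_fin_three]) (by mat)
    fun w X hw hX g h1 h4 => ?_
  have h5 := mul_closed hw hX h1 (a := -1) (κ := K) (-1) (by ve0 h4) (by sca h4)
  have h6 : K ^ 2 + 12 ∈ A X := mem_A_of (by omega) (mul_mem h1 h1) (by vec h4)
  refine all_of_mul hK hs hg h5 (H _ h5 h6 ⟨by simp [f_e], ?_⟩)
  have h7 := T_down hw hX h6 (j := 0) (by omega) h6
  have h8 := h7.2.comm (h7.2.conj' hX (hw 0) (ψ := ((K ^ 2 + 12) * (K ^ 2 + 12)) • f 2)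
    fun x => by simp [hw.f_w (j := 1), mul_add]) h7.1 (by simp [f_e]) (by simp [f_e])
  rw [tr_smul] at h8
  convert h8 using 1
  exact LinearMap.ext fun x => by simp [f_e]; grind

theorem two_o3' (h2 : (2 : F) ≠ 0) (h3 : (3 : F) ≠ 0) : Two F 3 := by
  obtain ⟨s, hs, hg, hr⟩ : ∃ s : F, s ≠ 0 ∧ (∀ x, x ≠ 0 → ∃ k, s ^ k = x) ∧ s ^ 2 + 3 ≠ 0 := by
    obtain ⟨s, hs, hg⟩ := exists_gen (F := F)
    by_cases h : s ^ 2 + 3 = 0
    · refine ⟨s⁻¹, inv_ne_zero hs, fun x hx => ?_, fun h' => pow_ne_zero 3 h2 (by grind)⟩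
      obtain ⟨k, hk⟩ := hg x⁻¹ (inv_ne_zero hx)
      exact ⟨k, by rw [inv_pow, hk, inv_inv]⟩
    · exact ⟨s, hs, hg, h⟩
  obtain ⟨K, hK1⟩ : ∃ K, K = 2 * s := ⟨_, rfl⟩
  have hK : K ≠ 0 := by grind
  replace hr : K ^ 2 + 12 ≠ 0 := by grind
  refine two_o3 h2 hK hs hg fun B h1 h4 h5 => ?_
  have mu : ∀ a b, a / K ∈ B → b / K ∈ B → a * b / K ∈ B := fun a b ha hb => by
    convert h1 _ ha _ hb using 1; field_simp
  have po : ∀ a, a / K ∈ B → ∀ k, a ^ (k + 1) / K ∈ B := fun a ha k => by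
    induction k with
    | zero => simpa using ha
    | succ k ih => rw [pow_succ]; exact mu _ _ ih ha
  have iv : ∀ a, a / K ∈ B → a⁻¹ / K ∈ B := fun a ha => by
    by_cases h : a = 0
    · simp [h]
    obtain ⟨m, hm, -⟩ := pow_card_sub h
    convert po a ha (m + m) using 2
    rw [add_assoc, pow_add, hm, mul_one]
    exact inv_eq_of_mul_eq_one_left (by rw [← pow_succ, hm])
  have h6 : K * (K ^ 2 + 12) / K ∈ B := by simpa [hK] using h4
  have h7 := mu _ _ (po _ h6 3) (iv (K * (K ^ 2 + 12) ^ 4) (by simpa [hK] using h5))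
  have h8 : 1 / K ∈ B := by convert mu _ _ h6 (iv _ h6) using 2; field_simp
  have h9 := mu _ _ (iv 24 (by convert nsmul_mem h8 24 using 1; grind)) (show 12 * K / K ∈ B by
    convert sub_mem h6 h7 using 1; field_simp; ring)
  convert h9 using 2
  have : (24 : F) ≠ 0 := by convert mul_ne_zero h3 (pow_ne_zero 3 h2) using 1; norm_num
  rw [hK1]; field_simp; ring

theorem two_3 [CharP F 3] : Two F 3 := by
  obtain ⟨s, hs, hg⟩ := exists_gen (F := F)
  obtain ⟨K, rfl⟩ := surjective_frobenius F 3 s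
  have hK : K ≠ 0 := by simpa using hs
  refine two_o3 (by grind) hK hs hg fun B _ h _ => ?_
  convert h using 1
  rw [frobenius_def]; grind

theorem two_43 [CharP F 3] : Two F 4 := by
  obtain ⟨s, hs, hg⟩ := exists_gen (F := F)
  refine two_of_u !![0, 0, s, 1; 0, s, 1, 0; 0, 1, 0, 0; 1, 0, 0, 0]
    !![1, 1, 0, 0; 0, 1, 1, s; 0, 0, 1, 1; 0, 0, 0, 1]
    (by simp [det_succ_column_zero, Fin.sum_univ_succ, Fin.succAbove]; ring) (by mat)
    fun w X hw hX g h1 h4 => all_of_mul one_ne_zero hs hg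
      (mul_closed hw hX h1 (a := 1) 1 (by ve0 h4) (by sca h4)) ?_
  have h5 : 1 ∈ A X := mem_A_of (by omega) (mul_mem h1 (mul_mem h1 h1)) (by vec h4)
  have h6 := T_one hw hX h5 h5 2 0 rfl
  have h7 := T_conj h1 (a := 1) (by ve0 h4) h6 (χ := (1 : F) • f 1 + (1 : F) • f 2 + s • f 3)
    (by sca h4)
  rw [div_one, mem_A]
  convert sub_mem (sub_mem h7 h6) (T_one hw hX h5 h5 1 1 rfl) using 1
  abel

theorem two_52 [CharP F 2] : Two F 5 := by
  obtain ⟨s, hs, hg⟩ := exists_gen (F := F)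
  refine two_of_u !![0, 0, s, 0, 1; 0, s, 0, 1, 0; 0, 0, 1, 0, 0; 0, 1, 0, 0, 0; 1, 0, 0, 0, 0]
    !![1, 1, 0, 0, 0; 0, 1, 1, 0, s; 0, 0, 1, 1, 0; 0, 0, 0, 1, 1; 0, 0, 0, 0, 1]
    (by simp [det_succ_column_zero, Fin.sum_univ_succ, Fin.succAbove]; ring) (by mat)
    fun w X hw hX g h1 h4 => all_of_mul one_ne_zero hs hg
      (mul_closed hw hX h1 (a := 1) 1 (by ve0 h4) (by sca h4)) ?_
  have h5 : 1 ∈ A X :=
    mem_A_of (by omega) (mul_mem h1 (mul_mem h1 (mul_mem h1 h1))) (by vec h4)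
  have h6 := T_one hw hX h5 h5 3 0 rfl
  have h7 := T_conj h1 (a := 1) (by ve0 h4) h6 (χ := (1 : F) • f 1 + (1 : F) • f 2 + s • f 4)
    (by sca h4)
  rw [div_one, mem_A]
  convert sub_mem (sub_mem h7 h6) (T_one hw hX h5 h5 2 1 rfl) using 1
  abel

theorem two_42 [CharP F 2] : Two F 4 := by
  obtain ⟨s, hs, hg⟩ := exists_gen (F := F)
  obtain ⟨K, rfl⟩ := (bijective_iterateFrobenius F 2 2).2 s
  have hK : K ≠ 0 := by simpa using hs
  refine two_of_g !![1, 0, K, 0; 0, 1, K, K; 0, 0, 1, K; 0, 0, 0, 1]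
    !![1, K, 0, K ^ 2 + K ^ 3; 0, 1, 0, K ^ 2; 0, 0, 1, K; 0, 0, 0, 1]
    (by simp [det_succ_column_zero, Fin.sum_univ_succ]) (by mat)
    fun w X hw hX g h1 h4 => all_of_mul hK hs hg
      (mul_closed hw hX h1 (a := 1) 1 (by ve0 h4) (by sca h4)) ?_
  convert (mem_A_of (r := K ^ 3) (by omega) (mul_mem h1 h1) (by vec h4)) using 1
  rw [iterateFrobenius_def]; grind

theorem two_32 [CharP F 2] : Two F 3 := by
  obtain ⟨s, hs, hg⟩ := exists_gen (F := F)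
  refine two_of_u !![0, s, 1; 0, 1, 0; 1, 0, 0] !![1, 1, s; 0, 1, 1; 0, 0, 1]
    (by simp [det_fin_three]; grind) (by mat)
    fun w X hw hX g h1 h4 => all_of_mul one_ne_zero hs hg
      (mul_closed hw hX h1 (a := 1) 1 (by ve0 h4) (by sca h4)) ?_
  have h5 : 1 ∈ A X := mem_A_of (by omega) (mul_mem h1 h1) (by vec h4)
  obtain ⟨a, ha, h6⟩ := (T_one hw hX h5 h5 1 0 rfl).2
  obtain ⟨b, hb, h7⟩ := ((T_down hw hX h5 (j := 0) (by omega) h5).2.conj' hX (hw 0) (ψ := f 2)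
    fun x => by simp [hw.f_w (j := 1)]).sub_left (w := e 0) (by simpa using h5.2) (by simp [f_e])
  rw [div_one]
  refine mem_A_of (by omega) (mul_mem h1 (mul_mem ha hb)) fun x => ?_
  rw [LinearEquiv.mul_apply, LinearEquiv.mul_apply, h6, h7]
  revert x
  vec h4

end H22.RG
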