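import Cfsg.Agent.H22.RG2

/-! Pairs of regular unipotent generators in all dimensions. -/

set_option autoImplicit false

namespace H22.RG

open Module H12 Matrix

variable {F : Type*} [Field F]

theorem exists_dil {V : Type*} [AddCommGroup V] [Module F V] [FiniteDimensional F V]
    (φ : Dual F V) (v : V) (h : 1 + φ v ≠ 0) : ∃ g : V ≃ₗ[F] V, (∀ x, g x = x + φ x • v) ∧
      LinearMap.det g.toLinearMap = 1 + φ v :=
  ⟨LinearEquiv.dilatransvection (f := φ) (v := v) h.isUnit,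
    fun _ => LinearEquiv.dilatransvection.apply, by
      rw [LinearEquiv.dilatransvection.coe_toLinearMap, LinearMap.transvection.det]⟩

theorem exists_P3 {V : Type*} [AddCommGroup V] [Module F V] [FiniteDimensional F V]
    (φ₁ φ₂ φ₃ : Dual F V) (v₁ v₂ v₃ : V) (h1 : φ₂ v₁ = 0) (h2 : φ₃ v₁ = 0) (h3 : φ₃ v₂ = 0)
    (h : (1 + φ₃ v₃) * (1 + φ₂ v₂) * (1 + φ₁ v₁) = 1) :
    ∃ P ∈ SLV F V, ∀ x, P x = x + φ₁ x • v₁ + φ₂ x • v₂ + φ₃ x • v₃ := by
  obtain ⟨a, ha, da⟩ := exists_dil φ₁ v₁ (by grind)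
  obtain ⟨b, hb, db⟩ := exists_dil φ₂ v₂ (by grind)
  obtain ⟨c, hc, dc⟩ := exists_dil φ₃ v₃ (by grind)
  exact ⟨c * b * a, mem_SLV.2 (by simp [LinearEquiv.coe_toLinearMap_mul, da, db, dc, h]),
    fun x => by simp [ha, hb, hc, h1, h2, h3]⟩

theorem exists_Z {n : ℕ} {w : (Fin n → F) ≃ₗ[F] (Fin n → F)} (hw : IsJ w) (j : ℕ) :
    ∃ Z, w Z = e (j + 1) - Z - (-2 : F) ^ (j + 1) • e 0 ∧ ∀ l < n, j < l → f l Z = 0 := by
  induction j with
  | zero => exact ⟨e 0, by rw [hw]; module, fun l hl h => by simp [f_e hl]; omega⟩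
  | succ j ih =>
    obtain ⟨Z, h1, h2⟩ := ih
    exact ⟨e (j + 1) - (2 : F) • Z, by rw [map_sub, map_smul, h1, hw]; module,
      fun l hl h => by simp [f_e hl, h2 l hl (by omega)]; omega⟩

variable [Finite F]

theorem two_odd (h2 : (2 : F) ≠ 0) (m : ℕ) : Two F (m + 6) := fun w hw => by
  obtain ⟨s, hs, hg⟩ := exists_gen (F := F)
  obtain ⟨Z, hZ, fZ⟩ := exists_Z hw (m + 1)
  obtain ⟨c, hc⟩ : ∃ c, c = (-2 : F) ^ (m + 1 + 1) := ⟨_, rfl⟩
  have hc0 : c ≠ 0 := hc ▸ pow_ne_zero _ (neg_ne_zero.2 h2)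
  rw [← hc] at hZ
  obtain ⟨a, ha⟩ : ∃ a, s / 2 = 4 * a * c := ⟨s / 2 / 2 / 2 / c, by field_simp; ring⟩
  have z2 := fZ (m + 2) (by omega) (by omega)
  have z3 := fZ (m + 3) (by omega) (by omega)
  have z4 := fZ (m + 4) (by omega) (by omega)
  have z5 := fZ (m + 5) (by omega) (by omega)
  have f2 := f_e (F := F) (show m + 2 < m + 6 by omega)
  have f3 := f_e (F := F) (show m + 3 < m + 6 by omega)
  have f4 := f_e (F := F) (show m + 4 < m + 6 by omega)
  have f5 := f_e (F := F) (show m + 5 < m + 6 by omega)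
  obtain ⟨P, hP, eP⟩ := exists_P3 (f (m + 3)) (f (m + 4)) (f (m + 5))
    ((-2 : F) • e (m + 3) + (2 : F) • e (m + 2) - (4 : F) • Z - (4 * c) • e 0)
    ((-2 : F) • e (m + 4) + (2 : F) • e (m + 3) - (4 : F) • e (m + 2) + (8 : F) • Z +
      (4 * c) • e 0 - (4 * c) • e 1) ((-2 * a) • (e (m + 2) - Z - c • e 0))
    (by simp [f4, z4]) (by simp [f5, z5]) (by simp [f5, z5])
    (by simp [f3, f4, f5, z3, z4, z5]; ring)
  refine ⟨P, hP, fun X h3 h4 => gen hw h3 ?_⟩
  obtain ⟨g, h5, h6⟩ := exists_g P (LinearMap.id +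
    (f (m + 2)).smulRight ((-2 : F) • e (m + 2) + (4 : F) • Z) +
    (f (m + 4)).smulRight ((-2 : F) • e (m + 4) - (4 * c) • e 1 - (2 * a) • Z) +
    (f (m + 5)).smulRight ((2 * a) • (e (m + 2) - (2 : F) • Z + c • e 0))) (fun j _ => by
      generalize (e j : Fin (m + 6) → F) = x
      simp [eP, hZ, hw _, hw.f_w (j := m + 2), hw.f_w (j := m + 3), hw.f_w (j := m + 4), f2, f3, f4,
        f5, z2, z3, z4, z5, e_ge]
      module) h3 h4
  refine all_of_mul h2 hs hg (mul_closed (m := m + 3) hw h3 h5 (a := 1) (-1)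
    (by simp [h6, f2, f4, f5]) fun x => by simp [h6, f4, f5, z4, z5]; ring) ?_
  refine ha ▸ mem_A_of (by omega) (mul_mem h5 h5) fun x => ?_
  simp [h6, f2, f4, f5, z2, z4, z5]
  module

theorem two_even [CharP F 2] (m : ℕ) : Two F (m + 6) := fun w hw => by
  obtain ⟨s, hs, hg⟩ := exists_gen (F := F)
  have f2 := f_e (F := F) (show m + 2 < m + 6 by omega)
  have f3 := f_e (F := F) (show m + 3 < m + 6 by omega)
  have f4 := f_e (F := F) (show m + 4 < m + 6 by omega)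
  have f5 := f_e (F := F) (show m + 5 < m + 6 by omega)
  obtain ⟨P, hP, eP⟩ := exists_P3 0 (f (m + 4)) (f (m + 5)) (0 : Fin (m + 6) → F)
    (s • (e 0 + e 1)) (s • (e 1 + e 2) + e (m + 2) + e (m + 3))
    (by simp) (by simp) (by simp [f5]) (by simp [f4, f5])
  refine ⟨P, hP, fun X h3 h4 => gen hw h3 ?_⟩
  obtain ⟨g, h5, h6⟩ := exists_g P (LinearMap.id + (f (m + 3)).smulRight (s • e 0) +
    (f (m + 4)).smulRight (e (m + 2)) +
    (f (m + 5)).smulRight (s • e 2 + e (m + 3) + s • e 0)) (fun j _ => by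
      generalize (e j : Fin (m + 6) → F) = x
      simp [eP, hw _, hw.f_w (j := m + 3), hw.f_w (j := m + 4), f3, f4, f5, e_ge]
      match_scalars <;> grind) h3 h4
  have h7 : s ∈ A X := mem_A_of (by omega) (mul_mem h5 h5) fun x => by
    simp [h6, f3, f4, f5]
    match_scalars <;> grind
  have h8 : ∀ r ∈ A X, s * s * r ∈ A X := fun r hr => by
    have h9 := T_step hw h3 h7 (T_down hw h3 h7 (j := m + 3) (by omega) hr) (by simp [f4, f5])
      (χ := (s * s * r) • (f (m + 5) + f (m + 3))) fun x => by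
        simp [hw.f_w (j := m + 3), hw.f_w (j := m + 4)]; grind
    have h10 := T_conj h5 (a := 1) (by simp [h6, f3, f4, f5]) h9
      (χ := (s * s * r) • (f (m + 5) + f (m + 3)) + (s * s * r) • f (m + 5))
      fun x => by simp [h6, f3, f5]; ring
    exact show (s * s * r) • f (m + 5) ∈ T X by simpa using sub_mem h10 h9
  have h9 : ∀ k, s ^ (2 * k + 1) ∈ A X := fun k => by
    induction k with
    | zero => simpa using h7
    | succ k ih => convert h8 _ ih using 1; ring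
  intro r
  by_cases hr : r = 0
  · rw [hr]; exact zero_mem _
  obtain ⟨k, rfl⟩ := hg r hr
  obtain ⟨l, hl, hq⟩ := pow_card_sub hs
  rcases k.even_or_odd' with ⟨k, rfl | rfl⟩
  · have := Fintype.ofFinite F
    obtain ⟨d, -, hd⟩ := FiniteField.card F 2
    obtain ⟨l, rfl⟩ : 2 ∣ l := by
      have : 2 ∣ l + 2 := by
        rw [hq, Nat.card_eq_fintype_card, hd]; exact dvd_pow_self 2 d.ne_zero
      omega
    convert h9 (k + l) using 1
    rw [mul_add, add_assoc, pow_add, hl, mul_one]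
  · exact h9 k

theorem two_all {n : ℕ} (hn : 3 ≤ n) : Two F n := by
  obtain ⟨p, hp⟩ := CharP.exists F
  have : Fact p.Prime := ⟨CharP.char_is_prime F p⟩
  have key : ∀ k : ℕ, k.Prime → p ≠ k → (k : F) ≠ 0 := fun k hk h h0 =>
    h ((Nat.prime_dvd_prime_iff_eq this.1 hk).1 ((CharP.cast_eq_zero_iff F p k).1 h0))
  obtain ⟨m, rfl⟩ := Nat.exists_eq_add_of_le' hn
  by_cases h2 : p = 2
  · subst h2
    rcases m with _ | _ | _ | m
    exacts [two_32, two_42, two_52, two_even m]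
  have h2' := key 2 Nat.prime_two h2
  by_cases h3 : p = 3
  · subst h3
    rcases m with _ | _ | _ | m
    exacts [two_3, two_43, two_o5 h2', two_odd h2' m]
  have h3' := key 3 Nat.prime_three h3
  rcases m with _ | _ | _ | m
  exacts [two_o3' h2' h3', two_o4 h2' h3', two_o5 h2', two_odd h2' m]

end H22.RG
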