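import Cfsg.Agent.H0.RU2
import Cfsg.Agent.H9.RU1

/-! S2196, chunk PER2, part 1: the action of the normalizer on the fixed line. -/

set_option autoImplicit false
set_option linter.unusedSectionVars false

open Module MulAction H13.R3 H12 H0.RU
open H11 (hermT frob)
open H11.RS (PO)
open scoped commutatorElement

namespace H22.RU

universe u

variable {F : Type u} [Field F] [Fintype F] {q : ℕ} {hF : Fintype.card F = q ^ 2}
  {V : Type u} [AddCommGroup V] [Module F V] [Fintype V] {C : CForm (hermT hF) V}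
  {G : Type u} [Group G] [Fintype G] [DistribMulAction G V] [SMulCommClass G F V]
  {H : Subgroup G} {r e : ℕ} {x u u' u'' v w z : V} {y g h ν : G} {W : Submodule F V}
  {a b c d a' b' c' d' l m : F}

/-- matrix of `g` on the pair `u, u'` -/
def Ac (u u' : V) (g : G) (a b c d : F) : Prop := g • u = a • u + c • u' ∧ g • u' = b • u + d • u'

theorem Ac.mul (k : Ac u u' g a b c d) (k' : Ac u u' h a' b' c' d') :
    Ac u u' (g * h) (a * a' + b * c') (a * b' + b * d') (c * a' + d * c') (c * b' + d * d') := by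
  constructor
  · rw [mul_smul, k'.1, smul_add, gsc, gsc, k.1, k.2]; module
  · rw [mul_smul, k'.2, smul_add, gsc, gsc, k.1, k.2]; module

theorem Ac.eq (k : Ac u u' g a b c d) (h1 : a' = a) (h2 : b' = b) (h3 : c' = c) (h4 : d' = d) :
    Ac u u' g a' b' c' d' := by rwa [h1, h2, h3, h4]

theorem Ac.inv (k : Ac u u' g a b c d) (h1 : a * a' + b * c' = 1) (h2 : a * b' + b * d' = 0)
    (h3 : c * a' + d * c' = 0) (h4 : c * b' + d * d' = 1) : Ac u u' g⁻¹ a' b' c' d' := by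
  constructor <;> rw [inv_smul_eq_iff, smul_add, gsc, gsc, k.1, k.2]
  · linear_combination (norm := module) -h1 • u - h3 • u'
  · linear_combination (norm := module) -h2 • u - h4 • u'

theorem Ac.diag (h1 : g • u = a • u) (h2 : g • u' = d • u') : Ac u u' g a 0 0 d :=
  ⟨by simp [h1], by simp [h2]⟩

theorem Ac.tr (k : Ac u u' g 1 b 0 1) (n : ℕ) : Ac u u' (g ^ n) 1 (n * b) 0 1 := by
  induction n with
  | zero => exact ⟨by simp, by simp⟩
  | succ n ih => rw [pow_succ]; exact (ih.mul k).eq (by ring) (by push_cast; ring) (by ring) (by ring)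

theorem Ac.odd (k : Ac u u' g 0 (-b) b 0) (hb : b ^ 2 = 1) (n : ℕ) :
    ∃ s : F, s ^ 2 = 1 ∧ Ac u u' (g ^ (2 * n + 1)) 0 (-s) s 0 := by
  induction n with
  | zero => exact ⟨b, hb, by simpa using k⟩
  | succ n ih =>
    obtain ⟨s, h1, h2⟩ := ih
    refine ⟨-s, by rw [neg_sq, h1], ?_⟩
    rw [show 2 * (n + 1) + 1 = 2 * n + 1 + 1 + 1 from rfl, pow_succ, pow_succ]
    exact ((h2.mul k).mul k).eq (by ring) (by linear_combination -s * hb)
      (by linear_combination s * hb) (by ring)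

variable (C) in
/-- the setting -/
structure Z (H : Subgroup G) (r e : ℕ) (x : V) (y : G) (W : Submodule F V) : Prop
    extends Pe C H r e x y W where
  un : Un C G
  hs : Hs C H
  nt : NoT C H
  la : La C H
  ce : Ce C e y W
  d2 : finrank F W = 2

abbrev N0 (H : Subgroup G) (y : G) : Subgroup G :=
  H ⊓ Subgroup.normalizer (Subgroup.zpowers y : Set G)

theorem cm (hg : g ∈ N0 H y) (hh : h ∈ N0 H y) : Commute ⁅g, h⁆ y := by
  obtain ⟨i, hi⟩ := Subgroup.mem_zpowers_iff.1 ((Subgroup.mem_normalizer_iff.1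
    (Subgroup.inv_mem _ hg.2) y).1 (Subgroup.mem_zpowers y))
  obtain ⟨j, hj⟩ := Subgroup.mem_zpowers_iff.1 ((Subgroup.mem_normalizer_iff.1
    (Subgroup.inv_mem _ hh.2) y).1 (Subgroup.mem_zpowers y))
  have : g⁻¹ * (h⁻¹ * y * h⁻¹⁻¹) * g⁻¹⁻¹ = h⁻¹ * (g⁻¹ * y * g⁻¹⁻¹) * h⁻¹⁻¹ := by
    rw [← hi, ← hj, ← conj_zpow, ← conj_zpow, ← hi, ← hj, ← zpow_mul, ← zpow_mul, mul_comm i]
  rw [Commute, SemiconjBy, commutatorElement_def]
  calc g * h * g⁻¹ * h⁻¹ * y = g * h * (g⁻¹ * (h⁻¹ * y * h⁻¹⁻¹) * g⁻¹⁻¹) * g⁻¹ * h⁻¹ := by group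
    _ = _ := by rw [this]; group

theorem cN (hg : g ∈ H) (c : Commute g y) : g ∈ N0 H y :=
  ⟨hg, Subgroup.centralizer_le_normalizer _ (Subgroup.mem_centralizer_iff.2 fun k hk => by
    obtain ⟨i, rfl⟩ := Subgroup.mem_zpowers_iff.1 hk
    exact (c.zpow_right i).symm.eq)⟩

/-- hyperbolic pair in `W` -/
structure Hy (C : CForm (hermT hF) V) (W : Submodule F V) (u u' : V) : Prop where
  m1 : u ∈ W
  m2 : u' ∈ W
  i1 : C.B u u = 0
  i2 : C.B u' u' = 0
  ne : C.B u u' ≠ 0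

theorem Hy.symm (k : Hy C W u u') : Hy C W u' u := ⟨k.m2, k.m1, k.i2, k.i1, C.B_swap_ne k.ne⟩
theorem Hy.ind (k : Hy C W u u') : Ind F u u' := ind_of_ne k.i1 k.ne
theorem Hy.is (k : Hy C W u u') : Is C u := ⟨k.ind.1, k.i1⟩
theorem Hy.co (k : Hy C W u u') (h : a • u + b • u' = c • u + d • u') : a = c ∧ b = d := by
  have := ind_iff.1 k.ind (a - c) (b - d) (by linear_combination (norm := module) h)
  exact ⟨sub_eq_zero.1 this.1, sub_eq_zero.1 this.2⟩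

/-- `u'` is the partner of `u` -/
structure Pr (C : CForm (hermT hF) V) (H : Subgroup G) (y : G) (W : Submodule F V) (u u' : V) : Prop
    extends Hy C W u u' where
  st : ∀ ν ∈ N0 H y, ∀ l : F, ν • u = l • u → ∃ m : F, ν • u' = m • u'

theorem Pr.sml (k : Pr C H y W u u') (ha : a ≠ 0) (hb : b ≠ 0) : Pr C H y W (a • u) (b • u') :=
  ⟨⟨W.smul_mem _ k.m1, W.smul_mem _ k.m2, by simp [k.i1], by simp [k.i2], by
    simp [k.ne, hb, ha]⟩, fun ν hν l h => by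
    obtain ⟨m, hm⟩ := k.st ν hν l (smul_right_injective V ha (by
      simpa only [gsc, smul_comm l] using h))
    exact ⟨m, by rw [gsc, hm, smul_comm]⟩⟩

namespace Z
variable (z₀ : Z C H r e x y W)
include z₀

theorem nW (hν : ν ∈ N0 H y) (hw : w ∈ W) : ν • w ∈ W := by
  have h1 : Subgroup.zpowers y ≤ stabilizer G w := Subgroup.zpowers_le.2 ((z₀.fix w).2 hw)
  have h2 : (ν⁻¹ * y * ν⁻¹⁻¹) • w = w := h1 ((Subgroup.mem_normalizer_iff.1
    (Subgroup.inv_mem _ hν.2) y).1 (Subgroup.mem_zpowers y))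
  rw [← z₀.fix]
  rwa [inv_inv, mul_smul, mul_smul, inv_smul_eq_iff] at h2

theorem nZ (hν : ν ∈ N0 H y) (hw : w ∈ C.perp W) : ν • w ∈ C.perp W :=
  (z₀.un.st_pp (mem_St_of fun _ => z₀.nW hν) w).2 hw

theorem sp (k : Hy C W u u') : ln F u u' = W :=
  Submodule.eq_of_le_of_finrank_eq (ln_le.2 ⟨k.m1, k.m2⟩) (by rw [k.ind.finrank, z₀.d2])

theorem co (k : Hy C W u u') (hw : w ∈ W) : ∃ a b : F, w = a • u + b • u' := by
  obtain ⟨a, b, h⟩ := mem_ln.1 (z₀.sp k ▸ hw)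
  exact ⟨a, b, h.symm⟩

theorem dc (k : Hy C W u u') (w : V) :
    ∃ (a : F), ∃ z ∈ C.perp W, w = a • u + (C.B u w / C.B u u') • u' + z :=
  ⟨C.B u' w / C.B u' u, _, z₀.sp k ▸ mem_pp_ln.2 (dec k.i1 k.i2 k.ne w), by abel⟩

theorem par (hu : u ∈ W) (iu : Is C u) : ∃ u', Hy C W u u' := by
  obtain ⟨u', h1, h2, h3⟩ := ex_par' z₀.un.nd (Z := C.perp W)
    (fun h => iu.1 (Submodule.disjoint_def.1 (C.nondegOn_iff.1 z₀.nd) u hu h)) iu.2
    (C.le_perp_perp W hu)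
  rw [z₀.un.nd.perp_perp] at h1
  exact ⟨u', hu, h1, iu.2, h2.2, by rw [Bone h3]; exact one_ne_zero⟩

theorem exn (hu : u ∈ W) (iu : Is C u) (hb : frob hF b = b) (b0 : b ≠ 0) :
    ∃ ν ∈ N0 H y, ∃ l : F, ν • u = l • u ∧ l * frob hF l = b := by
  obtain ⟨h, hh, l, h1, h2⟩ := z₀.la u iu b hb b0
  obtain ⟨ν, n1, n2, n3⟩ := z₀.fus h hh u hu iu.1 (h1 ▸ W.smul_mem l hu)
  exact ⟨ν, ⟨n1, n2⟩, l, n3.trans h1, h2⟩

theorem dual (k : Hy C W u u') (h1 : ν • u = l • u) (h2 : ν • u' = b • u + m • u') :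
    m * frob hF l = 1 := by
  have := z₀.un.iso ν u u'
  rw [h1, h2] at this
  simp only [Bl, map_add, map_smul, smul_eq_mul, k.i1] at this
  exact mul_right_cancel₀ k.ne (by linear_combination this)

theorem dual' (k : Hy C W u u') (h1 : ν • u = l • u) (h2 : ν • u' = m • u') :
    m * frob hF l = 1 := z₀.dual k h1 (b := 0) (by simpa using h2)

theorem sc (c : Commute g y) : ∃ U ≤ C.perp W, U ≠ ⊥ ∧ (∀ u ∈ U, g • u ∈ U) ∧
    ∀ l : F, l * frob hF l = 1 → ∀ u ∈ U, u ≠ 0 → g • u = l • u → ∀ z ∈ C.perp W, g • z = l • z :=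
  let ⟨U, h1, h2, h3⟩ := z₀.ce.ex
  ⟨U, h1, h2, (h3 g c).1, (h3 g c).2.1⟩

/-- no translations -/
theorem notr (k : Hy C W u u') (hg : g ∈ H) (c : Commute g y) (h : Ac u u' g 1 b 0 1) : b = 0 := by
  obtain ⟨p, j, hp, _, -, -⟩ := ex_char hF
  obtain ⟨a, n, hn, ho⟩ := Nat.exists_eq_pow_mul_and_not_dvd (orderOf_pos g).ne' p hp.ne_one
  have h1 : (g ^ n) ^ p ^ a = 1 := by rw [← pow_mul, mul_comm, ← ho, pow_orderOf_eq_one]
  obtain ⟨U, -, U0, hU, h2⟩ := z₀.sc (c.pow_left n)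
  obtain ⟨v, hv, v0, h3⟩ : ∃ v ∈ U, v ≠ 0 ∧ g ^ n • v = v := by
    by_contra hn
    have h3 := H9.RU.fpf hp h1 (S := (U : Set V) \ {0})
      (fun s hs => ⟨hU s hs.1, fun h => hs.2 (gsz.1 h)⟩) fun s hs h => hn ⟨s, hs.1, hs.2, h⟩
    have h4 := Set.ncard_sdiff_singleton_add_one (s := (U : Set V)) U.zero_mem
    have h5 : p ∣ (U : Set V).ncard := by
      have := Fact.mk hp
      obtain ⟨i, -, hi⟩ := FiniteField.card F p
      rw [← Nat.card_coe_set_eq, show Nat.card (U : Set V) = _ from card_V F U, hi, ← pow_mul]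
      exact dvd_pow_self p (Nat.mul_ne_zero i.ne_zero (mt Submodule.finrank_eq_zero.1 U0))
    rw [← h4] at h5
    exact hp.not_dvd_one ((Nat.dvd_add_right h3).1 h5)
  have h4 := h2 1 (by simp) v hv v0 (by rw [h3, one_smul])
  have h5 := h.tr n
  have h6 := z₀.un.not_tr z₀.nt (H.pow_mem hg n) (v := u) (c := n * b / C.B u u') (fun w => by
    obtain ⟨α, z, hz, e⟩ := z₀.dc k w
    rw [show n * b / C.B u u' * C.B u w = C.B u w / C.B u u' * (n * b) by ring]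
    generalize C.B u w / C.B u u' = β at e
    rw [e, smul_add, smul_add, gsc, gsc, h5.1, h5.2, h4 z hz]
    module) k.is
  rw [div_eq_zero_iff, or_iff_left k.ne, mul_eq_zero, CharP.cast_eq_zero_iff F p] at h6
  exact h6.resolve_left hn

theorem nrm (k : Hy C W u u') (h1 : ν • u = l • u) (h2 : ν • u' = m • u')
    (n : l * frob hF l ≠ 1) : l ≠ m ∧ m * frob hF m ≠ 1 ∧ l ≠ 0 ∧ m ≠ 0 := by
  have h3 := z₀.dual' k h1 h2
  have h4 := congrArg (frob hF) h3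
  rw [map_mul, ff, map_one] at h4
  refine ⟨fun h => n (h ▸ h3), fun h => n ?_, ?_, left_ne_zero_of_mul_eq_one h3⟩
  · linear_combination -(l * frob hF l) * h + frob hF m * l * h3 + h4
  · exact right_ne_zero_of_mul_eq_one h4

theorem ex1 (hu : u ∈ W) (iu : Is C u) :
    ∃ ν ∈ N0 H y, ∃ l : F, ν • u = l • u ∧ l * frob hF l ≠ 1 := by
  obtain ⟨b, h1, h2, h3⟩ := ex_three (hF := hF) z₀.un.q3
  obtain ⟨ν, n1, l, n2, n3⟩ := z₀.exn hu iu h1 h2
  exact ⟨ν, n1, l, n2, n3 ▸ h3⟩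

theorem expr (hu : u ∈ W) (iu : Is C u) : ∃ u', Pr C H y W u u' := by
  obtain ⟨v, k⟩ := z₀.par hu iu
  obtain ⟨ν, n1, l, n2, n3⟩ := z₀.ex1 hu iu
  obtain ⟨κ, m, h1⟩ := z₀.co k (z₀.nW n1 k.m2)
  have h2 := z₀.dual k n2 h1
  have h3 : m - l ≠ 0 := sub_ne_zero.2 fun h => n3 (h ▸ h2)
  have h4 : ν • (v + (κ / (m - l)) • u) = m • (v + (κ / (m - l)) • u) := by
    rw [smul_add, gsc, h1, n2]
    match_scalars
    · field_simp; ring
    · rfl
  have h5 : C.B u (v + (κ / (m - l)) • u) ≠ 0 := by simpa [k.i1] using k.ne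
  have h6 := W.add_mem k.m2 (W.smul_mem (κ / (m - l)) hu)
  generalize v + (κ / (m - l)) • u = w at h4 h5 h6
  have h7 : C.B w w = 0 := by
    have h7 := z₀.un.iso ν w w
    have h8 := congrArg (frob hF) h2
    rw [map_mul, ff, map_one] at h8
    rw [h4] at h7
    simp only [Bl, map_smul, smul_eq_mul] at h7
    by_contra h9
    have := mul_right_cancel₀ h9 (show frob hF m * m * C.B w w = 1 * _ by linear_combination h7)
    exact n3 (by linear_combination -(l * frob hF l) * this + frob hF m * l * h2 + h8)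
  have k' : Hy C W u w := ⟨hu, h6, iu.2, h7, h5⟩
  refine ⟨w, k', fun g hg l' e1 => ?_⟩
  obtain ⟨κ', m', e2⟩ := z₀.co k' (z₀.nW hg h6)
  obtain ⟨-, -, l0, m0⟩ := z₀.nrm k' n2 h4 n3
  have e3 := z₀.dual k' e1 e2
  have m1 := left_ne_zero_of_mul_eq_one e3
  have l1 : l' ≠ 0 := fun h => by rw [h, map_zero, mul_zero] at e3; exact zero_ne_one e3
  have A1 : Ac u w g l' κ' 0 m' := ⟨by simp [e1], e2⟩
  have A2 : Ac u w ν l 0 0 m := .diag n2 h4
  have A3 := ((A1.mul A2).mul (A1.inv (a' := l'⁻¹) (b' := -κ' / (l' * m')) (c' := 0) (d' := m'⁻¹)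
    (by field_simp; ring) (by field_simp; ring) (by ring) (by field_simp; ring))).mul
    (A2.inv (a' := l⁻¹) (b' := 0) (c' := 0) (d' := m⁻¹) (by field_simp; ring) (by ring) (by ring)
      (by field_simp; ring))
  have := z₀.notr k' (b := κ' * (m - l) / (m' * m))
    (H.mul_mem (H.mul_mem (H.mul_mem hg.1 n1.1) (H.inv_mem hg.1)) (H.inv_mem n1.1)) (cm hg n1)
    (A3.eq (by field_simp; ring) (by field_simp; ring) (by ring) (by field_simp; ring))
  rw [div_eq_zero_iff, or_iff_left (mul_ne_zero m1 m0), mul_eq_zero, or_iff_left h3] at this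
  exact ⟨m', by rw [e2, this, zero_smul, zero_add]⟩

theorem fix2 (k : Hy C W u u') (k' : Hy C W u u'') (h1 : ν • u = l • u) (h2 : ν • u' = m • u')
    (h3 : ν • u'' = c • u'') (n : l * frob hF l ≠ 1) : ∃ b : F, b ≠ 0 ∧ u'' = b • u' := by
  obtain ⟨a, b, rfl⟩ := z₀.co k k'.m2
  have b0 : b ≠ 0 := fun h => k'.ne (by simp [h, k.i1])
  rw [smul_add, gsc, gsc, h1, h2, smul_add, smul_smul, smul_smul, smul_smul, smul_smul] at h3
  obtain ⟨e1, e2⟩ := k.co h3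
  have : c = m := mul_right_cancel₀ b0 (by rw [← e2, mul_comm])
  have : a = 0 := by_contra fun a0 =>
    (z₀.nrm k h1 h2 n).1 (mul_left_cancel₀ a0 (by rw [e1, this, mul_comm]))
  exact ⟨b, b0, by rw [this, zero_smul, zero_add]⟩

theorem uniq (k : Pr C H y W u u') (k' : Pr C H y W u u'') : ∃ b : F, b ≠ 0 ∧ u'' = b • u' := by
  obtain ⟨ν, n1, l, n2, n3⟩ := z₀.ex1 k.m1 k.is
  obtain ⟨m, h1⟩ := k.st ν n1 l n2
  obtain ⟨c, h2⟩ := k'.st ν n1 l n2
  exact z₀.fix2 k.toHy k'.toHy n2 h1 h2 n3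

theorem symm (k : Pr C H y W u u') : Pr C H y W u' u := by
  obtain ⟨w, k'⟩ := z₀.expr k.m2 k.toHy.symm.is
  obtain ⟨ν, n1, l, n2, n3⟩ := z₀.ex1 k.m1 k.is
  obtain ⟨m, h1⟩ := k.st ν n1 l n2
  obtain ⟨c, h2⟩ := k'.st ν n1 m h1
  obtain ⟨b, b0, e⟩ := z₀.fix2 k'.toHy k.toHy.symm h1 h2 n2 (z₀.nrm k.toHy n2 h1 n3).2.1
  simpa only [one_smul, ← e] using k'.sml one_ne_zero b0

theorem smul (k : Pr C H y W u u') (hg : g ∈ N0 H y) : Pr C H y W (g • u) (g • u') :=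
  ⟨⟨z₀.nW hg k.m1, z₀.nW hg k.m2, by rw [z₀.un.iso, k.i1], by rw [z₀.un.iso, k.i2], by
    rw [z₀.un.iso]; exact k.ne⟩, fun ν hν l h => by
    obtain ⟨m, hm⟩ := k.st (g⁻¹ * ν * g) (mul_mem (mul_mem (inv_mem hg) hν) hg) l (by
      rw [mul_smul, mul_smul, h, gsc, inv_smul_smul])
    exact ⟨m, by rwa [mul_smul, mul_smul, inv_smul_eq_iff, gsc] at hm⟩⟩

/-- the torus -/
theorem tor (k : Pr C H y W u u') (hb : frob hF b = b) (b0 : b ≠ 0) :
    ∃ ν ∈ N0 H y, ∃ m : F, m ≠ 0 ∧ ν • u = (b * m) • u ∧ ν • u' = m • u' := by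
  obtain ⟨ν, n1, l, n2, n3⟩ := z₀.exn k.m1 k.is hb b0
  obtain ⟨m, h1⟩ := k.st ν n1 l n2
  have h2 := z₀.dual' k.toHy n2 h1
  exact ⟨ν, n1, m, left_ne_zero_of_mul_eq_one h2,
    by rw [n2, ← n3]; congr 1; linear_combination -l * h2, h1⟩

theorem inv (k : Pr C H y W u u') (a0 : a ≠ 0) (b0 : b ≠ 0)
    (i : C.B (a • u + b • u') (a • u + b • u') = 0) :
    (2 : F) ≠ 0 ∧ Pr C H y W (a • u + b • u') (-a • u + b • u') := by
  have n0 : a • u + b • u' ≠ 0 := fun h => a0 (ind_iff.1 k.ind a b h).1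
  obtain ⟨w, k1⟩ := z₀.expr (W.add_mem (W.smul_mem a k.m1) (W.smul_mem b k.m2)) ⟨n0, i⟩
  obtain ⟨a', b', rfl⟩ := z₀.co k.toHy k1.m2
  have b1 : b' ≠ 0 := by
    rintro rfl
    rw [zero_smul, add_zero] at k1
    have a1 : a' ≠ 0 := fun h => k1.ne (by simp [h])
    obtain ⟨c, -, h⟩ := z₀.uniq (k.sml a1 one_ne_zero) (z₀.symm k1)
    exact a0 (k.co (c := 0) (d := c) (by simpa using h)).1
  have a1 : a' ≠ 0 := by
    rintro rfl
    rw [zero_smul, zero_add] at k1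
    obtain ⟨c, -, h⟩ := z₀.uniq ((z₀.symm k).sml b1 one_ne_zero) (z₀.symm k1)
    exact b0 (k.co (c := c) (d := 0) (by simpa using h)).2
  obtain ⟨c, c0, k2⟩ : ∃ c : F, c ≠ 0 ∧ Pr C H y W (a • u + b • u') ((c * a) • u + b • u') := by
    refine ⟨b / b' * a' / a, by positivity, ?_⟩
    convert k1.sml one_ne_zero (div_ne_zero b0 b1) using 1
    · rw [one_smul]
    · match_scalars <;> field_simp
  have hc : frob hF c = c := by
    have h1 := k2.i2
    simp only [map_add, LinearMap.add_apply, Bl, map_smul, smul_eq_mul, k.i1, k.i2, map_mul] at h1 i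
    exact mul_right_cancel₀ (mul_ne_zero (mul_ne_zero (fr_ne (hF := hF) a0) b0) k.ne)
      (by linear_combination h1 - c * i)
  obtain ⟨ν, n1, m, m0, n2, n3⟩ := z₀.tor k hc c0
  have k3 := (z₀.smul k2 n1).sml (inv_ne_zero m0) (inv_ne_zero m0)
  have e : ∀ t : F, m⁻¹ • ν • (t • u + b • u') = (c * t) • u + b • u' := fun t => by
    rw [smul_add, gsc, gsc, n2, n3]
    match_scalars <;> field_simp
  rw [e, e] at k3
  obtain ⟨t, -, h⟩ := z₀.uniq (z₀.symm k2) k3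
  rw [smul_add, smul_smul, smul_smul] at h
  obtain ⟨e1, e2⟩ := k.co h
  have t1 : t = 1 := mul_right_cancel₀ b0 (by rw [← e2, one_mul])
  have c1 : c ≠ 1 := fun h => k2.ne (by rw [h, one_mul, i])
  have c2 : c = -1 := (mul_self_eq_one_iff.1 (mul_right_cancel₀ a0 (by
    rw [mul_assoc, e1, t1]))).resolve_left c1
  exact ⟨fun h => c1 (by rw [c2]; linear_combination -h), by simpa only [c2, neg_one_mul] using k2⟩

end Z
end H22.RU
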