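import Cfsg.Agent.H22.RU2

/-! S2196, chunk PER2, part 2. -/

set_option autoImplicit false
set_option linter.unusedSectionVars false

open Module MulAction H13.R3 H12 H0.RU
open H11 (hermT frob)
open H11.RS (PO)
open scoped commutatorElement

attribute [-simp] H11.frob_apply

namespace H22.RU

universe u

variable {F : Type u} [Field F] [Fintype F] {q : ℕ} {hF : Fintype.card F = q ^ 2}
  {V : Type u} [AddCommGroup V] [Module F V] [Fintype V] {C : CForm (hermT hF) V}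
  {G : Type u} [Group G] [Fintype G] [DistribMulAction G V] [SMulCommClass G F V]
  {H : Subgroup G} {r e : ℕ} {x u u' v w z : V} {y g h ν : G} {W : Submodule F V}
  {a b c d a' b' c' d' l m s : F}

/-- commutator of two elements given up to scalars -/
theorem Ac.comm (k : Ac u u' g (l * a) (l * b) (l * c) (l * d))
    (k' : Ac u u' h (m * a') (m * b') (m * c') (m * d')) (l0 : l ≠ 0) (m0 : m ≠ 0) {δ δ' : F}
    (e : δ * (a * d - b * c) = 1) (e' : δ' * (a' * d' - b' * c') = 1) {a₁ b₁ c₁ d₁ : F}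
    (h1 : a₁ = δ * δ' * (((a * a' + b * c') * d - (a * b' + b * d') * c) * d' -
      ((a * b' + b * d') * a - (a * a' + b * c') * b) * c'))
    (h2 : b₁ = δ * δ' * (((a * b' + b * d') * a - (a * a' + b * c') * b) * a' -
      ((a * a' + b * c') * d - (a * b' + b * d') * c) * b'))
    (h3 : c₁ = δ * δ' * (((c * a' + d * c') * d - (c * b' + d * d') * c) * d' -
      ((c * b' + d * d') * a - (c * a' + d * c') * b) * c'))
    (h4 : d₁ = δ * δ' * (((c * b' + d * d') * a - (c * a' + d * c') * b) * a' -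
      ((c * a' + d * c') * d - (c * b' + d * d') * c) * b')) : Ac u u' ⁅g, h⁆ a₁ b₁ c₁ d₁ := by
  have i1 := k.inv (a' := l⁻¹ * δ * d) (b' := -(l⁻¹ * δ * b)) (c' := -(l⁻¹ * δ * c))
    (d' := l⁻¹ * δ * a) (by field_simp; linear_combination e) (by ring) (by ring)
    (by field_simp; linear_combination e)
  have i2 := k'.inv (a' := m⁻¹ * δ' * d') (b' := -(m⁻¹ * δ' * b')) (c' := -(m⁻¹ * δ' * c'))
    (d' := m⁻¹ * δ' * a') (by field_simp; linear_combination e') (by ring) (by ring)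
    (by field_simp; linear_combination e')
  exact (((k.mul k').mul i1).mul i2).eq (by rw [h1]; field_simp; ring) (by rw [h2]; field_simp; ring)
    (by rw [h3]; field_simp; ring) (by rw [h4]; field_simp; ring)

theorem cH (hg : g ∈ H) (hh : h ∈ H) : ⁅g, h⁆ ∈ H :=
  H.mul_mem (H.mul_mem (H.mul_mem hg hh) (H.inv_mem hg)) (H.inv_mem hh)

namespace Z
variable (z₀ : Z C H r e x y W)
include z₀

theorem iv1 (k : Hy C W u u') (hg : g ∈ H) (A : Ac u u' g (-1 : F) 0 0 (-1))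
    (h1 : ∀ z ∈ C.perp W, g • z = z) : ∃ g ∈ H, Iv C g u u' :=
  ⟨g, hg, k.i1, k.i2, k.ne, by simpa using A.1, by simpa using A.2, fun w e1 e2 =>
    h1 w (z₀.sp k ▸ mem_pp_ln.2 ⟨e1, e2⟩)⟩

theorem iv2 (k : Hy C W u u') (hg : g ∈ H) (A : Ac u u' g (1 : F) 0 0 1)
    (h1 : ∀ z ∈ C.perp W, g • z = (-1 : F) • z) : ∃ g ∈ H, Iv C g u u' := by
  obtain ⟨j, hj⟩ := z₀.un.ex_iv k.i1 k.i2 k.ne
  refine ⟨j, (H.mul_mem_cancel_left hg).1 (z₀.hs.sc _ (-1) fun w => ?_), hj⟩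
  obtain ⟨α, z, hz, e⟩ := z₀.dc k w
  generalize C.B u w / C.B u u' = β at e
  rw [e, mul_smul, smul_add j, smul_add j, gsc, gsc, hj.2.2.2.1, hj.2.2.2.2.1, hj.fix (z₀.sp k ▸ hz),
    smul_add, smul_add, gsc, gsc, smul_neg g, smul_neg g, A.1, A.2, h1 z hz]
  module

theorem sq (c : Commute g y) (hl : l * frob hF l = 1) (h1 : ∀ z ∈ C.perp W, g • g • z = (l * l) • z) :
    (∀ z ∈ C.perp W, g • z = l • z) ∨ ∀ z ∈ C.perp W, g • z = (-l) • z := by
  obtain ⟨U, hle, U0, hU, h2⟩ := z₀.sc c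
  obtain ⟨v, hv, v0⟩ := (Submodule.ne_bot_iff _).1 U0
  by_cases h3 : g • v = l • v
  · exact .inl (h2 l hl v hv v0 h3)
  · refine .inr (h2 (-l) (by simpa using hl) _ (U.sub_mem (hU v hv) (U.smul_mem l hv))
      (sub_ne_zero.2 h3) ?_)
    rw [gsub, gsc, h1 v (hle hv)]
    generalize g • v = gv
    module

theorem cc (c : Commute g y) (c' : Commute h y) : ∀ z ∈ C.perp W, ⁅g, h⁆ • z = z := by
  obtain ⟨U, -, U0, h2⟩ := z₀.ce.ex
  obtain ⟨v, hv, v0⟩ := (Submodule.ne_bot_iff _).1 U0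
  have h3 := (h2 _ (((c.mul_left c').mul_left c.inv_left).mul_left c'.inv_left)).2.1 1 (by simp)
    v hv v0 (by
      rw [mul_smul, mul_smul, mul_smul, (h2 _ c.inv_left).2.2 _ c'.inv_left v hv, smul_inv_smul,
        smul_inv_smul, one_smul])
  simpa only [one_smul, commutatorElement_def] using h3

theorem two (k : Hy C W u u') (j : ℕ) : ∀ g ∈ H, Commute g y → g ^ 2 ^ j = 1 →
    Ac u u' g (1 : F) 0 0 1 →
    (∀ z ∈ C.perp W, g • z = z) ∨ ∃ g ∈ H, Iv C g u u' := by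
  induction j with
  | zero => exact fun g _ _ h _ => .inl fun z _ => by rw [pow_zero, pow_one] at h; rw [h, one_smul]
  | succ j ih =>
    intro g hg c h A
    rcases ih (g * g) (H.mul_mem hg hg) (c.mul_left c) (by rw [← pow_two, ← pow_mul, ← pow_succ', h])
      ((A.mul A).eq (by ring) (by ring) (by ring) (by ring)) with h1 | h1
    · rcases z₀.sq c (l := 1) (by simp) (fun z hz => by rw [← mul_smul, h1 z hz]; simp) with h2 | h2
      · exact .inl (by simpa using h2)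
      · exact .inr (z₀.iv2 k hg A h2)
    · exact .inr h1

/-- the torus at the pair `u + u'`, `-u + u'` -/
theorem tor2 (h2 : (2 : F) ≠ 0) (k : Pr C H y W ((1 : F) • u + (1 : F) • u')
    (-(1 : F) • u + (1 : F) • u')) (hb : frob hF b = b) (b0 : b ≠ 0) : ∃ ν ∈ N0 H y, ∃ m : F,
    m ≠ 0 ∧ Ac u u' ν (m * (b + 1)) (m * (b - 1)) (m * (b - 1)) (m * (b + 1)) := by
  obtain ⟨ν, n1, m, m0, n2, n3⟩ := z₀.tor k hb b0
  simp only [smul_add, gsc] at n2 n3
  obtain ⟨δ, hδ⟩ : ∃ δ : F, δ * 2 = 1 := ⟨2⁻¹, inv_mul_cancel₀ h2⟩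
  refine ⟨ν, n1, m * δ, mul_ne_zero m0 (left_ne_zero_of_mul_eq_one hδ), ?_⟩
  unfold Ac
  generalize ν • u = p at *
  generalize ν • u' = p' at *
  constructor
  · linear_combination (norm := module) δ • n2 - δ • n3 - hδ • p
  · linear_combination (norm := module) δ • n2 + δ • n3 - hδ • p'

theorem frame : ∃ u u', (∃ a : F, a ≠ 0 ∧ u = a • x) ∧ Pr C H y W u u' ∧ C.B u' u = -C.B u u' := by
  obtain ⟨w, k⟩ := z₀.expr z₀.xW z₀.ix
  obtain ⟨θ, θ0, hθ⟩ := ex_th (hF := hF)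
  have n := fr_ne (hF := hF) (div_ne_zero θ0 k.ne)
  refine ⟨_, _, ⟨_, n, rfl⟩, k.sml n one_ne_zero, ?_⟩
  rw [← Bs, one_smul, Bl, ff, div_mul_cancel₀ _ k.ne]
  linear_combination hθ

end Z

theorem per2 (cen : CEN C G) : PER2 C H := by
  intro un hs nt la r e x y W pe he
  have z₀ : Z C H r e x y W := ⟨pe, un, hs, nt, la, cen un r e y W pe.toYe, by have := pe.dim; omega⟩
  obtain ⟨u, u', ⟨a₀, a0, hu⟩, k, hB⟩ := z₀.frame
  have iso : ∀ a b : F, C.B (a • u + b • u') (a • u + b • u') =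
      (frob hF a * b - frob hF b * a) * C.B u u' := fun a b => by
    simp only [map_add, LinearMap.add_apply, Bl, map_smul, smul_eq_mul, k.i1, k.i2, hB]; ring
  have pr : ∀ s : F, frob hF s = s → s ≠ 0 → (2 : F) ≠ 0 ∧
      Pr C H y W (s • u + (1 : F) • u') (-s • u + (1 : F) • u') := fun s h1 h2 =>
    z₀.inv k h2 one_ne_zero (by rw [iso, h1]; simp)
  obtain ⟨h2, k1⟩ := pr 1 (map_one _) one_ne_zero
  have m1 : frob hF (-1) = -1 := by simp
  obtain ⟨t, ht, τ, τ0, At⟩ := z₀.tor2 h2 k1 m1 (neg_ne_zero.2 one_ne_zero)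
  have τ1 : τ * -2 ≠ 0 := mul_ne_zero τ0 (neg_ne_zero.2 h2)
  replace At : Ac u u' t (τ * -2 * 0) (τ * -2 * 1) (τ * -2 * 1) (τ * -2 * 0) :=
    At.eq (by ring) (by ring) (by ring) (by ring)
  have p0 : PO F H x u := hu ▸ PO.sml (H11.RS.PO.refl x) a0
  have p1 : PO F H x u' := p0.trans ⟨t, ht.1, by
    rw [At.1]; exact Submodule.mem_span_singleton.2 ⟨τ * -2, by module⟩⟩
  have p2 : ∀ a b : F, a ≠ 0 → b ≠ 0 → C.B (a • u + b • u') (a • u + b • u') = 0 →
      ∃ ν ∈ H, ∃ m : F, m ≠ 0 ∧ ν • (u + u') = m • (a • u + b • u') := fun a b h3 h4 h5 => by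
    rw [iso, mul_eq_zero, or_iff_left k.ne] at h5
    obtain ⟨ν, n1, m, m0, n2, n3⟩ := z₀.tor k (b := a / b) (by
      have := fr_ne (hF := hF) h4
      rw [map_div₀]; field_simp; linear_combination h5) (div_ne_zero h3 h4)
    refine ⟨ν, n1.1, m / b, div_ne_zero m0 h4, ?_⟩
    rw [smul_add, n2, n3]
    match_scalars <;> field_simp
  have fin : PO F H x (u + u') → (∃ g ∈ H, Iv C g u u') → (2 : F) ≠ 0 ∧ ∃ g ∈ H, ∃ a b,
      Iv C g a b ∧ ∀ v ∈ ln F a b, Is C v → PO F H x v := fun p3 ⟨g, hg, iv⟩ => by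
    refine ⟨h2, g, hg, u, u', iv, fun v hv i => ?_⟩
    obtain ⟨a, b, rfl⟩ := mem_ln.1 hv
    by_cases h3 : a = 0
    · rw [h3, zero_smul, zero_add] at i ⊢
      exact PO.sml p1 fun h => i.1 (by simp [h])
    by_cases h4 : b = 0
    · rw [h4, zero_smul, add_zero]
      exact PO.sml p0 h3
    obtain ⟨ν, n1, m, -, n2⟩ := p2 a b h3 h4 i.2
    exact p3.trans ⟨ν, n1, Submodule.mem_span_singleton.2 ⟨m, n2.symm⟩⟩
  have back : ∀ a b : F, a ≠ 0 → b ≠ 0 → PO F H x (a • u + b • u') → PO F H x (u + u') :=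
    fun a b h3 h4 p3 => by
      have n0 : a • u + b • u' ≠ 0 := fun h => h3 (ind_iff.1 k.ind a b h).1
      obtain ⟨ν, n1, m, m0, n2⟩ := p2 a b h3 h4 (un.is_po z₀.ix p3 n0).2
      rw [← po_smul n1, n2]
      exact PO.sml p3 m0
  have δ2 : (2 : F)⁻¹ * 2 = 1 := inv_mul_cancel₀ h2
  by_cases hι : ∃ ι : F, frob hF ι = ι ∧ ι ^ 2 = -1
  · obtain ⟨ι, i1, i2⟩ := hι
    have i0 : ι ≠ 0 := fun h => by simp [h] at i2
    have i3 : ι + 1 ≠ 0 := fun h => h2 (by linear_combination i2 - (ι - 1) * h)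
    obtain ⟨n, hn, μ, μ0, n2, n3⟩ := z₀.tor k i1 i0
    have An : Ac u u' n (μ * ι) (μ * 0) (μ * 0) (μ * 1) :=
      (Ac.diag n2 n3).eq (by ring) (by ring) (by ring) (by ring)
    obtain ⟨n', hn', μ', μ1, An'⟩ := z₀.tor2 h2 k1 i1 i0
    have μ2 := mul_ne_zero μ1 i3
    replace An' : Ac u u' n' (μ' * (ι + 1) * 1) (μ' * (ι + 1) * ι) (μ' * (ι + 1) * ι)
        (μ' * (ι + 1) * 1) :=
      An'.eq (by ring) (by linear_combination μ' * i2) (by linear_combination μ' * i2) (by ring)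
    generalize (2 : F)⁻¹ = δ at δ2
    have c1 : Ac u u' ⁅n, t⁆ (1 * ι) (1 * 0) (1 * 0) (1 * -ι) :=
      An.comm At μ0 τ1 (δ := -ι) (δ' := -1) (by linear_combination -i2) (by ring)
        (by linear_combination ι * i2) (by ring) (by ring) (by ring)
    have c2 : Ac u u' ⁅n, n'⁆ (δ * (1 + ι)) (δ * -(1 + ι)) (δ * (1 - ι)) (δ * (1 - ι)) :=
      An.comm An' μ0 μ2 (δ := -ι) (δ' := δ) (by linear_combination -i2)
        (by linear_combination δ2 - δ * i2) (by grind) (by grind) (by grind) (by grind)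
    have c3 : Ac u u' ⁅⁅n, n'⁆, ⁅n, t⁆⁆ 0 (-ι) (-ι) 0 :=
      c2.comm c1 (left_ne_zero_of_mul_eq_one δ2) one_ne_zero (δ := δ * δ) (δ' := 1) (by grind)
        (by grind) (by grind) (by grind) (by grind) (by grind)
    have c4 := z₀.cc (cm hn hn') (cm hn ht)
    have c5 := cH (cH hn.1 hn'.1) (cH hn.1 ht.1)
    refine .inl (fin (back _ _ (mul_ne_zero μ2 one_ne_zero) (mul_ne_zero μ2 i0) ?_)
      (z₀.iv1 k.toHy (H.mul_mem c5 c5) ((c3.mul c3).eq (by linear_combination -i2) (by ring) (by ring)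
        (by linear_combination -i2)) fun z hz => by rw [mul_smul, c4 z hz, c4 z hz]))
    rw [← An'.1, po_smul hn'.1]
    exact p0
  have three : ∀ s : F, frob hF s = s → s = 0 ∨ s = 1 ∨ s = -1 := fun s h3 => by
    by_contra hn
    simp only [not_or] at hn
    have e1 : ((1 + s) / 2) • ((1 : F) • u + (1 : F) • u') + ((1 - s) / 2) • (-(1 : F) • u +
        (1 : F) • u') = s • u + (1 : F) • u' := by match_scalars <;> field_simp <;> ring
    have k2 := (z₀.inv k1 (a := (1 + s) / 2) (b := (1 - s) / 2)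
      (div_ne_zero (fun h => hn.2.2 (by linear_combination h)) h2)
      (div_ne_zero (fun h => hn.2.1 (by linear_combination -h)) h2)
      (by rw [e1, iso, h3]; simp)).2
    rw [e1] at k2
    obtain ⟨γ, -, h4⟩ := z₀.uniq (pr s h3 hn.1).2 k2
    obtain ⟨e2, e3⟩ := k.co (a := -1) (b := -s) (c := γ * -s) (d := γ) (by
      rw [show (γ * -s) • u + γ • u' = γ • (-s • u + (1 : F) • u') by module, ← h4]
      match_scalars <;> field_simp <;> ring)
    exact hι ⟨s, h3, by linear_combination -e2 - s * e3⟩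
  have q3 : q = 3 := by
    have h3 := Set.ncard_le_ncard (show {a : F | frob hF a = a} ⊆ {0, 1, -1} from three)
    have h4 := Set.ncard_insert_le (0 : F) {1, -1}
    have h5 := Set.ncard_insert_le (1 : F) {-1}
    rw [ncard_fix] at h3
    rw [Set.ncard_singleton] at h5
    have := un.q3
    omega
  by_cases p3 : PO F H x (u + u')
  · refine .inl (fin p3 ?_)
    obtain ⟨h, hh, l, l0, h3⟩ := ((p0.symm z₀.ix.1).trans p3).ex k.ind.1
    obtain ⟨g, g1, g2, g3⟩ := z₀.fus h hh u k.m1 k.ind.1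
      (h3 ▸ W.smul_mem l (W.add_mem k.m1 k.m2))
    have hg : g ∈ N0 H y := ⟨g1, g2⟩
    rw [h3] at g3
    obtain ⟨b, b0, g4⟩ := z₀.uniq (k1.sml l0 one_ne_zero) (by
      simpa only [g3, one_smul] using z₀.smul k hg)
    obtain ⟨n, hn, μ, μ0, n2, n3⟩ := z₀.tor k m1 (neg_ne_zero.2 one_ne_zero)
    have An : Ac u u' n (μ * -1) (μ * 0) (μ * 0) (μ * 1) :=
      (Ac.diag n2 n3).eq (by ring) (by ring) (by ring) (by ring)
    have Ag : Ac u u' g (1 * l) (1 * -b) (1 * l) (1 * b) :=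
      ⟨by rw [g3]; module, by rw [g4]; module⟩
    have c1 : Ac u u' ⁅g, n⁆ 0 (-1) 1 0 :=
      Ag.comm An one_ne_zero μ0 (δ := (2 * l * b)⁻¹) (δ' := -1) (by field_simp; ring) (by ring)
        (by ring) (by field_simp; ring) (by field_simp; ring) (by ring)
    obtain ⟨j, o, ho, e1⟩ := Nat.exists_eq_pow_mul_and_not_dvd (orderOf_pos ⁅g, n⁆).ne' 2 (by norm_num)
    obtain ⟨i, rfl⟩ : Odd o := Nat.not_even_iff_odd.1 fun h => ho h.two_dvd
    obtain ⟨s, s2, c2⟩ := c1.odd (one_pow 2) i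
    have c3 : (⁅g, n⁆ ^ (2 * i + 1)) ^ 2 ^ j = 1 := by
      rw [← pow_mul, mul_comm, ← e1, pow_orderOf_eq_one]
    have c4 := (cm hg hn).pow_left (2 * i + 1)
    have c5 := H.pow_mem (cH g1 hn.1) (2 * i + 1)
    generalize ⁅g, n⁆ ^ (2 * i + 1) = c at c2 c3 c4 c5
    have c6 : Ac u u' (c * c) (-1) 0 0 (-1) :=
      (c2.mul c2).eq (by linear_combination s2) (by ring) (by ring) (by linear_combination s2)
    have c7 := c4.mul_left c4
    have c8 := H.mul_mem c5 c5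
    rcases z₀.two k.toHy j _ (H.mul_mem c8 c8) (c7.mul_left c7)
      (by rw [(Commute.refl _).mul_pow, (Commute.refl _).mul_pow, c3, one_mul, one_mul])
      ((c6.mul c6).eq (by ring) (by ring) (by ring) (by ring)) with h4 | h4
    swap
    · exact h4
    rcases z₀.sq c7 (l := 1) (by simp) (fun z hz => by rw [← mul_smul, h4 z hz]; simp) with h5 | h5
    · exact z₀.iv1 k.toHy c8 c6 (by simpa using h5)
    obtain ⟨ζ, hζ⟩ := FiniteField.isSquare_neg_one_iff.2 (show Fintype.card F % 4 ≠ 3 by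
      rw [hF, q3]; norm_num)
    have hζ' : ζ * frob hF ζ = 1 := by
      have h6 : frob hF ζ * frob hF ζ = ζ * ζ := by rw [← map_mul, ← hζ, m1]
      rcases mul_self_eq_mul_self_iff.1 h6 with h7 | h7
      · exact absurd ⟨ζ, h7, by rw [hζ, sq]⟩ hι
      · rw [h7]; linear_combination hζ
    obtain ⟨ξ, h6⟩ : ∃ ξ : F, ∀ z ∈ C.perp W, c • z = ξ • z :=
      (z₀.sq c4 hζ' fun z hz => by rw [← mul_smul, h5 z hz, hζ]).elim (⟨_, ·⟩) (⟨_, ·⟩)
    refine z₀.iv1 k.toHy (cH hn.1 c5) (An.comm (m := 1) (c2.eq (mul_zero _) (one_mul _) (one_mul _)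
      (mul_zero _)) μ0 one_ne_zero (δ := -1) (δ' := 1) (by ring) (by linear_combination s2)
      (by linear_combination s2) (by ring) (by ring) (by linear_combination s2)) fun z hz => ?_
    have h7 := z₀.nZ (inv_mem (cN c5 c4)) hz
    rw [commutatorElement_def, mul_smul, mul_smul, mul_smul, h6 _ (z₀.nZ (inv_mem hn) h7), gsc,
      smul_inv_smul, ← h6 _ h7, smul_inv_smul]
  refine .inr ⟨q3, fun pp => p3 (pp _ _ z₀.ix (by simpa using k1.is)), ?_⟩
  have h3 : r ∣ (Ob F H x \ W).ncard := H9.RU.fpf (k := 1) pe.od.1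
    (by rw [pow_one, ← pe.ord, pow_orderOf_eq_one])
    (fun s hs => ⟨⟨mt gsz.1 hs.1.1, (po_smul pe.yH).2 hs.1.2⟩, fun h => hs.2 ((pe.fix s).1
      (smul_left_cancel y ((pe.fix _).2 h)))⟩) fun s hs h => hs.2 ((pe.fix s).1 h)
  have h4 : Ob F H x ∩ W = (· • u) '' {a : F | a ≠ 0} ∪ (· • u') '' {a : F | a ≠ 0} := by
    ext v
    constructor
    · rintro ⟨⟨v0, h5⟩, h6⟩
      obtain ⟨a, b, rfl⟩ := z₀.co k.toHy h6
      by_cases h7 : a = 0
      · exact .inr ⟨b, fun h => v0 (by simp [h7, h]), by simp [h7]⟩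
      by_cases h8 : b = 0
      · exact .inl ⟨a, h7, by simp [h8]⟩
      exact absurd (back a b h7 h8 h5) p3
    · rintro (⟨a, h5, rfl⟩ | ⟨a, h5, rfl⟩)
      · exact ⟨⟨smul_ne_zero h5 k.ind.1, PO.sml p0 h5⟩, W.smul_mem a k.m1⟩
      · exact ⟨⟨smul_ne_zero h5 k.ind.ne0, PO.sml p1 h5⟩, W.smul_mem a k.m2⟩
  have h5 : {a : F | a ≠ 0}.ncard = 8 := by
    have := Set.ncard_add_ncard_compl ({0} : Set F)
    rw [Set.ncard_singleton, Nat.card_eq_fintype_card, hF, q3] at this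
    exact Nat.add_left_cancel (this.trans (by norm_num))
  rw [← Set.ncard_inter_add_ncard_sdiff_eq_ncard _ (W : Set V), h4, Set.ncard_union_eq (by
    rw [Set.disjoint_left]
    rintro _ ⟨a, h6, rfl⟩ ⟨b, -, h7⟩
    exact h6 (k.co (b := 0) (c := 0) (d := b) (by simpa using h7.symm)).1),
    Set.ncard_image_of_injective _ (smul_left_injective F k.ind.1),
    Set.ncard_image_of_injective _ (smul_left_injective F k.ind.ne0), h5]
  exact (Nat.ModEq.refl 16).add ((Nat.modEq_zero_iff_dvd).2 h3)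

end H22.RU
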