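import Mathlib

/-! Products of two regular unipotent elements. -/

set_option autoImplicit false

namespace H22.RU

open Module Submodule Cardinal

universe u v

variable {K : Type u} {V : Type v} [Field K] [AddCommGroup V] [Module K V]

theorem avoid (l : List (Submodule K V)) (h : ∀ p ∈ l, p ≠ ⊤) (hl : l.length ≤ #K) : ∃ x, ∀ p ∈ l, x ∉ p := by
  induction l with
  | nil => exact ⟨0, by simp⟩
  | cons p l ih =>
    have hl' : (l.length : Cardinal) < #K := lt_of_lt_of_le (by exact_mod_cast Nat.lt_succ_self _) hl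
    obtain ⟨x, hx⟩ := ih (fun q hq => h q (.tail _ hq)) hl'.le
    by_cases hp : x ∉ p
    · exact ⟨x, List.forall_mem_cons.2 ⟨hp, hx⟩⟩
    obtain ⟨y, -, hy⟩ := SetLike.exists_of_lt (h p (.head _)).lt_top
    have : ∀ q : Submodule K V, ∃ c : K, x ∉ q → ∀ t, y + t • x ∈ q → t = c := fun q => by
      by_cases e : ∃ c : K, y + c • x ∈ q
      · obtain ⟨c, hc⟩ := e
        refine ⟨c, fun hq t ht => by_contra fun n => hq ((q.smul_mem_iff (sub_ne_zero.2 n)).1 ?_)⟩
        simpa [sub_smul] using q.sub_mem ht hc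
      · exact ⟨0, fun _ t ht => absurd ⟨t, ht⟩ e⟩
    choose c hc using this
    obtain ⟨t, ht⟩ := Cardinal.exists_notMem_of_length_lt (l.map c) (by simpa using hl')
    refine ⟨y + t • x, List.forall_mem_cons.2 ⟨fun e => hy ((p.add_mem_iff_left (p.smul_mem t (not_not.1 hp))).1 e),
      fun q hq e => ht (hc q (hx q hq) t e ▸ List.mem_map_of_mem hq)⟩⟩

theorem exists_dual (w : V) (l : List V) (h : ∀ z ∈ l, z ∉ K ∙ w) (hl : l.length ≤ #K) :
    ∃ φ : Dual K V, φ w = 0 ∧ ∀ z ∈ l, φ z ≠ 0 := by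
  obtain ⟨ψ, hψ⟩ := avoid (l.map fun z => LinearMap.ker (Dual.eval K _ ((K ∙ w).mkQ z))) (by
    simp only [List.forall_mem_map]
    intro z hz e
    refine h z hz ((Submodule.Quotient.mk_eq_zero _).1 ((forall_dual_apply_eq_zero_iff K _).1 fun φ => ?_))
    exact (e.ge mem_top : φ ∈ _)) (by simpa using hl)
  refine ⟨ψ ∘ₗ mkQ _, ?_, fun z hz => hψ _ (List.mem_map_of_mem hz)⟩
  rw [LinearMap.comp_apply, mkQ_apply, (Submodule.Quotient.mk_eq_zero _).2 (mem_span_singleton_self w), map_zero]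

theorem eig_cover [Nontrivial V] {N : End K V} (hs : ∀ c : K, N ≠ c • 1) :
    ∃ A B : Submodule K V, A ≠ ⊤ ∧ B ≠ ⊤ ∧ ∀ (c : K) v, N v = c • v → v ∈ A ∨ v ∈ B := by
  by_cases h : ∃ c, N.eigenspace c ≠ ⊥
  · obtain ⟨c, hc⟩ := h
    refine ⟨N.eigenspace c, ⨆ d, ⨆ (_ : d ≠ c), N.eigenspace d, fun e => hs c (LinearMap.ext fun v =>
      End.mem_eigenspace_iff.1 (e.ge mem_top)), fun e => hc ?_, fun d v hv => ?_⟩
    · have := N.eigenspaces_iSupIndep c
      rwa [e, disjoint_top] at this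
    · by_cases e : d = c
      · exact .inl (End.mem_eigenspace_iff.2 (e ▸ hv))
      · exact .inr (mem_iSup_of_mem d (mem_iSup_of_mem e (End.mem_eigenspace_iff.2 hv)))
  · push Not at h
    exact ⟨⊥, ⊥, bot_ne_top, bot_ne_top, fun c v hv => .inl (h c ▸ End.mem_eigenspace_iff.2 hv)⟩

/-- rank at least two -/
def R2 (N : End K V) : Prop := ∀ z, ∃ u, N u ∉ K ∙ z

theorem exists_of_not_R2 {N : End K V} (h : ¬ R2 N) : ∃ (ψ : Dual K V) (z : V), N = ψ.smulRight z := by
  obtain ⟨z, H⟩ : ∃ z, ∀ u, N u ∈ K ∙ z := by simpa [R2] using h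
  rcases eq_or_ne z 0 with rfl | hz
  · exact ⟨0, 0, LinearMap.ext fun u => by simpa using H u⟩
  obtain ⟨f, hf⟩ := Projective.exists_dual_eq_one K hz
  refine ⟨f ∘ₗ N, z, LinearMap.ext fun u => ?_⟩
  obtain ⟨c, hc⟩ := mem_span_singleton.1 (H u)
  simp [← hc, hf]

theorem R2.of_sq [FiniteDimensional K V] {N : End K V} (hd : LinearMap.det (1 + N) = 1) (h : N * N ≠ 0) : R2 N := by
  by_contra H
  obtain ⟨ψ, z, rfl⟩ := exists_of_not_R2 H
  have : 1 + ψ z = 1 := (LinearMap.transvection.det ψ z).symm.trans hd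
  exact h (LinearMap.ext fun u => by simp [add_eq_left.1 this])

theorem exists_vec [FiniteDimensional K V] (hK : 4 ≤ #K) {N : End K V} (hN : R2 N) (hs : ∀ c : K, N ≠ c • 1) (x : V)
    {y : Dual K V} (hy : y ≠ 0) : ∃ v, y v ≠ 0 ∧ N v ∉ K ∙ x ∧ (∀ c : K, N v ≠ c • v) ∧
      (3 ≤ finrank K V → ∃ u, N u ∉ span K {v, N v}) := by
  have h1 : LinearMap.ker y ≠ ⊤ := mt LinearMap.ker_eq_top.1 hy
  have h2 : (K ∙ x).comap N ≠ ⊤ := fun e => let ⟨u, hu⟩ := hN x; hu (e.ge mem_top : u ∈ _)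
  by_cases h : LinearMap.range N = ⊤
  · have : Nontrivial V := let ⟨u, hu⟩ := hN 0; ⟨⟨N u, 0, fun e => hu (by rw [e]; exact zero_mem _)⟩⟩
    obtain ⟨A, B, hA, hB, H⟩ := eig_cover hs
    obtain ⟨v, hv⟩ := avoid [LinearMap.ker y, (K ∙ x).comap N, A, B] (by simp [*]) (by simpa)
    simp only [List.mem_cons, List.not_mem_nil, or_false, forall_eq_or_imp, forall_eq] at hv
    refine ⟨v, hv.1, hv.2.1, fun c e => (H c v e).elim hv.2.2.1 hv.2.2.2, fun h3 => ?_⟩
    by_contra! H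
    have : finrank K (span K ({v, N v} : Set V)) ≤ 2 := by
      classical exact (finrank_span_le_card _).trans (by simpa using Finset.card_le_two)
    rw [show span K {v, N v} = ⊤ from eq_top_iff.2 (h.ge.trans (by rintro _ ⟨u, rfl⟩; exact H u)), finrank_top] at this
    omega
  · obtain ⟨v, hv⟩ := avoid [LinearMap.ker y, (K ∙ x).comap N, LinearMap.range N] (by simp [*])
      (le_trans (by simp; norm_num) hK)
    simp only [List.mem_cons, List.not_mem_nil, or_false, forall_eq_or_imp, forall_eq] at hv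
    refine ⟨v, hv.1, hv.2.1, fun c e => ?_, fun _ => ?_⟩
    · have hc : c ≠ 0 := by rintro rfl; exact hv.2.1 (by simp [e])
      exact hv.2.2 ⟨c⁻¹ • v, by rw [map_smul, e, inv_smul_smul₀ hc]⟩
    · obtain ⟨u, hu⟩ := hN (N v)
      refine ⟨u, fun e => ?_⟩
      obtain ⟨a, b, e⟩ := mem_span_pair.1 e
      have ha : a ≠ 0 := by rintro rfl; exact hu (mem_span_singleton.2 ⟨b, by simpa using e⟩)
      exact hv.2.2 ⟨a⁻¹ • (u - b • v), by simp [← e, ha]⟩

/-- the reduced operator -/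
def red (N : End K V) (v : V) (φ : Dual K V) : End K V := N - (φ ∘ₗ N).smulRight v - (φ + φ ∘ₗ N).smulRight (N v)

theorem red_apply (N : End K V) (v : V) (φ : Dual K V) (u : V) :
    red N v φ u = N u - φ (N u) • v - (φ u + φ (N u)) • N v := rfl

theorem exists_good {N : End K V} (hi : Function.Injective (1 + N : End K V)) {v u : V} (hv : ∀ c : K, N v ≠ c • v)
    (hu : N u ∉ span K {v, N v}) : ∃ z ∉ K ∙ N v, ∀ φ : Dual K V, φ v = 1 → φ (N v) = 0 → φ z ≠ 0 →
      (red N v φ * red N v φ ≠ 0 ∧ ∀ c : K, ∃ w, φ w = 0 ∧ red N v φ w ≠ c • w) := by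
  set W := span K {v, N v}
  have w1 : v ∈ W := subset_span (.inl rfl)
  have w2 : N v ∈ W := subset_span (.inr rfl)
  have h0 : N v ≠ 0 := by simpa using hv 0
  by_contra! H
  have hW : K ∙ N v ≤ W := span_mono (Set.subset_insert _ _)
  -- two shapes of bad functionals
  let B : Dual K V → Prop := fun φ => φ v = 1 ∧ φ (N v) = 0 ∧ ((∀ w, red N v φ (red N v φ w) = 0) ∨
    ∃ c : K, ∀ w, red N v φ w = c • (w - φ w • v))
  have hB : ∀ z ∉ K ∙ N v, ∃ φ, φ z ≠ 0 ∧ B φ := fun z hz => by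
    obtain ⟨φ, a1, a2, a3, a4⟩ := H z hz
    refine ⟨φ, a3, a1, a2, or_iff_not_imp_left.2 fun h => ?_⟩
    obtain ⟨c, hc⟩ := a4 fun e => h (LinearMap.congr_fun e)
    refine ⟨c, fun w => ?_⟩
    rw [← hc _ (by simp [a1]), map_sub, map_smul, red_apply N v φ v]; simp [a1, a2]
  obtain ⟨φ₀, -, b₀⟩ := hB (N u) (mt (@hW _) hu)
  suffices ∃ z ∉ W, ∀ φ, B φ → φ z = φ₀ z by
    obtain ⟨z, hz, h⟩ := this
    obtain ⟨φ, a1, a2⟩ := hB (z - φ₀ z • v) fun e => hz ((W.sub_mem_iff_left (W.smul_mem _ w1)).1 (hW e))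
    exact a1 (by simp [a2.1, h φ a2])
  have t1 : ∀ φ w, red N v φ w - N w ∈ W := fun φ w => by
    rw [red_apply, sub_sub (N w), sub_sub_cancel_left]; exact W.neg_mem (W.add_mem (W.smul_mem _ w1) (W.smul_mem _ w2))
  have t2 : ∀ φ, B φ → ∀ w, red N v φ (red N v φ w) = red N v φ (N w) - (φ w + φ (N w)) • red N v φ (N v) :=
    fun φ h w => by rw [red_apply N v φ w, map_sub, map_sub, map_smul, map_smul, red_apply N v φ v]; simp [h.1, h.2.1]
  have t3 : ∀ φ (c : K), (∀ w, red N v φ w = c • (w - φ w • v)) → ∀ w, N w - c • w ∈ W := fun φ c h w => by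
    have := W.neg_mem (W.add_mem (t1 φ w) (W.smul_mem (c * φ w) w1))
    rw [h] at this; convert this using 1; module
  by_cases h2 : N (N v) ∈ W
  · obtain ⟨b, a, e⟩ := mem_span_pair.1 h2
    have t4 : ∀ φ, B φ → red N v φ (N v) = (a - b) • N v := fun φ h => by
      rw [red_apply, ← e]; simp [h.1, h.2.1]; module
    have t5 : ∀ φ, B φ → (∀ w, red N v φ (red N v φ w) = 0) → red N v φ (N u) = 0 := fun φ h h' => by
      have h3 := h' (N v)
      rw [t4 φ h, map_smul, t4 φ h, smul_smul, smul_eq_zero_iff_left h0, mul_self_eq_zero] at h3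
      simpa [h', t4 φ h, h3] using (t2 φ h u).symm
    have t6 : ∀ φ φ', B φ → B φ' → (∀ w, red N v φ (red N v φ w) = 0) → ∀ c : K,
        ¬ ∀ w, red N v φ' w = c • (w - φ' w • v) := fun φ φ' h h' h3 c h4 => by
      have a1 := t1 φ (N u)
      rw [t5 φ h h3, zero_sub, neg_mem_iff] at a1
      have a2 := (W.sub_mem_iff_right a1).1 (t3 φ' c h4 (N u))
      have a3 : c = 0 := by_contra fun n => hu ((W.smul_mem_iff n).1 a2)
      exact hu (by simpa [a3] using t3 φ' c h4 u)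
    refine ⟨N u, hu, fun φ h => ?_⟩
    rcases h.2.2 with h3 | ⟨c, h3⟩ <;> rcases b₀.2.2 with h4 | ⟨c₀, h4⟩
    · have a1 := (t5 φ h h3).trans (t5 φ₀ b₀ h4).symm
      have a2 := congrArg φ a1
      simp only [red_apply, map_sub, map_smul, h.1, h.2.1, smul_eq_mul, mul_one, mul_zero, sub_zero,
        sub_right_inj] at a2
      rw [red_apply, red_apply, a2, sub_right_inj] at a1
      exact add_right_cancel (smul_left_injective K h0 a1)
    · exact absurd h4 (t6 φ φ₀ h b₀ h3 c₀)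
    · exact absurd h3 (t6 φ₀ φ b₀ h h4 c)
    · have a1 : c = c₀ := by_contra fun n => hu ((W.smul_mem_iff (sub_ne_zero.2 n)).1 (by
        convert W.sub_mem (t3 φ₀ c₀ h4 (N u)) (t3 φ c h3 (N u)) using 1; module))
      subst a1
      have a2 : c + 1 ≠ 0 := fun n => hv (φ (N (N v))) (hi (by
        have := h3 (N v)
        rw [red_apply, h.2.1, eq_neg_of_add_eq_zero_left n] at this
        simp only [LinearMap.add_apply, End.one_apply, map_smul]
        linear_combination (norm := module) this))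
      have a3 : ∀ w, φ w = φ₀ w := fun w => by
        have e : (φ (N w) - c * φ w - (φ₀ (N w) - c * φ₀ w)) • v + (φ w + φ (N w) - (φ₀ w + φ₀ (N w))) • N v = 0 := by
          have e1 := h3 w
          have e2 := h4 w
          rw [red_apply] at e1 e2
          linear_combination (norm := module) e2 - e1
        have e3 := congrArg φ e
        simp only [map_add, map_smul, h.1, h.2.1, smul_eq_mul, mul_one, mul_zero, add_zero, map_zero] at e3
        rw [e3, zero_smul, zero_add, smul_eq_zero_iff_left h0] at e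
        exact mul_left_cancel₀ a2 (by linear_combination e - e3)
      exact a3 _
  · refine ⟨_, h2, fun φ h => ?_⟩
    have t4 : ∀ φ, B φ → N (N (N v)) - φ (N (N v)) • N (N v) ∈ W := fun φ h => by
      rcases h.2.2 with h3 | ⟨c, h3⟩
      · have := t2 φ h (N v)
        rw [h3, h.2.1, zero_add, eq_comm, sub_eq_zero] at this
        have a1 := W.sub_mem (W.smul_mem (φ (N (N v))) (t1 φ (N v))) (t1 φ (N (N v)))
        rw [this] at a1
        convert a1 using 1; module
      · exact absurd ((W.sub_mem_iff_left (W.smul_mem c w2)).1 (t3 φ c h3 (N v))) h2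
    by_contra n
    exact h2 ((W.smul_mem_iff (sub_ne_zero.2 n)).1 (by convert W.sub_mem (t4 φ₀ b₀) (t4 φ h) using 1; module))

section ext
variable {φ : Dual K V} {v : V} (hv : φ v = 1)

/-- projection on the hyperplane -/
def prj : V →ₗ[K] LinearMap.ker φ := (1 - φ.smulRight v).codRestrict _ fun u => by simp [hv]

theorem prj_coe (u : V) : (prj hv u : V) = u - φ u • v := rfl

theorem prj_ker (w : LinearMap.ker φ) : prj hv w = w := Subtype.ext (by simp [prj_coe, show φ w = 0 from w.2])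

theorem prj_self : prj hv v = 0 := Subtype.ext (by simp [prj_coe, hv])

/-- lower extension -/
def extP (P : End K (LinearMap.ker φ)) (x : LinearMap.ker φ) : End K V :=
  (LinearMap.ker φ).subtype ∘ₗ (P ∘ₗ prj hv + φ.smulRight x)

/-- upper extension -/
def extQ (Q : End K (LinearMap.ker φ)) (y : Dual K (LinearMap.ker φ)) : End K V :=
  (LinearMap.ker φ).subtype ∘ₗ Q ∘ₗ prj hv + (y ∘ₗ prj hv).smulRight v

variable (P : End K (LinearMap.ker φ)) (x : LinearMap.ker φ) (y : Dual K (LinearMap.ker φ))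

theorem extP_apply (u : V) : extP hv P x u = (P (prj hv u) + φ u • x : LinearMap.ker φ) := rfl

theorem extQ_apply (u : V) : extQ hv P y u = P (prj hv u) + y (prj hv u) • v := rfl

theorem extP_pow (k : ℕ) (u : V) :
    (extP hv P x ^ (k + 1)) u = ((P ^ (k + 1)) (prj hv u) + φ u • (P ^ k) x : LinearMap.ker φ) := by
  induction k with
  | zero => simp [extP_apply]
  | succ k ih =>
    rw [pow_succ', End.mul_apply, ih, extP_apply, prj_ker, show φ _ = 0 from Subtype.prop (p := (· ∈ LinearMap.ker φ)) _]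
    simp [pow_succ']

theorem extQ_pow (k : ℕ) (u : V) :
    (extQ hv P y ^ (k + 1)) u = (P ^ (k + 1)) (prj hv u) + y ((P ^ k) (prj hv u)) • v := by
  induction k with
  | zero => simp [extQ_apply]
  | succ k ih =>
    rw [pow_succ', End.mul_apply, ih, extQ_apply, map_add, map_smul, prj_ker, prj_self]
    simp [pow_succ']

include hv in
theorem finrank_ker [FiniteDimensional K V] {n : ℕ} (h : finrank K V = n + 1) : finrank K (LinearMap.ker φ) = n :=
  Nat.succ_injective ((Dual.finrank_ker_add_one_of_ne_zero (by rintro rfl; simp at hv)).trans h)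

end ext

theorem det_one_add_comm {W : Type*} [AddCommGroup W] [Module K W] [FiniteDimensional K V] [FiniteDimensional K W]
    (A : V →ₗ[K] W) (B : W →ₗ[K] V) : LinearMap.det (1 + A ∘ₗ B) = LinearMap.det (1 + B ∘ₗ A) := by
  rw [← LinearMap.det_toMatrix (finBasis K W), ← LinearMap.det_toMatrix (finBasis K V), map_add, map_add,
    LinearMap.toMatrix_one, LinearMap.toMatrix_one, LinearMap.toMatrix_comp _ (finBasis K V),
    LinearMap.toMatrix_comp _ (finBasis K W), Matrix.det_one_add_mul_comm]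

theorem main (hK : 4 ≤ #K) (n : ℕ) : ∀ {V : Type v} [AddCommGroup V] [Module K V] [FiniteDimensional K V],
    finrank K V = n + 1 → ∀ N : End K V, LinearMap.det (1 + N) = 1 → (1 ≤ n → R2 N ∧ ∀ c : K, N ≠ c • 1) →
    ∀ x : V, x ≠ 0 → ∀ y : Dual K V, y ≠ 0 → ∃ P Q : End K V, 1 + N = (1 + P) * (1 + Q) ∧ P ^ (n + 1) = 0 ∧
      (P ^ n) x ≠ 0 ∧ Q ^ (n + 1) = 0 ∧ ∃ u, y ((Q ^ n) u) ≠ 0 := by
  induction n with
  | zero =>
    intro V _ _ _ hd N h1 _ x hx y hy
    obtain ⟨c, hc, -⟩ := LinearMap.existsUnique_eq_smul_id_of_finrank_eq_one hd (1 + N)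
    rw [hc, LinearMap.det_smul, hd, LinearMap.det_id] at h1
    refine ⟨0, 0, by rw [hc, show c = 1 by simpa using h1]; simp [← End.one_eq_id], by simp, hx, by simp, ?_⟩
    by_contra! H
    exact hy (LinearMap.ext H)
  | succ n ih =>
    intro V _ _ _ hd N h1 h2 x hx y hy
    obtain ⟨h2, h3⟩ := h2 (by omega)
    obtain ⟨v, v1, v2, v3, v4⟩ := exists_vec hK h2 h3 x hy
    have hi : Function.Injective (1 + N : End K V) :=
      ((End.isUnit_iff _).1 ((LinearMap.isUnit_iff_isUnit_det _).2 (h1 ▸ isUnit_one))).1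
    have h0 : N v ≠ 0 := by simpa using v3 0
    have v5 : v ∉ K ∙ N v := fun h => by
      obtain ⟨c, hc⟩ := mem_span_singleton.1 h
      have : c ≠ 0 := by rintro rfl; exact v1 (by rw [← hc, zero_smul, map_zero])
      exact v3 c⁻¹ ((eq_inv_smul_iff₀ this).2 hc)
    obtain ⟨z, z1, z2⟩ : ∃ z ∉ K ∙ N v, ∀ φ : Dual K V, φ v = 1 → φ (N v) = 0 → φ z ≠ 0 → 1 ≤ n →
        (red N v φ * red N v φ ≠ 0 ∧ ∀ c : K, ∃ w, φ w = 0 ∧ red N v φ w ≠ c • w) := by
      by_cases hn : 1 ≤ n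
      · obtain ⟨u, hu⟩ := v4 (by omega)
        exact (exists_good hi v3 hu).imp fun z h => ⟨h.1, fun φ a b c _ => h.2 φ a b c⟩
      · exact ⟨v, v5, fun _ _ _ _ h => absurd h hn⟩
    obtain ⟨u, hu⟩ := h2 (N v)
    obtain ⟨ψ, p1, p2⟩ := exists_dual (K := K) (N v) [v, x, N u, z] (by
      simp only [List.mem_cons, List.not_mem_nil, or_false, forall_eq_or_imp, forall_eq]
      refine ⟨v5, fun h => v2 ?_, hu, z1⟩
      obtain ⟨c, rfl⟩ := mem_span_singleton.1 h
      exact mem_span_singleton.2 ⟨c⁻¹, inv_smul_smul₀ (left_ne_zero_of_smul hx) _⟩) (by simpa)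
    simp only [List.mem_cons, List.not_mem_nil, or_false, forall_eq_or_imp, forall_eq] at p2
    obtain ⟨φ, a1, a2, a3, a4, a5⟩ : ∃ φ : Dual K V, φ v = 1 ∧ φ (N v) = 0 ∧ φ x ≠ 0 ∧ φ (N u) ≠ 0 ∧ φ z ≠ 0 :=
      ⟨(ψ v)⁻¹ • ψ, by simp [p1, p2]⟩
    let T : V →ₗ[K] LinearMap.ker φ := (red N v φ).codRestrict _ fun w => by simp [red_apply, a1, a2]
    have hT : ∀ w, (T w : V) = red N v φ w := fun _ => rfl
    have hT' : ∀ w, T (prj a1 w) = T w := fun w => Subtype.ext (by simp [hT, prj_coe, red_apply N v φ v, a1, a2])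
    have hD : LinearMap.det (1 + T ∘ₗ (LinearMap.ker φ).subtype) = 1 := by
      rw [det_one_add_comm]
      have e : 1 + N = LinearMap.transvection φ (N v) * (1 + (LinearMap.ker φ).subtype ∘ₗ T) *
          LinearMap.transvection (φ ∘ₗ N) v := LinearMap.ext fun t => by
        simp [LinearMap.transvection.apply, hT, red_apply, a1, a2]
        module
      simpa [e, a2] using h1
    have hE : 1 ≤ n → R2 (T ∘ₗ (LinearMap.ker φ).subtype) ∧ ∀ c : K, T ∘ₗ (LinearMap.ker φ).subtype ≠ c • 1 := by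
      intro hn
      obtain ⟨c1, c2⟩ := z2 φ a1 a2 a5 hn
      refine ⟨R2.of_sq hD fun h => c1 (LinearMap.ext fun t => ?_), fun c h => ?_⟩
      · simpa [hT', ← hT] using LinearMap.congr_fun h (prj a1 t)
      · obtain ⟨w, h4, h5⟩ := c2 c
        exact h5 (congrArg Subtype.val (LinearMap.congr_fun h ⟨w, h4⟩))
    obtain ⟨P, Q, e, b1, b2, b3, w, b4⟩ := ih (finrank_ker a1 hd) (T ∘ₗ (LinearMap.ker φ).subtype) hD hE
      ⟨N v, a2⟩ (mt Subtype.ext_iff.1 h0) (φ ∘ₗ N ∘ₗ (LinearMap.ker φ).subtype) fun h => a4 (by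
        simpa [prj_coe, a2] using LinearMap.congr_fun h (prj a1 u))
    refine ⟨extP a1 P ⟨N v, a2⟩, extQ a1 Q (φ ∘ₗ N ∘ₗ (LinearMap.ker φ).subtype), LinearMap.ext fun t => ?_,
      LinearMap.ext fun t => by simp [extP_pow, pow_succ P (n + 1), b1], by simpa [extP_pow, b1, a3] using b2,
      LinearMap.ext fun t => by simp [extQ_pow, pow_succ Q (n + 1), b3], w,
      by simpa [extQ_pow, b3, prj_ker, v1] using b4⟩
    have := congrArg Subtype.val (LinearMap.congr_fun e (prj a1 t))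
    simp only [LinearMap.add_apply, End.one_apply, End.mul_apply, LinearMap.comp_apply, subtype_apply, hT', coe_add,
      extP_apply, extQ_apply, map_add, map_smul, prj_ker, prj_self, coe_smul, a1,
      show φ (Q (prj a1 t)) = 0 from (Q _).2] at this ⊢
    rw [hT, red_apply] at this
    rw [show φ (N (prj a1 t)) = φ (N t) by simp [prj_coe, a2], map_zero, coe_zero]
    linear_combination (norm := module) this

theorem exists_reg (n : ℕ) : ∀ {V : Type v} [AddCommGroup V] [Module K V] [FiniteDimensional K V],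
    finrank K V = n + 1 → ∀ z : V, z ≠ 0 → ∃ (Q : End K V) (x : V), Q ^ (n + 1) = 0 ∧ (Q ^ n) x = z := by
  induction n with
  | zero => exact fun _ z _ => ⟨0, z, by simp, rfl⟩
  | succ n ih =>
    intro V _ _ _ hd z hz
    obtain ⟨φ, h⟩ := Projective.exists_dual_eq_one K hz
    have := nontrivial_of_finrank_eq_succ (finrank_ker h hd)
    obtain ⟨w, hw⟩ := exists_ne (0 : LinearMap.ker φ)
    obtain ⟨Q, x, h1, h2⟩ := ih (finrank_ker h hd) w hw
    obtain ⟨y, hy⟩ := Projective.exists_dual_eq_one K hw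
    exact ⟨extQ h Q y, x, LinearMap.ext fun t => by simp [extQ_pow, pow_succ Q (n + 1), h1],
      by simp [extQ_pow, h1, prj_ker, h2, hy]⟩

variable [FiniteDimensional K V]

theorem main_tv {n : ℕ} (hd : finrank K V = n + 3) {N : End K V} (h1 : LinearMap.det (1 + N) = 1) (h0 : N ≠ 0)
    (h2 : ¬ R2 N) : ∃ P Q : End K V, 1 + N = (1 + P) * (1 + Q) ∧ P ^ (n + 3) = 0 ∧
      P ^ (n + 2) ≠ 0 ∧ Q ^ (n + 3) = 0 ∧ Q ^ (n + 2) ≠ 0 := by
  obtain ⟨ψ, z, rfl⟩ := exists_of_not_R2 h2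
  have h3 : ψ z = 0 := add_eq_left.1 ((LinearMap.transvection.det ψ z).symm.trans h1)
  obtain ⟨v, hv⟩ : ∃ v, ψ v = 1 := LinearMap.surjective (f := ψ) (by rintro rfl; simp at h0) 1
  obtain ⟨P, x, a1, a2⟩ := exists_reg (n + 1) (finrank_ker hv hd) ⟨z, h3⟩ (by
    rintro e; rw [show z = 0 from Subtype.ext_iff.1 e] at h0; simp at h0)
  obtain ⟨M, b1, b2⟩ : ∃ M : End K V, M ^ (n + 3) = 0 ∧ ψ.smulRight z = M ^ (n + 2) :=
    ⟨extP hv P x, LinearMap.ext fun t => by simp [extP_pow, pow_succ P (n + 2), a1],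
      LinearMap.ext fun t => by simp [extP_pow, a1, a2]⟩
  rw [b2] at h0 ⊢
  obtain ⟨w, hw⟩ := IsNilpotent.isUnit_one_add ⟨_, b1⟩
  have hc : Commute M w := hw ▸ (Commute.one_right M).add_right (.refl M)
  have hu : IsUnit (w⁻¹ * (M ^ (n + 1) - 1) : End K V) := (Units.isUnit _).mul (IsNilpotent.isUnit_sub_one
    ((IsNilpotent.mk M _ b1).pow_succ n))
  have hc' : Commute M (w⁻¹ * (M ^ (n + 1) - 1) : End K V) :=
    hc.units_inv_right.mul_right (((Commute.refl M).pow_right _).sub_right (.one_right M))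
  refine ⟨M, M * (w⁻¹ * (M ^ (n + 1) - 1)), ?_, b1, h0, by rw [hc'.mul_pow, b1, zero_mul],
    by rwa [hc'.mul_pow, Ne, (hu.pow _).mul_left_eq_zero]⟩
  rw [mul_add, ← hw, ← mul_assoc, ← mul_assoc, ← hc.eq, mul_assoc M, Units.mul_inv, hw, pow_succ' M (n + 1)]
  noncomm_ring

theorem reg_basis {n : ℕ} (hd : finrank K V = n + 1) {P : End K V} (h1 : P ^ (n + 1) = 0) (h2 : P ^ n ≠ 0) :
    ∃ b : Basis (Fin (n + 1)) K V, ∀ i j, LinearMap.toMatrix b b (1 + P) i j =
      if i = j then 1 else if j.val = i.val + 1 then 1 else 0 := by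
  obtain ⟨u, hu⟩ := DFunLike.ne_iff.1 h2
  have h3 : ∀ k, n < k → (P ^ k) u = 0 := fun k hk => by rw [pow_eq_zero_of_le hk h1]; rfl
  have li : LinearIndependent K fun j : Fin (n + 1) => (P ^ (n - j)) u := by
    refine Fintype.linearIndependent_iff.2 fun c hc j => ?_
    induction j using WellFoundedGT.induction with | ind j ih
    have := congrArg (P ^ j.1) hc
    rw [map_sum, map_zero, Finset.sum_eq_single j (fun i _ hi => ?_) (by simp), map_smul, ← End.mul_apply, ← pow_add,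
      Nat.add_sub_cancel' j.is_le] at this
    · exact (smul_eq_zero_iff_left hu).1 this
    rcases lt_or_gt_of_ne hi with h | h
    · rw [map_smul, ← End.mul_apply, ← pow_add, h3 _ (by have := i.is_le; omega), smul_zero]
    · rw [ih i h, zero_smul, map_zero]
  let b := basisOfLinearIndependentOfCardEqFinrank li (by simp [hd])
  have hb : ∀ j, b j = (P ^ (n - j)) u := fun j => by simp [b]
  refine ⟨b, fun i j => ?_⟩
  rw [map_add, LinearMap.toMatrix_one, Matrix.add_apply, Matrix.one_apply, LinearMap.toMatrix_apply]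
  induction j using Fin.cases with
  | zero => rw [hb, ← End.mul_apply, ← pow_succ', h3 _ (by simp)]; simp
  | succ j =>
    have : P (b j.succ) = b j.castSucc := by
      rw [hb, hb, ← End.mul_apply, ← pow_succ']; congr 2; have := j.2; simp; omega
    rw [this, b.repr_self, Finsupp.single_apply]
    simp only [Fin.ext_iff, Fin.val_succ, Fin.val_castSucc]
    split_ifs <;> first | omega | simp

theorem conj_J {n : ℕ} {J : GL (Fin (n + 1)) K}
    (hJ : ∀ i j, J.1 i j = if i = j then 1 else if j.val = i.val + 1 then 1 else 0) {P : End K (Fin (n + 1) → K)}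
    (h1 : P ^ (n + 1) = 0) (h2 : P ^ n ≠ 0) :
    ∃ x : GL (Fin (n + 1)) K, (x * J * x⁻¹).1 = LinearMap.toMatrix' (1 + P) := by
  obtain ⟨b, hb⟩ := reg_basis (by simp) h1 h2
  refine ⟨⟨(Pi.basisFun K _).toMatrix b, b.toMatrix (Pi.basisFun K _), Basis.toMatrix_mul_toMatrix_flip _ _,
    Basis.toMatrix_mul_toMatrix_flip _ _⟩, ?_⟩
  rw [Units.val_mul, Units.val_mul, show J.1 = _ from Matrix.ext fun i j => (hJ i j).trans (hb i j).symm]
  exact basis_toMatrix_mul_linearMap_toMatrix_mul_basis_toMatrix _ _ _ _ _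

theorem final (hK : 4 ≤ #K) (n : ℕ) (hn : 3 ≤ n) (J g : GL (Fin n) K)
    (hJ : ∀ i j, J.1 i j = if i = j then 1 else if j.val = i.val + 1 then 1 else 0)
    (hg : ¬ ∃ c : K, g.1 = c • (1 : Matrix (Fin n) (Fin n) K)) (hdet : g.1.det = 1) :
    ∃ x y : GL (Fin n) K, g = (x * J * x⁻¹) * (y * J * y⁻¹) := by
  obtain ⟨n, rfl⟩ : ∃ k, n = k + 3 := ⟨n - 3, by omega⟩
  obtain ⟨N, hN⟩ : ∃ N, Matrix.toLin' g.1 = 1 + N := ⟨_, (add_sub_cancel _ _).symm⟩
  have h1 : LinearMap.det (1 + N) = 1 := by rw [← hN, LinearMap.det_toLin', hdet]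
  have h2 : ∀ c : K, N ≠ c • 1 := fun c e => hg ⟨1 + c, Matrix.toLin'.injective (by
    rw [hN, e, map_smul, Matrix.toLin'_one, add_smul, one_smul]; rfl)⟩
  obtain ⟨P, Q, e, a1, a2, a3, a4⟩ : ∃ P Q, 1 + N = (1 + P) * (1 + Q) ∧ P ^ (n + 3) = 0 ∧
      P ^ (n + 2) ≠ 0 ∧ Q ^ (n + 3) = 0 ∧ Q ^ (n + 2) ≠ 0 := by
    by_cases h : R2 N
    · obtain ⟨P, Q, e, a1, a2, a3, u, a4⟩ := main hK (n + 2) (by simp) N h1 (fun _ => ⟨h, h2⟩) 1 one_ne_zero
        (LinearMap.proj 0) fun e => one_ne_zero (LinearMap.congr_fun e 1)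
      exact ⟨P, Q, e, a1, fun e => a2 (by rw [e]; rfl), a3, fun e => a4 (by rw [e]; rfl)⟩
    · exact main_tv (by simp) h1 (by simpa using h2 0) h
  obtain ⟨x, hx⟩ := conj_J hJ a1 a2
  obtain ⟨y, hy⟩ := conj_J hJ a3 a4
  exact ⟨x, y, Units.ext (by rw [Units.val_mul, hx, hy, ← LinearMap.toMatrix'_mul, ← e, ← hN]; simp)⟩

end H22.RU
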