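/-
Point stabilizers of primitive groups with linear or unitary socle: construction of the action.
-/
import Cfsg.Agent.H22.SB3
import Cfsg.Agent.H22.Gam

set_option autoImplicit false
set_option linter.unusedSectionVars false

namespace H22.SB
open Matrix

universe u
variable {F : Type} [Field F] [Fintype F] {n : ℕ} {Φ : Fm F} {G : Type u} [Group G]

/-- action of the outer part on invertible matrices -/
def ac (σ : RingAut F) (e : ℤˣ) (g : GL (Fin n) F) : GL (Fin n) F :=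
  if e = 1 then fldAut _ F σ g else fldAut _ F σ (itAut _ F g)

theorem um {e e' : ℤˣ} (h : e ≠ 1) (h' : e' ≠ 1) : e * e' = 1 := by
  rcases Int.units_eq_one_or e with rfl | rfl <;> rcases Int.units_eq_one_or e' with rfl | rfl <;>
    simp_all

theorem tw_tw (g g' : GL (Fin n) F) (σ σ' : RingAut F) (e e' : ℤˣ) (x : Mat n F) :
    tw g σ e (tw g' σ' e' x) = tw (g * ac σ e g') (σ * σ') (e * e') x := by
  have hm : ∀ y : Mat n F, (y.map σ').map σ = y.map (σ * σ' : RingAut F) := fun y => rfl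
  have h1 : ∀ a : GL (Fin n) F, (((fldAut _ F σ a)⁻¹ : GL (Fin n) F) : Mat n F) =
      ((a⁻¹ : GL (Fin n) F) : Mat n F).map σ := fun a => rfl
  have h2 : ∀ y z : Mat n F, (y * z).map σ = y.map σ * z.map σ := fun y z => Matrix.map_mul
  by_cases h : e = 1 <;> by_cases h' : e' = 1
  · subst h h'
    simp only [tw, ac, if_true, mul_one, h2, hm, _root_.mul_inv_rev, Units.val_mul, h1,
      coe_fldAut, Matrix.mul_assoc]
  · subst h
    simp only [tw, ac, if_true, one_mul, if_neg h', h2, _root_.mul_inv_rev, Units.val_mul, h1,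
      coe_fldAut, Matrix.mul_assoc, transpose_map, hm]
  · subst h'
    simp only [tw, ac, if_true, mul_one, if_neg h, h2, _root_.mul_inv_rev, Units.val_mul, h1,
      coe_fldAut, Matrix.mul_assoc, transpose_map, hm, transpose_mul, coe_itAut, coe_itAut_inv]
  · simp only [tw, ac, um h h', if_true, if_neg h, if_neg h', h2, _root_.mul_inv_rev,
      Units.val_mul, h1, coe_fldAut, Matrix.mul_assoc, transpose_map, hm, transpose_mul,
      coe_itAut, coe_itAut_inv, transpose_transpose]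

theorem tw_one (g : GL (Fin n) F) (x : Mat n F) :
    tw g 1 1 x = g * x * ((g⁻¹ : GL (Fin n) F) : Mat n F) := by
  simp only [tw, if_true]; rfl

theorem tw_sc {g : GL (Fin n) F} (h : Sc (g : Mat n F)) (x : Mat n F) : tw g 1 1 x = x := by
  rw [tw_one, h.comm, Units.mul_inv_cancel_right]

theorem map_mem_Γ (σ : RingAut F) {g : GL (Fin n) F} (hg : g ∈ Φ.Γ (Fin n)) :
    fldAut _ F σ g ∈ Φ.Γ (Fin n) := fun hu => by
  rw [coe_fldAut, Φ.adj_map, ← Matrix.map_mul (f := σ), hg hu, Matrix.map_one _ (map_zero _)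
    (map_one _)]

theorem ac_mem_Γ (σ : RingAut F) {e : ℤˣ} (he : Φ.u → e = 1) {g : GL (Fin n) F}
    (hg : g ∈ Φ.Γ (Fin n)) : ac σ e g ∈ Φ.Γ (Fin n) := fun hu => by
  rw [ac, if_pos (he hu)]; exact map_mem_Γ σ hg hu

theorem twS {g : GL (Fin n) F} (hg : g ∈ Φ.Γ (Fin n)) (σ : RingAut F) {e : ℤˣ}
    (he : Φ.u → e = 1) (s : Φ.S (Fin n)) : ∃ s' : Φ.S (Fin n), mt s' = tw g σ e (mt s) := by
  have h1 : ((mt s).map σ).det = 1 := by
    rw [show ((mt s).map σ).det = σ (mt s).det from (RingEquiv.map_det σ _).symm, mt_det, map_one]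
  have h2 : ∀ y : Mat n F, ((g : Mat n F) * y * (g⁻¹ : GL (Fin n) F)).det = y.det :=
    fun y => by rw [det_mul_comm, ← Matrix.mul_assoc, Units.inv_mul, Matrix.one_mul]
  refine ⟨Φ.mkS (tw g σ e (mt s)) ?_ fun hu => ?_, rfl⟩
  · rw [tw, h2]; split_ifs <;> simp [h1]
  · have := mul_mem (mul_mem hg (map_mem_Γ σ (mt_Γ s))) (inv_mem hg) hu
    simpa only [tw, he hu, if_true, Units.val_mul, coe_fldAut] using this

/-- `h` is induced by the twist -/
def Id' (π : Φ.S (Fin n) →* G) (h : G) (g : GL (Fin n) F) (σ : RingAut F) (e : ℤˣ) : Prop :=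
  ∀ s s', mt s' = tw g σ e (mt s) → π s' = (h * π s * h⁻¹) ^ (e : ℤ)

/-- admissible twists -/
def Ad (Φ : Fm F) (g : GL (Fin n) F) (e : ℤˣ) : Prop :=
  g ∈ Φ.Γ (Fin n) ∧ (e ≠ 1 → ¬ Φ.u ∧ n ≠ 2)

theorem Ad.u {g : GL (Fin n) F} {e : ℤˣ} (h : Ad Φ g e) (hu : Φ.u) : e = 1 := by
  by_contra a; exact (h.2 a).1 hu

theorem Ad.mul {g g' : GL (Fin n) F} {e e' : ℤˣ} (h : Ad Φ g e) (h' : Ad Φ g' e')
    (σ : RingAut F) : Ad Φ (g * ac σ e g') (e * e') :=
  ⟨mul_mem h.1 (ac_mem_Γ σ h.u h'.1), fun a => by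
    by_cases b : e = 1
    · exact h'.2 (by simpa [b] using a)
    · exact h.2 b⟩

theorem Id'.mul {π : Φ.S (Fin n) →* G} {h h' : G} {g g' : GL (Fin n) F} {σ σ' : RingAut F}
    {e e' : ℤˣ} (a : Id' π h g σ e) (a' : Id' π h' g' σ' e') (b : Ad Φ g' e') :
    Id' π (h * h') (g * ac σ e g') (σ * σ') (e * e') := fun s s' hs => by
  obtain ⟨t, ht⟩ := twS b.1 σ' b.u s
  rw [a t s' (by rw [hs, ht, tw_tw]), a' s t ht, ← conj_zpow, ← _root_.zpow_mul, Units.val_mul, mul_comm]
  congr 1; group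

theorem Id'.inv {π : Φ.S (Fin n) →* G} {h : G} {g : GL (Fin n) F} {σ : RingAut F}
    {e : ℤˣ} (a : Id' π h g σ e) (b : Ad Φ g e) : ∃ g', Ad Φ g' e ∧ Id' π h⁻¹ g' σ⁻¹ e ∧
      ∀ x, tw g σ e (tw g' σ⁻¹ e x) = x := by
  have k1 : ∀ x, tw (ac σ⁻¹ e g)⁻¹ σ⁻¹ e (tw g σ e x) = x := fun x => by
    rw [tw_tw, inv_mul_cancel, inv_mul_cancel, Int.units_mul_self, tw_sc (by simpa using sc_one)]
  have k2 : ∀ x, tw g σ e (tw (ac σ⁻¹ e g)⁻¹ σ⁻¹ e x) = x :=
    (Function.LeftInverse.rightInverse_of_surjective k1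
      (Finite.injective_iff_surjective.1 (Function.LeftInverse.injective k1)) :)
  refine ⟨_, ⟨inv_mem (ac_mem_Γ _ b.u b.1), b.2⟩, fun s s' hs => ?_, k2⟩
  rw [a s' s (by rw [hs, k2]), ← conj_zpow, ← _root_.zpow_mul, ← Units.val_mul, Int.units_mul_self]
  simp [mul_assoc]

/-- data from which the action is constructed -/
structure T0 (Φ : Fm F) (G : Type u) [Group G] (n : ℕ) where
  n2 : 2 ≤ n
  nL : n = 2 → ¬ Φ.u ∧ 4 ≤ Φ.q
  nU : Φ.u → n = 3 → Φ.q ≠ 2
  π : Φ.S (Fin n) →* G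
  ker : ∀ s, π s = 1 ↔ Sc (mt s)
  faith : ∀ h, (∀ s, h * π s = π s * h) → h = 1
  ex : ∀ h, ∃ g σ e, Ad Φ g e ∧ Id' π h g σ e
  uq : ∀ g σ e, Ad Φ g e → Id' π 1 g σ e → σ = 1 ∧ e = 1 ∧ Sc (g : Mat n F)

theorem T0.uniq (T : T0 Φ G n) {h : G} {g g' : GL (Fin n) F} {σ σ' : RingAut F} {e e' : ℤˣ}
    (b : Ad Φ g e) (a : Id' T.π h g σ e) (b' : Ad Φ g' e') (a' : Id' T.π h g' σ' e') :
    σ = σ' ∧ e = e' ∧ ∀ x, tw g σ e x = tw g' σ' e' x := by
  obtain ⟨g₁, b₁, a₁, k⟩ := a'.inv b'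
  have a2 := a₁.mul a b
  rw [inv_mul_cancel] at a2
  obtain ⟨u1, u2, u3⟩ := T.uq _ _ _ (b₁.mul b _) a2
  refine ⟨(inv_mul_eq_one.1 u1).symm, ?_, fun x => ?_⟩
  · rw [← one_mul e', ← u2, mul_comm e' e, mul_assoc, Int.units_mul_self, mul_one]
  · rw [← k (tw g σ e x), tw_tw g₁, u1, u2, tw_sc u3]

theorem T0.tx (T : T0 Φ G n) : ∃ X : Tx Φ G n, X.π = T.π := by
  choose g σ e b a using T.ex
  have m := fun h h' => T.uniq (b (h * h')) (a _) ((b h).mul (b h') (σ h)) ((a h).mul (a h') (b h'))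
  have p := fun s : Φ.S (Fin n) => T.uniq (b (T.π s)) (a _) (g' := s) (σ' := 1) (e' := 1)
    ⟨mt_Γ s, fun h => absurd rfl h⟩ fun t t' ht => by
      rw [tw_one] at ht
      rw [show t' = s * t * s⁻¹ from mt_inj ht]; simp
  refine ⟨{ n2 := T.n2, nL := T.nL, nU := T.nU, π := T.π, ker := T.ker, g := g
            gΓ := fun h => (b h).1
            σ := MonoidHom.mk' σ fun h h' => (m h h').1
            ε := MonoidHom.mk' e fun h h' => (m h h').2.1
            εU := fun hu h => (b h).u hu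
            tmul := fun h h' x => ((m h h').2.2 x).trans (tw_tw _ _ _ _ _ _ _).symm
            tπ := fun s x => ((p s).2.2 x).trans (tw_one _ _)
            σπ := fun s => (p s).1
            επ := fun s => (p s).2.1
            cjl := fun h s s' he hs => ?_
            cja := fun h s s' he hs => ?_
            faith := T.faith }, rfl⟩
  · have he' : e h = 1 := he
    rw [a h s s' hs, he']; simp
  · have he' : e h = -1 := (Int.units_eq_one_or _).resolve_left he
    rw [a h s s' hs, he']; simp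

/-- conjugation of `S` by an element of `Γ` -/
def cS {g : GL (Fin n) F} (hg : g ∈ Φ.Γ (Fin n)) : MulAut (Φ.S (Fin n)) :=
  have k : ∀ g ∈ Φ.Γ (Fin n), ∀ s : Φ.S (Fin n), g * s * g⁻¹ ∈ Φ.S (Fin n) := fun g hg s =>
    Subgroup.mem_inf.2 ⟨mul_mem (mul_mem hg (mt_Γ s)) (inv_mem hg),
      (MonoidHom.normal_ker _).conj_mem _ s.2.2 g⟩
  { toFun := fun s => ⟨g * s * g⁻¹, k g hg s⟩
    invFun := fun s => ⟨g⁻¹ * s * g⁻¹⁻¹, k g⁻¹ (inv_mem hg) s⟩
    left_inv := fun s => Subtype.ext (by simp [mul_assoc])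
    right_inv := fun s => Subtype.ext (by simp [mul_assoc])
    map_mul' := fun s t => Subtype.ext (by simp [mul_assoc]) }

theorem mt_cS {g : GL (Fin n) F} (hg : g ∈ Φ.Γ (Fin n)) (s : Φ.S (Fin n)) :
    mt (cS hg s) = tw g 1 1 (mt s) := (tw_one _ _).symm

theorem ac_one (g : GL (Fin n) F) : ac 1 1 g = g := by simp [ac]

theorem sc_tw {g : GL (Fin n) F} {x : Mat n F} : Sc (tw g 1 1 x) ↔ Sc x := by
  have k : ∀ (g : GL (Fin n) F) x, Sc x → Sc (tw g 1 1 x) := fun g x hx => by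
    rw [tw_one, ← hx.comm, Units.mul_inv_cancel_right]; exact hx
  refine ⟨fun h => ?_, k g x⟩
  have := k g⁻¹ _ h
  rwa [tw_tw, ac_one, inv_mul_cancel, mul_one, mul_one, tw_sc (by simpa using sc_one)] at this

theorem cj : CJ.{u} := by
  intro F _ _ Φ G _ _ n X g hg
  have k : ∀ h x, tw g 1 1 (tw (g⁻¹ * X.g h * ac (X.σ h) (X.ε h) g) (X.σ h) (X.ε h) x) =
      X.th h (tw g 1 1 x) := fun h x => by
    rw [Tx.th, tw_tw, tw_tw, ac_one]; simp [mul_assoc]
  have inj : ∀ {x y : Mat n F}, tw g 1 1 x = tw g 1 1 y → x = y := fun {x y} e => by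
    rw [tw_one, tw_one] at e
    exact (Units.mul_right_inj g).1 ((Units.mul_left_inj g⁻¹).1 e)
  let c := cS (Φ := Φ) hg
  refine ⟨{ n2 := X.n2, nL := X.nL, nU := X.nU, π := X.π.comp c.toMonoidHom
            ker := fun s => (X.ker (c s)).trans (by rw [mt_cS hg, sc_tw])
            g := fun h => g⁻¹ * X.g h * ac (X.σ h) (X.ε h) g
            gΓ := fun h => mul_mem (mul_mem (inv_mem hg) (X.gΓ h))
              (ac_mem_Γ _ (fun hu => X.εU hu h) hg)
            σ := X.σ, ε := X.ε, εU := X.εU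
            tmul := fun h h' x => inj (by rw [k, k, k, Tx.th_th])
            tπ := fun s x => inj ?_
            σπ := fun s => X.σπ _
            επ := fun s => X.επ _
            cjl := fun h s s' he hs => X.cjl h (c s) (c s') he ?_
            cja := fun h s s' he hs => X.cja h (c s) (c s') he ?_
            faith := fun h hh => X.faith h fun s => by simpa using hh (c.symm s)
            H := X.H, mx := X.mx, s := c.symm X.s, sH := by simpa using X.sH
            d := X.d, hd := by simpa using X.hd, d4 := X.d4, r := X.r, rp := X.rp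
            R := X.R.comap c.toMonoidHom
            RH := fun x hx => X.RH _ hx
            Rsc := fun x hx => X.Rsc _ (by rw [← sc_tw (g := g), ← mt_cS hg] at hx; exact hx)
            Rinv := fun h hh x hx y e => X.Rinv h hh _ hx _ e
            Rr := ?_
            Rne := ?_
            SC := fun x hx => X.SC _ fun y hy => by simpa using hx (c.symm y) (by simpa using hy)
            NM := fun x hx => X.NM _ fun y hy => by simpa using hx (c.symm y) (by simpa using hy)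
            pr := X.pr, dd := X.dd }, rfl, rfl, rfl, fun h x => ?_⟩
  · rw [k]
    show X.th (X.π (c s)) _ = _
    rw [Tx.th_pi, ← map_inv, mt_cS, mt_cS]
    simp only [tw_one, Matrix.mul_assoc, Units.inv_mul_cancel_left]
  · rw [mt_cS, hs, k, mt_cS]; rfl
  · rw [mt_cS, hs, k, mt_cS]; rfl
  · rw [← Subgroup.map_map, Subgroup.map_comap_eq_self_of_surjective c.surjective]; exact X.Rr
  · obtain ⟨x, hx, hs⟩ := X.Rne
    refine ⟨c.symm x, by simpa using hx, fun e => hs ?_⟩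
    rw [← sc_tw (g := g), ← mt_cS hg] at e; simpa [c] using e
  · rw [← tw_one, ← tw_one]; exact k h x

end H22.SB
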