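/-
Point stabilizers of primitive groups with linear or unitary socle: the action for PSL and PSU.
-/
import Cfsg.Agent.H22.SB4
import Cfsg.Agent.H22.AutPSL2
import Cfsg.Agent.H22.AutPSU

set_option autoImplicit false
set_option linter.unusedSectionVars false

namespace H22.SB
open Matrix Cfsg SemidirectProduct H11 H12

universe u
variable {F : Type} [Field F] [Fintype F] {n : ℕ} {Φ : Fm F} {G : Type u} [Group G]

theorem tx_of {N : Subgroup G} [N.Normal] (hc : Subgroup.centralizer (N : Set G) = ⊥)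
    {Q : Type} [Group Q] (ψ : N ≃* Q) (ρ : Φ.S (Fin n) →* Q) (hρ : Function.Surjective ρ)
    (n2 : 2 ≤ n) (nL : n = 2 → ¬ Φ.u ∧ 4 ≤ Φ.q) (nU : Φ.u → n = 3 → Φ.q ≠ 2)
    (ker : ∀ s, ρ s = 1 ↔ Sc (mt s))
    (ex : ∀ β : MulAut Q, ∃ g σ e, Ad Φ g e ∧
      ∀ s s', mt s' = tw g σ e (mt s) → ρ s' = β (ρ s) ^ (e : ℤ))
    (uq : ∀ g σ e, Ad Φ g e → (∀ s s', mt s' = tw g σ e (mt s) → ρ s' = ρ s ^ (e : ℤ)) →
      σ = 1 ∧ e = 1 ∧ Sc (g : Mat n F)) : ∃ X : Tx Φ G n, X.π.range = N := by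
  let π : Φ.S (Fin n) →* G := N.subtype.comp (ψ.symm.toMonoidHom.comp ρ)
  have hr : π.range = N := by
    rw [MonoidHom.range_comp, MonoidHom.range_eq_top.2 (ψ.symm.surjective.comp hρ),
      ← MonoidHom.range_eq_map, Subgroup.range_subtype]
  have hi : Function.Injective (N.subtype.comp ψ.symm.toMonoidHom) :=
    Subtype.val_injective.comp ψ.symm.injective
  obtain ⟨X, hX⟩ := T0.tx
    { n2 := n2, nL := nL, nU := nU, π := π
      ker := fun s => by rw [← ker]; simp [π]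
      faith := fun h hh => by
        rw [← Subgroup.mem_bot, ← hc, Subgroup.mem_centralizer_iff]
        intro x hx
        obtain ⟨s, rfl⟩ : x ∈ π.range := hr ▸ hx
        exact (hh s).symm
      ex := fun h => by
        obtain ⟨g, σ, e, b, a⟩ := ex (ψ.symm.trans ((MulAut.conjNormal h).trans ψ))
        exact ⟨g, σ, e, b, fun s s' hs => by simp [π, a s s' hs]⟩
      uq := fun g σ e b a => uq g σ e b fun s s' hs => hi (by simpa [π] using a s s' hs) }
  exact ⟨X, hX ▸ hr⟩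

/-- field data of the linear case -/
theorem exists_FmL (F : Type) [Field F] [Fintype F] : ∃ Φ : Fm F, ¬ Φ.u := by
  obtain ⟨p, hp⟩ := CharP.exists F
  obtain ⟨m, pp, hm⟩ := FiniteField.card F p
  exact ⟨⟨False, p, m, Fintype.card F, RingEquiv.refl F, pp, hp, hm, m.2, fun _ => rfl,
    False.elim, fun x => (FiniteField.pow_card x).symm⟩, not_false⟩

theorem exists_FmU {q : ℕ} (hF : Fintype.card F = q ^ 2) : ∃ Φ : Fm F, Φ.u ∧ Φ.q = q := by
  obtain ⟨p, hp⟩ := CharP.exists F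
  obtain ⟨m, pp, hm⟩ := FiniteField.card F p
  have := Fact.mk pp
  obtain ⟨f, -, hf⟩ := (Nat.dvd_prime_pow pp).1 (show q ∣ p ^ (m : ℕ) from
    hm ▸ hF ▸ dvd_pow_self q two_ne_zero)
  have f1 : 1 ≤ f := by
    rcases f with _ | f
    · have := Fintype.one_lt_card (α := F); simp [hF, hf] at this
    · omega
  have : PerfectRing F p := PerfectRing.ofFiniteOfIsReduced p F
  exact ⟨⟨True, p, f, q, iterateFrobeniusEquiv F p f, pp, hp, hf, f1, fun h => (h trivial).elim,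
    fun _ => hF, fun x => by rw [hf]; rfl⟩, trivial, rfl⟩

/-- the special linear group -/
def toSL (Φ : Fm F) (n : ℕ) : Φ.S (Fin n) →* SpecialLinearGroup (Fin n) F where
  toFun s := ⟨mt s, mt_det s⟩
  map_one' := rfl
  map_mul' _ _ := rfl

theorem toSL_surj (hu : ¬ Φ.u) : Function.Surjective (toSL Φ n) := fun s =>
  ⟨Φ.mkS s s.2 fun h => absurd h hu, rfl⟩

theorem wl {N : Subgroup G} [N.Normal] (hc : Subgroup.centralizer (N : Set G) = ⊥)
    (h : IsPSL N) : ∃ (F : Type) (_ : Field F) (_ : Fintype F) (Φ : Fm F) (n : ℕ)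
      (X : Tx Φ G n), X.π.range = N := by
  obtain ⟨F, _, _, n, n2, nL, ⟨ψ⟩⟩ := h
  obtain ⟨Φ, hu⟩ := exists_FmL F
  have : Nonempty (Fin n) := ⟨⟨0, by omega⟩⟩
  have c2 : 2 ≤ Fintype.card (Fin n) := by simpa using n2
  have k1 : ∀ (δ : GamL (Fin n) F) (s : SpecialLinearGroup (Fin n) F),
      tw δ.left δ.right 1 (s : Mat n F) =
        (sdConj (chi _ F) (jX δ) (SpecialLinearGroup.toGL s) : GL (Fin n) F) := fun δ s => by
    rw [sdConj_jX, sdConj_apply]; rfl
  have k2 : ∀ (δ : GamL (Fin n) F) (s : SpecialLinearGroup (Fin n) F),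
      tw δ.left δ.right (-1) ((s⁻¹ : SpecialLinearGroup (Fin n) F) : Mat n F) =
        (sdConj (chi _ F) (jX δ * grX _ F) (SpecialLinearGroup.toGL s) : GL (Fin n) F) :=
    fun δ s => by
      rw [map_mul, sdConj_grX, MulAut.mul_apply, sdConj_jX, sdConj_apply, Units.val_mul,
        Units.val_mul, coe_fldAut, coe_itAut, ← map_inv]; rfl
  refine ⟨F, _, _, Φ, n, tx_of hc ψ ((QuotientGroup.mk' _).comp (toSL Φ n))
    ((QuotientGroup.mk'_surjective _).comp (toSL_surj hu)) n2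
    (fun h => ⟨hu, Φ.cL hu ▸ nL h⟩) (fun h => absurd h hu) (fun s => ?_) (fun β => ?_)
    fun g σ e b a => ?_⟩
  · rw [MonoidHom.comp_apply, QuotientGroup.mk'_apply, QuotientGroup.eq_one_iff,
      Matrix.SpecialLinearGroup.mem_center_iff]
    refine ⟨fun ⟨a, _, h⟩ => ⟨a, by rw [← show _ = mt s from h]; simp [scalar_apply, smul_one_eq_diagonal]⟩,
      fun ⟨a, h⟩ => ⟨a, ?_, ?_⟩⟩
    · simpa [h] using mt_det s
    · rw [show ((toSL Φ n s : SpecialLinearGroup (Fin n) F) : Mat n F) = _ from h]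
      simp [scalar_apply, smul_one_eq_diagonal]
  · have lin : ∀ δ : GamL (Fin n) F, thSL _ F (jX δ) = β → ∃ g σ e, Ad Φ g e ∧
        ∀ s s', mt s' = tw g σ e (mt s) → ((QuotientGroup.mk' _).comp (toSL Φ n)) s' =
          β (((QuotientGroup.mk' _).comp (toSL Φ n)) s) ^ (e : ℤ) := fun δ hδ =>
      ⟨δ.left, δ.right, 1, ⟨fun h => absurd h hu, fun h => absurd rfl h⟩, fun s s' hs => by
        simpa using ((thSL_iff (k1 δ)).2 hδ.symm (toSL Φ n s) (toSL Φ n s') hs).symm⟩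
    by_cases h2 : n = 2
    · obtain ⟨δ, hδ⟩ := thSL_jX_surj (ι := Fin n) (by simpa using h2) β
      exact lin δ hδ
    obtain ⟨γ, hγ⟩ := thSL_surjective c2 β
    obtain ⟨δ, rfl | rfl⟩ := gamX_cases γ
    · exact lin δ hγ
    · refine ⟨δ.left, δ.right, -1, ⟨fun h => absurd h hu, fun _ => ⟨hu, h2⟩⟩, fun s s' hs => ?_⟩
      have := (thSL_iff (k2 δ)).2 hγ.symm (toSL Φ n s)⁻¹ (toSL Φ n s') (by rw [inv_inv]; exact hs)
      simpa using this.symm
  · rcases Int.units_eq_one_or e with rfl | rfl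
    · obtain ⟨c, hc⟩ := thSL_jX_eq_one c2 (γ := ⟨g, σ⟩) ((thSL_iff (k1 ⟨g, σ⟩)).1 fun s s' hs => by
        obtain ⟨s, rfl⟩ := toSL_surj hu s
        obtain ⟨s', rfl⟩ := toSL_surj hu s'
        simpa using (a s s' hs).symm).symm
      exact ⟨congrArg SemidirectProduct.right hc, rfl, c, by
        rw [show g = _ from congrArg SemidirectProduct.left hc]; exact coe_scal c⟩
    · have h3 : 3 ≤ Fintype.card (Fin n) := by
        have := (b.2 (by decide)).2; simp; omega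
      obtain ⟨c, hc⟩ := thSL_eq_one h3 (γ := jX ⟨g, σ⟩ * grX _ F)
        ((thSL_iff (k2 ⟨g, σ⟩)).1 fun s s' hs => by
          obtain ⟨s, rfl⟩ := toSL_surj hu s
          obtain ⟨s', rfl⟩ := toSL_surj hu s'
          simpa using (a s⁻¹ s' (by rw [← map_inv] at hs; exact hs)).symm).symm
      have := congrArg (fun γ => γ.right.2) hc
      exact absurd (by simpa [jX_right, grX] using this) g2_ne_one

/-- the special unitary group -/
def toSU (hu : Φ.u) (n : ℕ) : Φ.S (Fin n) →* SU n F Φ.q where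
  toFun s := ⟨toSL Φ n s, fun v w => by rw [← Φ.B_herm, ← Φ.B_herm]; exact mt_B hu s v w⟩
  map_one' := rfl
  map_mul' _ _ := rfl

theorem Γ_iff (hu : Φ.u) {g : GL (Fin n) F} : g ∈ Φ.Γ (Fin n) ↔ g ∈ GU n F Φ.q :=
  ⟨fun h v w => by rw [← Φ.B_herm, ← Φ.B_herm]; exact Fm.B_Γ h hu v w,
    fun h => Φ.mem_Γ_of_B fun v w => by rw [Φ.B_herm, Φ.B_herm]; exact h v w⟩

theorem toSU_surj (hu : Φ.u) : Function.Surjective (toSU hu n) := fun s =>
  ⟨⟨suGL n F Φ.q s, Φ.mem_S.2 ⟨(Γ_iff hu).2 s.2, s.1.2⟩⟩, rfl⟩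

theorem wu {N : Subgroup G} [N.Normal] (hc : Subgroup.centralizer (N : Set G) = ⊥)
    (h : IsPSU N) : ∃ (F : Type) (_ : Field F) (_ : Fintype F) (Φ : Fm F) (n : ℕ)
      (X : Tx Φ G n), X.π.range = N := by
  obtain ⟨F, _, _, n, q, hF, n3, nU, ⟨ψ⟩⟩ := h
  obtain ⟨Φ, hu, rfl⟩ := exists_FmU hF
  have mem : ∀ (g : GL (Fin n) F) (σ : RingAut F), g ∈ Φ.Γ (Fin n) →
      (⟨g, σ⟩ : GamL (Fin n) F) ∈ GamC (hermC (Fin n) hF) := fun g σ hg =>
    (mk_mem_GamC (su_isSS_inr hF σ)).2 (GU_le_GSim hF ((Γ_iff hu).1 hg))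
  refine ⟨F, _, _, Φ, n, tx_of hc ψ ((QuotientGroup.mk' _).comp (toSU hu n))
    ((QuotientGroup.mk'_surjective _).comp (toSU_surj hu)) (by omega)
    (fun h => by omega) (fun _ h h' => nU ⟨h, h'⟩) (fun s => ⟨fun h => ?_, fun h => ?_⟩)
    (fun β => ?_) fun g σ e b a => ?_⟩
  · have h1 := (suData hF n3).ThS_ρS (toSU hu n s)
    rw [show pmk (toSU hu n s) = 1 from h, map_one, FormData.ThS_eq_one] at h1
    obtain ⟨c, hc⟩ := h1
    exact ⟨c, (congrArg (fun g => (g.1 : Mat n F)) hc).trans (coe_scal c)⟩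
  · rw [MonoidHom.comp_apply, QuotientGroup.mk'_apply, QuotientGroup.eq_one_iff,
      Subgroup.mem_center_iff]
    exact fun t => Subtype.ext (Subtype.ext (h.comm _).symm)
  · obtain ⟨γ, rfl⟩ := su_Th_surj hF n3 nU β
    obtain ⟨g, σ, h⟩ := su_decomp hF n3 γ
    have hg := (Γ_iff hu).2 g.2
    refine ⟨g, σ, 1, ⟨hg, fun h => absurd rfl h⟩, fun s s' hs => ?_⟩
    have h1 : (suData hF n3).Th γ = (suData hF n3).Th ⟨_, mem g σ hg⟩ := by
      rw [h, FormData.ThS_apply, ← map_mul]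
      congr 1
      exact Subtype.ext (inl_left_mul_inr_right (⟨g.1, σ⟩ : GamL _ F))
    simpa using ((semilinPSU_iff hF n3).2 h1 (toSU hu n s) (toSU hu n s') hs).symm
  · obtain rfl := b.u hu
    obtain ⟨c, hc⟩ := (suData hF n3).Th_eq_one.1
      ((semilinPSU_iff hF n3 (γ := ⟨_, mem g σ b.1⟩)).1 fun s s' hs => by
        obtain ⟨s, rfl⟩ := toSU_surj hu s
        obtain ⟨s', rfl⟩ := toSU_surj hu s'
        simpa using (a s s' hs).symm).symm
    have hc' := congrArg Subtype.val hc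
    exact ⟨congrArg SemidirectProduct.right hc', rfl, c, by
      rw [show g = _ from congrArg SemidirectProduct.left hc']; exact coe_scal c⟩

end H22.SB
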