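/-
Point stabilizers of primitive groups with linear or unitary socle: assembly of the local steps.
-/
import Cfsg.Agent.H22.SB4

set_option autoImplicit false
set_option linter.unusedSectionVars false

namespace H22.SB
open Matrix
open scoped Nat

universe u
variable {F : Type} [Field F] [Fintype F] {n k : ℕ} {Φ : Fm F} {G : Type u} [Group G] [Finite G]

theorem fac_ge {d : ℕ} (h : 4 ≤ d) : 6 ≤ (d - 1)! ∧ d ≤ (d - 1)! ∧ 24 ≤ d ! := by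
  refine ⟨Nat.factorial_le (show 3 ≤ d - 1 by omega), ?_, Nat.factorial_le h⟩
  obtain ⟨e, rfl⟩ : ∃ e, d = e + 4 := ⟨d - 4, by omega⟩
  have := Nat.factorial_le (show 2 ≤ e + 2 by omega)
  rw [show e + 4 - 1 = e + 2 + 1 from rfl, Nat.factorial_succ]
  simp only [Nat.factorial_two] at this; nlinarith

theorem W_a {d : ℕ} (h : 4 ≤ d) : 31104 ≤ W d := by
  obtain ⟨h1, -, h3⟩ := fac_ge h
  exact Nat.mul_le_mul h3 ((Nat.pow_le_pow_left h1 4).trans (Nat.pow_le_pow_right (by omega) h))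

theorem W_b {d : ℕ} (h : 4 ≤ d) : 24 * d ^ 4 ≤ W d := by
  obtain ⟨h1, h2, h3⟩ := fac_ge h
  exact Nat.mul_le_mul h3 ((Nat.pow_le_pow_left h2 4).trans (Nat.pow_le_pow_right (by omega) h))

theorem W_c {d : ℕ} (h : 4 ≤ d) : d ! * (2 * d) ≤ W d := by
  obtain ⟨h1, h2, h3⟩ := fac_ge h
  refine Nat.mul_le_mul_left _ (le_trans ?_ (Nat.pow_le_pow_right (by omega) (show 2 ≤ d by omega)))
  nlinarith

theorem tp_p (pa : PA.{u}) (pl1 : PL1.{u}) (pl2 : PL2.{u}) (pu : PU.{u}) (np : NP) (tb : TB.{u})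
    (X : Cx Φ G n) (hr : X.r = Φ.p) : X.h ≤ W X.d := by
  obtain ⟨W₁, W₂, h1, h2, h3, h4, h5, h6⟩ := pa F Φ G n X hr
  have key : ∃ e, (Φ.q ^ e ≤ X.d ∧ n ≤ 2 * e) ∨ (2 * Φ.q ^ e ≤ X.d ∧ n ≤ 3 * e) := by
    by_cases hu : Φ.u
    · obtain rfl := h5 hu
      exact (pu F Φ G n X hu W₁ h1 h2 h4).imp fun e h => Or.inl h
    · rcases h6 hu with rfl | h
      · exact (pl1 F Φ G n X hu W₁ h1 h3 h4).imp fun e h => Or.inl h
      · exact pl2 F Φ G n X hu W₁ W₂ h1 h2 h3 h4 h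
  obtain ⟨e, he⟩ := key
  have : X.h * (X.d + 1) ≤ 2 * Φ.f * Φ.q ^ (n ^ 2 - 1) := tb F Φ G n X
  rw [Φ.hq] at this he
  exact np Φ.p Φ.f n X.d X.h e Φ.pp.two_le Φ.f1 X.n2 X.d4 this he

theorem sum_fib (β : Fin n → Fin k) : ∑ i, fib β i = n := by
  rw [← Fintype.card_sigma, Fintype.card_congr (Equiv.sigmaFiberEquiv β), Fintype.card_fin]

theorem fib_pos {β : Fin n → Fin k} (h : Function.Surjective β) (i : Fin k) : 1 ≤ fib β i :=
  Fintype.card_pos_iff.2 ⟨⟨_, (h i).choose_spec⟩⟩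

theorem sup_le (β : Fin n → Fin k) (v : Fin n → F) : sup β v ≤ k :=
  (Nat.card_le_card_of_injective _ Subtype.val_injective).trans (by simp)

theorem cn (c1 : CL1.{u}) (c2 : CL2) (c3 : CL3) (X : Cx Φ G n) {β : Fin n → Fin k} (b : X.Bl β)
    {m o c : ℕ} (hm : ∀ i, fib β i = m) (ho : ∀ i, Φ.Oc (Fb β i) o c) :
    Cn o c (n.gcd Φ.z) X.d k ∧ ((∀ i, Φ.Hs (Fb β i)) → Cn o c 1 X.d k) := by
  obtain ⟨v, h1, h2⟩ := c1 F Φ G n X k β o c b ho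
  have k2 := b.two
  have m1 : 1 ≤ m := hm ⟨0, by omega⟩ ▸ fib_pos b.sj _
  rcases (sup_le β v).lt_or_eq with h | h
  · have := (c2 F Φ n k β m o c m1 hm ho v h).trans h2
    exact ⟨Or.inl ⟨_, h1, h, this⟩, fun _ => Or.inl ⟨_, h1, h, this⟩⟩
  · obtain ⟨h3, h4⟩ := c3 F Φ n k β o c (by omega) ho v h
    exact ⟨Or.inr (h3.trans (Nat.mul_le_mul_left _ h2)),
      fun hs => Or.inr (by simpa using (h4 hs).trans h2)⟩

theorem tp_bl (sz : SZ.{u}) (gc : GC) (oc : OC) (kl : KL.{u}) (ku1 : KU1.{u}) (ku2 : KU2.{u})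
    (ku3 : KU3.{u}) (ub : UB) (c1 : CL1.{u}) (c2 : CL2) (c3 : CL3) (pb : PB.{u}) (n1 : N1)
    (n2l : N2L) (n2u : N2U) (n2t : N2T) (X : Cx Φ G n) (hr : X.r ≠ Φ.p) {β : Fin n → Fin k}
    (b : X.Bl β) (he : k = 2 ∨ ∃ m, ∀ i, fib β i = m) : X.h ≤ W X.d := by
  have hz : X.h * Φ.z ≤ 2 * Φ.f * (k ! * ∏ i, Nat.card (Φ.Γ (Fb β i))) :=
    ((sz F Φ G n X.toTx X.H).2 _ b.inv).2.trans (Nat.mul_le_mul_left _ (ub F Φ n k β b.sj))
  have al : ∀ i, fib β i = 1 ∨ (fib β i = 2 ∧ Φ.f = 1) ∨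
      (fib β i = 3 ∧ Φ.u ∧ Φ.f = 1 ∧ Φ.p = 2) := fun i => by
    by_cases hu : Φ.u
    · have a0 := fib_pos b.sj i
      have a1 := ku1 F Φ G n X hr hu k β b i
      have a2 := ku2 F Φ G n X hr hu k β b i
      have a3 := ku3 F Φ G n X hr hu k β b i
      rcases (by omega : fib β i = 1 ∨ fib β i = 2 ∨ fib β i = 3) with h | h | h
      · exact Or.inl h
      · exact Or.inr (Or.inl ⟨h, a1 h.ge⟩)
      · exact Or.inr (Or.inr ⟨h, hu, a1 (by omega), a3 h.ge⟩)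
    · exact (kl F Φ G n X hr hu k β b i).imp_right Or.inl
  have qp : Φ.f = 1 → Φ.q = Φ.p := fun h => by rw [Φ.hq, h, pow_one]
  obtain ⟨pb1, pb2⟩ := pb F Φ G n X k β b
  have k2 := b.two
  have g1 : ∀ i, fib β i = 1 → Nat.card (Φ.Γ (Fb β i)) ≤ Φ.z := fun i h => by
    simpa [show Fintype.card (Fb β i) = 1 from h] using (gc F Φ (Fb β i)).1 h.ge
  have eqc : ∀ m, (∀ i, fib β i = m) → X.h ≤ W X.d := fun m hm => by
    have hp : ∀ γ, (∀ i, Nat.card (Φ.Γ (Fb β i)) ≤ γ) →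
        X.h * Φ.z ≤ 2 * Φ.f * (k ! * γ ^ k) := fun γ h =>
      hz.trans (Nat.mul_le_mul_left _ (Nat.mul_le_mul_left _ (by
        simpa using Finset.prod_le_pow_card Finset.univ _ γ fun i _ => h i)))
    have i0 : Fin k := ⟨0, by omega⟩
    rcases al i0 with h | ⟨h, hf⟩ | ⟨h, hu, hf, h2⟩ <;> obtain rfl := (hm i0).symm.trans h
    · have hn : n = k := by simpa [hm] using (sum_fib β).symm
      refine n1 Φ.z Φ.f X.d X.h k Φ.z_pos ?_ k2 X.d4 (pb2 _ hm) (hp _ fun i => g1 i (hm i))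
        (hn ▸ (cn c1 c2 c3 X b hm fun i => (oc F Φ _).1 (hm i)).1)
      have := Φ.two_pow_le; have := Φ.q2
      by_cases hu : Φ.u
      · rw [Φ.zU hu]; omega
      · rw [Φ.zL hu]; omega
    · by_cases hu : Φ.u
      · have a := hp _ fun i => (gc F Φ _).2.2.1 (hm i) hu
        have a' := (cn c1 c2 c3 X b hm fun i => (oc F Φ _).2.2.1 (hm i) hu).1
        rw [Φ.zU hu, qp hf] at a a'
        rw [hf, mul_one] at a
        refine n2u Φ.p X.d X.h k Φ.pp (pb1 i0 h.ge) k2 X.d4 (pb2 _ hm) a (a'.imp_right fun h' =>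
          h'.trans (Nat.mul_le_mul_right _ (Nat.gcd_le_right _ (by omega))))
      · have a := hp _ fun i => (gc F Φ _).2.1 (hm i) hu
        have a' := (cn c1 c2 c3 X b hm fun i => ((oc F Φ _).2.1 (hm i) hu).1).2
          fun i => ((oc F Φ _).2.1 (hm i) hu).2
        rw [Φ.zL hu, qp hf, hf, mul_one] at a
        rw [qp hf] at a'
        exact n2l Φ.p X.d X.h k Φ.pp (pb1 i0 h.ge) k2 X.d4 (pb2 _ hm) a a'
    · have hq : Φ.q = 2 := (qp hf).trans h2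
      have a := hp _ fun i => (gc F Φ _).2.2.2 (hm i) hu hq
      have a' := (cn c1 c2 c3 X b hm fun i => ((oc F Φ _).2.2.2 (hm i) hu hq).1).2
        fun i => ((oc F Φ _).2.2.2 (hm i) hu hq).2
      rw [Φ.zU hu, hq, hf, mul_one] at a
      exact n2t X.d X.h k k2 X.d4 (pb2 _ hm) a a'
  rcases he with rfl | ⟨m, hm⟩
  swap
  · exact eqc m hm
  by_cases e : fib β 0 = fib β 1
  · exact eqc (fib β 0) fun i => by fin_cases i <;> simp [e]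
  have g2 : ∀ i, fib β i = 2 → Φ.f = 1 → Nat.card (Φ.Γ (Fb β i)) ≤ 2 * X.d ^ 4 ∧
      (Φ.p = 2 → Nat.card (Φ.Γ (Fb β i)) ≤ 18) := fun i h hf => by
    have hp := Nat.pow_le_pow_left (pb1 i h.ge) 4
    have p2 := Φ.pp.two_le
    have a0 : Φ.p ^ 2 - 1 ≤ Φ.p ^ 2 := Nat.sub_le _ _
    by_cases hu : Φ.u
    · have a := (gc F Φ _).2.2.1 h hu
      rw [qp hf] at a
      refine ⟨a.trans ((Nat.mul_le_mul (show _ ≤ 2 * Φ.p ^ 2 by nlinarith) a0).trans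
        (by nlinarith)), fun h2 => by simpa [h2] using a⟩
    · have a := (gc F Φ _).2.1 h hu
      rw [qp hf] at a
      refine ⟨a.trans ((Nat.mul_le_mul a0 (Nat.sub_le _ _)).trans (by nlinarith)),
        fun h2 => a.trans (by simp [h2])⟩
  have g3 : ∀ i, fib β i = 3 → Φ.u → Φ.f = 1 → Φ.p = 2 → Nat.card (Φ.Γ (Fb β i)) ≤ 648 ∧
      Φ.z = 3 := fun i h hu hf h2 =>
    ⟨(gc F Φ _).2.2.2 h hu ((qp hf).trans h2), by rw [Φ.zU hu, qp hf, h2]⟩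
  have wa := W_a X.d4
  have wb := W_b X.d4
  have z1 := Φ.z_pos
  have two : ∀ i j : Fin 2, X.h * Φ.z ≤ 2 * Φ.f * (2 * (Nat.card (Φ.Γ (Fb β i)) *
      Nat.card (Φ.Γ (Fb β j)))) → fib β i < fib β j → X.h ≤ W X.d := fun i j hz e => by
    rcases al i with h | ⟨h, hf⟩ | ⟨h, -⟩ <;> rcases al j with h' | ⟨h', hf'⟩ | ⟨h', hu, hf', h2⟩ <;>
      try omega
    · have a := Nat.mul_le_mul (g1 i h) (g2 j h' hf').1
      rw [hf'] at hz
      have : X.h * Φ.z ≤ 8 * X.d ^ 4 * Φ.z := by nlinarith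
      have := Nat.le_of_mul_le_mul_right this z1
      omega
    · have a := Nat.mul_le_mul (g1 i h) (g3 j h' hu hf' h2).1
      rw [hf'] at hz
      rw [(g3 j h' hu hf' h2).2] at hz a
      omega
    · have a := Nat.mul_le_mul ((g2 i h hf).2 h2) (g3 j h' hu hf' h2).1
      rw [hf', (g3 j h' hu hf' h2).2] at hz
      omega
  rw [Fin.prod_univ_two] at hz
  rcases Nat.lt_or_gt_of_ne e with e | e
  · exact two 0 1 hz e
  · exact two 1 0 (by rw [mul_comm (Nat.card _) (Nat.card _)]; exact hz) e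

theorem tp_sys (nf : NF) (bl : ∀ (X : Cx Φ G n), X.r ≠ Φ.p → ∀ k (β : Fin n → Fin k), X.Bl β →
      (k = 2 ∨ ∃ m, ∀ i, fib β i = m) → X.h ≤ W X.d) (X : Cx Φ G n) (hr : X.r ≠ Φ.p)
    (𝒟 : Finset (Mat n F)) (h1 : Sys 𝒟) (h2 : X.Inv 𝒟) (h3 : Φ.u → ∀ e ∈ 𝒟, Φ.adj e = e)
    (h4 : 𝒟.card = 2 ∨ ∃ m, ∀ e ∈ 𝒟, e.rank = m) : X.h ≤ W X.d := by
  obtain ⟨g, hg, β, sj, e, hm⟩ := nf F Φ n 𝒟 h1 h3
  obtain ⟨X', e1, e2, e3, e4⟩ := cj F Φ G n X g hg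
  have := bl X' (e3 ▸ hr) _ β ⟨?_, sj, h1.two⟩ (h4.imp_right fun ⟨m, h⟩ => ⟨m, hm m h⟩)
  · simpa only [Cx.h, e1, e2] using this
  · rintro h hh _ ⟨i, rfl⟩
    have := h2 h (e1 ▸ hh) _ (e.ge ⟨i, rfl⟩)
    rw [e, ← e4] at this
    obtain ⟨j, hj⟩ := this
    exact ⟨j, (Units.mul_right_inj g).1 ((Units.mul_left_inj g⁻¹).1 hj)⟩

theorem tp_ex (sz : SZ.{u}) (ea : EA.{u}) (eb : EB.{u}) (ec : EC.{u}) (e2 : E2.{u})
    (e3o : E3o.{u}) (e3t : E3t.{u}) (eq : EQ.{u}) (ef : EF) (e5 : E5.{u}) (e6 : E6.{u}) (n4 : N4)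
    (X : Cx Φ G n) (h : X.NoA) : X.h ≤ W X.d := by
  obtain ⟨E⟩ := ea F Φ G n X h
  have ab := eb F Φ G n X E
  have hn := (ec F Φ G n X E ab).1
  obtain ⟨nz, dch⟩ := e2 F Φ G n X E h
  obtain ⟨c, c0, tr⟩ : ∃ c, c ≠ 0 ∧ E.Tr c := by
    by_cases h2 : X.r = 2
    · exact ⟨1, one_ne_zero, e3t F Φ G n X E h2⟩
    · exact e3o F Φ G n X E h2
  have d4 := X.d4
  have hA : X.A ≤ 2 * X.d := by
    have a1 : X.A ∣ 2 * Φ.f := (sz F Φ G n X.toTx X.H).1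
    have a2 : X.A ∣ X.h := Subgroup.index_dvd_card _
    have f1 := Φ.f1
    rcases le_or_gt Φ.f X.d with a | a
    · exact (Nat.le_of_dvd (by omega) a1).trans (by omega)
    have hf := (ef F Φ X.r X.d X.rp X.r_le X.d4 (eq F Φ G n X E ab nz dch)).resolve_left (by omega)
    have : Φ.f.Coprime X.A := hf.coprime_iff_not_dvd.2 fun b =>
      absurd (X.pr _ hf (b.trans a2)) (by omega)
    exact (Nat.le_of_dvd two_pos (this.symm.dvd_of_dvd_mul_right a1)).trans (by omega)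
  obtain ⟨a, b, h1, h2, h3⟩ := e5 F Φ G n X E ab
  have fin := n4 X.r E.k n X.d X.h a b X.rp X.r_le X.d4 hn h1 (h2.trans hA) h3
    fun h4 => (X.dd h4).imp_right fun h => by
      have := Fact.mk Nat.prime_two
      exact h.exists_card_eq
  by_cases s : X.r = 2 ∧ E.k ≤ 4
  · exact fin (Or.inl s)
  have k6 : X.r = 2 → 6 ≤ E.k := fun h2 => by
    by_contra a
    have : E.k = 5 := by have := not_and.1 s h2; omega
    rw [this, h2] at hn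
    have : n ≤ 5 := by nlinarith
    interval_cases n <;> simp at hn
  rcases e6 F Φ G n X E h ab dch k6 c c0 tr with h | h
  · exact h.trans ((Nat.mul_le_mul_left _ hA).trans (W_c X.d4))
  · exact fin (Or.inr h)

/-- the bound in every context -/
def TOP : Prop := All.{u} fun {_ _ _ _ _ _ _ _} X => X.h ≤ W X.d

theorem top (pa : PA.{u}) (pl1 : PL1.{u}) (pl2 : PL2.{u}) (pu : PU.{u}) (np : NP) (tb : TB.{u})
    (sz : SZ.{u}) (gc : GC) (oc : OC) (kl : KL.{u}) (ku1 : KU1.{u}) (ku2 : KU2.{u})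
    (ku3 : KU3.{u}) (ub : UB) (c1 : CL1.{u}) (c2 : CL2) (c3 : CL3) (pb : PB.{u}) (n1 : N1)
    (n2l : N2L) (n2u : N2U) (n2t : N2T) (nf : NF) (di1 : DI1.{u}) (di2 : DI2.{u}) (kc : KC.{u})
    (ft : FT.{u}) (n3 : N3) (ea : EA.{u}) (eb : EB.{u}) (ec : EC.{u}) (e2 : E2.{u})
    (e3o : E3o.{u}) (e3t : E3t.{u}) (eq : EQ.{u}) (ef : EF) (e5 : E5.{u}) (e6 : E6.{u})
    (n4 : N4) : TOP.{u} := by
  intro F _ _ Φ G _ _ n X
  by_cases hr : X.r = Φ.p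
  · exact tp_p pa pl1 pl2 pu np tb X hr
  by_cases h : X.NoA
  · exact tp_ex sz ea eb ec e2 e3o e3t eq ef e5 e6 n4 X h
  rcases di1 F Φ G n X hr h with ⟨𝒟, h1, h2, h3⟩ | ⟨𝔄, h1⟩
  · rcases di2 F Φ G n X 𝒟 h1 h2 h3 with ⟨𝒟', a1, a2, a3, a4⟩ | ⟨hu, e, a1, a2, a3⟩
    · exact tp_sys nf (fun X hr k β b he => tp_bl sz gc oc kl ku1 ku2 ku3 ub c1 c2 c3 pb n1 n2l
        n2u n2t X hr b he) X hr 𝒟' a1 a2 a3 a4
    · exact absurd a3 (kc F Φ G n X hr hu e a1 a2)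
  · obtain ⟨a1, a2⟩ := ft F Φ G n X hr 𝔄 h1
    exact n3 Φ.q Φ.f n X.d X.h Φ.two_pow_le Φ.q2 X.n2 X.d4 a1 a2

end H22.SB
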