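/-
Point stabilizers of primitive groups with linear or unitary socle: groups of symplectic type.
-/
import Cfsg.Agent.H22.SB3
import Cfsg.Agent.H14.SM1

set_option autoImplicit false
set_option linter.unusedSectionVars false

namespace H22.SB
open Matrix

universe u
variable {F : Type} [Field F] [Fintype F] {n : ℕ} {Φ : Fm F} {G : Type u} [Group G]

namespace Ex
variable {X : Cx Φ G n} (E : Ex X)

/-- the character -/
def χ (t : ZMod X.r) : F := E.ζ ^ t.val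

theorem χ_add (a b : ZMod X.r) : E.χ (a + b) = E.χ a * E.χ b := by
  rw [χ, χ, χ, ← pow_add, ZMod.val_add, ← pow_eq_pow_mod _ E.hζ.pow_eq_one]
theorem χ_zero : E.χ 0 = 1 := by simp [χ]
theorem χ_eq_one {a : ZMod X.r} (h : E.χ a = 1) : a = 0 :=
  (ZMod.val_eq_zero a).1 (Nat.eq_zero_of_dvd_of_lt ((E.hζ.pow_eq_one_iff_dvd _).1 h) a.val_lt)
theorem χ_ne (a : ZMod X.r) : E.χ a ≠ 0 := pow_ne_zero _ (E.hζ.ne_zero X.rp.ne_zero)
theorem β_neg (v w : Fin E.k → ZMod X.r) : E.β v w = -E.β w v := by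
  have := E.alt (v + w)
  simp only [map_add, LinearMap.add_apply, E.alt] at this
  linear_combination this
theorem ν_one : E.ν 1 = 0 := (E.νk 1 (one_mem _)).2 sc_one
theorem ν_inv {x : Φ.S (Fin n)} (hx : x ∈ X.R) : E.ν x⁻¹ = -E.ν x := by
  rw [eq_neg_iff_add_eq_zero, ← E.νm _ (inv_mem hx) _ hx, inv_mul_cancel, ν_one]
theorem ν_eq {x y : Φ.S (Fin n)} (hx : x ∈ X.R) (hy : y ∈ X.R) :
    E.ν x = E.ν y ↔ X.π x = X.π y := by
  rw [← mul_inv_eq_one (a := X.π x), ← map_inv, ← map_mul, X.ker,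
    ← E.νk _ (mul_mem hx (inv_mem hy)),
    E.νm _ hx _ (inv_mem hy), E.ν_inv hy, ← sub_eq_add_neg, sub_eq_zero]
theorem cj {x y : Φ.S (Fin n)} (hx : x ∈ X.R) (hy : y ∈ X.R) :
    mt x * mt y * mt x⁻¹ = E.χ (E.β (E.ν x) (E.ν y)) • mt y := by
  rw [E.cm x hx y hy, smul_mul_assoc, Matrix.mul_assoc, mt_mul_inv, Matrix.mul_one, χ]

theorem card_ne : (Fintype.card (Fin E.k → ZMod X.r) : F) ≠ 0 := by
  have := E.hζ.neZero' (R := F)
  simpa using fun h => absurd h this.out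

theorem sum_χ {v : Fin E.k → ZMod X.r} (hv : v ≠ 0) : ∑ w, E.χ (E.β w v) = 0 := by
  obtain ⟨w₀, h⟩ := not_forall.1 (_root_.mt (E.nd v) hv)
  have h1 : E.χ (E.β w₀ v) ≠ 1 := fun e => h (by rw [β_neg, E.χ_eq_one e, neg_zero])
  have := Equiv.sum_comp (Equiv.addLeft w₀) fun w => E.χ (E.β w v)
  simp only [Equiv.coe_addLeft, map_add, LinearMap.add_apply, χ_add, ← Finset.mul_sum] at this
  exact eq_zero_of_mul_eq_self_left h1 this

variable {ρ : (Fin E.k → ZMod X.r) → Φ.S (Fin n)}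

/-- averaging -/
noncomputable def P (ρ : (Fin E.k → ZMod X.r) → Φ.S (Fin n)) : Mat n F →ₗ[F] Mat n F :=
  (Fintype.card (Fin E.k → ZMod X.r) : F)⁻¹ •
    ∑ v, (LinearMap.mulLeftRight F (mt (ρ v), mt (ρ v)⁻¹))

theorem P_apply (x : Mat n F) : E.P ρ x =
    (Fintype.card (Fin E.k → ZMod X.r) : F)⁻¹ • ∑ v, mt (ρ v) * x * mt (ρ v)⁻¹ := by
  simp [P, LinearMap.sum_apply]

theorem cj_eq {s t : Φ.S (Fin n)} (h : X.π s = X.π t) (x : Mat n F) :
    mt s * x * mt s⁻¹ = mt t * x * mt t⁻¹ := by rw [← X.th_pi, h, X.th_pi]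

theorem P_comm (hρ : ∀ v, ρ v ∈ X.R ∧ E.ν (ρ v) = v) (x : Mat n F) {y : Φ.S (Fin n)}
    (hy : y ∈ X.R) : E.P ρ x * mt y = mt y * E.P ρ x := by
  have : mt y * E.P ρ x * mt y⁻¹ = E.P ρ x := by
    rw [P_apply, mul_smul_comm, smul_mul_assoc, Finset.mul_sum, Finset.sum_mul,
      ← Equiv.sum_comp (Equiv.addLeft (E.ν y)) fun v => mt (ρ v) * x * mt (ρ v)⁻¹]
    refine congrArg _ (Finset.sum_congr rfl fun v _ => ?_)
    rw [Equiv.coe_addLeft, ← cj_eq (s := y * ρ v) (t := ρ (E.ν y + v))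
      ((E.ν_eq (mul_mem hy (hρ v).1) (hρ _).1).1
      (by rw [E.νm _ hy _ (hρ v).1, (hρ v).2, (hρ _).2])), _root_.mul_inv_rev, mt_mul, mt_mul]
    simp only [Matrix.mul_assoc]
  conv_lhs => rw [← this, Matrix.mul_assoc, mt_inv_mul, Matrix.mul_one]

theorem sum_P (hρ : ∀ v, ρ v ∈ X.R ∧ E.ν (ρ v) = v) (x : Mat n F) :
    ∑ w, mt (ρ w) * E.P ρ (mt (ρ w)⁻¹ * x) = x := by
  have h1 : ∀ w v, mt (ρ w) * (mt (ρ v) * (mt (ρ w)⁻¹ * x) * mt (ρ v)⁻¹) =
      E.χ (E.β w v) • (mt (ρ v) * x * mt (ρ v)⁻¹) := fun w v => by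
    have := E.cj (hρ w).1 (hρ v).1
    rw [(hρ w).2, (hρ v).2] at this
    simp only [← Matrix.mul_assoc, this, smul_mul_assoc]
  simp only [P_apply, mul_smul_comm, Finset.mul_sum, h1, ← Finset.smul_sum]
  rw [Finset.sum_comm]
  simp only [← Finset.sum_smul]
  rw [Finset.sum_eq_single 0 (fun v _ hv => by rw [E.sum_χ hv, zero_smul]) (by simp),
    ((E.νk _ (hρ 0).1).1 (hρ 0).2).comm, Matrix.mul_assoc, mt_mul_inv]
  simp only [map_zero, χ_zero, Finset.sum_const, Finset.card_univ, nsmul_eq_mul, mul_one,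
    smul_smul, inv_mul_cancel₀ E.card_ne, one_smul]

theorem P_mt (hρ : ∀ v, ρ v ∈ X.R ∧ E.ν (ρ v) = v) {t : Φ.S (Fin n)} (ht : t ∈ X.R) :
    E.P ρ (mt t) = if E.ν t = 0 then mt t else 0 := by
  simp only [P_apply, E.cj (hρ _).1 ht, (hρ _).2, ← Finset.sum_smul]
  split_ifs with h
  · simp only [h, map_zero, χ_zero, Finset.sum_const, Finset.card_univ, nsmul_eq_mul, mul_one,
      smul_smul, inv_mul_cancel₀ E.card_ne, one_smul]
  · rw [E.sum_χ h, zero_smul, smul_zero]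

theorem exρ : ∃ ρ : (Fin E.k → ZMod X.r) → Φ.S (Fin n), ∀ v, ρ v ∈ X.R ∧ E.ν (ρ v) = v :=
  ⟨fun v => (E.νs v).choose, fun v => (E.νs v).choose_spec⟩

include E in
theorem sc_of_comm {t : Φ.S (Fin n)} (h : ∀ y ∈ X.R, mt t * mt y = mt y * mt t) : Sc (mt t) := by
  have ht : t ∈ X.R := X.SC t fun y hy => by rw [← map_mul, ← map_mul, mt_comm.2 (h y hy)]
  refine (E.νk t ht).1 (E.nd _ fun w => ?_)
  obtain ⟨y, hy, rfl⟩ := E.νs w
  have := E.cj ht hy
  rw [h y hy, Matrix.mul_assoc, mt_mul_inv, Matrix.mul_one] at this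
  have h2 := congrArg (· * mt y⁻¹) this
  simp only [smul_mul_assoc, mt_mul_inv] at h2
  obtain ⟨i⟩ := X.ne
  exact E.χ_eq_one (by simpa using (congrFun (congrFun h2 i) i).symm)

include E in
theorem nil {N : Mat n F} (c : ∀ y ∈ X.R, N * mt y = mt y * N) (h : N * N = 0)
    (hu : Φ.u → Φ.adj N = -N) : N = 0 := by
  obtain ⟨a, ha⟩ := E.sc_of_comm (t := H14.SM.un Φ h hu) fun y hy => by
    show (1 + N) * _ = _ * (1 + N)
    rw [add_mul, mul_add, c y hy, Matrix.one_mul, Matrix.mul_one]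
  have h1 : N = (a - 1) • (1 : Mat n F) := by
    rw [sub_smul, ← ha, one_smul]; exact (add_sub_cancel_left 1 N).symm
  obtain ⟨i⟩ := X.ne
  rw [h1] at h ⊢
  have := congrFun (congrFun h i) i
  simp only [smul_mul_smul_comm, Matrix.mul_one, Matrix.smul_apply, one_apply_eq, smul_eq_mul,
    mul_one, Matrix.zero_apply, mul_self_eq_zero] at this
  rw [this, zero_smul]

include E in
theorem idem {e : Mat n F} (c : ∀ y ∈ X.R, e * mt y = mt y * e) (h : e * e = e)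
    (hu : Φ.u → Φ.adj e = e) : e = 0 ∨ e = 1 := by
  obtain ⟨x, hx, hs⟩ := X.Rne
  obtain ⟨w, hw⟩ := not_forall.1 (_root_.mt (E.nd _) (_root_.mt (E.νk x hx).1 hs))
  obtain ⟨y, hy, rfl⟩ := E.νs w
  set a := E.χ (E.β (E.ν x) (E.ν y))
  have a1 : a ≠ 1 := fun e => hw (E.χ_eq_one e)
  have am : Φ.Mu a := E.ζm.pow _
  have f1 : e * (1 - e) = 0 := by rw [mul_sub, h, Matrix.mul_one, sub_self]
  have f2 : (1 - e) * e = 0 := by rw [sub_mul, h, Matrix.one_mul, sub_self]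
  have f3 : (1 - e) * (1 - e) = 1 - e := by rw [mul_sub, f2, Matrix.mul_one, sub_zero]
  have m : ∀ s t : Mat n F, e * t = t * e →
      (s * e + (1 - e)) * (t * e + (1 - e)) = s * t * e + (1 - e) := fun s t ht => by
    rw [add_mul, mul_add, mul_add, f3, Matrix.mul_assoc s e (1 - e), f1, ← ht,
      ← Matrix.mul_assoc (1 - e), f2, Matrix.mul_assoc s e, ← Matrix.mul_assoc e e, h, ht,
      Matrix.mul_assoc]
    simp
  have d : ∀ s ∈ X.R, (mt s * e + (1 - e)).det ≠ 0 := fun s hs e0 => by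
    have := congrArg det (m (mt s) (mt s⁻¹) (c _ (inv_mem hs)))
    rw [det_mul, e0, mt_mul_inv] at this; simp at this
  have dg : ((a • (1 : Mat n F)) * e + (1 - e)).det = 1 := by
    have h1 := m (mt x) (mt y) (c y hy)
    have h2 := m (a • 1) (mt y * mt x) (c _ (mul_mem hy hx))
    rw [smul_mul_assoc a 1 (mt y * mt x), Matrix.one_mul,
      show a • (mt y * mt x) = _ from (E.cm x hx y hy).symm, ← h1, ← m _ _ (c x hx)] at h2
    have := congrArg det h2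
    rw [det_mul, det_mul, det_mul, mul_comm (det (mt x * e + _))] at this
    exact (mul_eq_right₀ (mul_ne_zero (d y hy) (d x hx))).1 this
  obtain ⟨b, hb⟩ := E.sc_of_comm (t := Φ.mkS _ dg fun u => by
    rw [Φ.adj_add, Φ.adj_sub, Φ.adj_mul, Φ.adj_smul, Φ.adj_one, hu u, mul_smul_comm,
      Matrix.mul_one, ← Matrix.one_mul e, ← smul_mul_assoc, Matrix.one_mul, m _ _ (by simp),
      smul_mul_smul_comm, mul_comm, (Φ.mu_U u).1 am]
    simp) fun y hy => by
      simp only [Fm.mt_mkS, add_mul, mul_add, sub_mul, mul_sub, smul_mul_assoc, Matrix.one_mul,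
        Matrix.mul_one, mul_smul_comm, c y hy]
  rw [Fm.mt_mkS] at hb
  have h1 := congrArg (· * e) hb
  have h2 := congrArg (· * (1 - e)) hb
  simp only [add_mul, Matrix.mul_assoc, h, f1, f2, f3, smul_mul_assoc, Matrix.one_mul, add_zero,
    smul_zero, zero_add] at h1 h2
  by_contra hc
  push Not at hc
  have b1 : a = b := smul_left_injective F hc.1 h1
  have b2 : (1 : F) = b := smul_left_injective F (sub_ne_zero.2 hc.2.symm) (by simpa using h2)
  exact a1 (b1.trans b2.symm)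

theorem ex_idem_pow (A : Mat n F) : ∃ m, 1 ≤ m ∧ A ^ m * A ^ m = A ^ m := by
  obtain ⟨i, j, hij, e⟩ := Finite.exists_ne_map_eq_of_infinite fun m : ℕ => A ^ m
  wlog h : i < j generalizing i j
  · exact this j i hij.symm e.symm (by omega)
  obtain ⟨t, rfl⟩ : ∃ t, j = i + (t + 1) := ⟨j - i - 1, by omega⟩
  have k : ∀ l s, A ^ (i + s + l * (t + 1)) = A ^ (i + s) := fun l s => by
    induction l with
    | zero => simp
    | succ l ih =>
      rw [show i + s + (l + 1) * (t + 1) = i + (t + 1) + (s + l * (t + 1)) by ring, pow_add,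
        show A ^ (i + (t + 1)) = A ^ i from e.symm, ← pow_add, ← add_assoc, ih]
  refine ⟨(i + 1) * (t + 1), by nlinarith, ?_⟩
  have := k (i + 1) ((i + 1) * (t + 1) - i)
  rwa [Nat.add_sub_cancel' (by nlinarith), pow_add] at this

include E in
theorem herm {A : Mat n F} (c : ∀ y ∈ X.R, A * mt y = mt y * A) (hu : Φ.u → Φ.adj A = A)
    (h0 : A ≠ 0) : A.det ≠ 0 := by
  have cp : ∀ m, ∀ y ∈ X.R, A ^ m * mt y = mt y * A ^ m := fun m y hy =>
    (Commute.pow_left (c y hy) m :)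
  obtain ⟨m, m1, hm⟩ := ex_idem_pow A
  rcases E.idem (cp m) hm (fun u => by rw [Φ.adj_pow, hu u]) with h | h
  · exfalso
    classical
    have ex : ∃ j, A ^ (j + 1) = 0 := ⟨m - 1, by rwa [Nat.sub_add_cancel m1]⟩
    obtain ⟨j, hj⟩ : ∃ j, Nat.find ex = j + 1 := Nat.exists_eq_succ_of_ne_zero fun e =>
      h0 (by simpa [e] using Nat.find_spec ex)
    have h1 : A ^ (j + 1 + 1) = 0 := hj ▸ Nat.find_spec ex
    have h2 : A ^ (j + 1) ≠ 0 := Nat.find_min ex (by omega)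
    obtain ⟨δ, δ0, hδ⟩ : ∃ δ : F, δ ≠ 0 ∧ (Φ.u → Φ.c δ = -δ) := by
      by_cases u : Φ.u
      · exact (H14.SM.ex_δ Φ u).imp fun δ h => ⟨h.1, fun _ => h.2⟩
      · exact ⟨1, one_ne_zero, fun h => absurd h u⟩
    refine h2 ((smul_eq_zero.1 (E.nil (N := δ • A ^ (j + 1)) (fun y hy => ?_) ?_
      fun u => ?_)).resolve_left δ0)
    · rw [smul_mul_assoc, mul_smul_comm, cp _ y hy]
    · rw [smul_mul_smul_comm, ← pow_add, show j + 1 + (j + 1) = j + 1 + 1 + j by ring, pow_add,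
        h1, Matrix.zero_mul, smul_zero]
    · rw [Φ.adj_smul, Φ.adj_pow, hu u, hδ u, neg_smul]
  · intro e
    have := congrArg det h
    rw [det_pow, e, zero_pow (by omega), det_one] at this
    exact zero_ne_one this

include E in
theorem div {A : Mat n F} (c : ∀ y ∈ X.R, A * mt y = mt y * A) (h0 : A ≠ 0) : A.det ≠ 0 := by
  by_cases u : Φ.u
  swap
  · exact E.herm c (fun h => absurd h u) h0
  intro hd
  have ca : ∀ B : Mat n F, (∀ y ∈ X.R, B * mt y = mt y * B) →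
      ∀ y ∈ X.R, Φ.adj B * mt y = mt y * Φ.adj B := fun B c y hy => by
    have := congrArg Φ.adj (c _ (inv_mem hy))
    rwa [Φ.adj_mul, Φ.adj_mul, mt_adj u, inv_inv, eq_comm] at this
  have k1 : ∀ B : Mat n F, (∀ y ∈ X.R, B * mt y = mt y * B) → Φ.adj B = B →
      Φ.adj A * B * A = 0 := fun B cB hB => by_contra fun h => E.herm (fun y hy => by
        rw [Matrix.mul_assoc, c y hy, ← Matrix.mul_assoc, Matrix.mul_assoc _ B, cB y hy,
          ← Matrix.mul_assoc, ca A c y hy]; simp only [Matrix.mul_assoc])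
      (fun _ => by rw [Φ.adj_mul, Φ.adj_mul, Φ.adj_adj, hB, Matrix.mul_assoc]) h
      (by rw [det_mul, hd, mul_zero])
  obtain ⟨θ, hθ⟩ := H14.SM.ex_θ Φ u
  have k2 : ∀ B : Mat n F, (∀ y ∈ X.R, B * mt y = mt y * B) → Φ.adj A * B * A = 0 :=
    fun B cB => by
      have h1 := k1 (B + Φ.adj B) (fun y hy => by rw [add_mul, mul_add, cB y hy, ca B cB y hy])
        (by rw [Φ.adj_add, Φ.adj_adj, add_comm])
      have h2 := k1 (θ • B + Φ.c θ • Φ.adj B) (fun y hy => by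
        simp only [add_mul, mul_add, smul_mul_assoc, mul_smul_comm, cB y hy, ca B cB y hy])
        (by rw [Φ.adj_add, Φ.adj_smul, Φ.adj_smul, Φ.adj_adj, Φ.c_c, add_comm])
      simp only [add_mul, mul_add, smul_mul_assoc, mul_smul_comm] at h1 h2
      rw [eq_neg_of_add_eq_zero_right h1, smul_neg, ← sub_eq_add_neg, ← sub_smul] at h2
      exact (smul_eq_zero.1 h2).resolve_left (sub_ne_zero.2 hθ.symm)
  obtain ⟨ρ, hρ⟩ := E.exρ
  have k3 : ∀ B : Mat n F, Φ.adj A * B * A = 0 := fun B => by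
    rw [← E.sum_P hρ B, Finset.mul_sum, Finset.sum_mul]
    refine Finset.sum_eq_zero fun w _ => ?_
    rw [← Matrix.mul_assoc, ca A c _ (hρ w).1, Matrix.mul_assoc (mt _), Matrix.mul_assoc,
      k2 _ fun y hy => E.P_comm hρ _ hy, Matrix.mul_zero]
  obtain ⟨i, hi⟩ := Function.ne_iff.1 h0
  obtain ⟨j, hj⟩ := Function.ne_iff.1 hi
  have := congrFun (congrFun (k3 (single i i 1)) j) j
  rw [Matrix.mul_assoc, mul_apply, Finset.sum_eq_single i] at this
  · simp [Fm.adj_apply] at this; exact hj this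
  · intro b _ hb; simp [hb]
  · simp
end Ex

theorem sc_of_central {x : Mat n F} (h : ∀ y, x * y = y * x) : Sc x := by
  obtain ⟨a, ha⟩ := mem_range_scalar_iff_commute_single'.2 fun i j => (h (single i j 1)).symm
  exact ⟨a, by rw [← ha]; simp [scalar_apply, smul_one_eq_diagonal]⟩

theorem eb' : EB.{u} := by
  intro F _ _ Φ G _ _ n X E x hx
  let C := Subring.centralizer (mt '' (X.R : Set (Φ.S (Fin n))))
  have hC : ∀ {a}, a ∈ C ↔ ∀ y ∈ X.R, a * mt y = mt y * a := fun {a} =>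
    ⟨fun h y hy => (h _ ⟨y, hy, rfl⟩).symm, by rintro h _ ⟨y, hy, rfl⟩; exact (h y hy).symm⟩
  have := X.ne
  have : NoZeroDivisors C := ⟨fun {a b} e => or_iff_not_imp_left.2 fun a0 => Subtype.ext (by
    have u := (isUnit_iff_isUnit_det _).2 (E.div (hC.1 a.2) fun h => a0 (Subtype.ext h)).isUnit
    exact u.mul_right_eq_zero.1 (congrArg Subtype.val e))⟩
  have : IsDomain C := NoZeroDivisors.to_isDomain C
  have f := Finite.isDomain_to_isField C
  obtain ⟨ρ, hρ⟩ := E.exρ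
  refine sc_of_central fun y => ?_
  rw [← E.sum_P hρ y, Finset.mul_sum, Finset.sum_mul]
  refine Finset.sum_congr rfl fun w _ => ?_
  rw [← Matrix.mul_assoc, hx _ (hρ w).1, Matrix.mul_assoc, Matrix.mul_assoc]
  exact congrArg _ (congrArg Subtype.val
    (f.mul_comm ⟨x, hC.2 hx⟩ ⟨_, hC.2 fun y hy => E.P_comm hρ _ hy⟩))

theorem ec : EC.{u} := by
  intro F _ _ Φ G _ _ n X E ab
  have li : ∀ ρ : (Fin E.k → ZMod X.r) → Φ.S (Fin n), (∀ v, ρ v ∈ X.R ∧ E.ν (ρ v) = v) →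
      LinearIndependent F fun v => mt (ρ v) := fun ρ hρ => by
    refine Fintype.linearIndependent_iff.2 fun a ha w => ?_
    have := congrArg (fun x => E.P ρ (mt (ρ w)⁻¹ * x)) ha
    simp only [Finset.mul_sum, mul_smul_comm, map_sum, map_smul, Matrix.mul_zero, map_zero,
      ← mt_mul] at this
    rw [Finset.sum_eq_single w, inv_mul_cancel, E.P_mt hρ (one_mem _), if_pos E.ν_one] at this
    · obtain ⟨i⟩ := X.ne
      simpa [mt_one] using congrFun (congrFun this i) i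
    · intro v _ hv
      rw [E.P_mt hρ (mul_mem (inv_mem (hρ w).1) (hρ v).1), if_neg, smul_zero]
      rw [E.νm _ (inv_mem (hρ w).1) _ (hρ v).1, E.ν_inv (hρ w).1, (hρ w).2, (hρ v).2,
        neg_add_eq_zero]
      exact hv.symm
    · simp
  obtain ⟨ρ, hρ⟩ := E.exρ
  refine ⟨?_, li, fun h hh hc => ?_⟩
  · have sp : Submodule.span F (Set.range fun v => mt (ρ v)) = ⊤ := eq_top_iff.2 fun x _ => by
      rw [← E.sum_P hρ x]
      refine Submodule.sum_mem _ fun w _ => ?_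
      obtain ⟨a, ha⟩ := ab _ fun y hy => E.P_comm hρ (mt (ρ w)⁻¹ * x) hy
      rw [ha, mul_smul_comm, Matrix.mul_one]
      exact Submodule.smul_mem _ _ (Submodule.subset_span ⟨w, rfl⟩)
    have := finrank_span_eq_card (li ρ hρ)
    rw [sp, finrank_top, Module.finrank_matrix] at this
    simpa [sq] using this
  · obtain ⟨hH, hσ, hε⟩ := X.mem_Hs.1 hh
    have ht : ∀ x, X.th h x = X.g h * x * ((X.g h)⁻¹ : GL (Fin n) F) := fun x => by
      rw [X.th_lin hε, hσ]; rfl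
    have k1 : ∀ x ∈ X.R, ∃ a : F, (X.g h : Mat n F) * mt x = a • (mt x * X.g h) := fun x hx => by
      obtain ⟨y, -, e1, e2, -⟩ := X.thR hH hx
      obtain ⟨a, ha⟩ := X.pi_eq.1 ((e2 hε).trans (by rw [hc x hx, mul_inv_cancel_right]))
      exact ⟨a, by rw [← smul_mul_assoc, ← ha, e1, ht, Units.inv_mul_cancel_right]⟩
    obtain ⟨w, hw⟩ : ∃ w, E.P ρ (mt (ρ w)⁻¹ * X.g h) ≠ 0 := by
      by_contra! a
      have := E.sum_P hρ (X.g h)
      simp only [a, Matrix.mul_zero, Finset.sum_const_zero] at this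
      have _ := X.ne
      exact (X.g h).ne_zero this.symm
    obtain ⟨b, hb⟩ : ∃ b : F, E.P ρ (mt (ρ w)⁻¹ * X.g h) = b • (mt (ρ w)⁻¹ * X.g h) := by
      choose a ha using fun v => k1 _ (inv_mem (hρ v).1)
      refine ⟨(Fintype.card (Fin E.k → ZMod X.r) : F)⁻¹ *
        ∑ v, a v * E.χ (E.β (E.ν (ρ v)) (E.ν (ρ w)⁻¹)), ?_⟩
      rw [E.P_apply, mul_smul, Finset.sum_smul]
      refine congrArg _ (Finset.sum_congr rfl fun v _ => ?_)
      rw [Matrix.mul_assoc, Matrix.mul_assoc, ha, mul_smul_comm, mul_smul_comm, mul_smul,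
        ← smul_mul_assoc (E.χ _), ← E.cj (hρ v).1 (inv_mem (hρ w).1)]
      simp only [Matrix.mul_assoc]
    obtain ⟨a, ha⟩ := ab _ fun y hy => E.P_comm hρ (mt (ρ w)⁻¹ * X.g h) hy
    have b0 : b ≠ 0 := by rintro rfl; exact hw (by rw [hb, zero_smul])
    have sc : Sc (mt (ρ w)⁻¹ * (X.g h : Mat n F)) :=
      ⟨b⁻¹ * a, by rw [mul_smul, ← ha, hb, inv_smul_smul₀ b0]⟩
    refine ⟨ρ w, (hρ w).1, (inv_mul_eq_one.1 (X.eq_one_of_th (h := (X.π (ρ w))⁻¹ * h)
      (by rw [map_mul, map_inv, X.επ, hε]; rfl) fun s => ?_)).symm⟩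
    rw [X.th_th, ← map_inv, X.th_pi, ht, inv_inv, ← Matrix.mul_assoc, ← Matrix.mul_assoc, sc.comm,
      Matrix.mul_assoc, Matrix.mul_assoc, Matrix.mul_assoc, Units.mul_inv_cancel_left,
      mt_inv_mul, Matrix.mul_one]

theorem e5 : E5.{u} := by
  intro F _ _ Φ G _ _ n X E ab
  obtain ⟨ρ, hρ⟩ := E.exρ
  have ex : ∀ (h : X.H) v, ∃ y ∈ X.R, X.π y = h * X.π (ρ v) * (h : G)⁻¹ := fun h v => by
    obtain ⟨y, hy⟩ := X.conj_range h (ρ v)
    exact ⟨y, X.Rinv h h.2 _ (hρ v).1 y hy, hy⟩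
  choose y y1 y2 using ex
  have sp : ∀ (h : X.H), ∀ x ∈ X.R, ∀ x' ∈ X.R, X.π x' = h * X.π x * (h : G)⁻¹ →
      E.ν (y h (E.ν x)) = E.ν x' := fun h x hx x' hx' e => by
    rw [E.ν_eq (y1 _ _) hx', y2, e, (E.ν_eq (hρ _).1 hx).1 (hρ _).2]
  let φ : X.H → Module.End (ZMod X.r) (Fin E.k → ZMod X.r) := fun h =>
    (AddMonoidHom.mk' (fun v => E.ν (y h v)) fun v w => by
      rw [← E.νm _ (y1 _ _) _ (y1 _ _), ← sp h _ (mul_mem (hρ v).1 (hρ w).1) _
        (mul_mem (y1 h v) (y1 h w)) (by simp [y2]), E.νm _ (hρ v).1 _ (hρ w).1, (hρ v).2,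
        (hρ w).2]).toZModLinearMap X.r
  have hφ : ∀ h v, φ h v = E.ν (y h v) := fun _ _ => rfl
  let ψ : X.H →* Module.End (ZMod X.r) (Fin E.k → ZMod X.r) :=
    { toFun := φ
      map_one' := LinearMap.ext fun v => by
        rw [hφ, Module.End.one_apply, ← (hρ v).2, sp 1 _ (hρ v).1 _ (hρ v).1 (by simp)]
      map_mul' := fun a b => LinearMap.ext fun v => by
        rw [Module.End.mul_apply, hφ, hφ, hφ, sp a _ (y1 b v) _ (y1 (a * b) v)
          (by simp [y2, mul_assoc])] }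
  let K := ψ.toHomUnits.ker.map X.H.subtype
  have hK : ∀ {h}, h ∈ K ↔ h ∈ X.H ∧ ∀ x ∈ X.R, h * X.π x = X.π x * h := fun {h} => by
    constructor
    · rintro ⟨h, hh, rfl⟩
      refine ⟨h.2, fun x hx => ?_⟩
      have h1 : E.ν (y h (E.ν x)) = E.ν x :=
        LinearMap.congr_fun (congrArg Units.val (MonoidHom.mem_ker.1 hh)) (E.ν x)
      rw [E.ν_eq (y1 _ _) hx, y2, (E.ν_eq (hρ _).1 hx).1 (hρ _).2, mul_inv_eq_iff_eq_mul] at h1
      exact h1
    · rintro ⟨hh, hc⟩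
      refine ⟨⟨h, hh⟩, Units.ext (LinearMap.ext fun v => ?_), rfl⟩
      have := sp ⟨h, hh⟩ _ (hρ v).1 _ (hρ v).1 (by rw [hc _ (hρ v).1, mul_inv_cancel_right])
      rw [(hρ v).2] at this; exact this
  have hR : X.Hs X.H ⊓ K = X.R.map X.π := le_antisymm (fun h hh => by
      obtain ⟨x, hx, e⟩ := (ec F Φ G n X E ab).2.2 h hh.1 (hK.1 hh.2).2
      exact ⟨x, hx, e.symm⟩) (by
    rintro _ ⟨x, hx, rfl⟩
    refine ⟨X.mem_Hs.2 ⟨X.RH x hx, X.σπ x, X.επ x⟩, hK.2 ⟨X.RH x hx, fun z hz => ?_⟩⟩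
    rw [← map_mul, ← map_mul, ← E.ν_eq (mul_mem hx hz) (mul_mem hz hx), E.νm _ hx _ hz,
      E.νm _ hz _ hx, add_comm])
  have cR : Nat.card (X.R.map X.π) = X.r ^ E.k := by
    refine (Nat.card_eq_of_bijective (fun v => (⟨_, ρ v, (hρ v).1, rfl⟩ : X.R.map X.π))
      ⟨fun v w e => ?_, ?_⟩).symm.trans (by simp)
    · rw [← (hρ v).2, ← (hρ w).2, E.ν_eq (hρ v).1 (hρ w).1]; exact congrArg Subtype.val e
    · rintro ⟨_, x, hx, rfl⟩
      exact ⟨E.ν x, Subtype.ext ((E.ν_eq (hρ _).1 hx).1 (hρ _).2)⟩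
  refine ⟨(X.Hs X.H).relIndex K, Nat.card ψ.toHomUnits.range, ?_,
    Subgroup.relIndex_le_of_le_right (fun h hh => (hK.1 hh).1)
      Subgroup.FiniteIndex.index_ne_zero, ?_⟩
  · rw [← cR, ← hR, ← Subgroup.inf_relIndex_right,
      ← Nat.card_congr (Subgroup.subgroupOfEquivOfLe (inf_le_right : _ ⊓ K ≤ K)).toEquiv,
      Subgroup.relIndex, Subgroup.card_mul_index, Subgroup.card_map_of_injective
        X.H.subtype_injective, ← Subgroup.index_ker, Subgroup.card_mul_index]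
  · refine (Subgroup.card_subgroup_dvd_card _).trans (dvd_of_eq ?_)
    rw [← Nat.card_congr (GeneralLinearGroup.toLin (n := Fin E.k) (R := ZMod X.r)).toEquiv,
      card_GL_field, ZMod.card, Finset.prod_range]

end H22.SB
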