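/-
Point stabilizers of primitive groups with linear or unitary socle: the suborbit length for groups
of symplectic type.
-/
import Cfsg.Agent.H22.SB8
import Cfsg.Agent.H29.SB2

set_option autoImplicit false
set_option linter.unusedSectionVars false

namespace H22.SB
open Matrix
open scoped Nat

universe u
variable {F : Type} [Field F] [Fintype F] {n : ℕ} {Φ : Fm F} {G : Type u} [Group G] [Finite G]

theorem relIndex_symm {A B : Subgroup G} (h : Nat.card A = Nat.card B) :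
    A.relIndex B = B.relIndex A := by
  have k : ∀ A B : Subgroup G, Nat.card (A ⊓ B : Subgroup G) * A.relIndex B = Nat.card B :=
    fun A B => by
      rw [← Subgroup.inf_relIndex_right,
        ← Nat.card_congr (Subgroup.subgroupOfEquivOfLe (inf_le_right : A ⊓ B ≤ B)).toEquiv,
        Subgroup.relIndex, Subgroup.card_mul_index]
  refine Nat.eq_of_mul_eq_mul_left (Nat.card_pos (α := (A ⊓ B : Subgroup G))) ?_
  rw [k, ← h, inf_comm, k]

theorem relIndex_inv (H : Subgroup G) (t : G) :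
    (H.map (MulAut.conj t⁻¹).toMonoidHom).relIndex H =
      (H.map (MulAut.conj t).toMonoidHom).relIndex H := by
  rw [relIndex_symm (A := H.map (MulAut.conj t).toMonoidHom) (B := H)
      (Subgroup.card_map_of_injective (MulAut.conj t).injective),
    ← Subgroup.relIndex_map_map_of_injective _ _ (f := (MulAut.conj t).toMonoidHom)
      (MulAut.conj t).injective, Subgroup.map_map]
  congr 1
  convert Subgroup.map_id H
  ext; simp [mul_assoc]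

namespace Ex
variable {X : Cx Φ G n} (E : Ex X)

theorem χ_inj {a b : ZMod X.r} (h : E.χ a = E.χ b) : a = b := by
  have := E.χ_add (a - b) b
  rw [sub_add_cancel, h] at this
  exact sub_eq_zero.1 (E.χ_eq_one ((mul_eq_right₀ (E.χ_ne b)).1 this.symm))

theorem β_eq {x y : Φ.S (Fin n)} (hx : x ∈ X.R) (hy : y ∈ X.R) {a : ZMod X.r}
    (h : mt x * mt y = E.χ a • (mt y * mt x)) : E.β (E.ν x) (E.ν y) = a :=
  E.χ_inj (H29.SB.smul_inj X.toTx (y * x : Φ.S (Fin n)) ((E.cm x hx y hy).symm.trans h))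

theorem comm_iff {x y : Φ.S (Fin n)} (hx : x ∈ X.R) (hy : y ∈ X.R) :
    x * y = y * x ↔ E.β (E.ν x) (E.ν y) = 0 :=
  ⟨fun h => E.β_eq hx hy (by rw [χ_zero, one_smul]; exact mt_comm.1 h),
    fun h => mt_comm.2 (by rw [E.cm x hx y hy, h]; simp)⟩

theorem β_conj {m x y : Φ.S (Fin n)} (hm : X.π m ∈ X.H) (hx : x ∈ X.R) (hy : y ∈ X.R) :
    E.β (E.ν (m * x * m⁻¹)) (E.ν (m * y * m⁻¹)) = E.β (E.ν x) (E.ν y) := by
  refine E.β_eq (X.conjR hm hx) (X.conjR hm hy) ?_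
  rw [← mt_mul, ← mt_mul, conj_mul, conj_mul, mt_mul, mt_mul, mt_mul, mt_mul, mt_mul, mt_mul,
    E.cm x hx y hy, mul_smul_comm, smul_mul_assoc, χ]

include E in
theorem π_comm {x y : Φ.S (Fin n)} (hx : x ∈ X.R) (hy : y ∈ X.R) :
    X.π x * X.π y = X.π y * X.π x := by
  rw [← map_mul, ← map_mul]; exact X.pi_eq.2 ⟨_, E.cm x hx y hy⟩

/-- the image of a subgroup of `R` -/
def Yν {T : Subgroup (Φ.S (Fin n))} (h : T ≤ X.R) : Submodule (ZMod X.r) (Fin E.k → ZMod X.r) :=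
  AddSubgroup.toZModSubmodule X.r
    { carrier := {v | ∃ x ∈ T, E.ν x = v}
      zero_mem' := ⟨1, one_mem _, E.ν_one⟩
      add_mem' := by
        rintro _ _ ⟨x, hx, rfl⟩ ⟨y, hy, rfl⟩
        exact ⟨x * y, mul_mem hx hy, E.νm _ (h hx) _ (h hy)⟩
      neg_mem' := by
        rintro _ ⟨x, hx, rfl⟩
        exact ⟨x⁻¹, inv_mem hx, E.ν_inv (h hx)⟩ }

theorem mem_Yν {T : Subgroup (Φ.S (Fin n))} (h : T ≤ X.R) {v : Fin E.k → ZMod X.r} :
    v ∈ E.Yν h ↔ ∃ x ∈ T, E.ν x = v := Iff.rfl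

theorem Yν_ne {T : Subgroup (Φ.S (Fin n))} (h : T ≤ X.R) (h0 : ¬ ∀ x ∈ T, Sc (mt x)) :
    E.Yν h ≠ ⊥ := fun e => h0 fun x hx =>
  (E.νk x (h hx)).1 ((Submodule.mem_bot _).1 (e ▸ (E.mem_Yν h).2 ⟨x, hx, rfl⟩))

theorem core (ia : IA) (na : X.NoA) (ab : X.Ab) (dch : Dch E.β E.Gd)
    (k6 : X.r = 2 → 6 ≤ E.k) {c : ZMod X.r} (c0 : c ≠ 0) (tr : E.Tr c) {H' : Subgroup G}
    (hd : H'.relIndex X.H = X.d) : X.h ≤ X.d ! * X.A ∨ ∀ x ∈ X.R, X.π x ∈ H' := by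
  let K0 := (H'.subgroupOf X.H).normalCore
  let K := K0.map X.H.subtype
  have KH : K ≤ X.H := Subgroup.map_subtype_le _
  have KH' : K ≤ H' := by
    rintro _ ⟨x, hx, rfl⟩; exact (H'.subgroupOf X.H).normalCore_le hx
  have Kn : ∀ h ∈ X.H, ∀ x ∈ K, h * x * h⁻¹ ∈ K := by
    rintro h hh _ ⟨x, hx, rfl⟩
    exact ⟨_, (inferInstance : K0.Normal).conj_mem x hx ⟨h, hh⟩, rfl⟩
  let T := X.R ⊓ K.comap X.π
  have TR : T ≤ X.R := inf_le_left
  by_cases h0 : ∀ x ∈ T, Sc (mt x)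
  · left
    have cen : ∀ k ∈ K, ∀ x ∈ X.R, k * X.π x = X.π x * k := fun k hk x hx => by
      obtain ⟨y, hy⟩ := X.conj_range k x
      have yR := X.Rinv k (KH hk) x hx y hy
      have := (X.ker _).2 (h0 (y * x⁻¹) <| Subgroup.mem_inf.2 ⟨mul_mem yR (inv_mem hx), by
        rw [Subgroup.mem_comap, map_mul, map_inv, hy, mul_assoc, mul_assoc]
        exact mul_mem hk (by simpa [mul_assoc] using Kn _ (X.RH x hx) _ (inv_mem hk))⟩)
      rw [map_mul, map_inv, hy, mul_inv_eq_one, mul_inv_eq_iff_eq_mul] at this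
      exact this
    have bot : X.Hs X.H ⊓ K = ⊥ := eq_bot_iff.2 fun k hk => by
      obtain ⟨y, hy, rfl⟩ := (ec F Φ G n X E ab).2.2 k hk.1 (cen k hk.2)
      exact (X.ker y).2 (h0 y ⟨hy, hk.2⟩)
    have h1 : Nat.card K0 ≤ X.A := by
      rw [← Subgroup.card_map_of_injective X.H.subtype_injective, ← Subgroup.relIndex_bot_left,
        ← bot, Subgroup.inf_relIndex_right]
      exact Subgroup.relIndex_le_of_le_right KH Subgroup.FiniteIndex.index_ne_zero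
    have h2 : K0.index ≤ X.d ! := by
      show (H'.subgroupOf X.H).normalCore.index ≤ _
      rw [← hd, Subgroup.normalCore_eq_ker, Subgroup.index_ker, Subgroup.relIndex, Subgroup.index,
        ← Nat.card_perm]
      exact Subgroup.card_le_card_group _
    rw [Cx.h, ← K0.index_mul_card]
    exact Nat.mul_le_mul h2 h1
  right
  have top : E.Yν TR = ⊤ := by
    by_contra hne
    obtain ⟨v, v₀, g1, g2, _, ⟨x, hx, rfl⟩, h⟩ := ia X.r E.k E.β E.Gd c E.alt E.nd c0 dch k6 _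
      (E.Yν_ne TR h0) hne (by
        rintro _ ⟨x, hx, rfl⟩ h
        refine (E.νk x hx.1).2 (H29.SB.noa_center X na TR (fun h hh a ha => ?_) x hx
          fun e he => (E.comm_iff hx.1 he.1).2 (h _ ⟨e, he, rfl⟩))
        obtain ⟨y, y1, y2, y3, y4⟩ := X.thR hh ha.1
        refine ⟨y, ⟨y1, ?_⟩, y2⟩
        by_cases e : X.ε h = 1
        · exact Subgroup.mem_comap.2 (y3 e ▸ Kn h hh _ ha.2)
        · exact Subgroup.mem_comap.2 (y4 e ▸ inv_mem (Kn h hh _ ha.2)))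
    obtain ⟨m, hm, e⟩ := tr v v₀ g1 g2
    exact h ⟨_, ⟨X.conjR hm hx.1, by simpa using Kn _ hm _ hx.2⟩, e x hx.1⟩
  intro x hx
  obtain ⟨y, hy, e⟩ := (E.mem_Yν TR).1 (top ▸ Submodule.mem_top (x := E.ν x))
  exact (E.ν_eq hy.1 hx).1 e ▸ KH' hy.2
end Ex

theorem e6 (lb : LB) (ia : IA) : E6.{u} := by
  intro F _ _ Φ G _ _ n X E na ab dch k6 c c0 tr
  refine (E.core ia na ab dch k6 c0 tr X.hd).elim Or.inl fun a1 => ?_
  refine (E.core ia na ab dch k6 c0 tr ((relIndex_inv _ _).trans X.hd)).elim Or.inl fun a2 =>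
    Or.inr ?_
  have b1 : ∀ x ∈ X.R, X.π (X.s⁻¹ * x * X.s) ∈ X.H := fun x hx => by
    obtain ⟨y, hy, e⟩ := a1 x hx
    simpa [← e, mul_assoc] using hy
  have b2 : ∀ x ∈ X.R, X.π (X.s * x * X.s⁻¹) ∈ X.H := fun x hx => by
    obtain ⟨y, hy, e⟩ := a2 x hx
    simpa [← e, mul_assoc] using hy
  let T' := X.R ⊓ X.R.comap (MulAut.conj X.s⁻¹).toMonoidHom
  have hT' : ∀ {x}, x ∈ T' ↔ x ∈ X.R ∧ X.s⁻¹ * x * X.s ∈ X.R := fun {x} => by simp [T']
  let T := T' ⊓ Subgroup.centralizer T'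
  have TR : T ≤ X.R := inf_le_left.trans inf_le_left
  have nT' : ∀ y ∈ X.D, ∀ x ∈ T', y * x * y⁻¹ ∈ T' := fun y hy x hx => by
    obtain ⟨y1, y2⟩ := X.mem_D.1 hy
    refine hT'.2 ⟨X.conjR y1 hx.1, ?_⟩
    simpa [mul_assoc] using X.conjR y2 (hT'.1 hx).2
  have nT : ∀ y ∈ X.D, ∀ x ∈ T, y * x * y⁻¹ ∈ T := fun y hy x hx =>
    ⟨nT' y hy x hx.1, fun w hw => by
      have := congrArg (fun z => y * z * y⁻¹) (hx.2 _ (nT' y⁻¹ (inv_mem hy) w hw))
      simpa [mul_assoc] using this⟩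
  have h0 : ¬ ∀ x ∈ T, Sc (mt x) := fun h0 => X.sH (X.NM _ fun y₀ hy₀ => X.SC _ fun x hx => by
    set y := X.s * y₀ * X.s⁻¹ with hy
    have yM := b2 y₀ hy₀
    have c1 : x * (y * x⁻¹ * y⁻¹) ∈ T' := hT'.2 ⟨mul_mem hx (X.conjR yM (inv_mem hx)), by
      simpa [hy, mul_assoc] using mul_mem (X.conjR (b1 x hx) hy₀) (inv_mem hy₀)⟩
    have := (X.ker _).2 (h0 _ ⟨c1, fun w hw => ((E.comm_iff c1.1 hw.1).2 (by
      have e1 : E.ν (y * w * y⁻¹) = E.ν w := (E.ν_eq (X.conjR yM hw.1) hw.1).2 (by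
        have := congrArg (fun z => X.π X.s * z * (X.π X.s)⁻¹) (E.π_comm hy₀ (hT'.1 hw).2)
        rw [map_mul, map_mul, map_inv, mul_inv_eq_iff_eq_mul]
        simpa [hy, mul_assoc] using this)
      rw [E.νm _ hx _ (X.conjR yM (inv_mem hx)), map_add, LinearMap.add_apply]
      nth_rewrite 2 [← e1]
      rw [E.β_conj yM (inv_mem hx) hw.1, E.ν_inv hx]; simp)).symm⟩)
    simp only [map_mul, map_inv] at this ⊢
    rw [← mul_assoc, ← mul_assoc, mul_inv_eq_one, mul_inv_eq_iff_eq_mul] at this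
    exact this.symm)
  obtain ⟨v₀, g0, h⟩ := lb X.r E.k n E.β E.Gd c E.alt E.nd c0 dch k6 (ec F Φ G n X E ab).1 _
    (E.Yν_ne TR h0) (by
      rintro _ ⟨x, hx, rfl⟩ _ ⟨w, hw, rfl⟩
      exact (E.comm_iff (TR hx) (TR hw)).1 (hw.2 x hx.1))
  refine h.trans (Nat.add_le_add_right (le_trans ?_ ((X.OB
    (fun m => {v | ∃ x ∈ T, v = E.ν (m * x * m⁻¹)}) fun m _ y hy => ?_).trans X.d0_le)) 2)
  · refine Nat.card_mono (Set.toFinite _) ?_
    rintro _ ⟨v, g1, rfl⟩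
    obtain ⟨m, hm, e⟩ := tr v v₀ g1 g0
    refine ⟨m, hm, Set.ext fun w => ⟨?_, ?_⟩⟩
    · rintro ⟨x, hx, rfl⟩; exact ⟨_, ⟨x, hx, rfl⟩, (e x (TR hx)).symm⟩
    · rintro ⟨_, ⟨x, hx, rfl⟩, rfl⟩; exact ⟨x, hx, (e x (TR hx)).symm⟩
  · refine Set.ext fun w => ⟨?_, ?_⟩
    · rintro ⟨x, hx, rfl⟩; exact ⟨_, nT y hy x hx, by simp [mul_assoc]⟩
    · rintro ⟨x, hx, rfl⟩; exact ⟨_, nT y⁻¹ (inv_mem hy) x hx, by simp [mul_assoc]⟩

end H22.SB
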