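import Cfsg.Agent.H22.L13
import Cfsg.Agent.S0810

/-! Solubilizers in `PSL₂(q)`: general part. -/

set_option autoImplicit false

open Subgroup MulAction H27 Matrix.ProjGenLinGroup Cfsg.Agent.S0810 H22.L13
open scoped MatrixGroups commutatorElement

namespace H22.Solz

theorem solv_dih {G : Type*} [Group G] {a b : G} (h : b * a * b⁻¹ = a⁻¹) (hb : b ^ 2 = 1) :
    Group.IsSolvable (zpowers a ⊔ zpowers b : Subgroup G) := by
  have cs : ∀ g ∈ zpowers a ⊔ zpowers b, (∃ j : ℤ, g = a ^ j) ∨ ∃ j : ℤ, g = a ^ j * b :=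
    fun g hg => H4.mem_sup_cases (k := -1) (by rw [h, _root_.zpow_neg_one])
      (by rw [hb]; exact one_mem _) hg
  have nm : ∀ g ∈ zpowers a ⊔ zpowers b, ∀ k : ℤ, g * a ^ k * g⁻¹ ∈ zpowers a := by
    intro g hg k
    rcases cs g hg with ⟨j, rfl⟩ | ⟨j, rfl⟩
    · exact ⟨k, by simp only; group⟩
    · refine ⟨-k, ?_⟩
      calc a ^ (-k) = a ^ j * a⁻¹ ^ k * (a ^ j)⁻¹ := by group
        _ = _ := by rw [← h, _root_.conj_zpow]; group
  have cm : ∀ g ∈ zpowers a ⊔ zpowers b, ∀ k ∈ zpowers a ⊔ zpowers b, ⁅g, k⁆ ∈ zpowers a := by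
    intro g hg k hk
    rcases cs g hg with ⟨i, rfl⟩ | ⟨i, rfl⟩
    · convert mul_mem (zpow_mem_zpowers a i) (nm k hk (-i)) using 1
      rw [commutatorElement_def]
      group
    rcases cs k hk with ⟨j, rfl⟩ | ⟨j, rfl⟩
    · convert mul_mem (nm _ hg j) (zpow_mem_zpowers a (-j)) using 1
      rw [commutatorElement_def]
      group
    · convert mul_mem (zpow_mem_zpowers a (i - j)) (nm _ hk (j - i)) using 1
      rw [commutatorElement_def]
      group
  refine solv_of_comm _ fun x hx y hy z hz w hw => ?_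
  obtain ⟨i, hi⟩ := cm x hx y hy
  obtain ⟨j, hj⟩ := cm z hz w hw
  rw [← hi, ← hj]
  exact Commute.zpow_zpow_self a i j

theorem clo_le {G : Type*} [Group G] {x y : G} {H : Subgroup G} (hx : x ∈ H) (hy : y ∈ H) :
    closure {x, y} ≤ H := (closure_le _).2 (by rintro _ (rfl | rfl); exacts [hx, hy])

theorem mem_l {G : Type*} [Group G] (x y : G) : x ∈ closure ({x, y} : Set G) :=
  subset_closure (by simp)

theorem mem_r {G : Type*} [Group G] (x y : G) : y ∈ closure ({x, y} : Set G) :=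
  subset_closure (by simp)

theorem solv_two {G : Type*} [Group G] {x y : G} (hx : x ^ 2 = 1)
    (hy : y ^ 2 = 1 ∨ (x * y) ^ 2 = 1) : Group.IsSolvable (closure ({x, y} : Set G)) := by
  have i : ∀ z : G, z ^ 2 = 1 → z⁻¹ = z := fun z hz => inv_eq_of_mul_eq_one_right (by rwa [← sq])
  rcases hy with hy | hy
  · refine solv_of_le (clo_le (mem_sup_right (mem_zpowers x)) ?_) (solv_dih (a := x * y) ?_ hx)
    · have := mul_mem (inv_mem (mem_sup_right (mem_zpowers x)))
        (mem_sup_left (T := zpowers x) (mem_zpowers (x * y)))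
      rwa [inv_mul_cancel_left] at this
    · rw [mul_inv_rev, i y hy, ← mul_assoc, ← sq, hx, one_mul]
  · refine solv_of_le (clo_le (mem_sup_right (mem_zpowers x)) (mem_sup_left (mem_zpowers y)))
      (solv_dih ?_ hx)
    rw [← i _ hy, mul_inv_rev, mul_assoc, ← mul_inv_rev, ← sq, hx, inv_one, mul_one]

variable {F : Type*} [Field F] [Fintype F]

/-- The solubilizer inside `PSL₂`. -/
def Sol (x : PG F) : Set (PG F) := {y | y ∈ PS F ∧ Group.IsSolvable (closure ({x, y} : Set (PG F)))}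

omit [Fintype F] in
theorem transfer (x : PSL(2, F)) :
    Nat.card {y : PSL(2, F) // Group.IsSolvable (closure ({x, y} : Set PSL(2, F)))} =
      (Sol (Matrix.ProjectiveSpecialLinearGroup.toPGL x)).ncard := by
  have hi := Matrix.ProjectiveSpecialLinearGroup.toPGL_injective (n := Fin 2) (R := F)
  have e : ∀ y : PSL(2, F), Group.IsSolvable (closure ({x, y} : Set PSL(2, F))) ↔
      Group.IsSolvable (closure ({Matrix.ProjectiveSpecialLinearGroup.toPGL x,
        Matrix.ProjectiveSpecialLinearGroup.toPGL y} : Set (PG F))) := fun y => by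
    rw [← Set.image_pair, ← MonoidHom.map_closure]
    exact ⟨solv_congr (upEquiv _).symm, solv_congr (upEquiv _)⟩
  rw [← Set.ncard_preimage_of_injective_subset_range hi fun y hy => exists_toPGL hy.1,
    ← Nat.card_coe_set_eq]
  exact Nat.card_congr (Equiv.subtypeEquivRight fun y =>
    (e y).trans ⟨fun h => ⟨toPGL_mem_PS y, h⟩, fun h => h.2⟩)

omit [Fintype F] in
theorem sol_conj (c x : PG F) : (Sol (c * x * c⁻¹)).ncard = (Sol x).ncard := by
  rw [← Set.ncard_preimage_of_injective_subset_range (MulAut.conj c).injective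
    (by rw [(MulAut.conj c).surjective.range_eq]; exact Set.subset_univ _)]
  congr 1
  ext y
  change c * y * c⁻¹ ∈ PS F ∧ Group.IsSolvable (closure {c * x * c⁻¹, c * y * c⁻¹}) ↔ _
  rw [← cj_closure_pair]
  exact and_congr ⟨fun h => by simpa [mul_assoc] using instPSNormal.conj_mem _ h c⁻¹,
    fun h => instPSNormal.conj_mem _ h c⟩ ⟨solv_congr (cjEquiv _ _), solv_congr (cjEquiv _ _).symm⟩

theorem card_P1 : Nat.card (P1 F) = Fintype.card F + 1 := by
  have : IsPretransitive (PG F) (P1 F) :=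
    ⟨fun x y => (PS_pretransitive x y).imp fun _ h => h.2⟩
  rw [← index_stabilizer_PG (inf F), index_stabilizer_of_transitive]

theorem fin_P1 : Finite (P1 F) := Nat.finite_of_card_ne_zero (by rw [card_P1]; omega)

theorem ps_not_solv (h : 4 ≤ Fintype.card F) : ¬ Group.IsSolvable (PS F) := fun e =>
  psl_not_solv (F := F) (by rwa [Nat.card_eq_fintype_card]) (solv_congr (pslEquiv F) e)

variable (p : ℕ) [hp : Fact p.Prime] [CharP F p]

omit [Fintype F] in
include hp in
theorem solv_stab (u : P1 F) : Group.IsSolvable (stabilizer (PG F) u) :=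
  solv_of_comm _ fun _ ha _ hb _ hc _ hd => unip_comm_of_fixed p
    ((stabilizer _ u).mul_mem (mul_mem (mul_mem ha hb) (inv_mem ha)) (inv_mem hb))
    ((stabilizer _ u).mul_mem (mul_mem (mul_mem hc hd) (inv_mem hc)) (inv_mem hd))
    (comm_unip_of_fixed p ha hb) (comm_unip_of_fixed p hc hd)

/-- The solvable subgroups containing `x` are reducible or dihedral. -/
def Gen (x : PG F) : Prop := ∀ H ≤ PS F, Group.IsSolvable H → x ∈ H →
  (∃ u : P1 F, H ≤ stabilizer (PG F) u) ∨ ∃ a s, IsTorus a s ∧ H ≤ zpowers a ⊔ zpowers s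

include hp in
theorem mem_sol {x a s : PG F} (hx : x ∈ PS F) (x2 : x ^ 2 ≠ 1) (hT : IsTorus a s)
    (ha : x ∈ zpowers a) (hG : Gen x) (y : PG F) : y ∈ Sol x ↔ y ∈ PS F ∧
      ((∃ u : P1 F, x • u = u ∧ y • u = u) ∨ y ∈ zpowers a ⊔ zpowers s) := by
  refine and_congr_right fun hy => ⟨fun h => ?_, ?_⟩
  · rcases hG _ (clo_le hx hy) h (mem_l x y) with ⟨u, h⟩ | ⟨a', s', hT', h⟩
    · exact Or.inl ⟨u, h (mem_l x y), h (mem_r x y)⟩
    · have hxa : x ∈ zpowers a' := by
        by_contra e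
        exact x2 (sq_one hT' (h (mem_l x y)) e)
      refine Or.inr (hT.norm x ha (fun e => x2 (by rw [e, one_pow])) y ?_)
      by_cases e : y ∈ zpowers a'
      · exact Or.inl (conj_eq e hxa)
      · exact Or.inr (conj_inv hT' (h (mem_r x y)) e hxa)
  · rintro (⟨u, h1, h2⟩ | h)
    · exact solv_of_le (clo_le h1 h2) (solv_stab p u)
    · exact solv_of_le (clo_le (mem_sup_left ha) h) (solv_dih hT.inv hT.s_sq)

include hp in
theorem sol_nonsplit {x a s : PG F} (hx : x ∈ PS F) (x2 : x ^ 2 ≠ 1) (hT : IsTorus a s)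
    (ha : x ∈ zpowers a) (hG : Gen x) (hf : ∀ u : P1 F, x • u ≠ u) :
    (Sol x).ncard = 2 * (orderOf a / Nat.gcd 2 (Fintype.card F - 1)) := by
  rw [← hT.card_PS, ← SetLike.coe_sort_coe, Nat.card_coe_set_eq]
  congr 1
  ext y
  rw [mem_sol p hx x2 hT ha hG]
  exact ⟨fun h => ⟨h.2.resolve_left fun ⟨u, h, _⟩ => hf u h, h.1⟩, fun h => ⟨h.2, Or.inr h.1⟩⟩

theorem fix_of_comm {G X : Type*} [Group G] [MulAction G X] {x t : G} {u v : X}
    (h : ∀ z, x • z = z ↔ z = u ∨ z = v) (hc : t * x = x * t) (ho : Odd (orderOf t)) :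
    t • u = u := by
  have m : ∀ z : X, x • z = z → x • t • z = t • z := fun z hz => by
    rw [← mul_smul, ← hc, mul_smul, hz]
  rcases (h _).1 (m u ((h u).2 (Or.inl rfl))) with e | e
  · exact e
  have e2 : (t ^ 2) • u = u := by
    rw [sq, mul_smul, e]
    rcases (h _).1 (m v ((h v).2 (Or.inr rfl))) with e' | e'
    · exact e'
    · rw [e', ← smul_left_cancel t (e.trans e'.symm)]
  obtain ⟨k, hk⟩ := ho
  have : t = (t ^ 2) ^ (k + 1) := by
    rw [← pow_mul, show 2 * (k + 1) = 2 * k + 1 + 1 by ring, ← hk, pow_succ, pow_orderOf_eq_one,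
      one_mul]
  rw [this]
  exact (stabilizer G u).pow_mem e2 _

include hp in
theorem exists_fixed {x : PG F} (x1 : x ≠ 1) (ho : Odd (orderOf x))
    (hd : orderOf x ∣ Fintype.card F - 1) : ∃ u : P1 F, x • u = u := by
  obtain ⟨l, hl, k, hk⟩ := Nat.exists_prime_and_dvd (mt orderOf_eq_one_iff.1 x1)
  have k0 : k ≠ 0 := by
    rintro rfl
    exact (orderOf_pos x).ne' hk
  have h1 : orderOf (x ^ k) = l := by
    rw [orderOf_pow' _ k0, hk, Nat.gcd_mul_left_left, Nat.mul_div_cancel _ (Nat.pos_of_ne_zero k0)]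
  have : Fact l.Prime := ⟨hl⟩
  have := fin_P1 (F := F)
  have hld : l ∣ Fintype.card F - 1 := Dvd.dvd.trans ⟨k, hk⟩ hd
  have q1 := Fintype.card_pos (α := F)
  obtain ⟨u, hu⟩ := (IsPGroup.of_card (n := 1) (G := zpowers (x ^ k)) (p := l) (by
      rw [Nat.card_zpowers, h1, pow_one])).nonempty_fixed_point_of_prime_not_dvd_card (P1 F) (by
    rw [card_P1]
    intro h
    have h2 : l ∣ 2 := by
      have := Nat.dvd_sub h hld
      rwa [show Fintype.card F + 1 - (Fintype.card F - 1) = 2 by omega] at this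
    rw [(Nat.prime_dvd_prime_iff_eq hl Nat.prime_two).1 h2] at hk
    exact Nat.not_even_iff_odd.2 ho ⟨k, by omega⟩)
  obtain ⟨v, -, hv⟩ := fix_ss_of_fixed p (h := x ^ k) (x := u) (fun e => by
    have h2 := orderOf_dvd_of_pow_eq_one e
    rw [h1, Nat.prime_dvd_prime_iff_eq hl hp.out] at h2
    have := Nat.dvd_sub (char_dvd_card (F := F) p) (h2 ▸ hld)
    rw [show Fintype.card F - (Fintype.card F - 1) = 1 by omega] at this
    exact hp.out.not_dvd_one this) (hu ⟨_, mem_zpowers _⟩)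
  exact ⟨u, fix_of_comm hv (Commute.self_pow x k) ho⟩

theorem sol_split {x a s : PG F} (hx : x ∈ PS F) (x2 : x ^ 2 ≠ 1) (xp : x ^ p ≠ 1)
    (hT : IsTorus a s) (ha : x ∈ zpowers a) (hG : Gen x) {u : P1 F} (hu : x • u = u)
    (ho : Odd (orderOf a / Nat.gcd 2 (Fintype.card F - 1))) :
    Nat.gcd 2 (Fintype.card F - 1) * (Sol x).ncard =
      2 * (Fintype.card F * (Fintype.card F - 1)) := by
  obtain ⟨v, huv, hv⟩ := fix_ss_of_fixed p xp hu
  have hv' : ∀ z, x • z = z ↔ z = v ∨ z = u := fun z => (hv z).trans or_comm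
  let B : P1 F → Set (PG F) := fun u => (stabilizer (PG F) u ⊓ PS F : Subgroup (PG F))
  let D : Set (PG F) := ((zpowers a ⊔ zpowers s) ⊓ PS F : Subgroup (PG F))
  let T : Set (PG F) := (zpowers a ⊓ PS F : Subgroup (PG F))
  have com : ∀ y : PG F, y • u = u → y • v = v → y * x * y⁻¹ = x := fun y h1 h2 => by
    have := isCyclic_of_two_fixed (stabilizer (PG F) u ⊓ stabilizer (PG F) v) huv
      (fun _ h => h.1) (fun _ h => h.2)
    have := congrArg Subtype.val (mul_comm' (⟨y, h1, h2⟩ :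
      (stabilizer (PG F) u ⊓ stabilizer (PG F) v : Subgroup (PG F))) ⟨x, hu, (hv v).2 (Or.inr rfl)⟩)
    exact mul_inv_eq_iff_eq_mul.2 this
  have refl : ∀ u v : P1 F, (∀ z, x • z = z ↔ z = u ∨ z = v) → u ≠ v →
      ∀ y ∈ zpowers a ⊔ zpowers s, y ∉ zpowers a → y • u = u → y • v = v := by
    intro u v hv huv y hy hn h
    have e := conj_inv hT hy hn ha
    have : x • y • v = y • v := by
      rw [← inv_smul_eq_iff, ← inv_inv x, ← e, mul_inv_rev, mul_inv_rev, inv_inv, mul_smul,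
        mul_smul, inv_smul_smul, inv_smul_smul, inv_smul_eq_iff]
      exact ((hv v).2 (Or.inr rfl)).symm
    exact ((hv _).1 this).resolve_left fun e => huv (smul_left_cancel y (h.trans e.symm))
  have nr : ∀ y ∈ zpowers a ⊔ zpowers s, y ∉ zpowers a → y • u = u → y • v = v → False :=
    fun y hy hn h1 h2 => x2 (by
      rw [sq, mul_eq_one_iff_eq_inv, ← conj_inv hT hy hn ha, com y h1 h2])
  have hI : B u ∩ B v = T := by
    ext y
    constructor
    · rintro ⟨⟨h1, h3⟩, h2, -⟩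
      refine ⟨?_, h3⟩
      by_contra e
      exact nr y (hT.norm x ha (fun e => x2 (by rw [e, one_pow])) y (Or.inl (com y h1 h2))) e h1 h2
    · intro h
      have c : y * x = x * y := mul_inv_eq_iff_eq_mul.1 (conj_eq h.1 ha)
      have o : Odd (orderOf y) :=
        (hT.orderOf_pow ▸ ho).of_dvd_nat (orderOf_dvd_of_mem_zpowers (hT.inf_PS.le h))
      exact ⟨⟨fix_of_comm hv c o, h.2⟩, fix_of_comm hv' c o, h.2⟩
  have hS : Sol x = (B u ∪ B v) ∪ (D \ T) := by
    ext y
    rw [mem_sol p hx x2 hT ha hG]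
    constructor
    · rintro ⟨h1, ⟨w, h2, h3⟩ | h⟩
      · rcases (hv w).1 h2 with rfl | rfl
        exacts [Or.inl (Or.inl ⟨h3, h1⟩), Or.inl (Or.inr ⟨h3, h1⟩)]
      · by_cases e : y ∈ T
        · exact Or.inl (Or.inl (hI.ge e).1)
        · exact Or.inr ⟨⟨h, h1⟩, e⟩
    · rintro ((h | h) | h)
      · exact ⟨h.2, Or.inl ⟨u, hu, h.1⟩⟩
      · exact ⟨h.2, Or.inl ⟨v, (hv v).2 (Or.inr rfl), h.1⟩⟩
      · exact ⟨h.1.2, Or.inr h.1.1⟩
  have hd : Disjoint (B u ∪ B v) (D \ T) := by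
    rw [Set.disjoint_left]
    rintro y (h | h) ⟨h1, h2⟩
    · have n : y ∉ zpowers a := fun e => h2 ⟨e, h1.2⟩
      exact nr y h1.1 n h.1 (refl u v hv huv y h1.1 n h.1)
    · have n : y ∉ zpowers a := fun e => h2 ⟨e, h1.2⟩
      exact nr y h1.1 n (refl v u hv' huv.symm y h1.1 n h.1) h.1
  have c1 := Set.ncard_union_add_ncard_inter (B u) (B v)
  have c2 := Set.ncard_sdiff_add_ncard_of_subset (s := T) (t := D)
    fun y h => ⟨mem_sup_left h.1, h.2⟩
  have c3 : ∀ w, Nat.gcd 2 (Fintype.card F - 1) * (B w).ncard = _ := fun w => card_stabilizer_PS w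
  have c4 : D.ncard = _ := hT.card_PS
  have c5 : T.ncard = orderOf a / Nat.gcd 2 (Fintype.card F - 1) := by
    rw [← hT.orderOf_pow, ← Nat.card_zpowers, ← hT.inf_PS]
    rfl
  rw [hS, Set.ncard_union_eq hd, two_mul, ← c3 u]
  nth_rewrite 2 [c3 u]
  rw [← c3 v, ← mul_add, ← c1, hI]
  congr 2
  omega

omit [Fintype F] in
theorem card_unip (v : P1 F) : {y : PG F | y ^ p = 1 ∧ y • v = v}.ncard = Nat.card F := by
  obtain ⟨c, rfl⟩ := exists_smul_inf v
  have hi : Function.Injective fun t : F => c * pgm (upT t) * c⁻¹ := fun s t h =>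
    mk_upT_inj ((MulAut.conj c).injective h)
  rw [← Set.ncard_univ, ← Set.ncard_image_of_injective _ hi]
  congr 1
  ext y
  rw [Set.mem_ofPred_eq, ← conj_smul_iff, ← conj_pow_eq_one_iff c, and_comm, unip_inf_iff p]
  refine ⟨fun ⟨t, h⟩ => ⟨t, trivial, ?_⟩, fun ⟨t, _, h⟩ => ⟨t, ?_⟩⟩
  · simp [← h, mul_assoc]
  · simp [← h, mul_assoc]

theorem card_unip_off (u : P1 F) : {y : PG F | y ^ p = 1 ∧ y • u ≠ u}.ncard =
    Fintype.card F * (Fintype.card F - 1) := by
  have := fin_P1 (F := F)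
  have e : {y : PG F | y ^ p = 1 ∧ y • u ≠ u} =
      ⋃ v ∈ ({u}ᶜ : Set (P1 F)), {y : PG F | y ^ p = 1 ∧ y • v = v} \ {1} := by
    ext y
    simp only [Set.mem_iUnion, Set.mem_ofPred_eq, Set.mem_sdiff, Set.mem_compl_iff,
      Set.mem_singleton_iff]
    constructor
    · rintro ⟨h1, h2⟩
      obtain ⟨v, hv⟩ := exists_fixed_of_pow_p p h1
      exact ⟨v, fun e => h2 (e ▸ hv), ⟨h1, hv⟩, fun e => h2 (by rw [e, one_smul])⟩
    · rintro ⟨v, h1, ⟨h2, h3⟩, h4⟩
      exact ⟨h2, fun e => h1 ((fix_unip_of_fixed p h4 h2 h3 u).1 e).symm⟩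
  rw [e, Set.Finite.ncard_biUnion (Set.toFinite _) (fun _ _ => Set.toFinite _)]
  · rw [finsum_mem_congr rfl (g := fun _ => Fintype.card F - 1) fun v _ => by
      rw [Set.ncard_sdiff_singleton_of_mem (by simp), card_unip p, Nat.card_eq_fintype_card],
      finsum_mem_eq_finite_toFinset_sum _ (Set.toFinite _), Finset.sum_const, smul_eq_mul,
      ← Set.ncard_eq_toFinset_card, Set.ncard_compl, card_P1, Set.ncard_singleton,
      Nat.add_sub_cancel]
  · intro v _ w _ h
    rw [Function.onFun, Set.disjoint_left]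
    rintro y ⟨⟨h1, h2⟩, h3⟩ ⟨⟨-, h4⟩, -⟩
    exact h ((fix_unip_of_fixed p h3 h1 h2 w).1 h4).symm

theorem sol_inv_two [CharP F 2] {x : PG F} (x1 : x ≠ 1) (x2 : x ^ 2 = 1) (hG : Gen x) :
    (Sol x).ncard = 3 * (Fintype.card F * (Fintype.card F - 1)) := by
  have ev : Even (Fintype.card F) := even_iff_two_dvd.2 (char_dvd_card 2)
  have top := PS_eq_top ev
  obtain ⟨u, hu⟩ := exists_fixed_of_pow_p 2 x2
  have fx := fix_unip_of_fixed 2 x1 x2 hu
  let B : Set (PG F) := stabilizer (PG F) u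
  let I : Set (PG F) := {y | y ^ 2 = 1 ∧ y • u ≠ u}
  have hi : Function.Injective fun y : PG F => x * y := mul_right_injective x
  have hS : Sol x = B ∪ (I ∪ (fun y => x * y) ⁻¹' I) := by
    ext y
    constructor
    · rintro ⟨-, h⟩
      by_cases hy : y • u = u
      · exact Or.inl hy
      refine Or.inr ?_
      rcases hG _ (top ▸ le_top) h (mem_l x y) with ⟨w, h⟩ | ⟨a, s, hT, h⟩
      · exact (hy ((fx w).1 (h (mem_l x y)) ▸ h (mem_r x y))).elim
      have hxa : x ∉ zpowers a := fun e => by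
        have h1 := orderOf_dvd_of_mem_zpowers e
        rw [orderOf_eq_prime x2 x1] at h1
        have := Fintype.card_pos (α := F)
        obtain ⟨k, hk⟩ := ev
        rcases hT.ord with e | e <;> omega
      by_cases e : y ∈ zpowers a
      · refine Or.inr ⟨sq_one hT (h (mul_mem (mem_l x y) (mem_r x y)))
          fun e' => hxa ((mul_mem_cancel_right e).1 e'), fun e' => hy ?_⟩
        rw [mul_smul] at e'
        exact smul_left_cancel x (e'.trans hu.symm)
      · exact Or.inl ⟨sq_one hT (h (mem_r x y)) e, hy⟩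
    · refine fun h => ⟨top ▸ mem_top y, ?_⟩
      rcases h with h | h | h
      · exact solv_of_le (clo_le hu h) (solv_stab 2 u)
      · exact solv_two x2 (Or.inl h.1)
      · exact solv_two x2 (Or.inr h.1)
  have d1 : Disjoint I ((fun y => x * y) ⁻¹' I) := by
    rw [Set.disjoint_left]
    rintro y ⟨h1, h2⟩ ⟨h3, -⟩
    refine h2 ((fx _).1 ?_)
    have : x * y = y * x := by
      have i : ∀ z : PG F, z ^ 2 = 1 → z⁻¹ = z := fun z hz =>
        inv_eq_of_mul_eq_one_right (by rwa [← sq])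
      rw [← i (x * y) h3, mul_inv_rev, i x x2, i y h1]
    rw [← mul_smul, this, mul_smul, hu]
  have d2 : Disjoint B (I ∪ (fun y => x * y) ⁻¹' I) := by
    rw [Set.disjoint_left]
    rintro y h (h1 | h1)
    · exact h1.2 h
    · exact h1.2 ((stabilizer _ u).mul_mem hu h)
  have c1 : B.ncard = _ := card_stabilizer_PG u
  have c2 : I.ncard = _ := card_unip_off 2 u
  rw [hS, Set.ncard_union_eq d2, Set.ncard_union_eq d1,
    Set.ncard_preimage_of_injective_subset_range hi
      (by rw [(mul_left_surjective x).range_eq]; exact Set.subset_univ _), c1, c2]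
  ring


end H22.Solz
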