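import Cfsg.Agent.H22.FSim

/-! # Sylow subgroups that pairwise meet -/

set_option autoImplicit false

namespace H22
open Module QuadraticMap H12
open scoped Pointwise

/-- if any two conjugates of a `p`-subgroup meet, so do any two Sylow subgroups -/
theorem sylow_meet {G : Type*} [Group G] [Finite G] {p : ℕ} [Fact p.Prime] (K : Subgroup G) (hK : IsPGroup p K)
    (h : ∀ g : G, ∃ a, a ≠ 1 ∧ a ∈ K ∧ g⁻¹ * a * g ∈ K) (H : Sylow p G) (x : G) :
    (H : Subgroup G) ⊓ MulAut.conj x • (H : Subgroup G) ≠ ⊥ := by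
  obtain ⟨P, hP⟩ := hK.exists_le_sylow
  obtain ⟨y, rfl⟩ := MulAction.exists_smul_eq G P H
  obtain ⟨a, h1, h2, h3⟩ := h (y⁻¹ * x * y)
  intro hb
  have : y * a * y⁻¹ ∈ ((y • P : Sylow p G) : Subgroup G) ⊓ MulAut.conj x • ((y • P : Sylow p G) : Subgroup G) := by
    rw [Sylow.coe_subgroup_smul]
    refine Subgroup.mem_inf.2 ⟨Subgroup.smul_mem_pointwise_smul _ _ _ (hP h2), ?_⟩
    rw [Subgroup.mem_pointwise_smul_iff_inv_smul_mem,
      Subgroup.mem_pointwise_smul_iff_inv_smul_mem]
    convert hP h3 using 1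
    simp [mul_assoc]
  rw [hb, Subgroup.mem_bot] at this
  exact h1 (by simpa using this)

variable {F : Type*} [Field F] {V : Type*} [AddCommGroup V] [Module F V] [FiniteDimensional F V]

theorem exists_fix {Q : QuadraticForm F V} (hQ : QNondeg Q) {ι : Type*} [Fintype ι] (w : ι → V)
    (h : Fintype.card ι + 2 ≤ finrank F V) : ∃ g : orth Q, g ≠ 1 ∧ ∀ i, g.1 (w i) = w i := by
  let L : V →ₗ[F] (ι → F) := LinearMap.pi fun i => polarBilin Q (w i)
  have hk : 2 ≤ finrank F (LinearMap.ker L) := by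
    have h1 := L.finrank_range_add_finrank_ker
    have h2 := Submodule.finrank_le (LinearMap.range L)
    rw [finrank_fintype_fun_eq_card] at h2
    omega
  have hL : ∀ v ∈ LinearMap.ker L, ∀ i, polar Q v (w i) = 0 := fun v hv i => by
    rw [polar_comm]; exact congrFun (LinearMap.mem_ker.1 hv) i
  by_cases hs : ∃ v ∈ LinearMap.ker L, Q v ≠ 0
  · obtain ⟨v, hv, hq⟩ := hs
    refine ⟨refl Q v, fun h1 => ?_, fun i => refl_apply_of_orth (hL v hv i)⟩
    have hv0 : v ≠ 0 := by rintro rfl; simp at hq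
    refine hv0 (hQ v fun x => ?_)
    have := refl_apply (Q := Q) v x
    rw [h1] at this
    have h3 : ((Q v)⁻¹ * polar Q v x) • v = 0 := by simpa using this.symm
    simpa [hq, hv0] using h3
  · push Not at hs
    obtain ⟨b⟩ : Nonempty (Basis (Fin (finrank F (LinearMap.ker L))) F (LinearMap.ker L)) := ⟨finBasis _ _⟩
    let i0 : Fin (finrank F (LinearMap.ker L)) := ⟨0, by omega⟩
    let i1 : Fin (finrank F (LinearMap.ker L)) := ⟨1, by omega⟩
    have hp : polar Q (b i0).1 (b i1).1 = 0 := by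
      have := Q_add Q (b i0).1 (b i1).1
      rw [hs _ (add_mem (b i0).2 (b i1).2), hs _ (b i0).2, hs _ (b i1).2] at this
      simpa using this.symm
    refine ⟨eich Q (b i0).1 (b i1).1, fun h1 => ?_, fun i =>
      eich_apply_of_orth (hs _ (b i0).2) hp (hL _ (b i0).2 i) (hL _ (b i1).2 i)⟩
    refine b.ne_zero i0 (Subtype.ext (hQ _ fun x => ?_))
    have := eich_apply (hs _ (b i0).2) hp x
    rw [h1, hs _ (b i1).2] at this
    have h3 : polar Q (b i1).1 x • b i0 - polar Q (b i0).1 x • b i1 = 0 :=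
      Subtype.ext (by simpa [add_sub_assoc] using this.symm)
    have h4 := congrArg (b.repr · i1) h3
    simpa [i0, i1, Finsupp.single_apply] using h4

end H22
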