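import Cfsg.Agent.H22.SylM
import Cfsg.Agent.H22.AutPSL2
import Cfsg.Agent.H22.GC1

/-! # Sylow 2-subgroups of the automorphism group of `L_n(2)` pairwise meet -/

set_option autoImplicit false

namespace H22.GC
open Matrix SemidirectProduct Polynomial

variable {n : ℕ}

theorem conj_pm {F : Type*} [Field F] (σ : Equiv.Perm (Fin n)) (g : GL (Fin n) F) (k l : Fin n) :
    ((pm F σ)⁻¹ * g * pm F σ).1 k l = g.1 (σ k) (σ l) := by
  rw [← map_inv, Units.val_mul, Units.val_mul]
  simp only [Matrix.mul_apply, pm_apply, Equiv.Perm.inv_def, Equiv.eq_symm_apply]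
  simp

theorem itAut_pm {F : Type*} [Field F] (σ : Equiv.Perm (Fin n)) : itAut (Fin n) F (pm F σ) = pm F σ := by
  ext i j
  rw [coe_itAut, ← map_inv, transpose_apply, pm_apply, pm_apply]
  simp only [Equiv.Perm.inv_def, Equiv.eq_symm_apply, eq_comm]

theorem PP_two : IsPGroup 2 (PP (ZMod 2) (id : Fin n → Fin n)) := fun g => by
  have h1 : ∀ i, g.1.1 i i = 1 := fun i => by
    have hd : g.1.1.det ≠ 0 := (g.1.det_ne_zero)
    rw [det_of_isUpperTriangular g.2, Finset.prod_ne_zero_iff] at hd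
    have : ∀ a : ZMod 2, a ≠ 0 → a = 1 := by decide
    exact this _ (hd i (Finset.mem_univ _))
  have h2 := g.1.1.aeval_self_charpoly
  rw [charpoly_of_isUpperTriangular _ g.2] at h2
  simp only [h1, Finset.prod_const, Finset.card_univ, Fintype.card_fin, map_pow, map_sub, aeval_X, map_one] at h2
  refine ⟨n, Subtype.ext (Units.ext ?_)⟩
  have h3 : (g.1.1 - 1) ^ 2 ^ n = 0 := pow_eq_zero_of_le n.lt_two_pow_self.le h2
  have h4 : (aeval g.1.1 ((X - 1 : (ZMod 2)[X]) ^ 2 ^ n)) = 0 := by simpa using h3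
  rw [sub_pow_char_pow] at h4
  simpa [sub_eq_zero] using h4

theorem gamX_meet (hn : 2 ≤ n) : ∃ K : Subgroup (GamX (Fin n) (ZMod 2)), IsPGroup 2 K ∧
    ∀ g, ∃ a, a ≠ 1 ∧ a ∈ K ∧ g⁻¹ * a * g ∈ K := by
  let w := pm (ZMod 2) (Fin.revPerm (n := n))
  have hw : w * w = 1 := by rw [← map_mul]; exact (congrArg _ (by ext; simp)).trans (map_one _)
  let t : GamX (Fin n) (ZMod 2) := inl w * grX _ _
  have ht : ∀ g, t * inl g * t⁻¹ = inl (w * itAut _ _ g * w⁻¹) := fun g => by
    rw [← inl_sdConj, map_mul, MulAut.mul_apply, sdConj_grX, sdConj_inl]; rfl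
  have hc : grX _ _ * inl w = inl w * grX (Fin n) (ZMod 2) := by
    rw [← mul_inv_eq_iff_eq_mul, ← inl_sdConj, sdConj_grX, itAut_pm]
  have ht2 : t * t = 1 := by
    rw [mul_assoc, ← mul_assoc (grX _ _), hc, mul_assoc, grX_mul_self, mul_one, ← map_mul, hw, map_one]
  let U := (PP (ZMod 2) (id : Fin n → Fin n)).map (inl : _ →* GamX (Fin n) (ZMod 2))
  have hU : ∀ u ∈ U, t * u * t⁻¹ ∈ U := by
    rintro _ ⟨u, hu, rfl⟩
    refine ⟨_, fun i j hij => ?_, (ht u).symm⟩
    rw [← inv_eq_of_mul_eq_one_right hw, inv_inv, conj_pm, coe_itAut, transpose_apply]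
    exact inv_mem hu (Fin.rev_lt_rev.2 hij)
  have hN : t ∈ Subgroup.normalizer (U : Set (GamX (Fin n) (ZMod 2))) := fun u => ⟨hU u, fun h => by
    have := hU _ h
    rwa [← mul_assoc, ← mul_assoc, ht2, one_mul, mul_assoc, ← _root_.mul_inv_rev, ht2, inv_one, mul_one] at this⟩
  let K := U ⊔ Subgroup.zpowers t
  have hUK : ∀ u ∈ PP (ZMod 2) (id : Fin n → Fin n), inl u ∈ K := fun u hu => Subgroup.mem_sup_left ⟨u, hu, rfl⟩
  have htK : t ∈ K := Subgroup.mem_sup_right (Subgroup.mem_zpowers t)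
  refine ⟨K, (PP_two.map _).to_sup_of_normal_left' ?_ (Subgroup.zpowers_le.2 hN), ?_⟩
  · rintro ⟨_, k, rfl⟩
    exact ⟨1, Subtype.ext (by
      simp only [pow_one, SubgroupClass.coe_pow, OneMemClass.coe_one]
      rw [← zpow_natCast, ← _root_.zpow_mul, mul_comm, _root_.zpow_mul, zpow_natCast, pow_two, ht2, _root_.one_zpow])⟩
  have key : ∀ σ, ∃ a, a ≠ 1 ∧ a ∈ K ∧ (inl (pm _ σ))⁻¹ * a * inl (pm _ σ) ∈ K := fun σ => by
    by_cases h : ∃ k l, k < l ∧ σ k < σ l
    · obtain ⟨k, l, h1, h2⟩ := h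
      let a : GL (Fin n) (ZMod 2) := SpecialLinearGroup.toGL ⟨transvection (σ k) (σ l) 1, det_transvection_of_ne _ _ h2.ne _⟩
      have ha : ∀ i j, a.1 i j = (1 : Matrix _ _ (ZMod 2)) i j + single (σ k) (σ l) 1 i j := fun _ _ => rfl
      refine ⟨inl a, fun e => ?_, hUK _ fun i j hij => ?_, ?_⟩
      · have := ha (σ k) (σ l)
        rw [inl_injective (e.trans (map_one _).symm)] at this
        simp at this
      · rw [ha, one_apply_ne (show i ≠ j from ne_of_gt hij), single_apply_of_ne, add_zero]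
        rintro ⟨rfl, rfl⟩; exact absurd h2 (not_lt.2 (le_of_lt hij))
      · rw [← map_inv, ← map_mul, ← map_mul]
        refine hUK _ fun i j hij => ?_
        rw [conj_pm, ha, one_apply_ne (σ.injective.ne (show i ≠ j from ne_of_gt hij)), single_apply_of_ne, add_zero]
        rintro ⟨e1, e2⟩
        rw [← σ.injective e1, ← σ.injective e2] at hij
        exact absurd h1 (not_lt.2 (le_of_lt hij))
    · push Not at h
      have hm : StrictMono fun k => Fin.rev (σ k) := fun k l hkl =>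
        Fin.rev_lt_rev.2 (lt_of_le_of_ne (h k l hkl) (σ.injective.ne hkl.ne'))
      obtain rfl : σ = Fin.revPerm := Equiv.ext fun k => by
        rw [Fin.revPerm_apply, ← Fin.rev_eq_iff]
        exact le_antisymm hm.apply_le hm.le_apply
      refine ⟨t, fun e => g2_ne_one (by simpa [t, grX] using congrArg (fun γ => γ.right.2) e), htK, ?_⟩
      rwa [← mul_assoc, inv_mul_cancel, one_mul, hc]
  have key2 : ∀ h : GL (Fin n) (ZMod 2), ∃ a, a ≠ 1 ∧ a ∈ K ∧ (inl h)⁻¹ * a * inl h ∈ K := fun h => by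
    obtain ⟨x, hx, y, hy, σ, rfl⟩ := bruhat h
    obtain ⟨a, h1, h2, h3⟩ := key σ
    refine ⟨inl x * a * (inl x)⁻¹, by simpa using h1, K.mul_mem (K.mul_mem (hUK x hx) h2) (K.inv_mem (hUK x hx)), ?_⟩
    convert K.mul_mem (K.mul_mem (K.inv_mem (hUK y hy)) h3) (hUK y hy) using 1
    simp [mul_assoc]
  intro g
  have h1 : g.right.1 = 1 := RingEquiv.ext fun a => by
    have : ∀ a : ZMod 2, a = 0 ∨ a = 1 := by decide
    rcases this a with rfl | rfl <;> simp
  rcases zmod2_cases g.right.2 with h | h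
  · have : g = inl g.left := SemidirectProduct.ext rfl (Prod.ext h1 h)
    rw [this]; exact key2 _
  · have : g = inl (g.left * w⁻¹) * t := by
      rw [← mul_assoc, ← map_mul, inv_mul_cancel_right]
      exact SemidirectProduct.ext (by simp [grX]) (Prod.ext (by simp [grX, h1]) (by simp [grX, h]))
    obtain ⟨a, h1, h2, h3⟩ := key2 (g.left * w⁻¹)
    refine ⟨a, h1, h2, ?_⟩
    rw [this]
    convert K.mul_mem (K.mul_mem (K.inv_mem htK) h3) htK using 1
    simp [mul_assoc]

theorem gamX_equiv {G : Type*} [Group G] [Finite G] (hn : 3 ≤ n) (N : Subgroup G) [N.Normal]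
    (e : N ≃* Matrix.SpecialLinearGroup (Fin n) (ZMod 2)) (hidx : N.index = 2)
    (hC : Subgroup.centralizer (N : Set G) = ⊥) : Nonempty (G ≃* GamX (Fin n) (ZMod 2)) := by
  have hu : ∀ c : (ZMod 2)ˣ, c = 1 := by decide
  have hZ : Subgroup.center (Matrix.SpecialLinearGroup (Fin n) (ZMod 2)) = ⊥ := by
    refine eq_bot_iff.2 fun s hs => ?_
    have : (e.symm s : G) ∈ Subgroup.centralizer (N : Set G) := fun x hx => by
      have := congrArg (fun y => (e.symm y : G)) (Subgroup.mem_center_iff.1 hs (e ⟨x, hx⟩))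
      simpa using this
    rw [hC, Subgroup.mem_bot] at this
    have h2 : e.symm s = 1 := Subtype.ext this
    simpa using h2
  let p : N ≃* ProjectiveSpecialLinearGroup (Fin n) (ZMod 2) :=
    e.trans (QuotientGroup.quotientBot.symm.trans (QuotientGroup.quotientMulEquivOfEq hZ.symm))
  let φ := (MulAut.congr p).toMonoidHom.comp (MulAut.conjNormal (H := N))
  have hφ : Function.Injective φ := (MulAut.congr p).injective.comp ((injective_iff_map_eq_one _).2 fun g hg => by
    rw [← Subgroup.mem_bot, ← hC]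
    intro x hx
    have := congrArg (fun f : MulAut N => (f ⟨x, hx⟩ : G)) hg
    simp only [MulAut.conjNormal_apply, MulAut.one_apply] at this
    exact (mul_inv_eq_iff_eq_mul.1 this).symm)
  let θ := MulEquiv.ofBijective (thSL (Fin n) (ZMod 2)) ⟨(injective_iff_map_eq_one _).2 fun γ h => by
    obtain ⟨c, rfl⟩ := thSL_eq_one (by simpa using hn) h
    rw [hu c, map_one, map_one], thSL_surjective (by simp; omega)⟩
  have : Finite (GamX (Fin n) (ZMod 2)) := Finite.of_equiv _ θ.symm.toEquiv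
  refine ⟨MulEquiv.ofBijective (θ.symm.toMonoidHom.comp φ)
    ((Nat.bijective_iff_injective_and_card _).2 ⟨θ.symm.injective.comp hφ, ?_⟩)⟩
  have h1 : Nat.card (RingAut (ZMod 2)) = 1 := Nat.card_eq_one_iff_unique.2 ⟨⟨fun a b => RingEquiv.ext fun a => by
    have : ∀ a : ZMod 2, a = 0 ∨ a = 1 := by decide
    rcases this a with rfl | rfl <;> simp⟩, ⟨1⟩⟩
  rw [SemidirectProduct.card, Nat.card_prod, h1, ← N.index_mul_card, hidx, Nat.card_congr e.toEquiv,
    Nat.card_congr (Equiv.ofBijective _ ⟨SpecialLinearGroup.toGL_injective, fun g => exists_toGL (hu _)⟩)]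
  simp [mul_comm]

end H22.GC
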