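import Cfsg.Agent.H22.SylM

/-! # Involutions centralising an inverted element; small facts on `S₆` -/

set_option autoImplicit false

namespace H22
open Equiv

theorem exists_comm_invol {G : Type*} [Group G] [Finite G] {z c : G} (hz : z * z = 1) (hc : z * c * z⁻¹ = c⁻¹)
    (h : 2 ∣ Nat.card (Subgroup.centralizer {c})) : ∃ t, t ≠ 1 ∧ t * c = c * t ∧ t * z = z * t := by
  have : Fact (Nat.Prime 2) := ⟨Nat.prime_two⟩
  let C := Subgroup.centralizer ({c} : Set G)
  have hn : ∀ x ∈ C, z * x * z⁻¹ ∈ C := fun x hx => by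
    rw [Subgroup.mem_centralizer_singleton_iff] at hx ⊢
    have h1 : x * c⁻¹ = c⁻¹ * x := (Commute.inv_right hx).eq
    have h2 : c = z * c⁻¹ * z⁻¹ := by rw [← hc, ← mul_assoc, ← mul_assoc, hz, one_mul, mul_assoc, ← mul_inv_rev, hz]; simp
    conv_lhs => rw [h2]
    conv_rhs => rw [h2]
    simp only [mul_assoc, inv_mul_cancel_left]
    rw [← mul_assoc x, h1, mul_assoc]
  let g : C → C := fun x => ⟨z * x * z⁻¹, hn _ x.2⟩
  have hzz : z⁻¹ = z := inv_eq_of_mul_eq_one_right hz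
  have hg : ∀ x, g (g x) = x := fun x => Subtype.ext (by
    simp only [g, ← mul_assoc, hz, one_mul, hzz]; rw [mul_assoc, hz, mul_one])
  classical
  have := Fintype.ofFinite C
  obtain ⟨t, h1, h2⟩ := Perm.exists_fixed_point_of_prime' (p := 2) (n := 1) (σ := Function.Involutive.toPerm g hg)
    (by rwa [← Nat.card_eq_fintype_card]) (Equiv.ext hg) (a := 1) (Subtype.ext (show z * 1 * z⁻¹ = 1 by simp))
  exact ⟨t, fun e => h2 (Subtype.ext e), Subgroup.mem_centralizer_singleton_iff.1 t.2,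
    (mul_inv_eq_iff_eq_mul.1 (congrArg Subtype.val h1)).symm⟩

theorem s6_a : ∀ σ : Perm (Fin 6), σ * (swap 0 1 * swap 2 3) = (swap 0 1 * swap 2 3) * σ → σ ^ 4 = 1 := by
  decide +kernel

theorem s6_e : ∀ σ : Perm (Fin 6), σ ^ 6 = 1 ∨ σ ^ 4 = 1 ∨ σ ^ 5 = 1 := by
  decide +kernel

theorem s6_b (σ : Perm (Fin 6)) (h : σ ^ 45 = 1) : σ ^ 3 = 1 ∨ σ ^ 5 = 1 := by
  rcases s6_e σ with h' | h' | h'
  · exact .inl (by simpa using (pow_gcd_eq_one.2 ⟨h, h'⟩))
  · left
    have : σ = 1 := by simpa using (pow_gcd_eq_one.2 ⟨h, h'⟩)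
    simp [this]
  · exact .inr h'

theorem s6_c : (Finset.univ.filter fun σ : Perm (Fin 6) => σ ^ 3 = 1).card = 81 := by
  decide +kernel

theorem s6_d : (Finset.univ.filter fun σ : Perm (Fin 6) => σ ^ 5 = 1).card = 145 := by
  decide +kernel

end H22
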