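import Cfsg.Agent.H7.Quot
import Cfsg.Agent.H17.PermMod
import Cfsg.Agent.H5.Orth

/-! Invariants of a representation of degree at most `|P|` for a TI Sylow subgroup `P`. -/

set_option autoImplicit false

open Cfsg H5 H8 Module
open scoped Pointwise

namespace H22.TIN

variable {G : Type*} [Group G] {n : ℕ} (ρ : Representation ℂ G (Fin n → ℂ)) (M : Ideal AlgInt)

/-- The lattice. -/
def L (w : Fin n → ℂ) : Prop := ∀ g i, val M (ρ g w i) ≤ 1

/-- The radical of the lattice. -/
def L0 (w : Fin n → ℂ) : Prop := ∀ g i, val M (ρ g w i) < 1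

variable {ρ M}

theorem L.act {w : Fin n → ℂ} (h : L ρ M w) (x : G) : L ρ M (ρ x w) := fun g i => by
  have := h (g * x) i
  rwa [map_mul] at this

theorem L0.zero : L0 ρ M 0 := fun g i => by simp

theorem L0.add {v w : Fin n → ℂ} (h : L0 ρ M v) (h' : L0 ρ M w) : L0 ρ M (v + w) := fun g i => by
  rw [map_add, Pi.add_apply]
  exact (val M).map_add_lt (h g i) (h' g i)

theorem L0.sum {ι : Type*} (s : Finset ι) (f : ι → Fin n → ℂ) (h : ∀ i ∈ s, L0 ρ M (f i)) :
    L0 ρ M (∑ i ∈ s, f i) :=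
  Finset.sum_induction f (L0 ρ M) (fun _ _ => L0.add) L0.zero h

theorem L0.smul {w : Fin n → ℂ} (h : L0 ρ M w) {c : ℂ} (hc : val M c ≤ 1) : L0 ρ M (c • w) :=
  fun g i => by
    rw [map_smul, Pi.smul_apply, smul_eq_mul, map_mul]
    exact mul_lt_one_of_nonneg_of_lt_one_right hc zero_le (h g i)

theorem L.smul_lt {w : Fin n → ℂ} (h : L ρ M w) {c : ℂ} (hc : val M c < 1) : L0 ρ M (c • w) :=
  fun g i => by
    rw [map_smul, Pi.smul_apply, smul_eq_mul, map_mul]
    exact mul_lt_one_of_nonneg_of_lt_one_left zero_le hc (h g i)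

theorem L0.neg {w : Fin n → ℂ} (h : L0 ρ M w) : L0 ρ M (-w) := by
  have := h.smul (c := -1) (by simp)
  rwa [neg_one_smul] at this

theorem scale {ι : Type*} [Finite ι] (f : ι → ℂ) (h : f ≠ 0) :
    ∃ c : ℂ, c ≠ 0 ∧ (∀ i, val M (c * f i) ≤ 1) ∧ ∃ i, c * f i = 1 := by
  obtain ⟨j, hj⟩ := Function.ne_iff.1 h
  have : Nonempty ι := ⟨j⟩
  obtain ⟨i, hi⟩ := Finite.exists_max fun i => val M (f i)
  have h0 : f i ≠ 0 := fun e => hj (by
    have := hi j
    rw [e, map_zero, le_zero_iff, map_eq_zero] at this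
    exact this)
  refine ⟨(f i)⁻¹, inv_ne_zero h0, fun k => ?_, i, inv_mul_cancel₀ h0⟩
  rw [map_mul, map_inv₀, inv_mul_le_one₀ (zero_lt_iff.2 ((map_ne_zero _).2 h0))]
  exact hi k

theorem scaleL [Finite G] {w : Fin n → ℂ} (h : w ≠ 0) :
    ∃ c : ℂ, c ≠ 0 ∧ L ρ M (c • w) ∧ ¬ L0 ρ M (c • w) := by
  obtain ⟨c, hc, h1, ⟨g, i⟩, h2⟩ := scale (M := M) (fun x : G × Fin n => ρ x.1 w x.2) (by
    intro e
    apply h
    ext i
    simpa using congrFun e (1, i))
  refine ⟨c, hc, fun g i => ?_, fun h0 => ?_⟩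
  · simpa using h1 (g, i)
  · have := h0 g i
    rw [map_smul, Pi.smul_apply, smul_eq_mul, h2, map_one] at this
    exact lt_irrefl _ this

variable {p : ℕ} [Fact p.Prime]

theorem linInd (hM : IsPModular p M) (P : Subgroup G) [Fintype P] (hP : IsPGroup p P)
    {w : Fin n → ℂ} (hw : L ρ M w) (h : ¬ L0 ρ M (∑ x : P, ρ x w)) :
    LinearIndependent ℂ fun x : P => ρ x w := by
  classical
  rw [Fintype.linearIndependent_iff]
  intro a ha
  by_contra hne
  have hne' : a ≠ 0 := fun e => hne fun i => by simp [e]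
  have := charP_kk hM
  let W : Submodule (kk M) (P → kk M) :=
    { carrier := {f | ∃ b : P → ℂ, (∀ x, b x ∈ V M) ∧ ∑ x, b x • ρ x w = 0 ∧
        f = fun x => red M (b x)}
      add_mem' := by
        rintro _ _ ⟨b, hb, hb0, rfl⟩ ⟨c, hc, hc0, rfl⟩
        refine ⟨b + c, fun x => add_mem (hb x) (hc x), ?_, ?_⟩
        · simp only [Pi.add_apply, add_smul, Finset.sum_add_distrib, hb0, hc0, add_zero]
        · ext x
          simp only [Pi.add_apply, red_add (hb x) (hc x)]
      zero_mem' := ⟨0, fun _ => zero_mem _, by simp, by ext; simp⟩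
      smul_mem' := by
        rintro t _ ⟨b, hb, hb0, rfl⟩
        obtain ⟨z, hz, rfl⟩ := red_surjective t
        refine ⟨z • b, fun x => mul_mem hz (hb x), ?_, ?_⟩
        · simp only [Pi.smul_apply, smul_eq_mul, mul_smul, ← Finset.smul_sum, hb0, smul_zero]
        · ext x
          simp only [Pi.smul_apply, smul_eq_mul, red_mul hz (hb x)] }
  have hW : W ≠ ⊥ := by
    obtain ⟨c, hc, h1, x, h2⟩ := scale (M := M) a hne'
    rw [Submodule.ne_bot_iff]
    refine ⟨fun x => red M (c * a x), ⟨fun x => c * a x, fun x => mem_V_iff.2 (h1 x), ?_, rfl⟩,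
      fun e => ?_⟩
    · simp only [mul_smul, ← Finset.smul_sum, ha, smul_zero]
    · have := congrFun e x
      simp [h2] at this
  have : Finite (⊤ : Subgroup P) := inferInstance
  obtain ⟨_, ⟨b, hb, hb0, rfl⟩, h0, hfix⟩ := H17.exists_fixed_vec (permRep (kk M) P P) ⊤
    (hP.to_subgroup ⊤) W (by
      rintro g - _ ⟨b, hb, hb0, rfl⟩
      refine ⟨fun x => b (g⁻¹ * x), fun x => hb _, ?_, rfl⟩
      have := congrArg (ρ g) hb0
      rw [map_sum, map_zero] at this
      rw [← this]
      refine Fintype.sum_equiv (Equiv.mulLeft g⁻¹) _ _ fun x => ?_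
      simp only [Equiv.coe_mulLeft, map_smul]
      rw [← Module.End.mul_apply, ← map_mul]
      simp) hW
  have hc : ∀ x, red M (b x) = red M (b 1) := fun x => by
    have := congrFun (hfix x trivial) x
    rw [H17.permRep_apply] at this
    simpa using this.symm
  have h1 : val M (b 1) = 1 := red_ne_zero_iff.1 fun e => h0 (by ext x; simp [hc x, e])
  have hb1 : b 1 ≠ 0 := fun e => by simp [e] at h1
  apply h
  have e : ∑ x : P, ρ x w = (b 1)⁻¹ • ∑ x : P, (b 1 - b x) • ρ x w := by
    simp only [sub_smul, Finset.sum_sub_distrib, hb0, sub_zero, ← Finset.smul_sum, smul_smul,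
      inv_mul_cancel₀ hb1, one_smul]
  rw [e]
  refine L0.smul (L0.sum _ _ fun (x : P) _ => (hw.act x.1).smul_lt ?_) (by rw [map_inv₀, h1, inv_one])
  exact (red_eq_iff (hb 1) (hb x)).1 (hc x).symm

theorem finrank_le_one (P : Subgroup G) [Fintype P] (hn : n ≤ Nat.card P) {w : Fin n → ℂ}
    (h : LinearIndependent ℂ fun x : P => ρ x w) (H : Subgroup G) (hH : P ≤ H) :
    finrank ℂ (Representation.invariants (ρ.comp H.subtype)) ≤ 1 := by
  classical
  have hc : Fintype.card P = finrank ℂ (Fin n → ℂ) := by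
    refine le_antisymm h.fintype_card_le_finrank ?_
    rwa [Module.finrank_fin_fun, ← Nat.card_eq_fintype_card]
  have hs := h.span_eq_top_of_card_eq_finrank hc
  have hle : Representation.invariants (ρ.comp H.subtype) ≤ Submodule.span ℂ {∑ x : P, ρ x w} := by
    intro v hv
    have hv' : v ∈ Submodule.span ℂ (Set.range fun x : P => ρ x w) := hs ▸ Submodule.mem_top
    obtain ⟨a, rfl⟩ := (Submodule.mem_span_range_iff_exists_fun ℂ).1 hv'
    have hcst : ∀ x, a x = a 1 := fun x => by
      have h1 := (Representation.mem_invariants _ _).1 hv ⟨x, hH x.2⟩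
      change ρ x _ = _ at h1
      rw [map_sum] at h1
      have h2 : ∑ y : P, ρ x (a y • ρ y w) = ∑ y : P, a (x⁻¹ * y) • ρ y w := by
        refine Fintype.sum_equiv (Equiv.mulLeft x) _ _ fun y => ?_
        simp only [Equiv.coe_mulLeft, map_smul, inv_mul_cancel_left, Subgroup.coe_mul, map_mul,
          Module.End.mul_apply]
      rw [h2, ← sub_eq_zero, ← Finset.sum_sub_distrib] at h1
      simp only [← sub_smul] at h1
      have := Fintype.linearIndependent_iff.1 h _ h1 x
      rw [inv_mul_cancel, sub_eq_zero] at this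
      exact this.symm
    rw [Submodule.mem_span_singleton]
    exact ⟨a 1, by simp only [hcst, Finset.smul_sum]⟩
  exact (Submodule.finrank_mono hle).trans (finrank_span_le_card _ |>.trans (by simp))

theorem sum_free {Y : Type*} [DecidableEq Y] (P : Subgroup G) [Fintype P] [MulAction G Y]
    (h : ∀ w, L ρ M w → L0 ρ M (∑ x : P, ρ x w)) (φ : Y → Fin n → ℂ)
    (hφ : ∀ (g : G) y, φ (g • y) = ρ g (φ y)) (hL : ∀ y, L ρ M (φ y)) (k : ℕ) :
    ∀ S : Finset Y, S.card = k → (∀ x ∈ P, ∀ y ∈ S, x • y ∈ S) →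
      (∀ x ∈ P, ∀ y ∈ S, x • y = y → x = 1) → L0 ρ M (∑ y ∈ S, φ y) := by
  induction k using Nat.strong_induction_on with
  | _ k ih =>
    intro S hk h1 h2
    rcases S.eq_empty_or_nonempty with rfl | ⟨y, hy⟩
    · simpa using L0.zero
    let T : Finset Y := Finset.univ.image fun x : P => (x : G) • y
    have hT : T ⊆ S := fun z hz => by
      obtain ⟨x, -, rfl⟩ := Finset.mem_image.1 hz
      exact h1 x x.2 y hy
    have hyT : y ∈ T := Finset.mem_image.2 ⟨1, Finset.mem_univ _, by simp⟩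
    rw [← Finset.sum_sdiff hT]
    refine L0.add (ih _ ?_ _ rfl ?_ fun x hx z hz => h2 x hx z (Finset.mem_sdiff.1 hz).1) ?_
    · rw [← hk]
      exact Finset.card_lt_card (Finset.sdiff_ssubset hT ⟨y, hyT⟩)
    · intro x hx z hz
      rw [Finset.mem_sdiff] at hz ⊢
      refine ⟨h1 x hx z hz.1, fun e => hz.2 ?_⟩
      obtain ⟨u, -, hu⟩ := Finset.mem_image.1 e
      refine Finset.mem_image.2 ⟨⟨x, hx⟩⁻¹ * u, Finset.mem_univ _, ?_⟩
      simp only [Subgroup.coe_mul, Subgroup.coe_inv, mul_smul]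
      rw [hu, inv_smul_smul]
    · rw [Finset.sum_image]
      · simp only [hφ]
        exact h _ (hL y)
      · intro u _ v _ e
        have : ((v⁻¹ * u : P) : G) • y = y := by
          simp only [Subgroup.coe_mul, Subgroup.coe_inv, mul_smul]
          rw [inv_smul_eq_iff]
          exact e
        have := h2 _ (v⁻¹ * u).2 y hy this
        rw [OneMemClass.coe_eq_one, inv_mul_eq_one] at this
        exact this.symm

theorem finrank_le [Finite G] (P : Subgroup G) [Fintype P]
    (h : ∀ w, L ρ M w → L0 ρ M (∑ x : P, ρ x w)) (H : Subgroup G) (hH : P ≤ H)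
    (hf : ∀ x ∈ P, ∀ g : G, g⁻¹ * x * g ∈ H → x = 1 ∨ g ∈ H) :
    finrank ℂ (Representation.invariants (ρ.comp H.subtype)) ≤ finrank ℂ ρ.invariants := by
  classical
  have := Fintype.ofFinite (G ⧸ H)
  have heq : ∀ f ∈ Representation.invariants (ρ.comp H.subtype), ∀ (g : G) (q : G ⧸ H),
      ρ (g • q).out f = ρ g (ρ q.out f) := by
    intro f hf g q
    have h1 : ((g * q.out : G) : G ⧸ H) = ((g • q).out : G ⧸ H) := by
      rw [QuotientGroup.out_eq', ← smul_eq_mul, ← MulAction.Quotient.smul_mk, QuotientGroup.out_eq']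
    rw [QuotientGroup.eq] at h1
    have h2 := (Representation.mem_invariants _ _).1 hf ⟨_, h1⟩
    change ρ _ f = f at h2
    conv_rhs => rw [← h2]
    rw [← Module.End.mul_apply, ← Module.End.mul_apply, ← map_mul, ← map_mul]
    congr 2
    rw [Subgroup.subtype_apply, mul_inv_cancel_left]
  let T : Representation.invariants (ρ.comp H.subtype) →ₗ[ℂ] ρ.invariants :=
    LinearMap.codRestrict _ ((∑ q : G ⧸ H, ρ q.out) ∘ₗ Submodule.subtype _) fun f => by
      rw [Representation.mem_invariants]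
      intro g
      simp only [LinearMap.comp_apply, LinearMap.sum_apply, Submodule.subtype_apply, map_sum]
      refine Fintype.sum_equiv (MulAction.toPerm g) _ _ fun q => ?_
      rw [MulAction.toPerm_apply, heq _ f.2]
  refine LinearMap.finrank_le_finrank_of_injective (f := T) ?_
  rw [← LinearMap.ker_eq_bot, Submodule.eq_bot_iff]
  intro f hf0
  by_contra hne
  obtain ⟨c, -, h1, h2⟩ := scaleL (ρ := ρ) (M := M) (w := f.1) fun e => hne (Subtype.ext e)
  have h3 : ∑ q : G ⧸ H, ρ q.out (c • f.1) = 0 := by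
    have := congrArg Subtype.val (LinearMap.mem_ker.1 hf0)
    simp only [T, LinearMap.codRestrict_apply, LinearMap.comp_apply, LinearMap.sum_apply,
      Submodule.subtype_apply, ZeroMemClass.coe_zero] at this
    simp only [map_smul, ← Finset.smul_sum, this, smul_zero]
  have hcf : c • f.1 ∈ Representation.invariants (ρ.comp H.subtype) := Submodule.smul_mem _ _ f.2
  rw [← Finset.add_sum_erase _ _ (Finset.mem_univ ((1 : G) : G ⧸ H))] at h3
  have h4 : ρ ((1 : G) : G ⧸ H).out (c • f.1) = c • f.1 := by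
    have : ((1 : G) : G ⧸ H).out ∈ H := by
      have := QuotientGroup.eq.1 (QuotientGroup.out_eq' ((1 : G) : G ⧸ H)).symm
      simpa using this
    exact (Representation.mem_invariants _ _).1 hcf ⟨_, this⟩
  rw [h4, add_eq_zero_iff_eq_neg] at h3
  apply h2
  rw [h3]
  refine L0.neg (sum_free P h (fun q : G ⧸ H => ρ q.out (c • f.1)) (heq _ hcf)
    (fun q => h1.act _) _ _ rfl ?_ ?_)
  · intro x hx y hy
    rw [Finset.mem_erase] at hy ⊢
    refine ⟨fun e => hy.1 ?_, Finset.mem_univ _⟩
    rw [← inv_smul_smul x y, e, MulAction.Quotient.smul_mk, QuotientGroup.eq]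
    simpa using hH hx
  · intro x hx y hy e
    obtain ⟨g, rfl⟩ := QuotientGroup.mk_surjective y
    rw [MulAction.Quotient.smul_mk, eq_comm, QuotientGroup.eq, smul_eq_mul, ← mul_assoc] at e
    refine (hf x hx g e).resolve_right fun hg => (Finset.mem_erase.1 hy).1 ?_
    rw [eq_comm, QuotientGroup.eq]
    simpa using hg

end H22.TIN
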