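import Cfsg.Agent.H27.Spec2
import Cfsg.Agent.H22.GLc2
import Cfsg.Agent.H22.RepBasic
/-! Squares of a real regular semisimple class of `SL₃(q)`. -/
set_option autoImplicit false
namespace H22.Th3
open Matrix Polynomial Module

section ring
variable {R S : Type*} [CommRing R] [CommRing S]

/-- coefficients of the characteristic polynomial -/
def CP (s : R) (M : Matrix (Fin 3) (Fin 3) R) : Prop :=
  M 0 0 + M 1 1 + M 2 2 = s ∧
  M 0 0 * M 1 1 - M 0 1 * M 1 0 + (M 0 0 * M 2 2 - M 0 2 * M 2 0) + (M 1 1 * M 2 2 - M 1 2 * M 2 1) = s ∧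
  M 0 0 * M 1 1 * M 2 2 - M 0 0 * M 1 2 * M 2 1 - M 0 1 * M 1 0 * M 2 2 + M 0 1 * M 1 2 * M 2 0 +
    M 0 2 * M 1 0 * M 2 1 - M 0 2 * M 1 1 * M 2 0 = 1

instance [DecidableEq R] (s : R) (M : Matrix (Fin 3) (Fin 3) R) : Decidable (CP s M) := by
  unfold CP; infer_instance

theorem CP.map {s : R} {M : Matrix (Fin 3) (Fin 3) R} (h : CP s M) (f : R →+* S) : CP (f s) (M.map f) := by
  obtain ⟨h1, h2, h3⟩ := h
  exact ⟨by simpa using congrArg f h1, by simpa using congrArg f h2, by simpa using congrArg f h3⟩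

theorem CP.charpoly {s : R} {M : Matrix (Fin 3) (Fin 3) R} (h : CP s M) :
    M.charpoly = X ^ 3 - C s * X ^ 2 + C s * X - 1 := by
  obtain ⟨h1, h2, h3⟩ := h
  have e1 := congrArg (C : R →+* R[X]) h1
  have e2 := congrArg (C : R →+* R[X]) h2
  have e3 := congrArg (C : R →+* R[X]) h3
  simp only [map_add, map_sub, map_mul, map_one] at e1 e2 e3
  simp [Matrix.charpoly, det_fin_three, charmatrix_apply, diagonal_apply]
  linear_combination (-X ^ 2) * e1 + X * e2 - e3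

/-- the candidates over `F₃` -/
def L3 : List (Matrix (Fin 3) (Fin 3) (ZMod 3)) :=
  [!![1, 0, 0; 1, 0, 1; 0, 2, 0], !![1, 1, 0; 1, 2, 0; 0, 1, 1], !![1, 1, 0; 1, 2, 0; 0, 2, 1],
   !![1, 0, 0; 1, 1, 1; 0, 1, 2], !![1, 1, 0; 1, 2, 1; 0, 0, 1], !![1, 1, 0; 1, 2, 2; 0, 0, 1]]

theorem L3_spec : ∀ a b c d e f : ZMod 3, c * f - d * e - a * f + b * e = 1 → ∃ u ∈ L3,
    CP 1 u ∧ CP 1 (u * u * u * !![1, a, b; 1, c, d; 0, e, f]) ∧ u * (u * u * u) = 1 := by
  decide +kernel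

end ring

variable {F : Type*} [Field F]

/-- product of two matrices with characteristic polynomial `φ` -/
def Good (φ : F[X]) (g : Matrix (Fin 3) (Fin 3) F) : Prop :=
  ∃ u v, g = u * v ∧ u.charpoly = φ ∧ v.charpoly = φ

theorem Good.conj {φ : F[X]} {g P Q : Matrix (Fin 3) (Fin 3) F} (h : P * Q = 1)
    (hg : Good φ (Q * g * P)) : Good φ g := by
  obtain ⟨u, v, h1, h2, h3⟩ := hg
  have h' : Q * P = 1 := mul_eq_one_comm.1 h
  refine ⟨P * u * Q, P * v * Q, ?_, ?_, ?_⟩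
  · rw [show P * u * Q * (P * v * Q) = P * (u * (Q * P) * v) * Q by simp only [Matrix.mul_assoc], h',
      Matrix.mul_one, ← h1, show P * (Q * g * P) * Q = (P * Q) * g * (P * Q) by simp only [Matrix.mul_assoc],
      h, Matrix.mul_one, Matrix.one_mul]
  · rw [charpoly_mul_comm, ← Matrix.mul_assoc, h', Matrix.one_mul, h2]
  · rw [charpoly_mul_comm, ← Matrix.mul_assoc, h', Matrix.one_mul, h3]

theorem det_conj {g P Q : Matrix (Fin 3) (Fin 3) F} (h : P * Q = 1) : (Q * g * P).det = g.det := by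
  rw [det_mul_comm, ← Matrix.mul_assoc, h, Matrix.one_mul]

theorem step1 {g : Matrix (Fin 3) (Fin 3) F} (hg : ¬ ∃ c : F, g = c • 1) :
    ∃ P Q : Matrix (Fin 3) (Fin 3) F, P * Q = 1 ∧ ∃ a b c d e f, Q * g * P = !![1, a, b; 1, c, d; 0, e, f] := by
  obtain ⟨v, hv⟩ : ∃ v, ¬ ∃ c : F, g *ᵥ v = c • v := by
    by_contra! H
    obtain ⟨c, hc⟩ := exists_scalar_of_eigen (toLin' g) H
    exact hg ⟨c, toLin'.injective (LinearMap.ext fun v => by simpa using hc v)⟩
  have h0 : v ≠ 0 := fun h => hv ⟨0, by simp [h]⟩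
  obtain ⟨w, hw⟩ := exists_linearIndependent_snoc_of_lt_finrank (v := ![v, g *ᵥ v - v])
    ((LinearIndependent.pair_iff' h0).2 fun a ha => hv ⟨a + 1, by rw [add_smul, ha]; simp⟩) (by simp)
  obtain ⟨P, hP⟩ := (linearIndependent_cols_iff_isUnit (A := (of (Fin.snoc ![v, g *ᵥ v - v] w))ᵀ)).1 hw
  have h1 : P.1 *ᵥ Pi.single 0 1 = v := by rw [hP, mulVec_single_one]; rfl
  have h2 : P.1 *ᵥ Pi.single 1 1 = g *ᵥ v - v := by rw [hP, mulVec_single_one]; rfl
  have h3 : (P⁻¹.1 * g * P.1) *ᵥ Pi.single 0 1 = Pi.single 0 1 + Pi.single 1 1 := by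
    rw [← mulVec_mulVec, ← mulVec_mulVec, h1, ← add_sub_cancel v (g *ᵥ v), ← h2]
    nth_rw 1 [← h1]
    rw [← mulVec_add, mulVec_mulVec, Units.inv_mul, one_mulVec]
  rw [mulVec_single_one] at h3
  refine ⟨P, P⁻¹.1, P.mul_inv, ?_⟩
  generalize P⁻¹.1 * g * P.1 = M at h3
  refine ⟨M 0 1, M 0 2, M 1 1, M 1 2, M 2 1, M 2 2, (eta_fin_three _).trans ?_⟩
  rw [show M 0 0 = 1 by simpa using congrFun h3 0, show M 1 0 = 1 by simpa using congrFun h3 1,
    show M 2 0 = 0 by simpa using congrFun h3 2]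

theorem good3 [Fintype F] (h3 : Fintype.card F = 3) {g : Matrix (Fin 3) (Fin 3) F}
    (hg : ¬ ∃ c : F, g = c • 1) (hd : g.det = 1) : Good (X ^ 3 - C 1 * X ^ 2 + C 1 * X - 1) g := by
  obtain ⟨P, Q, h, a, b, c, d, e, f, H⟩ := step1 hg
  refine Good.conj h ?_
  rw [← det_conj h, H] at hd
  rw [H]
  let φ := ZMod.ringEquivOfPrime F Nat.prime_three h3
  obtain ⟨a, rfl⟩ := φ.surjective a
  obtain ⟨b, rfl⟩ := φ.surjective b
  obtain ⟨c, rfl⟩ := φ.surjective c
  obtain ⟨d, rfl⟩ := φ.surjective d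
  obtain ⟨e, rfl⟩ := φ.surjective e
  obtain ⟨f, rfl⟩ := φ.surjective f
  obtain ⟨u, -, h1, h2, h4⟩ := L3_spec a b c d e f (φ.injective (by
    simp [det_fin_three] at hd
    simp only [map_add, map_sub, map_mul, map_one]; linear_combination hd))
  refine ⟨u.map φ.toRingHom, (u * u * u * !![1, a, b; 1, c, d; 0, e, f]).map φ.toRingHom, ?_, by simpa using (h1.map φ.toRingHom).charpoly, by simpa using (h2.map φ.toRingHom).charpoly⟩
  rw [← Matrix.map_mul, ← Matrix.mul_assoc, h4, Matrix.one_mul]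
  ext i j; fin_cases i <;> fin_cases j <;> simp

section big
variable {t : F} (ht : t ≠ 0)
include ht

theorem good_lu {a b c d e f k l : F} (h1 : d - c * a = 1) (h2 : (!![1, a, b; c, d, e; f, k, l]).det = 1) :
    Good (X ^ 3 - C (t + 1 + t⁻¹) * X ^ 2 + C (t + 1 + t⁻¹) * X - 1) !![1, a, b; c, d, e; f, k, l] := by
  simp [det_fin_three] at h2
  refine ⟨!![t, 0, 0; c * t, 1, 0; f * t, k - f * a, t⁻¹], !![t⁻¹, t⁻¹ * a, t⁻¹ * b; 0, 1, e - c * b; 0, 0, t],
    ?_, CP.charpoly ⟨by simp, by simp [ht], by simp [ht]⟩,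
    CP.charpoly ⟨by simp; ring, by simp [ht]; ring, by simp [ht]⟩⟩
  ext i j; fin_cases i <;> fin_cases j <;> simp [Matrix.mul_apply, Fin.sum_univ_three] <;> field_simp <;> grind

theorem good_two {a b c d e f k l p q r s : F} (hD : p * s - q * r ≠ 0)
    (h1 : (s * (d - c * a) - q * (k - f * a)) * p + (s * (e - c * b) - q * (l - f * b)) * r = p * s - q * r)
    (h2 : (!![1, a, b; c, d, e; f, k, l]).det = 1) :
    Good (X ^ 3 - C (t + 1 + t⁻¹) * X ^ 2 + C (t + 1 + t⁻¹) * X - 1) !![1, a, b; c, d, e; f, k, l] := by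
  obtain ⟨D, hD'⟩ : ∃ D, D * (p * s - q * r) = 1 := ⟨_, inv_mul_cancel₀ hD⟩
  have h : !![1, 0, 0; 0, p, q; 0, r, s] * !![1, 0, 0; 0, s * D, -q * D; 0, -r * D, p * D] = 1 := by
    ext i j; fin_cases i <;> fin_cases j <;> simp [Matrix.mul_apply, Fin.sum_univ_three] <;> grind
  refine Good.conj h ?_
  rw [← det_conj h] at h2
  simp only [mul_fin_three] at h2 ⊢
  rw [show ∀ x y z : F, (1 * 1 + 0 * c + 0 * f) * 1 + x * 0 + y * 0 = 1 by intros; ring] at h2 ⊢
  · exact good_lu ht (by grind) h2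
  all_goals exact 0

theorem good_big {g : Matrix (Fin 3) (Fin 3) F} (hg : ¬ ∃ c : F, g = c • 1) (hd : g.det = 1) :
    Good (X ^ 3 - C (t + 1 + t⁻¹) * X ^ 2 + C (t + 1 + t⁻¹) * X - 1) g := by
  obtain ⟨P, Q, h, a, b, c, d, e, f, H⟩ := step1 hg
  refine Good.conj h ?_
  rw [← det_conj h, H] at hd
  rw [H]
  by_cases h1 : e = 0; swap
  · exact good_two ht (p := 1) (r := 0) (q := c - a - 1) (s := e) (by simpa) (by ring) hd
  by_cases h2 : d - b = 0; swap
  · exact good_two ht (p := 0) (r := 1) (q := d - b) (s := f - 1) (by grind) (by ring) hd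
  by_cases h3 : f - (c - a) = 0; swap
  · exact good_two ht (p := 1) (r := 1) (q := c - a - 1) (s := f - 1) (by grind) (by grind) hd
  have h : !![1, 0, 1; 0, 1, 0; 0, 0, 1] * !![1, 0, -1; 0, 1, 0; 0, 0, (1 : F)] = 1 := by
    ext i j; fin_cases i <;> fin_cases j <;> simp [Matrix.mul_apply, Fin.sum_univ_three]
  refine Good.conj h ?_
  have hf : f ≠ 0 := by
    rintro rfl
    simp [det_fin_three, h1] at hd
  rw [← det_conj h] at hd
  have e1 : !![1, 0, -1; 0, 1, 0; 0, 0, (1 : F)] * !![1, a, b; 1, c, d; 0, e, f] * !![1, 0, 1; 0, 1, 0; 0, 0, 1] =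
      !![1, a, 1 + b - f; 1, c, 1 + d; 0, 0, f] := by
    ext i j; fin_cases i <;> fin_cases j <;> simp [Matrix.mul_apply, Fin.sum_univ_three, h1]; ring
  rw [e1] at hd ⊢
  exact good_two ht (p := 0) (r := 1) (q := f) (s := f - 1) (by simpa using hf) (by grind) hd

end big

theorem sim_of_sqfree [Finite F] {V : Type*} [AddCommGroup V] [Module F V] [FiniteDimensional F V]
    {A B : End F V} (h : Squarefree A.charpoly) (e : A.charpoly = B.charpoly) : Sim A B := by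
  obtain ⟨s, hs, h1⟩ := exists_ssType h A.aeval_self_charpoly
  obtain ⟨t, ht, h2⟩ := exists_ssType h (e ▸ B.aeval_self_charpoly)
  have h3 := UniqueFactorizationMonoid.factors_unique (fun a ha => (hs a ha).2.1) (fun a ha => (ht a ha).2.1)
    (by rw [← H27.Sp.charpoly_of_type (fun a ha => (hs a ha).1) h1,
      ← H27.Sp.charpoly_of_type (fun a ha => (ht a ha).1) h2, e]; exact Associated.refl _)
  obtain rfl : s = t := Multiset.rel_eq.1 (h3.mono fun a ha b hb r =>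
    eq_of_monic_of_associated (hs a ha).1 (ht b hb).1 r)
  exact h1.sim h2

theorem sl_conj [Finite F] {ι : Type*} [Fintype ι] [DecidableEq ι] [Nonempty ι]
    {x u : SpecialLinearGroup ι F} (h : Squarefree x.1.charpoly) (e : u.1.charpoly = x.1.charpoly) :
    ∃ y : SpecialLinearGroup ι F, u = y * x * y⁻¹ := by
  have h' : Squarefree (glE (SpecialLinearGroup.toGL x)).charpoly := by rwa [glE_eq, charpoly_toLin']
  obtain ⟨g, hg⟩ := isConj_iff.1 (gl_isConj_iff.2 (sim_of_sqfree (B := glE (SpecialLinearGroup.toGL u)) h'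
    (by rw [glE_eq, glE_eq, charpoly_toLin', charpoly_toLin']; exact e.symm)))
  obtain ⟨s, hs, h1⟩ := exists_ssType h' (LinearMap.aeval_self_charpoly _)
  have h0 : s ≠ 0 := fun h0 => by simpa [h0] using h1.finrank
  obtain ⟨a, ha⟩ := Multiset.exists_mem_of_ne_zero h0
  obtain ⟨y, h2, h3⟩ := exists_gl_comm (c := GeneralLinearGroup.det g⁻¹)
    (h1.exists_comm_det (fun a ha => (hs a ha).1.ne_zero) ha (hs a ha).2.1 _)
  obtain ⟨z, hz⟩ : ∃ z : SpecialLinearGroup ι F, SpecialLinearGroup.toGL z = g * y :=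
    ⟨⟨(g * y).1, congrArg Units.val (show GeneralLinearGroup.det _ = 1 by simp [h3])⟩, Units.ext rfl⟩
  refine ⟨z, SpecialLinearGroup.toGL_injective ?_⟩
  rw [map_mul, map_mul, map_inv, ← hg, hz, mul_assoc g y, h2]; group

theorem main [Finite F] (x : SpecialLinearGroup (Fin 3) F) (h : Squarefree x.1.charpoly)
    (H : ∀ g : Matrix (Fin 3) (Fin 3) F, (¬ ∃ c : F, g = c • 1) → g.det = 1 → Good x.1.charpoly g)
    (g : ProjectiveSpecialLinearGroup (Fin 3) F) (hg : g ≠ 1) :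
    ∃ u v : ProjectiveSpecialLinearGroup (Fin 3) F, g = (u * x * u⁻¹) * (v * x * v⁻¹) := by
  obtain ⟨g, rfl⟩ := QuotientGroup.mk_surjective g
  obtain ⟨u, v, h1, h2, h3⟩ := H g.1 (fun ⟨c, hc⟩ => hg ((QuotientGroup.eq_one_iff _).2
    (Subgroup.mem_center_iff.2 fun y => Subtype.ext (by simp [hc])))) g.2
  have d : ∀ u : Matrix (Fin 3) (Fin 3) F, u.charpoly = x.1.charpoly → u.det = 1 := fun u hu => by
    rw [det_eq_sign_charpoly_coeff, hu, ← det_eq_sign_charpoly_coeff, x.2]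
  obtain ⟨a, ha⟩ := sl_conj (u := ⟨u, d u h2⟩) h h2
  obtain ⟨b, hb⟩ := sl_conj (u := ⟨v, d v h3⟩) h h3
  refine ⟨a, b, ?_⟩
  rw [show g = (a * x * a⁻¹) * (b * x * b⁻¹) from Subtype.ext (by rw [← ha, ← hb, h1]; rfl)]
  simp

end H22.Th3
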